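import Mathlib

/-!
The prime graph of split extensions `V^N ⋊ G` in terms of fixed vectors.
-/

set_option autoImplicit false

namespace Cfsg.Agent.PermGroups

/-- If `V` is a `G`-module of exponent the prime `p`, with `p ∣ |G|`, the edges of the prime graph of
`V^(N+1) ⋊ G` are those of `G` and `p, s` for the elements of order `s` fixing a nonzero vector. -/
theorem exists_extension_prime_graph {p : ℕ} (hp : p.Prime) {G : Type*} [Group G] [Finite G]
    (hpG : p ∣ Nat.card G) (V : Type*) [AddCommGroup V] [Finite V] [Nontrivial V]
    [DistribMulAction G V] (hchar : ∀ v : V, p • v = 0)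
    (N : ℕ) :
    ∃ (H : Type) (_ : Group H) (_ : Finite H), N < Nat.card H ∧
      ((∀ r : ℕ, r.Prime → (r ∣ Nat.card G ↔ r ∣ Nat.card H)) ∧
      (∀ r s : ℕ, r.Prime → s.Prime → r ≠ s →
        ((∃ y : H, orderOf y = r * s) ↔ (∃ x : G, orderOf x = r * s) ∨
          (r = p ∧ ∃ g : G, orderOf g = s ∧ ∃ v : V, g • v = v ∧ v ≠ 0) ∨
          (s = p ∧ ∃ g : G, orderOf g = r ∧ ∃ v : V, g • v = v ∧ v ≠ 0)))) := by
  classical
  let A := Multiplicative (Fin (N + 1) → V)
  let φ : G →* MulAut A := MonoidHom.mk'
    (fun g => AddEquiv.toMultiplicative (DistribMulAction.toAddEquiv (Fin (N + 1) → V) g))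
    (fun g g' => by ext a : 1; exact mul_smul g g' a.toAdd)
  have : Finite (SemidirectProduct A G φ) :=
    Finite.of_equiv _ SemidirectProduct.equivProd.symm
  -- a subtype of `Fin n`, to have a carrier in `Type` without operations of its own
  let H : Type := {_i : Fin (Nat.card (SemidirectProduct A G φ)) // True}
  let e : H ≃ SemidirectProduct A G φ :=
    (Equiv.subtypeUnivEquiv fun _ => trivial).trans (Finite.equivFin _).symm
  letI : Group H := e.group
  let f : H ≃* SemidirectProduct A G φ := e.mulEquiv
  have hcard : Nat.card (SemidirectProduct A G φ) = Nat.card V ^ (N + 1) * Nat.card G := by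
    rw [SemidirectProduct.card]
    congr 1
    rw [show Nat.card A = Nat.card (Fin (N + 1) → V) from rfl, Nat.card_fun, Nat.card_fin]
  have hH : Nat.card H = Nat.card V ^ (N + 1) * Nat.card G := (Nat.card_congr e).trans hcard
  refine ⟨H, e.group, Finite.of_equiv _ e.symm, ?_, ?_, ?_⟩
  · rw [hH]
    have h2 : 2 ≤ Nat.card V := Finite.one_lt_card
    calc N < 2 ^ N := Nat.lt_two_pow_self
      _ ≤ 2 ^ (N + 1) := Nat.pow_le_pow_right two_pos (Nat.le_succ N)
      _ ≤ Nat.card V ^ (N + 1) := Nat.pow_le_pow_left h2 _
      _ ≤ Nat.card V ^ (N + 1) * Nat.card G := Nat.le_mul_of_pos_right _ Nat.card_pos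
  · intro r hr
    rw [hH]
    refine ⟨fun h => h.mul_left _, fun h => ?_⟩
    rcases hr.dvd_mul.1 h with h | h
    · have : Fact r.Prime := ⟨hr⟩
      obtain ⟨v, hv⟩ := exists_prime_addOrderOf_dvd_card' r (hr.dvd_of_dvd_pow h)
      have : r ∣ p := hv ▸ addOrderOf_dvd_of_nsmul_eq_zero (hchar v)
      rwa [(Nat.prime_dvd_prime_iff_eq hr hp).1 this]
    · exact h
  · intro r s hr hs hrs
    constructor
    swap
    · rintro (⟨x, hx⟩ | h)
      · exact ⟨f.symm (SemidirectProduct.inr x), by
          rw [MulEquiv.orderOf_eq, orderOf_injective _ SemidirectProduct.inr_injective, hx]⟩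
      · have key : ∀ {t : ℕ}, t.Prime → t ≠ p → ∀ g : G, orderOf g = t → ∀ v : V, g • v = v →
            v ≠ 0 → ∃ y : H, orderOf y = p * t := by
          intro t ht htp g hg v hv hv0
          let a : A := Multiplicative.ofAdd fun _ => v
          have ha : orderOf a = p := by
            have : Fact p.Prime := ⟨hp⟩
            refine orderOf_eq_prime (Multiplicative.toAdd.injective ?_) fun h => hv0 ?_
            · rw [toAdd_pow, toAdd_one]
              funext i
              exact hchar v
            · exact congrFun (congrArg Multiplicative.toAdd h) 0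
          have hc : Commute (SemidirectProduct.inl (φ := φ) a) (SemidirectProduct.inr g) := by
            have h1 : φ g a = a := Multiplicative.toAdd.injective (funext fun _ => hv)
            refine SemidirectProduct.ext ?_ ?_ <;> simp [h1]
          refine ⟨f.symm (SemidirectProduct.inl a * SemidirectProduct.inr g), ?_⟩
          have h1 : orderOf (SemidirectProduct.inl (φ := φ) a) = p := by
            rw [orderOf_injective _ SemidirectProduct.inl_injective, ha]
          have h2 : orderOf (SemidirectProduct.inr (φ := φ) g) = t := by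
            rw [orderOf_injective _ SemidirectProduct.inr_injective, hg]
          rw [MulEquiv.orderOf_eq, hc.orderOf_mul_eq_mul_orderOf_of_coprime
            (by rw [h1, h2]; exact (Nat.coprime_primes hp ht).2 htp.symm), h1, h2]
        rcases h with ⟨rfl, g, hg, v, hv, hv0⟩ | ⟨rfl, g, hg, v, hv, hv0⟩
        · exact key hs hrs.symm g hg v hv hv0
        · rw [mul_comm]
          exact key hr hrs g hg v hv hv0
    · rintro ⟨y, hy⟩
      rw [← f.orderOf_eq] at hy
      generalize f y = z at hy
      have hdvd : orderOf z.right ∣ r * s :=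
        hy ▸ orderOf_map_dvd (SemidirectProduct.rightHom : SemidirectProduct A G φ →* G) z
      set n := orderOf z.right with hn
      have hker : (z ^ n).right = 1 := by
        show SemidirectProduct.rightHom (z ^ n) = 1
        rw [map_pow, SemidirectProduct.rightHom_eq_right]
        exact pow_orderOf_eq_one _
      have hzp : (z ^ n) ^ p = 1 := by
        have hin : z ^ n = SemidirectProduct.inl (z ^ n).left :=
          SemidirectProduct.ext (by simp) (by simpa using hker)
        rw [hin, ← map_pow]
        have h1 : (z ^ n).left ^ p = 1 := by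
          apply Multiplicative.toAdd.injective
          rw [toAdd_pow, toAdd_one]
          funext i
          exact hchar _
        rw [h1, map_one]
      have hrs_dvd : r * s ∣ n * p := hy ▸ orderOf_dvd_of_pow_eq_one (by rw [pow_mul, hzp])
      by_cases hfull : n = r * s
      · exact Or.inl ⟨z.right, hn ▸ hfull⟩
      refine Or.inr ?_
      -- one of the primes is `p`; the other gives a fixed point
      wlog hrp : r = p generalizing r s
      · rcases hr.dvd_mul.1 ((dvd_mul_right r s).trans hrs_dvd) with h | h
        · have hsn : ¬ s ∣ n := fun hsn => hfull (Nat.dvd_antisymm hdvd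
            (Nat.Coprime.mul_dvd_of_dvd_of_dvd ((Nat.coprime_primes hr hs).2 hrs) h hsn))
          rcases hs.dvd_mul.1 ((dvd_mul_left s r).trans hrs_dvd) with h' | h'
          · exact absurd h' hsn
          · exact this s r hs hr (Ne.symm hrs) (mul_comm r s ▸ hy) (mul_comm r s ▸ hdvd)
              (mul_comm r s ▸ hrs_dvd) (mul_comm r s ▸ hfull)
              ((Nat.prime_dvd_prime_iff_eq hs hp).1 h') |>.symm
        · exact absurd ((Nat.prime_dvd_prime_iff_eq hr hp).1 h) hrp
      subst hrp
      have hs_n : s ∣ n := by
        rcases hs.dvd_mul.1 ((dvd_mul_left s r).trans hrs_dvd) with h | h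
        · exact h
        · exact absurd ((Nat.prime_dvd_prime_iff_eq hs hr).1 h) (Ne.symm hrs)
      have hns : n = s := by
        obtain ⟨a, b, ha, hb, hab⟩ := exists_dvd_and_dvd_of_dvd_mul hdvd
        rcases (Nat.dvd_prime hr).1 ha with rfl | rfl
        · rw [one_mul] at hab
          rcases (Nat.dvd_prime hs).1 hb with rfl | rfl
          · exact absurd (hab ▸ hs_n) (fun h => hs.one_lt.ne' (Nat.dvd_one.1 h))
          · exact hab
        · rcases (Nat.dvd_prime hs).1 hb with rfl | rfl
          · rw [mul_one] at hab
            exact absurd ((Nat.prime_dvd_prime_iff_eq hs hr).1 (hab ▸ hs_n)) (Ne.symm hrs)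
          · exact absurd hab hfull
      -- `z ^ s` is a nontrivial element of the kernel centralised by `z`
      have hne : z ^ n ≠ 1 := fun h => by
        have h2 := orderOf_dvd_of_pow_eq_one h
        rw [hy, hns] at h2
        nlinarith [Nat.le_of_dvd hs.pos h2, hr.two_le, hs.pos]
      have hcomm : z * z ^ n = z ^ n * z := (Commute.self_pow z n).eq
      have hfixed : φ z.right (z ^ n).left = (z ^ n).left := by
        have h1 := congrArg SemidirectProduct.left hcomm
        rw [SemidirectProduct.mul_left, SemidirectProduct.mul_left, hker, map_one,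
          MulAut.one_apply, mul_comm z.left] at h1
        exact mul_right_cancel h1
      obtain ⟨i, hi⟩ : ∃ i, (z ^ n).left.toAdd i ≠ 0 := by
        by_contra hall
        push Not at hall
        exact hne (SemidirectProduct.ext (Multiplicative.toAdd.injective (funext hall)) hker)
      exact Or.inl ⟨rfl, z.right, hn ▸ hns, _, congrFun (congrArg Multiplicative.toAdd hfixed) i, hi⟩

end Cfsg.Agent.PermGroups
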