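import Mathlib

/-!
Abelian `p`-subgroups of symmetric groups.
-/

set_option autoImplicit false

namespace Cfsg.Agent.PermGroups

theorem amgm_step (c a S : ℕ) :
    a * S ^ c * (c + 1) ^ (c + 1) ≤ (S + a) ^ (c + 1) * c ^ c := by
  rcases Nat.eq_zero_or_pos c with rfl | hc
  · simp
  rcases Nat.eq_zero_or_pos S with rfl | hS
  · simp [zero_pow hc.ne']
  have hc' : (0 : ℝ) < c := by exact_mod_cast hc
  have hS' : (0 : ℝ) < S := by exact_mod_cast hS
  have ha : (0 : ℝ) ≤ a := Nat.cast_nonneg a
  set x : ℝ := ((S + a) * c) / ((c + 1) * S) - 1 with hx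
  have hx2 : -2 ≤ x := by
    have : 0 ≤ ((S + a : ℝ) * c) / ((c + 1) * S) := by positivity
    rw [hx]; linarith
  have h := one_add_mul_le_pow hx2 (c + 1)
  have e1 : 1 + ((c + 1 : ℕ) : ℝ) * x = a * c / S := by
    rw [hx]; push_cast; field_simp; ring
  rw [e1, hx, add_sub_cancel, div_pow, div_le_div_iff₀ hS' (by positivity)] at h
  have key : (a : ℝ) * S ^ c * (c + 1) ^ (c + 1) * (c * S) ≤
      (S + a) ^ (c + 1) * c ^ c * (c * S) := by
    rw [mul_pow, mul_pow] at h
    calc (a : ℝ) * S ^ c * (c + 1) ^ (c + 1) * (c * S) = a * c * ((c + 1) ^ (c + 1) * S ^ (c + 1)) := by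
          ring
      _ ≤ (S + a) ^ (c + 1) * c ^ (c + 1) * S := h
      _ = (S + a) ^ (c + 1) * c ^ c * (c * S) := by ring
  exact_mod_cast le_of_mul_le_mul_right key (by positivity)

/-- The inequality between the arithmetic and the geometric mean in `ℕ`. -/
theorem multiset_prod_mul_card_pow_le (m : Multiset ℕ) :
    m.prod * Multiset.card m ^ Multiset.card m ≤ m.sum ^ Multiset.card m := by
  induction m using Multiset.induction with
  | empty => simp
  | cons a m ih =>
    rw [Multiset.prod_cons, Multiset.sum_cons, Multiset.card_cons]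
    rcases Nat.eq_zero_or_pos (Multiset.card m) with h0 | h0
    · simp [Multiset.card_eq_zero.1 h0]
    refine Nat.le_of_mul_le_mul_right ?_ (pow_pos h0 (Multiset.card m))
    calc a * m.prod * (Multiset.card m + 1) ^ (Multiset.card m + 1) *
          Multiset.card m ^ Multiset.card m
        = a * (m.prod * Multiset.card m ^ Multiset.card m) *
            (Multiset.card m + 1) ^ (Multiset.card m + 1) := by ring
      _ ≤ a * m.sum ^ Multiset.card m * (Multiset.card m + 1) ^ (Multiset.card m + 1) :=
          Nat.mul_le_mul_right _ (Nat.mul_le_mul_left _ ih)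
      _ ≤ (m.sum + a) ^ (Multiset.card m + 1) * Multiset.card m ^ Multiset.card m := amgm_step _ _ _
      _ = (a + m.sum) ^ (Multiset.card m + 1) * Multiset.card m ^ Multiset.card m := by
          rw [add_comm m.sum]

/-- Splitting prime powers into `k` factors. -/
theorem prime_pow_split {p : ℕ} (hp : 2 ≤ p) (k : ℕ) : ∀ d : ℕ, ∀ E : Multiset ℕ,
    Multiset.card E + d = k → (∀ e ∈ E, 1 ≤ e) → k ≤ E.sum →
      (E.map (p ^ ·)).prod * k ^ k ≤ (E.map (p ^ ·)).sum ^ k := by
  intro d
  induction d with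
  | zero =>
    intro E hE _ _
    have h := multiset_prod_mul_card_pow_le (E.map (p ^ ·))
    rwa [Multiset.card_map, show Multiset.card E = k by omega] at h
  | succ d ih =>
    intro E hE h1 hk
    obtain ⟨e, he, he2⟩ : ∃ e ∈ E, 2 ≤ e := by
      by_contra h
      push Not at h
      have := Multiset.sum_le_card_nsmul E 1 fun x hx => by have := h x hx; omega
      simp only [smul_eq_mul, mul_one] at this
      omega
    obtain ⟨E', rfl⟩ := Multiset.exists_cons_of_mem he
    obtain ⟨f, rfl⟩ : ∃ f, e = f + 2 := ⟨e - 2, by omega⟩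
    have h := ih (1 ::ₘ (f + 1) ::ₘ E') (by simp only [Multiset.card_cons] at hE ⊢; omega)
      (fun x hx => by
        simp only [Multiset.mem_cons] at hx
        rcases hx with rfl | rfl | hx
        · omega
        · omega
        · exact h1 x (Multiset.mem_cons_of_mem hx))
      (by simp only [Multiset.sum_cons] at hk ⊢; omega)
    simp only [Multiset.map_cons, Multiset.prod_cons, Multiset.sum_cons, pow_one] at h ⊢
    calc p ^ (f + 2) * (E'.map (p ^ ·)).prod * k ^ k
        = p * (p ^ (f + 1) * (E'.map (p ^ ·)).prod) * k ^ k := by ring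
      _ ≤ (p + (p ^ (f + 1) + (E'.map (p ^ ·)).sum)) ^ k := h
      _ ≤ (p ^ (f + 2) + (E'.map (p ^ ·)).sum) ^ k := by
          refine Nat.pow_le_pow_left ?_ k
          have h2 : p ≤ p ^ (f + 1) := Nat.le_self_pow (by omega) p
          have h3 : 2 * p ^ (f + 1) ≤ p ^ (f + 2) :=
            (Nat.mul_le_mul_right _ hp).trans_eq (by ring)
          omega

variable {Ω : Type*}

/-- An elementary abelian group of order at most `p ^ j` is faithful on at most `j` orbits. -/
theorem exists_faithful_points {p : ℕ} (hp : p.Prime) (A : Subgroup (Equiv.Perm Ω)) [Finite A]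
    (hA : IsPGroup p A) (hab : ∀ a b : A, a * b = b * a) (j : ℕ) :
    ∀ E : Subgroup A, Nat.card E ≤ p ^ j → ∃ S : Finset Ω, S.card ≤ j ∧
      (∀ x ∈ E, (∀ s ∈ S, x • s = s) → x = 1) ∧ (∀ s ∈ S, ∃ x ∈ E, x • s ≠ s) ∧
      ∀ s ∈ S, ∀ t ∈ S, t ∈ MulAction.orbit A s → t = s := by
  classical
  induction j with
  | zero =>
    intro E hE
    refine ⟨∅, le_rfl, fun x hx _ => ?_, by simp, by simp⟩
    have : E = ⊥ := Subgroup.card_eq_one.1 (le_antisymm (by simpa using hE) Nat.card_pos)
    rwa [this, Subgroup.mem_bot] at hx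
  | succ j ih =>
    intro E hE
    by_cases h : ∃ s : Ω, ∃ x ∈ E, x • s ≠ s
    swap
    · push Not at h
      exact ⟨∅, Nat.zero_le _, fun x hx _ => Subtype.ext (Equiv.ext fun s => h s x hx), by simp,
        by simp⟩
    obtain ⟨s, x, hx, hxs⟩ := h
    let E' : Subgroup A := E ⊓ MulAction.stabilizer A s
    have hlt : Nat.card E' * p ≤ Nat.card E := by
      have : Fact p.Prime := ⟨hp⟩
      have hne : E'.relIndex E ≠ 1 := fun e =>
        hxs ((Subgroup.relIndex_eq_one.1 e hx).2)
      obtain ⟨n, hn⟩ := (hA.to_subgroup E).index (E'.subgroupOf E)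
      rw [← Subgroup.card_mul_index (E'.subgroupOf E),
        Nat.card_congr (Subgroup.subgroupOfEquivOfLe (inf_le_left : E' ≤ E)).toEquiv]
      refine Nat.mul_le_mul_left _ ?_
      rw [hn]
      exact Nat.le_self_pow (fun e => hne (by rw [Subgroup.relIndex, hn, e, pow_zero])) p
    obtain ⟨S, hS, hfaith, hmove, horb⟩ := ih E' (Nat.le_of_mul_le_mul_right
      (hlt.trans (hE.trans_eq (pow_succ p j))) hp.pos)
    -- `E'` fixes the orbit of `s` pointwise
    have hfix : ∀ y ∈ E', ∀ t ∈ MulAction.orbit A s, y • t = t := by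
      rintro y hy _ ⟨a, rfl⟩
      show y • a • s = a • s
      rw [smul_smul, hab, mul_smul, show y • s = s from hy.2]
    have hnot : ∀ t ∈ S, t ∉ MulAction.orbit A s := fun t ht hts => by
      obtain ⟨y, hy, hyt⟩ := hmove t ht
      exact hyt (hfix y hy t hts)
    refine ⟨insert s S, (Finset.card_insert_le _ _).trans (by omega), ?_, ?_, ?_⟩
    · intro y hy hall
      exact hfaith y ⟨hy, hall s (Finset.mem_insert_self _ _)⟩
        fun t ht => hall t (Finset.mem_insert_of_mem ht)
    · intro t ht
      rcases Finset.mem_insert.1 ht with rfl | ht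
      · exact ⟨x, hx, hxs⟩
      · obtain ⟨y, hy, hyt⟩ := hmove t ht
        exact ⟨y, hy.1, hyt⟩
    · intro t ht u hu hut
      rcases Finset.mem_insert.1 ht with et | ht' <;> rcases Finset.mem_insert.1 hu with eu | hu'
      · rw [et, eu]
      · exact absurd (et ▸ hut) (hnot u hu')
      · exact absurd (MulAction.mem_orbit_symm.1 (eu ▸ hut)) (hnot t ht')
      · exact horb t ht' u hu' hut

end Cfsg.Agent.PermGroups
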