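import Cfsg.Agent.PermGroups.FrobeniusSpectrum

/-!
Products of minimal Frobenius groups `GF(p^k) ⋊ C_q` of pairwise coprime orders are critical for
their set of element orders.
-/

set_option autoImplicit false

namespace Cfsg.Agent.PermGroups.Critical

open Finset

theorem prod_dvd {ι : Type*} (S : Finset ι) (r : ι → ℕ) (N : ℕ) (hd : ∀ i ∈ S, r i ∣ N)
    (hc : ∀ i ∈ S, ∀ j ∈ S, i ≠ j → (r i).Coprime (r j)) : ∏ i ∈ S, r i ∣ N := by
  classical
  induction S using Finset.induction_on with
  | empty => simp
  | @insert a S ha ih =>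
    rw [Finset.prod_insert ha]
    refine Nat.Coprime.mul_dvd_of_dvd_of_dvd (Nat.Coprime.prod_right fun j hj => ?_)
      (hd a (Finset.mem_insert_self _ _))
      (ih (fun i hi => hd i (Finset.mem_insert_of_mem hi))
        (fun i hi j hj => hc i (Finset.mem_insert_of_mem hi) j (Finset.mem_insert_of_mem hj)))
    exact hc a (Finset.mem_insert_self _ _) j (Finset.mem_insert_of_mem hj) (fun e => ha (e ▸ hj))

section Product

variable {ι : Type*} [Fintype ι] [DecidableEq ι] {F : ι → Type*} [∀ i, Group (F i)]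
  [∀ i, Finite (F i)] (hcop : ∀ i j, i ≠ j → (Nat.card (F i)).Coprime (Nat.card (F j)))

include hcop

theorem orderOf_pi (g : ∀ i, F i) : orderOf g = ∏ i, orderOf (g i) := by
  apply Nat.dvd_antisymm
  · refine orderOf_dvd_of_pow_eq_one (funext fun i => ?_)
    rw [Pi.pow_apply, Pi.one_apply, ← orderOf_dvd_iff_pow_eq_one]
    exact Finset.dvd_prod_of_mem _ (Finset.mem_univ i)
  · refine prod_dvd _ _ _ (fun i _ => orderOf_map_dvd (Pi.evalMonoidHom F i) g) fun i _ j _ hij => ?_
    exact ((hcop i j hij).coprime_dvd_left (orderOf_dvd_natCard _)).coprime_dvd_right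
      (orderOf_dvd_natCard _)

theorem mulSingle_mem (H : Subgroup (∀ i, F i)) {g : ∀ i, F i} (hg : g ∈ H) (j : ι) :
    Pi.mulSingle j (g j) ∈ H := by
  set M := ∏ i ∈ Finset.univ.erase j, Nat.card (F i)
  have hco : (Nat.card (F j)).Coprime M :=
    Nat.Coprime.prod_right fun i hi => hcop j i (Finset.ne_of_mem_erase hi).symm
  obtain ⟨e, he1, he2⟩ := Nat.chineseRemainder hco 1 0
  have : Pi.mulSingle j (g j) = g ^ e := by
    funext i
    by_cases hij : i = j
    · subst hij
      rw [Pi.mulSingle_eq_same, Pi.pow_apply]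
      conv_lhs => rw [← pow_one (g i)]
      rw [pow_eq_pow_iff_modEq]
      exact (he1.of_dvd (orderOf_dvd_natCard _)).symm
    · rw [Pi.mulSingle_eq_of_ne hij, Pi.pow_apply]
      symm
      rw [← orderOf_dvd_iff_pow_eq_one]
      refine (orderOf_dvd_natCard _).trans ((Finset.dvd_prod_of_mem (fun i => Nat.card (F i))
        (Finset.mem_erase.2 ⟨hij, Finset.mem_univ i⟩)).trans ?_)
      exact Nat.modEq_zero_iff_dvd.1 he2
  rw [this]
  exact pow_mem hg e

/-- A subgroup containing all the factor parts is everything. -/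
theorem eq_top_of_factors (H : Subgroup (∀ i, F i))
    (h : ∀ j, H.comap (MonoidHom.mulSingle F j) = ⊤) : H = ⊤ := by
  rw [eq_top_iff]
  intro g _
  exact Subgroup.pi_mem_of_mulSingle_mem g fun i =>
    (h i ▸ Subgroup.mem_top (g i) : g i ∈ H.comap (MonoidHom.mulSingle F i))

end Product

/-- The orders and minimality of `GF(p^k) ⋊ C_q` with `k` minimal. -/
theorem exists_factor (p q : ℕ) (hp : p.Prime) (hq : q.Prime) (hpq : p ≠ q) :
    ∃ (F : Type) (_ : Group F) (_ : Finite F) (k : ℕ), 1 ≤ k ∧ Nat.card F = p ^ k * q ∧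
      q ∣ p ^ k - 1 ∧
      (Set.range (orderOf : F → ℕ) = {1, p, q}) ∧
      (∀ H : Subgroup F, p ∣ Nat.card H → q ∣ Nat.card H → H = ⊤) ∧
      (∀ N : Subgroup F, N.Normal → N ≠ ⊥ → ∀ f : F, f ^ q ∈ N) := by
  classical
  haveI : Fact p.Prime := ⟨hp⟩
  haveI : Fact q.Prime := ⟨hq⟩
  have hex : ∃ k, 1 ≤ k ∧ q ∣ p ^ k - 1 := by
    refine ⟨q - 1, by have := hq.two_le; omega, ?_⟩
    have hco : p.Coprime q := (Nat.coprime_primes hp hq).2 hpq
    have := Nat.ModEq.pow_totient hco
    rw [Nat.totient_prime hq] at this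
    exact (Nat.modEq_iff_dvd' (Nat.one_le_pow _ _ hp.pos)).1 this.symm
  obtain ⟨hk1, hkd⟩ := Nat.find_spec hex
  set k := Nat.find hex
  have hkmin : ∀ i, 1 ≤ i → q ∣ p ^ i - 1 → k ≤ i := fun i h1 h2 => Nat.find_min' hex ⟨h1, h2⟩
  set K := GaloisField p k
  have hKc : Nat.card K = p ^ k := GaloisField.card p k (by omega)
  haveI : Finite K := Nat.finite_of_card_ne_zero (by rw [hKc]; exact (pow_pos hp.pos k).ne')
  obtain ⟨u, hu⟩ := exists_prime_orderOf_dvd_card' (G := Kˣ) q (by rw [Nat.card_units, hKc]; exact hkd)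
  set U := Subgroup.zpowers u
  have hUc : Nat.card U = q := by rw [Nat.card_zpowers, hu]
  haveI : Finite (ScalarFrobenius K U) :=
    Finite.of_equiv _ SemidirectProduct.equivProd.symm
  have hFc : Nat.card (ScalarFrobenius K U) = p ^ k * q := by
    rw [SemidirectProduct.card, hUc]
    congr 1
  refine ⟨ScalarFrobenius K U, inferInstance, inferInstance, k, hk1, hFc, hkd, ?_, ?_, ?_⟩
  · ext m
    simp only [Set.mem_range, Set.mem_insert_iff, Set.mem_singleton_iff]
    constructor
    · rintro ⟨a, rfl⟩
      rcases scalarFrobenius_orderOf_dvd K U p a with h | h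
      · exact ((Nat.dvd_prime hp).1 h).imp_right Or.inl
      · rw [hUc] at h
        exact ((Nat.dvd_prime hq).1 h).imp_right Or.inr
    · rintro (h | h | h)
      · exact ⟨1, by rw [orderOf_one, h]⟩
      · obtain ⟨a, ha⟩ := (scalarFrobenius_exists_orders K U p).1
        exact ⟨a, ha.trans h.symm⟩
      · obtain ⟨a, ha⟩ := (scalarFrobenius_exists_orders K U p).2
        exact ⟨a, (ha.trans hUc).trans h.symm⟩
  all_goals
    have hconj : ∀ (a : ScalarFrobenius K U) (v : Multiplicative K),
        a * SemidirectProduct.inl v * a⁻¹ = SemidirectProduct.inl (scalarAut K U a.right v) := by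
      intro a v
      calc a * SemidirectProduct.inl v * a⁻¹
          = SemidirectProduct.inl a.left *
            (SemidirectProduct.inr a.right * SemidirectProduct.inl v * SemidirectProduct.inr a.right⁻¹) *
              (SemidirectProduct.inl a.left)⁻¹ := by
            conv_lhs => rw [← SemidirectProduct.inl_left_mul_inr_right a]
            rw [map_inv]; group
        _ = SemidirectProduct.inl (scalarAut K U a.right v) := by
            rw [← SemidirectProduct.inl_aut, ← map_inv, ← map_mul, ← map_mul, mul_inv_cancel_comm]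
    have hfix : ∀ (w : U), w ≠ 1 → ∀ v : Multiplicative K, scalarAut K U w v = v → v = 1 := by
      intro w hw v hv
      have h1 : ((w : Kˣ) : K) * v.toAdd = v.toAdd := congrArg Multiplicative.toAdd hv
      apply Multiplicative.toAdd.injective
      by_contra h0
      exact hw (Subtype.ext (Units.ext ((mul_eq_right₀ h0).1 h1)))
  · intro H hpH hqH
    set W : Subgroup (Multiplicative K) := H.comap SemidirectProduct.inl with hW
    obtain ⟨x, hx⟩ := exists_prime_orderOf_dvd_card' (G := H) p hpH
    have hxr : (x : ScalarFrobenius K U).right = 1 := by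
      have h1 : orderOf (SemidirectProduct.rightHom (x : ScalarFrobenius K U)) ∣ p := by
        exact (orderOf_map_dvd _ _).trans (dvd_of_eq ((Subgroup.orderOf_coe x).trans hx))
      have h2 := orderOf_dvd_natCard (SemidirectProduct.rightHom (x : ScalarFrobenius K U))
      rw [hUc] at h2
      rcases (Nat.dvd_prime hp).1 h1 with h | h
      · exact orderOf_eq_one_iff.1 h
      · exact absurd ((Nat.prime_dvd_prime_iff_eq hp hq).1 (h ▸ h2)) hpq
    obtain ⟨y, hy⟩ := exists_prime_orderOf_dvd_card' (G := H) q hqH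
    have hyr : (y : ScalarFrobenius K U).right ≠ 1 := by
      intro h
      have e : (y : ScalarFrobenius K U) = SemidirectProduct.inl (y : ScalarFrobenius K U).left :=
        SemidirectProduct.ext (by simp) (by simp [h])
      have h1 : orderOf (y : ScalarFrobenius K U) ∣ p := by
        rw [e, orderOf_injective _ SemidirectProduct.inl_injective]
        refine orderOf_dvd_of_pow_eq_one (Multiplicative.toAdd.injective ?_)
        rw [toAdd_pow, toAdd_one, nsmul_eq_mul, CharP.cast_eq_zero, zero_mul]
      rw [Subgroup.orderOf_coe, hy] at h1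
      exact hpq ((Nat.prime_dvd_prime_iff_eq hq hp).1 h1).symm
    have hgen : Subgroup.zpowers (y : ScalarFrobenius K U).right = ⊤ :=
      zpowers_eq_top_of_prime_card hUc hyr
    have hWinv : ∀ w : U, ∀ v ∈ W, scalarAut K U w v ∈ W := by
      intro w v hv
      obtain ⟨n, rfl⟩ := Subgroup.mem_zpowers_iff.1 (hgen ▸ Subgroup.mem_top w)
      show SemidirectProduct.inl _ ∈ H
      have := H.mul_mem (H.mul_mem (H.zpow_mem y.2 n) hv) (H.inv_mem (H.zpow_mem y.2 n))
      rw [hconj] at this
      rwa [show ((y : ScalarFrobenius K U) ^ n).right = (y : ScalarFrobenius K U).right ^ n from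
        map_zpow SemidirectProduct.rightHom _ n] at this
    letI : MulAction U W :=
      { smul := fun w v => ⟨scalarAut K U w v, hWinv w v v.2⟩
        one_smul := fun v => Subtype.ext (by show scalarAut K U 1 (v : Multiplicative K) = v; simp)
        mul_smul := fun w w' v => Subtype.ext (by
          show scalarAut K U (w * w') (v : Multiplicative K) =
            scalarAut K U w (scalarAut K U w' v); simp) }
    have hUp : IsPGroup q U := IsPGroup.of_card (n := 1) (by rw [hUc, pow_one])
    have hmod := hUp.card_modEq_card_fixedPoints W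
    have hfp : Nat.card (MulAction.fixedPoints U W) = 1 := by
      rw [Nat.card_eq_one_iff_unique]
      refine ⟨⟨fun v v' => ?_⟩, ⟨⟨1, fun w => Subtype.ext (map_one (scalarAut K U w))⟩⟩⟩
      obtain ⟨w, hw⟩ : ∃ w : U, w ≠ 1 := ⟨_, hyr⟩
      have h1 := hfix w hw _ (congrArg Subtype.val (v.2 w))
      have h2 := hfix w hw _ (congrArg Subtype.val (v'.2 w))
      exact Subtype.ext (Subtype.ext (h1.trans h2.symm))
    rw [hfp] at hmod
    have hWd : Nat.card W ∣ p ^ k := hKc ▸ Subgroup.card_subgroup_dvd_card W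
    obtain ⟨i, hik, hi⟩ := (Nat.dvd_prime_pow hp).1 hWd
    have hi1 : 1 ≤ i := by
      by_contra hi0
      rw [show i = 0 by omega, pow_zero, Subgroup.card_eq_one] at hi
      have hmem : (x : ScalarFrobenius K U).left ∈ W := by
        show SemidirectProduct.inl _ ∈ H
        convert x.2 using 1
        exact SemidirectProduct.ext (by simp) (by simp [hxr])
      rw [hi, Subgroup.mem_bot] at hmem
      have : (x : ScalarFrobenius K U) = 1 := SemidirectProduct.ext (by simp [hmem]) (by simp [hxr])
      rw [← Subgroup.orderOf_coe, this, orderOf_one] at hx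
      exact hp.one_lt.ne hx
    have hik' : k ≤ i := hkmin i hi1 ((Nat.modEq_iff_dvd' (Nat.one_le_pow _ _ hp.pos)).1
      (hi ▸ hmod.symm))
    have hWtop : W = ⊤ := Subgroup.eq_top_of_card_eq _ (by
      rw [hi, show i = k by omega]; exact hKc.symm)
    apply Subgroup.eq_top_of_card_eq
    refine Nat.dvd_antisymm (Subgroup.card_subgroup_dvd_card H) ?_
    rw [hFc]
    refine Nat.Coprime.mul_dvd_of_dvd_of_dvd
      (Nat.Coprime.pow_left k ((Nat.coprime_primes hp hq).2 hpq)) ?_ hqH
    have hle : W.map SemidirectProduct.inl ≤ H := Subgroup.map_comap_le _ _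
    have := Subgroup.card_dvd_of_le hle
    rwa [Subgroup.card_map_of_injective SemidirectProduct.inl_injective, hWtop, Subgroup.card_top,
      show Nat.card (Multiplicative K) = p ^ k from hKc] at this
  · intro N hN hNb f
    -- `N` meets the kernel nontrivially
    obtain ⟨v0, hv0, hv1⟩ : ∃ v : Multiplicative K, SemidirectProduct.inl v ∈ N ∧ v ≠ 1 := by
      obtain ⟨n, hn, hn1⟩ := (Subgroup.bot_or_exists_ne_one N).resolve_left hNb
      by_cases hr : n.right = 1
      · refine ⟨n.left, ?_, fun h => hn1 (SemidirectProduct.ext (by simp [h]) (by simp [hr]))⟩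
        convert hn using 1
        exact SemidirectProduct.ext (by simp) (by simp [hr])
      · refine ⟨scalarAut K U n.right (Multiplicative.ofAdd 1) * (Multiplicative.ofAdd 1)⁻¹, ?_,
          fun h => ?_⟩
        · rw [map_mul, map_inv, ← hconj, mul_assoc, mul_assoc, ← mul_assoc (SemidirectProduct.inl _)]
          exact N.mul_mem hn (hN.conj_mem _ (N.inv_mem hn) _)
        · have := hfix n.right hr (Multiplicative.ofAdd 1) (mul_inv_eq_one.1 h)
          simp at this
    set W : Subgroup (Multiplicative K) := N.comap SemidirectProduct.inl with hW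
    have hWinv : ∀ w : U, ∀ v ∈ W, scalarAut K U w v ∈ W := by
      intro w v hv
      have := hN.conj_mem _ hv (SemidirectProduct.inr w)
      rw [hconj, SemidirectProduct.right_inr] at this
      exact this
    letI : MulAction U W :=
      { smul := fun w v => ⟨scalarAut K U w v, hWinv w v v.2⟩
        one_smul := fun v => Subtype.ext (by show scalarAut K U 1 (v : Multiplicative K) = v; simp)
        mul_smul := fun w w' v => Subtype.ext (by
          show scalarAut K U (w * w') (v : Multiplicative K) =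
            scalarAut K U w (scalarAut K U w' v); simp) }
    have hUp : IsPGroup q U := IsPGroup.of_card (n := 1) (by rw [hUc, pow_one])
    have hmod := hUp.card_modEq_card_fixedPoints W
    have hu1 : (⟨u, Subgroup.mem_zpowers u⟩ : U) ≠ 1 := fun h => by
      have h' : u = 1 := congrArg Subtype.val h
      rw [h', orderOf_one] at hu
      exact hq.one_lt.ne hu
    have hfp : Nat.card (MulAction.fixedPoints U W) = 1 := by
      rw [Nat.card_eq_one_iff_unique]
      refine ⟨⟨fun v v' => ?_⟩, ⟨⟨1, fun w => Subtype.ext (map_one (scalarAut K U w))⟩⟩⟩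
      have h1 := hfix _ hu1 _ (congrArg Subtype.val (v.2 _))
      have h2 := hfix _ hu1 _ (congrArg Subtype.val (v'.2 _))
      exact Subtype.ext (Subtype.ext (h1.trans h2.symm))
    rw [hfp] at hmod
    obtain ⟨i, hik, hi⟩ := (Nat.dvd_prime_pow hp).1 (hKc ▸ Subgroup.card_subgroup_dvd_card W :
      Nat.card W ∣ p ^ k)
    have hi1 : 1 ≤ i := by
      by_contra hi0
      rw [show i = 0 by omega, pow_zero, Subgroup.card_eq_one] at hi
      have : v0 ∈ W := hv0
      rw [hi, Subgroup.mem_bot] at this
      exact hv1 this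
    have hik' : k ≤ i := hkmin i hi1 ((Nat.modEq_iff_dvd' (Nat.one_le_pow _ _ hp.pos)).1
      (hi ▸ hmod.symm))
    have hWtop : W = ⊤ := Subgroup.eq_top_of_card_eq _ (by
      rw [hi, show i = k by omega]; exact hKc.symm)
    have hfq : (f ^ q).right = 1 := by
      have h : SemidirectProduct.rightHom (f ^ q) = 1 := by
        rw [map_pow]
        conv_lhs => rw [← hUc]
        exact pow_card_eq_one'
      exact h
    have e : f ^ q = SemidirectProduct.inl (f ^ q).left :=
      SemidirectProduct.ext (by simp) (by simp [hfq])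
    rw [e]
    exact (hWtop ▸ Subgroup.mem_top _ : (f ^ q).left ∈ W)

theorem spec_pair {F : Type} [Group F] {p q : ℕ} (h : Set.range (orderOf : F → ℕ) = {1, p, q}) :
    (∀ f : F, orderOf f = 1 ∨ orderOf f = p ∨ orderOf f = q) ∧
    ∀ m, m = 1 ∨ m = p ∨ m = q → ∃ f : F, orderOf f = m := by
  constructor
  · intro f
    have hf : orderOf f ∈ Set.range (orderOf : F → ℕ) := ⟨f, rfl⟩
    rw [h] at hf
    exact hf
  · intro m hm
    have : m ∈ ({1, p, q} : Set ℕ) := hm
    rw [← h] at this
    exact this

/-- The theorem on `2 ^ s` critical groups. -/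
theorem main (s : ℕ) (p : Fin s → Fin 2 → ℕ) (hp : ∀ j i, (p j i).Prime)
    (hinj : ∀ j i j' i', p j i = p j' i' → j = j' ∧ i = i') :
    ∃ (G : Fin (2 ^ s) → Type) (_ : ∀ a, Group (G a)) (_ : ∀ a, Fintype (G a)),
      (∀ a b, a ≠ b → ¬ Nonempty (G a ≃* G b)) ∧
      ∀ a, Set.range (orderOf : (G a) → ℕ) = {m : ℕ | ∃ c : Fin s → ℕ, (∀ j, c j = 1 ∨ c j = p j 0 ∨ c j = p j 1) ∧ m = ∏ j, c j} ∧
      ∀ (H : Subgroup (G a)) (N : Subgroup ↥H) [N.Normal], (H ≠ ⊤ ∨ N ≠ ⊥) → Set.range (orderOf : (↥H ⧸ N) → ℕ) ≠ {m : ℕ | ∃ c : Fin s → ℕ, (∀ j, c j = 1 ∨ c j = p j 0 ∨ c j = p j 1) ∧ m = ∏ j, c j} := by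
  classical
  let e : Fin (2 ^ s) ≃ (Fin s → Fin 2) := finFunctionFinEquiv.symm
  let P : (Fin s → Fin 2) → Fin s → ℕ := fun c j => p j (c j)
  let Q : (Fin s → Fin 2) → Fin s → ℕ := fun c j => p j (c j + 1)
  have hne : ∀ c j, P c j ≠ Q c j := fun c j h => by
    have h1 := (hinj _ _ _ _ h).2
    generalize c j = x at h1
    fin_cases x <;> exact absurd h1 (by decide)
  have hpair : ∀ c j m, (m = 1 ∨ m = P c j ∨ m = Q c j) ↔ (m = 1 ∨ m = p j 0 ∨ m = p j 1) := by
    intro c j m
    simp only [P, Q]
    generalize c j = x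
    fin_cases x
    · exact Iff.rfl
    · exact or_congr_right Or.comm
  choose F iG iF k hk1 hcard hkd hspec htop hnorm using fun (c : Fin s → Fin 2) (j : Fin s) =>
    exists_factor (P c j) (Q c j) (hp _ _) (hp _ _) (hne c j)
  have hcop : ∀ c i j, i ≠ j → (Nat.card (F c i)).Coprime (Nat.card (F c j)) := by
    intro c i j hij
    rw [hcard, hcard]
    have hc : ∀ a b, (p i a).Coprime (p j b) := fun a b =>
      (Nat.coprime_primes (hp _ _) (hp _ _)).2 fun h => hij (hinj _ _ _ _ h).1
    refine Nat.Coprime.mul_left (Nat.Coprime.pow_left _ ?_) ?_ <;>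
      exact Nat.Coprime.mul_right (Nat.Coprime.pow_right _ (hc _ _)) (hc _ _)
  have hPdvd : ∀ c i j, i ≠ j → ∀ x, ¬ p j x ∣ Nat.card (F c i) := by
    intro c i j hij x hd
    rw [hcard] at hd
    rcases (hp j x).dvd_mul.1 hd with h | h
    · exact hij (hinj _ _ _ _ ((Nat.prime_dvd_prime_iff_eq (hp _ _) (hp _ _)).1
        ((hp j x).dvd_of_dvd_pow h))).1.symm
    · exact hij (hinj _ _ _ _ ((Nat.prime_dvd_prime_iff_eq (hp _ _) (hp _ _)).1 h)).1.symm
  refine ⟨fun a => ∀ j, F (e a) j, fun a => inferInstance, fun a => Fintype.ofFinite _, ?_, fun a => ⟨?_, ?_⟩⟩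
  · rintro a b hab ⟨ψ⟩
    apply hab
    apply e.injective
    funext j
    by_contra hj
    have hfac : ∀ c x, ∃ u, Nat.card (∀ i, F c i) = p j x ^ (if c j = x then k c j else 1) * u ∧
        ¬ p j x ∣ u := by
      intro c x
      rw [Nat.card_pi, ← Finset.mul_prod_erase _ _ (Finset.mem_univ j), hcard]
      have hrest : ¬ p j x ∣ ∏ i ∈ Finset.univ.erase j, Nat.card (F c i) := by
        intro hd
        obtain ⟨i, hi, hd'⟩ := (Prime.dvd_finsetProd_iff (hp j x).prime _).1 hd
        exact hPdvd c i j (Finset.ne_of_mem_erase hi) x hd'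
      by_cases hx : c j = x
      · refine ⟨Q c j * ∏ i ∈ Finset.univ.erase j, Nat.card (F c i), ?_, fun hd => ?_⟩
        · rw [if_pos hx, ← hx]; ring
        · rcases (hp j x).dvd_mul.1 hd with h | h
          · exact hne c j (by
              have := (Nat.prime_dvd_prime_iff_eq (hp j x) (hp _ _)).1 h
              simpa [P, Q, hx] using this)
          · exact hrest h
      · refine ⟨P c j ^ k c j * ∏ i ∈ Finset.univ.erase j, Nat.card (F c i), ?_, fun hd => ?_⟩
        · rw [if_neg hx, pow_one]
          have : p j x = Q c j := by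
            simp only [Q]
            congr 1
            generalize c j = y at hx
            fin_cases x <;> fin_cases y <;> first | rfl | exact absurd rfl hx
          rw [this]; ring
        · rcases (hp j x).dvd_mul.1 hd with h | h
          · exact hx ((hinj _ _ _ _ ((Nat.prime_dvd_prime_iff_eq (hp _ _) (hp _ _)).1
              ((hp j x).dvd_of_dvd_pow h))).2).symm
          · exact hrest h
    have hexp : ∀ x, (if e a j = x then k (e a) j else 1) = (if e b j = x then k (e b) j else 1) := by
      intro x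
      obtain ⟨u, hu, hu'⟩ := hfac (e a) x
      obtain ⟨v, hv, hv'⟩ := hfac (e b) x
      have heq : Nat.card (∀ i, F (e a) i) = Nat.card (∀ i, F (e b) i) := Nat.card_congr ψ.toEquiv
      have h0 : ∀ (u : ℕ) (m : ℕ), ¬ p j x ∣ u → (p j x ^ m * u).factorization (p j x) = m := by
        intro u m hu
        have hu0 : u ≠ 0 := fun h => hu (h ▸ dvd_zero _)
        rw [Nat.factorization_mul (pow_ne_zero _ (hp j x).ne_zero) hu0, Finsupp.add_apply,
          Nat.factorization_pow, Finsupp.smul_apply, (hp j x).factorization_self,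
          Nat.factorization_eq_zero_of_not_dvd hu, smul_eq_mul, mul_one, add_zero]
      have := congrArg (fun n => n.factorization (p j x)) heq
      simp only [hu, hv] at this
      rwa [h0 u _ hu', h0 v _ hv'] at this
    have h1 := hexp (e a j)
    have h2 := hexp (e b j)
    rw [if_pos rfl, if_neg (Ne.symm hj)] at h1
    rw [if_neg hj, if_pos rfl] at h2
    have hd1 := hkd (e a) j
    have hd2 := hkd (e b) j
    rw [h1, pow_one] at hd1
    rw [← h2, pow_one] at hd2
    have hPQ : P (e b) j = Q (e a) j ∧ Q (e b) j = P (e a) j := by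
      simp only [P, Q]
      generalize e a j = x at hj
      generalize e b j = y at hj
      fin_cases x <;> fin_cases y <;> first | exact ⟨rfl, rfl⟩ | exact absurd rfl hj
    rw [hPQ.1, hPQ.2] at hd2
    have hA : (P (e a) j).Prime := hp _ _
    have hB : (Q (e a) j).Prime := hp _ _
    have := hA.two_le
    have := hB.two_le
    have := Nat.le_of_dvd (by omega) hd1
    have := Nat.le_of_dvd (by omega) hd2
    omega
  · -- the element orders
    set c := e a
    ext m
    simp only [Set.mem_range, Set.mem_setOf_eq]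
    constructor
    · rintro ⟨g, rfl⟩
      exact ⟨fun j => orderOf (g j), fun j => (hpair c j _).1 ((spec_pair (hspec c j)).1 (g j)),
        orderOf_pi (hcop c) g⟩
    · rintro ⟨r, hr, rfl⟩
      have hex : ∀ j, ∃ f : F c j, orderOf f = r j := fun j =>
        (spec_pair (hspec c j)).2 _ ((hpair c j _).2 (hr j))
      choose f hf using hex
      exact ⟨f, (orderOf_pi (hcop c) f).trans (Finset.prod_congr rfl fun j _ => hf j)⟩
  · -- criticality
    intro H N _ hproper heq
    set c := e a with hc
    have hprime : ∀ j x, ∃ z : H ⧸ N, orderOf z = p j x := by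
      intro j x
      have : p j x ∈ Set.range (orderOf : (H ⧸ N) → ℕ) := by
        rw [heq]
        refine ⟨fun i => if i = j then p j x else 1, fun i => ?_, by simp⟩
        by_cases hij : i = j
        · subst hij
          right
          fin_cases x <;> simp
        · simp [hij]
      exact this
    have hH : H = ⊤ := by
      suffices key : ∀ j x, p j x ∣ Nat.card (H.comap (MonoidHom.mulSingle (F c) j)) from
        eq_top_of_factors (hcop c) H fun j => htop c j _ (key j _) (key j _)
      intro j x
      obtain ⟨z, hz⟩ := hprime j x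
      have hd : p j x ∣ Nat.card H := (hz ▸ orderOf_dvd_natCard z).trans
        (Subgroup.card_quotient_dvd_card N)
      haveI := Fact.mk (hp j x)
      obtain ⟨g, hg⟩ := exists_prime_orderOf_dvd_card' (G := H) (p j x) hd
      have hgi : ∀ i, i ≠ j → (g : ∀ i, F c i) i = 1 := fun i hi => by
        rw [← orderOf_eq_one_iff]
        rcases (Nat.dvd_prime (hp j _)).1 ((orderOf_map_dvd (Pi.evalMonoidHom _ i) _).trans
          (dvd_of_eq ((Subgroup.orderOf_coe g).trans hg))) with h | h
        · exact h
        · exact absurd (h ▸ orderOf_dvd_natCard _) (hPdvd c i j hi _)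
      have hsingle : Pi.mulSingle j ((g : ∀ i, F c i) j) = (g : ∀ i, F c i) := by
        funext i
        by_cases hij : i = j
        · subst hij; rw [Pi.mulSingle_eq_same]
        · rw [Pi.mulSingle_eq_of_ne hij, hgi i hij]
      have hmem : (g : ∀ i, F c i) j ∈ H.comap (MonoidHom.mulSingle _ j) := by
        show Pi.mulSingle j _ ∈ H
        rw [hsingle]; exact g.2
      have := orderOf_dvd_natCard (⟨_, hmem⟩ : H.comap (MonoidHom.mulSingle _ j))
      rwa [Subgroup.orderOf_mk, ← orderOf_injective (MonoidHom.mulSingle (F c) j) (Pi.mulSingle_injective _)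
        ((g : ∀ i, F c i) j), MonoidHom.mulSingle_apply, hsingle, Subgroup.orderOf_coe, hg] at this
    rcases hproper with h | h
    · exact h hH
    set N' : Subgroup (∀ i, F c i) := N.map H.subtype with hN'
    haveI hN'n : N'.Normal := by
      refine ⟨fun n hn g => ?_⟩
      obtain ⟨n, hn', rfl⟩ := hn
      exact ⟨_, ‹N.Normal›.conj_mem n hn' ⟨g, hH ▸ Subgroup.mem_top g⟩, rfl⟩
    obtain ⟨n, hn, hn1⟩ := (Subgroup.bot_or_exists_ne_one N').resolve_left
      (fun hb => h ((Subgroup.map_eq_bot_iff_of_injective _ H.subtype_injective).1 hb))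
    obtain ⟨j, hj⟩ : ∃ j, n j ≠ 1 := Function.ne_iff.1 hn1
    have hnj := hnorm c j (N'.comap (MonoidHom.mulSingle _ j)) inferInstance (fun hb => hj (by
      have : n j ∈ N'.comap (MonoidHom.mulSingle _ j) := mulSingle_mem (hcop c) N' hn j
      rwa [hb, Subgroup.mem_bot] at this))
    set M := Q c j * ∏ i ∈ Finset.univ.erase j, Nat.card (F c i) with hM
    have hpowN : ∀ g : ∀ i, F c i, g ^ M ∈ N' := by
      intro g
      have he : g ^ M = Pi.mulSingle j ((g ^ M) j) := by
        funext i
        by_cases hij : i = j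
        · subst hij; rw [Pi.mulSingle_eq_same]
        · rw [Pi.mulSingle_eq_of_ne hij, Pi.pow_apply, ← orderOf_dvd_iff_pow_eq_one]
          exact (orderOf_dvd_natCard _).trans ((Finset.dvd_prod_of_mem (fun i => Nat.card (F c i))
            (Finset.mem_erase.2 ⟨hij, Finset.mem_univ i⟩)).trans (dvd_mul_left _ _))
      rw [he]
      show (g ^ M) j ∈ N'.comap (MonoidHom.mulSingle _ j)
      rw [Pi.pow_apply, hM, mul_comm, pow_mul]
      exact hnj _
    obtain ⟨z, hz⟩ := hprime j (c j)
    obtain ⟨g, rfl⟩ := QuotientGroup.mk_surjective z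
    have h1 : (g : H ⧸ N) ^ M = 1 := by
      rw [← QuotientGroup.mk_pow, QuotientGroup.eq_one_iff]
      obtain ⟨n', hn', he⟩ := hpowN (g : ∀ i, F c i)
      have : n' = g ^ M := Subtype.ext (by rw [SubgroupClass.coe_pow]; exact he)
      exact this ▸ hn'
    have h2 := orderOf_dvd_of_pow_eq_one h1
    rw [hz] at h2
    rcases (hp j (c j)).dvd_mul.1 h2 with h3 | h3
    · exact hne c j ((Nat.prime_dvd_prime_iff_eq (hp _ _) (hp _ _)).1 h3)
    · obtain ⟨i, hi, hd'⟩ := (Prime.dvd_finsetProd_iff (hp j (c j)).prime _).1 h3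
      exact hPdvd c i j (Finset.ne_of_mem_erase hi) _ hd'

end Cfsg.Agent.PermGroups.Critical
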