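import Cfsg.Agent.S0169
import Cfsg.Agent.S0494
import Cfsg.Agent.S0987
import Cfsg.Agent.PermGroups.OrbitalAlgebra
import Cfsg.Agent.SmallOrder.Basic
import Cfsg.Prelude.Def_DegreeGraph

/-!
Groups of order sixty and the degree five.
-/

set_option autoImplicit false
set_option linter.style.haveILetI false

namespace Cfsg.Agent.PermGroups

open MulAction

variable {G : Type*} [Group G] [Finite G]

theorem card_sylow_five_sixty (h60 : Nat.card G = 60) :
    (∀ P : Sylow 5 G, Nat.card (P : Subgroup G) = 5) ∧
      (Nat.card (Sylow 5 G) = 1 ∨ Nat.card (Sylow 5 G) = 6) := by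
  haveI : Fact (Nat.Prime 5) := ⟨by norm_num⟩
  have h5 : ∀ P : Sylow 5 G, Nat.card (P : Subgroup G) = 5 := by
    intro P
    rw [Sylow.card_eq_multiplicity, h60, show 60 = 5 ^ 1 * 12 by norm_num,
      Nat.factorization_mul (by norm_num) (by norm_num), Finsupp.add_apply,
      Nat.Prime.factorization_pow (by norm_num),
      Nat.factorization_eq_zero_of_not_dvd (by norm_num : ¬ 5 ∣ 12)]
    simp
  refine ⟨h5, ?_⟩
  obtain ⟨P⟩ : Nonempty (Sylow 5 G) := inferInstance
  have hidx : (P : Subgroup G).index = 12 := by
    have := (P : Subgroup G).card_mul_index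
    rw [h5, h60] at this
    omega
  have hdvd : Nat.card (Sylow 5 G) ∣ 12 := hidx ▸ P.card_dvd_index
  have hmod : Nat.card (Sylow 5 G) ≡ 1 [MOD 5] := card_sylow_modEq_one 5 G
  have hle := Nat.le_of_dvd (by norm_num) hdvd
  unfold Nat.ModEq at hmod
  interval_cases hc : Nat.card (Sylow 5 G) <;> omega

/-- With a normal Sylow subgroup of order five, five divides no degree. -/
theorem five_notMem_degreePrimes (h60 : Nat.card G = 60) (h1 : Nat.card (Sylow 5 G) = 1) :
    5 ∉ Cfsg.degreePrimes G := by
  haveI : Fact (Nat.Prime 5) := ⟨by norm_num⟩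
  obtain ⟨h5, -⟩ := card_sylow_five_sixty h60
  obtain ⟨P⟩ : Nonempty (Sylow 5 G) := inferInstance
  haveI : Subsingleton (Sylow 5 G) := (Nat.card_eq_one_iff_unique.mp h1).1
  haveI : (P : Subgroup G).Normal := P.normal_of_subsingleton
  have hidx : (P : Subgroup G).index = 12 := by
    have := (P : Subgroup G).card_mul_index
    rw [h5, h60] at this
    omega
  rintro ⟨-, d, ⟨χ, rfl⟩, hd⟩
  obtain ⟨n, ρ, hi, hρ⟩ := χ.2
  have hab : ∀ a ∈ (P : Subgroup G), ∀ b ∈ (P : Subgroup G), a * b = b * a := by
    haveI : IsCyclic (P : Subgroup G) := isCyclic_of_prime_card (h5 P)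
    intro a ha b hb
    exact congrArg Subtype.val (IsCyclic.commutative.is_comm.comm (⟨a, ha⟩ : (P : Subgroup G)) ⟨b, hb⟩)
  have h := Cfsg.Agent.S0169.result ρ (P : Subgroup G) hab
  rw [hidx] at h
  have hdeg : Cfsg.charDegree (χ : G → ℂ) = Module.finrank ℂ (Fin n → ℂ) := by
    rw [Cfsg.charDegree, ← hρ, Representation.char_one]
    simp
  rw [hdeg] at hd
  exact absurd (hd.trans h) (by norm_num)

set_option maxHeartbeats 1000000 in
/-- With six Sylow subgroups of order five, five is a degree. -/
theorem five_mem_degreePrimes (h60 : Nat.card G = 60) (h6 : Nat.card (Sylow 5 G) = 6) :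
    5 ∈ Cfsg.degreePrimes G := by
  classical
  haveI : Fact (Nat.Prime 5) := ⟨by norm_num⟩
  haveI : Fintype G := Fintype.ofFinite G
  haveI : Fintype (Sylow 5 G) := Fintype.ofFinite _
  obtain ⟨h5, -⟩ := card_sylow_five_sixty h60
  obtain ⟨P⟩ : Nonempty (Sylow 5 G) := inferInstance
  haveI : Nonempty (Sylow 5 G) := ⟨P⟩
  have hPfix : ∀ Q : Sylow 5 G, Q ∈ orbit (stabilizer G P) Q := fun Q => mem_orbit_self Q
  have hPle : (P : Subgroup G) ≤ stabilizer G P := by
    intro g hg
    rw [mem_stabilizer_iff, Sylow.smul_eq_iff_mem_normalizer]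
    exact Subgroup.le_normalizer hg
  -- the subgroup `P` moves every other Sylow subgroup in an orbit of length five
  have horb : ∀ Q : Sylow 5 G, Q ≠ P → Nat.card (orbit (P : Subgroup G) Q) = 5 := by
    intro Q hQ
    have hd : Nat.card (orbit (P : Subgroup G) Q) ∣ 5 := by
      have hd' : Nat.card (orbit (P : Subgroup G) Q) ∣ Nat.card (P : Subgroup G) := by
        rw [Nat.card_coe_set_eq, ← index_stabilizer]
        exact Subgroup.index_dvd_card _
      rwa [h5 P] at hd'
    rcases (Nat.dvd_prime (by norm_num : Nat.Prime 5)).1 hd with h | h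
    · exfalso
      refine hQ ?_
      have hfix : Q ∈ fixedPoints (P : Subgroup G) (Sylow 5 G) := by
        intro x
        have : Subsingleton (orbit (P : Subgroup G) Q) := (Nat.card_eq_one_iff_unique.1 h).1
        exact congrArg Subtype.val (Subsingleton.elim (⟨x • Q, mem_orbit Q x⟩ : orbit (P : Subgroup G) Q) ⟨Q, mem_orbit_self Q⟩)
      have hle := P.2.sylow_mem_fixedPoints_iff.1 hfix
      exact Sylow.ext ((Subgroup.eq_of_le_of_card_ge hle (by rw [h5, h5])).symm)
    · exact h
  have hrank : Nat.card (orbitRel.Quotient (stabilizer G P) (Sylow 5 G)) = 2 := by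
    haveI : Fintype (orbitRel.Quotient (stabilizer G P) (Sylow 5 G)) := Fintype.ofFinite _
    obtain ⟨Q, hQ⟩ : ∃ Q : Sylow 5 G, Q ≠ P := by
      haveI : Nontrivial (Sylow 5 G) := Finite.one_lt_card_iff_nontrivial.1 (by rw [h6]; norm_num)
      exact exists_ne P
    have hall : ∀ R : Sylow 5 G, R ≠ P → R ∈ orbit (stabilizer G P) Q := by
      intro R hR
      by_contra hn
      have hdisj : orbit (P : Subgroup G) Q ∩ orbit (P : Subgroup G) R = ∅ := by
        refine Set.eq_empty_iff_forall_notMem.2 fun S hS => hn ?_
        have e : R ∈ orbit (P : Subgroup G) Q := by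
          rw [← orbit_eq_iff, ← orbit_eq_iff.2 hS.1, orbit_eq_iff.2 hS.2]
        obtain ⟨⟨x, hx⟩, rfl⟩ := e
        exact ⟨⟨x, hPle hx⟩, rfl⟩
      have h := Set.ncard_union_eq (s := orbit (P : Subgroup G) Q) (t := orbit (P : Subgroup G) R)
        (Set.disjoint_iff_inter_eq_empty.2 hdisj) (Set.toFinite _) (Set.toFinite _)
      rw [← Nat.card_coe_set_eq, ← Nat.card_coe_set_eq (orbit _ Q), ← Nat.card_coe_set_eq (orbit _ R),
        horb Q hQ, horb R hR] at h
      have := Nat.card_le_card_of_injective _
        (Subtype.val_injective (p := fun S => S ∈ orbit (P : Subgroup G) Q ∪ orbit (P : Subgroup G) R))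
      rw [h6] at this
      have h' : Nat.card {S // S ∈ orbit (P : Subgroup G) Q ∪ orbit (P : Subgroup G) R} = 10 := h
      omega
    have hne : (Quotient.mk'' P : orbitRel.Quotient (stabilizer G P) (Sylow 5 G)) ≠ Quotient.mk'' Q := by
      intro e
      have h : Q ∈ orbit (stabilizer G P) P := Quotient.exact' e.symm
      obtain ⟨⟨g, hg⟩, rfl⟩ := h
      exact hQ hg
    have huniv : (Finset.univ : Finset (orbitRel.Quotient (stabilizer G P) (Sylow 5 G))) =
        {Quotient.mk'' P, Quotient.mk'' Q} := by
      refine (Finset.eq_univ_iff_forall.2 fun q => ?_).symm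
      induction q using Quotient.inductionOn' with
      | h R =>
        by_cases hR : R = P
        · subst hR; exact Finset.mem_insert_self _ _
        · exact Finset.mem_insert_of_mem (Finset.mem_singleton.2 (Quotient.sound' (hall R hR)))
    rw [Nat.card_eq_fintype_card, ← Finset.card_univ, huniv, Finset.card_pair hne]
  -- the character
  set π : G → ℂ := (Cfsg.permRep ℂ G (Sylow 5 G)).character with hπ
  have hπc : Cfsg.IsCharacter G π := Chars.isCharacter_of_rep _
  let one : Cfsg.IrrCharacter G := ⟨fun _ => 1, Chars.isIrrCharacter_one⟩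
  obtain ⟨m, hm, hs⟩ := Chars.exists_eq_sum_nsmul hπc
  have hone : m one = 1 := by
    have h := hm one
    rw [show classInner π ((one : Cfsg.IrrCharacter G) : G → ℂ) = 1 from classInner_one_of_transitive] at h
    exact_mod_cast h.symm
  have hnorm : ∑ χ : Cfsg.IrrCharacter G, m χ * m χ = 2 := by
    have h := classInner_self_eq_rank (G := G) P
    rw [hrank, Chars.classInner_eq_sum (Chars.isClassFunction_of_isCharacter hπc)] at h
    have h' : ((∑ χ : Cfsg.IrrCharacter G, m χ * m χ : ℕ) : ℂ) = ((2 : ℕ) : ℂ) := by
      rw [← h]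
      push_cast
      refine Finset.sum_congr rfl fun χ _ => ?_
      rw [← Chars.classInner_conj_symm π, hm]
      simp
    exact_mod_cast h'
  rw [← Finset.add_sum_erase _ _ (Finset.mem_univ one), hone] at hnorm
  have hrest : ∑ χ ∈ Finset.univ.erase one, m χ * m χ = 1 := by omega
  obtain ⟨ψ, hψ, hψ0⟩ := Finset.exists_ne_zero_of_sum_ne_zero (hrest.trans_ne one_ne_zero)
  have hle := Finset.single_le_sum (fun χ _ => Nat.zero_le (m χ * m χ)) hψ
  have hψ1 : m ψ = 1 := Nat.eq_one_of_mul_eq_one_left (show m ψ * m ψ = 1 by omega)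
  have hothers : ∀ χ ∈ (Finset.univ.erase one).erase ψ, m χ = 0 := by
    intro χ hχ
    have h := Finset.add_sum_erase _ (fun χ => m χ * m χ) hψ
    have h2 := Finset.single_le_sum (fun χ _ => Nat.zero_le (m χ * m χ)) hχ
    rw [hψ1] at h
    exact mul_self_eq_zero.1 (by omega)
  have h := congrFun hs (1 : G)
  rw [hπ, Representation.char_one, Module.finrank_fintype_fun_eq_card, Finset.sum_apply,
    ← Finset.add_sum_erase _ _ (Finset.mem_univ one), ← Finset.add_sum_erase _ _ hψ,
    Finset.sum_eq_zero (fun χ hχ => by rw [hothers χ hχ, zero_smul]; rfl), hone, hψ1] at h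
  rw [← Nat.card_eq_fintype_card, h6] at h
  simp only [one_smul, add_zero] at h
  have h5' : (ψ : G → ℂ) 1 = 5 := by
    have : (6 : ℂ) = 1 + (ψ : G → ℂ) 1 := by simpa [one] using h
    linear_combination -this
  refine ⟨by norm_num, 5, ⟨ψ, ?_⟩, dvd_rfl⟩
  rw [Cfsg.charDegree, h5']
  norm_num

/-- With six Sylow subgroups of order five, a group of order sixty is simple. -/
theorem isSimpleGroup_sixty (h60 : Nat.card G = 60) (h6 : Nat.card (Sylow 5 G) = 6) :
    IsSimpleGroup G := by
  classical
  haveI : Fact (Nat.Prime 5) := ⟨by norm_num⟩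
  obtain ⟨h5, -⟩ := card_sylow_five_sixty h60
  -- a normal subgroup of order divisible by five is everything
  have big : ∀ M : Subgroup G, M.Normal → 5 ∣ Nat.card M → M = ⊤ := by
    intro M hM hd
    obtain ⟨Q, hQ⟩ := Sylow.exists_subgroup_card_pow_prime (G := M) 5 (n := 1) (by rwa [pow_one])
    rw [pow_one] at hQ
    set R := Q.map M.subtype with hR
    have hR5 : Nat.card R = 5 := by
      rw [hR, ← Nat.card_congr (Q.equivMapOfInjective _ M.subtype_injective).toEquiv, hQ]
    obtain ⟨S, hS⟩ := (IsPGroup.of_card (n := 1) (by rw [hR5, pow_one]) : IsPGroup 5 R).exists_le_sylow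
    have hSR : R = (S : Subgroup G) := Subgroup.eq_of_le_of_card_ge hS (by rw [h5, hR5])
    have hall : ∀ T : Sylow 5 G, (T : Subgroup G) ≤ M := by
      intro T
      obtain ⟨g, rfl⟩ := exists_smul_eq G S T
      intro x hx
      rw [Sylow.coe_subgroup_smul, Subgroup.mem_pointwise_smul_iff_inv_smul_mem] at hx
      rw [← hSR] at hx
      have hin : (MulAut.conj g)⁻¹ • x ∈ M := (Subgroup.map_subtype_le Q) hx
      have := hM.conj_mem _ hin g
      simpa [MulAut.smul_def, mul_assoc] using this
    -- six Sylow subgroups inside `M`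
    have hcard : 25 ≤ Nat.card M := by
      haveI : Fintype (Sylow 5 G) := Fintype.ofFinite _
      have hmem : ∀ (T : Sylow 5 G) (x : {x : (T : Subgroup G) // x ≠ 1}), (x.1 : G) ∈ M := fun T x => hall T x.1.2
      let f : (Σ T : Sylow 5 G, {x : (T : Subgroup G) // x ≠ 1}) → M := fun z => ⟨z.2.1, hmem z.1 z.2⟩
      have hinj : Function.Injective f := by
        rintro ⟨T, x⟩ ⟨T', y⟩ e
        have e' : (x.1 : G) = (y.1 : G) := congrArg Subtype.val e
        have hTT : T = T' := by
          have hx1 : (x.1 : G) ≠ 1 := fun h => x.2 (Subtype.ext h)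
          have hxT' : (x.1 : G) ∈ (T' : Subgroup G) := by rw [e']; exact y.1.2
          refine Sylow.ext ?_
          have hord : Nat.card (Subgroup.zpowers (x.1 : G)) = 5 := by
            have hd' : Nat.card (Subgroup.zpowers (x.1 : G)) ∣ 5 :=
              (Subgroup.card_dvd_of_le (Subgroup.zpowers_le.2 x.1.2)).trans (h5 T).dvd
            rcases (Nat.dvd_prime (by norm_num : Nat.Prime 5)).1 hd' with h | h
            · rw [Nat.card_zpowers, orderOf_eq_one_iff] at h; exact absurd h hx1
            · exact h
          rw [← Subgroup.eq_of_le_of_card_ge (Subgroup.zpowers_le.2 x.1.2) (by rw [hord, h5]),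
            ← Subgroup.eq_of_le_of_card_ge (Subgroup.zpowers_le.2 hxT') (by rw [hord, h5])]
        subst hTT
        simp only [Sigma.mk.injEq, heq_eq_eq, true_and]
        exact Subtype.ext (Subtype.ext e')
      have h := Nat.card_le_card_of_injective f hinj
      rw [Nat.card_sigma] at h
      have h4 : ∀ T : Sylow 5 G, Nat.card {x : (T : Subgroup G) // x ≠ 1} = 4 := by
        intro T
        haveI : Fintype (T : Subgroup G) := Fintype.ofFinite _
        have := h5 T
        rw [Nat.card_eq_fintype_card] at this
        rw [Nat.card_eq_fintype_card, Fintype.card_subtype_compl, Fintype.card_subtype_eq, this]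
      rw [Finset.sum_congr rfl fun T _ => h4 T, Finset.sum_const, Finset.card_univ,
        ← Nat.card_eq_fintype_card, h6, smul_eq_mul] at h
      omega
    have hdvd : Nat.card M ∣ 60 := h60 ▸ Subgroup.card_subgroup_dvd_card M
    have hor : Nat.card M = 30 ∨ Nat.card M = 60 := by
      have := Nat.le_of_dvd (by norm_num) hdvd
      obtain ⟨c, hc⟩ := hdvd
      have hc2 : c = 1 ∨ c = 2 := by
        have : c ≤ 2 := by nlinarith
        interval_cases c <;> omega
      rcases hc2 with rfl | rfl <;> omega
    rcases hor with h30 | h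
    · exfalso
      obtain ⟨T⟩ : Nonempty (Sylow 5 M) := inferInstance
      haveI hTn : (T : Subgroup M).Normal :=
        Cfsg.Agent.S0987.result (r := 5) 2 3 (by norm_num) (by norm_num) (by norm_num) (by norm_num) h30 T
      have := T.characteristic_of_normal hTn
      haveI := hM
      have hn : ((T : Subgroup M).map M.subtype).Normal := inferInstance
      have hc5 : Nat.card ((T : Subgroup M).map M.subtype) = 5 := by
        rw [← Nat.card_congr ((T : Subgroup M).equivMapOfInjective _ M.subtype_injective).toEquiv,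
          Sylow.card_eq_multiplicity, h30, show 30 = 5 ^ 1 * 6 by norm_num,
          Nat.factorization_mul (by norm_num) (by norm_num), Finsupp.add_apply,
          Nat.Prime.factorization_pow (by norm_num),
          Nat.factorization_eq_zero_of_not_dvd (by norm_num : ¬ 5 ∣ 6)]
        simp
      obtain ⟨S', hS'⟩ := (IsPGroup.of_card (n := 1) (by rw [hc5, pow_one]) :
        IsPGroup 5 ((T : Subgroup M).map M.subtype)).exists_le_sylow
      have heq : (T : Subgroup M).map M.subtype = (S' : Subgroup G) :=
        Subgroup.eq_of_le_of_card_ge hS' (by rw [h5, hc5])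
      haveI : Subsingleton (Sylow 5 G) := by
        have : (S' : Subgroup G).Normal := heq ▸ hn
        exact (Sylow.unique_of_normal S' this).instSubsingleton
      rw [Nat.card_of_subsingleton S'] at h6
      omega
    · exact Subgroup.eq_top_of_card_eq _ (by rw [h, h60])
  haveI : Nontrivial G := Finite.one_lt_card_iff_nontrivial.1 (by rw [h60]; norm_num)
  refine ⟨fun N hN => ?_⟩
  by_cases hd : 5 ∣ Nat.card N
  · exact Or.inr (big N hN hd)
  left
  haveI := hN
  by_contra hne
  have hN1 : 1 < Nat.card N := by
    haveI := (Subgroup.nontrivial_iff_ne_bot N).2 hne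
    exact Finite.one_lt_card
  have hidx : N.index * Nat.card N = 60 := by rw [N.index_mul_card, h60]
  have hN12 : Nat.card N ∣ 12 :=
    ((Nat.Prime.coprime_iff_not_dvd (by norm_num : Nat.Prime 5)).2 hd).symm.dvd_of_dvd_mul_left
      (show Nat.card N ∣ 5 * 12 by rw [show 5 * 12 = 60 from rfl, ← hidx]; exact dvd_mul_left _ _)
  obtain ⟨P⟩ : Nonempty (Sylow 5 G) := inferInstance
  have hnorm : Nat.card (Subgroup.normalizer ((P : Subgroup G) : Set G)) = 10 := by
    have h := (Subgroup.normalizer ((P : Subgroup G) : Set G)).index_mul_card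
    have h1 : (Subgroup.normalizer ((P : Subgroup G) : Set G)).index = 6 := P.card_eq_index_normalizer.symm.trans h6
    rw [h1, h60] at h
    omega
  by_cases h3 : 3 ∣ Nat.card N
  · -- Frattini argument
    haveI : Fact (Nat.Prime 3) := ⟨by norm_num⟩
    obtain ⟨T⟩ : Nonempty (Sylow 3 N) := inferInstance
    set U := (T : Subgroup N).map N.subtype with hU
    have hfr := Sylow.normalizer_sup_eq_top T
    set L := Subgroup.normalizer (U : Set G) with hL
    have hdL : 5 ∣ Nat.card L := by
      have hd' : Nat.card G ∣ Nat.card L * Nat.card N := by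
        rw [← Subgroup.card_top (G := G), ← hfr, sup_comm, ← Subgroup.card_mul_index (N.subgroupOf (N ⊔ L))]
        have h1 : Nat.card (N.subgroupOf (N ⊔ L)) = Nat.card N :=
          Nat.card_congr (Subgroup.subgroupOfEquivOfLe le_sup_left).toEquiv
        rw [h1, mul_comm]
        refine Nat.mul_dvd_mul_right ?_ _
        show N.relIndex (N ⊔ L) ∣ _
        rw [sup_comm, Subgroup.relIndex_sup_right]
        exact Subgroup.index_dvd_card _
      rw [h60] at hd'
      rcases (Nat.Prime.dvd_mul (by norm_num : Nat.Prime 5)).1 ((by norm_num : 5 ∣ 60).trans hd') with h | h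
      · exact h
      · exact absurd h hd
    obtain ⟨x, hx⟩ := exists_prime_orderOf_dvd_card' 5 hdL
    have hU3 : Nat.card U = 3 := by
      rw [hU, ← Nat.card_congr ((T : Subgroup N).equivMapOfInjective _ N.subtype_injective).toEquiv,
        Sylow.card_eq_multiplicity]
      obtain ⟨c, hc⟩ := h3
      have hc4 : c ∣ 4 := Nat.dvd_of_mul_dvd_mul_left (by norm_num : 0 < 3) (hc ▸ hN12)
      have : ¬ 3 ∣ c := fun h => absurd (h.trans hc4) (by norm_num)
      rw [hc, Nat.factorization_mul (by norm_num) (by rintro rfl; simp at this), Finsupp.add_apply,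
        Nat.Prime.factorization_self (by norm_num), Nat.factorization_eq_zero_of_not_dvd this]
      norm_num
    obtain ⟨u, hu⟩ := exists_prime_orderOf_dvd_card' (G := U) 3 (by rw [hU3])
    -- `x` centralises `u`
    have hxu : (x : G) * u = u * x := by
      let φ : U → U := fun v => ⟨(x : G) * v * (x : G)⁻¹, (Subgroup.mem_normalizer_iff.1 x.2 _).1 v.2⟩
      have hfix : φ 1 = 1 := Subtype.ext (by show (x : G) * ((1 : U) : G) * (x : G)⁻¹ = _; simp)
      have hinj : Function.Injective φ := fun v w e => Subtype.ext (by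
        have h := congrArg Subtype.val e
        simpa [φ] using h)
      haveI : Fintype U := Fintype.ofFinite U
      let σ : Equiv.Perm U := Equiv.ofBijective φ (Finite.injective_iff_bijective.1 hinj)
      have h5σ : σ ^ 5 = 1 := by
        have hpow : ∀ (n : ℕ) (v : U), ((σ ^ n) v : G) = (x : G) ^ n * v * ((x : G) ^ n)⁻¹ := by
          intro n
          induction n with
          | zero => simp
          | succ n ih =>
            intro v
            rw [pow_succ', Equiv.Perm.mul_apply]
            show (x : G) * ((σ ^ n) v : G) * (x : G)⁻¹ = _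
            rw [ih, pow_succ', mul_inv_rev]
            simp only [mul_assoc]
        have hx5 : (x : G) ^ 5 = 1 := by
          rw [← SubgroupClass.coe_pow, ← hx, pow_orderOf_eq_one, OneMemClass.coe_one]
        refine Equiv.ext fun v => Subtype.ext ?_
        rw [hpow, hx5]
        simp
      have hord : orderOf σ ∣ 5 := orderOf_dvd_of_pow_eq_one h5σ
      rcases (Nat.dvd_prime (by norm_num : Nat.Prime 5)).1 hord with h | h
      · have h' := congrArg (fun τ : Equiv.Perm U => (τ u : G)) (orderOf_eq_one_iff.1 h)
        have h'' : (x : G) * u * (x : G)⁻¹ = u := h'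
        rw [mul_inv_eq_iff_eq_mul] at h''
        exact h''
      · exfalso
        have h1 : orderOf σ ∣ Nat.card (Equiv.Perm U) := orderOf_dvd_natCard σ
        rw [h, Nat.card_perm, hU3] at h1
        norm_num [Nat.factorial] at h1
    -- so `u` normalises a Sylow subgroup
    obtain ⟨S, hS⟩ := (IsPGroup.of_card (n := 1) (by rw [Nat.card_zpowers, Subgroup.orderOf_coe, hx, pow_one]) :
      IsPGroup 5 (Subgroup.zpowers (x : G))).exists_le_sylow
    have hSx : Subgroup.zpowers (x : G) = (S : Subgroup G) :=
      Subgroup.eq_of_le_of_card_ge hS (by rw [h5, Nat.card_zpowers, Subgroup.orderOf_coe, hx])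
    have huS : (u : G) ∈ Subgroup.normalizer ((S : Subgroup G) : Set G) := by
      rw [← hSx, Subgroup.mem_normalizer_iff]
      intro y
      have hc : ∀ i : ℤ, (u : G) * (x : G) ^ i = (x : G) ^ i * u := fun i =>
        (Commute.zpow_right (show Commute (u : G) x from hxu.symm) i)
      constructor
      · rintro ⟨i, rfl⟩
        exact ⟨i, by simp only [hc, mul_inv_cancel_right]⟩
      · rintro ⟨i, hi⟩
        refine ⟨i, ?_⟩
        have e : y = (u : G)⁻¹ * ((x : G) ^ i * u) := by
          rw [show (x : G) ^ i = (u : G) * y * (u : G)⁻¹ from hi]; group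
        rw [e, ← hc, inv_mul_cancel_left]
    have hnormS : Nat.card (Subgroup.normalizer ((S : Subgroup G) : Set G)) = 10 := by
      have h := (Subgroup.normalizer ((S : Subgroup G) : Set G)).index_mul_card
      have h1 : (Subgroup.normalizer ((S : Subgroup G) : Set G)).index = 6 := S.card_eq_index_normalizer.symm.trans h6
      rw [h1, h60] at h
      omega
    have h1 := Subgroup.orderOf_dvd_natCard _ huS
    rw [Subgroup.orderOf_coe, hu, hnormS] at h1
    norm_num at h1
  have hN4 : Nat.card N = 2 ∨ Nat.card N = 4 := by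
    have := Nat.le_of_dvd (by norm_num) hN12
    interval_cases hc : Nat.card N <;> omega
  rcases hN4 with h2 | h4
  · -- order two
    have hq30 : Nat.card (G ⧸ N) = 2 * 3 * 5 := by
      show N.index = _
      rw [h2] at hidx
      omega
    obtain ⟨T⟩ : Nonempty (Sylow 5 (G ⧸ N)) := inferInstance
    haveI := Cfsg.Agent.S0987.result (r := 5) 2 3 (by norm_num) (by norm_num) (by norm_num) (by norm_num) hq30 T
    have hT5 : Nat.card (T : Subgroup (G ⧸ N)) = 5 := by
      rw [Sylow.card_eq_multiplicity, hq30, show 2 * 3 * 5 = 5 ^ 1 * 6 by norm_num,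
        Nat.factorization_mul (by norm_num) (by norm_num), Finsupp.add_apply,
        Nat.Prime.factorization_pow (by norm_num),
        Nat.factorization_eq_zero_of_not_dvd (by norm_num : ¬ 5 ∣ 6)]
      simp
    set M := (T : Subgroup (G ⧸ N)).comap (QuotientGroup.mk' N) with hM
    have hM10 : Nat.card M = 10 := by
      have h := M.index_mul_card
      rw [hM, Subgroup.index_comap_of_surjective _ (QuotientGroup.mk'_surjective N), h60] at h
      have hi := (T : Subgroup (G ⧸ N)).index_mul_card
      rw [hT5, hq30] at hi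
      rw [show (T : Subgroup (G ⧸ N)).index = 6 by omega, ← hM] at h
      omega
    have htop := big M inferInstance (by rw [hM10]; norm_num)
    rw [htop, Subgroup.card_top, h60] at hM10
    omega
  · -- order four
    haveI : Fintype N := Fintype.ofFinite N
    let φ : (P : Subgroup G) →* MulAut N := (MulAut.conjNormal (H := N)).comp (P : Subgroup G).subtype
    have hker : ∀ x : (P : Subgroup G), φ x = 1 := by
      intro x
      have hd1 : orderOf (φ x) ∣ 5 := by
        refine (orderOf_map_dvd φ x).trans ?_
        have h := orderOf_dvd_natCard x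
        rwa [h5] at h
      rcases (Nat.dvd_prime (by norm_num : Nat.Prime 5)).1 hd1 with h | h
      · exact orderOf_eq_one_iff.1 h
      · exfalso
        let ι : MulAut N →* Equiv.Perm N :=
          { toFun := fun e => e.toEquiv, map_one' := rfl, map_mul' := fun _ _ => rfl }
        have hι : Function.Injective ι := fun e e' h => MulEquiv.ext fun v => congrArg (fun τ : Equiv.Perm N => τ v) h
        have h1 : orderOf (ι (φ x)) ∣ Nat.card (Equiv.Perm N) := orderOf_dvd_natCard _
        rw [orderOf_injective ι hι, h, Nat.card_perm, h4] at h1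
        norm_num [Nat.factorial] at h1
    have hle : N ≤ Subgroup.normalizer ((P : Subgroup G) : Set G) := by
      intro n hn
      have hc : ∀ x ∈ (P : Subgroup G), n * x * n⁻¹ = x := by
        intro x hx
        have h : (x : G) * n * (x : G)⁻¹ = n :=
          congrArg (fun e : MulAut N => ((e ⟨n, hn⟩ : N) : G)) (hker ⟨x, hx⟩)
        rw [mul_inv_eq_iff_eq_mul] at h ⊢
        exact h.symm
      rw [Subgroup.mem_normalizer_iff]
      intro x
      refine ⟨fun hx => by rw [hc x hx]; exact hx, fun hx => ?_⟩
      have e := hc _ hx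
      have e' : n * x * n⁻¹ = x := by
        have e2 := congrArg (fun z => n⁻¹ * z * n) e
        group at e2 ⊢
        exact e2
      rwa [e'] at hx
    have := Subgroup.card_dvd_of_le hle
    rw [h4, hnorm] at this
    norm_num at this

/-- A group of order sixty in which five is a degree prime like in the alternating group. -/
theorem alt_five_of_degree_primes (h60 : Nat.card G = 60)
    (hΓ : Cfsg.degreePrimes G = Cfsg.degreePrimes (alternatingGroup (Fin 5))) :
    Nonempty (G ≃* alternatingGroup (Fin 5)) := by
  haveI : Fact (Nat.Prime 5) := ⟨by norm_num⟩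
  have hA : Nat.card (alternatingGroup (Fin 5)) = 60 := by
    have h := two_mul_card_alternatingGroup (α := Fin 5)
    rw [Fintype.card_perm, Fintype.card_fin, show Nat.factorial 5 = 120 from rfl] at h
    rw [Nat.card_eq_fintype_card]; omega
  have hA6 : Nat.card (Sylow 5 (alternatingGroup (Fin 5))) = 6 := by
    refine (card_sylow_five_sixty hA).2.resolve_left ?_
    haveI : IsSimpleGroup (alternatingGroup (Fin 5)) := alternatingGroup.isSimpleGroup_five
    exact SmallOrder.card_sylow_ne_one (SmallOrder.not_comm_of_not_prime (by rw [hA]; norm_num)) (by rw [hA]; norm_num)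
  rcases (card_sylow_five_sixty h60).2 with h | h
  · exact absurd (hΓ ▸ five_mem_degreePrimes hA hA6) (five_notMem_degreePrimes h60 h)
  · haveI := isSimpleGroup_sixty h60 h
    exact Cfsg.Agent.S0494.result h60

end Cfsg.Agent.PermGroups
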