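import Mathlib

/-!
Subsets fixed by permutations of prime order.
-/

set_option autoImplicit false

namespace Cfsg.Agent.PermGroups

theorem exists_invariant_subset {α : Type*} [DecidableEq α] (σ : Equiv.Perm α) {r : ℕ}
    (hr : r.Prime) (hσ : σ ^ r = 1) :
    ∀ (k : ℕ) (T : Finset α), T.image σ = T → k ≤ T.card →
      k % r ≤ (T.filter fun x => σ x = x).card → ∃ s ⊆ T, s.card = k ∧ s.image σ = s := by
  intro k
  induction k using Nat.strong_induction_on with
  | _ k ih =>
    intro T hT hk hfix
    have himg : ∀ s : Finset α, (∀ x ∈ s, σ x = x) → s.image σ = s := fun s hs => by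
      rw [Finset.image_congr (g := id) fun x hx => hs x hx, Finset.image_id]
    by_cases hmoved : ∃ x ∈ T, σ x ≠ x
    swap
    · push Not at hmoved
      obtain ⟨s, hs, hsc⟩ := Finset.exists_subset_card_eq hk
      exact ⟨s, hs, hsc, himg s fun x hx => hmoved x (hs hx)⟩
    by_cases hkr : k < r
    · rw [Nat.mod_eq_of_lt hkr] at hfix
      obtain ⟨s, hs, hsc⟩ := Finset.exists_subset_card_eq hfix
      exact ⟨s, fun x hx => (Finset.mem_filter.1 (hs hx)).1, hsc,
        himg s fun x hx => (Finset.mem_filter.1 (hs hx)).2⟩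
    push Not at hkr
    obtain ⟨x, hxT, hx⟩ := hmoved
    have hper : Function.IsPeriodicPt σ r x := by
      show σ^[r] x = x
      rw [← Equiv.Perm.coe_pow, hσ]; rfl
    have hmin : Function.minimalPeriod σ x = r := by
      rcases (Nat.dvd_prime hr).1 hper.minimalPeriod_dvd with h | h
      · exact absurd (Function.minimalPeriod_eq_one_iff_isFixedPt.1 h) hx
      · exact h
    let O := (Finset.range r).image fun i => σ^[i] x
    have hOc : O.card = r := by
      rw [Finset.card_image_of_injOn, Finset.card_range]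
      intro i hi j hj e
      exact Function.iterate_injOn_Iio_minimalPeriod (by simpa [hmin] using hi)
        (by simpa [hmin] using hj) e
    have hOimg : O.image σ = O := by
      refine Finset.eq_of_subset_of_card_le ?_ (Finset.card_image_of_injective _ σ.injective).ge
      intro y hy
      simp only [O, Finset.mem_image, Finset.mem_range] at hy ⊢
      obtain ⟨_, ⟨i, hi, rfl⟩, rfl⟩ := hy
      rw [← Function.iterate_succ_apply' σ]
      by_cases h : i + 1 < r
      · exact ⟨i + 1, h, rfl⟩
      · exact ⟨0, hr.pos, by rw [show i.succ = r by omega]; exact hper.symm⟩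
    have hOT : O ⊆ T := by
      intro y hy
      simp only [O, Finset.mem_image, Finset.mem_range] at hy
      obtain ⟨i, -, rfl⟩ := hy
      clear * - hT hxT
      induction i with
      | zero => exact hxT
      | succ i ih => rw [Function.iterate_succ_apply', ← hT]; exact Finset.mem_image_of_mem _ ih
    obtain ⟨s, hsT, hsc, hsimg⟩ := ih (k - r) (by have := hr.pos; omega) (T \ O)
      (by rw [Finset.image_sdiff _ _ σ.injective, hT, hOimg])
      (by rw [Finset.card_sdiff_of_subset hOT, hOc]; omega)
      (by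
        rw [← Nat.mod_eq_sub_mod hkr]
        refine hfix.trans (Finset.card_le_card fun y hy => ?_)
        simp only [Finset.mem_filter, Finset.mem_sdiff] at hy ⊢
        refine ⟨⟨hy.1, fun hyO => ?_⟩, hy.2⟩
        simp only [O, Finset.mem_image, Finset.mem_range] at hyO
        obtain ⟨i, -, rfl⟩ := hyO
        rw [← Function.iterate_succ_apply' σ, Function.iterate_succ_apply] at hy
        exact hx ((σ.injective.iterate i) hy.2))
    have hdisj : Disjoint O s := Finset.disjoint_left.2 fun y hy hys =>
      (Finset.mem_sdiff.1 (hsT hys)).2 hy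
    exact ⟨O ∪ s, Finset.union_subset hOT (hsT.trans Finset.sdiff_subset),
      by rw [Finset.card_union_of_disjoint hdisj, hOc, hsc]; omega,
      by rw [Finset.image_union, hOimg, hsimg]⟩

/-- An invariant set has as many points as fixed points, modulo `r`. -/
theorem card_modEq_card_filter_fixed {α : Type*} [DecidableEq α] (σ : Equiv.Perm α) {r : ℕ}
    (hr : r.Prime) (hσ : σ ^ r = 1) (T : Finset α) (hT : T.image σ = T) :
    T.card ≡ (T.filter fun x => σ x = x).card [MOD r] := by
  classical
  have : Fact r.Prime := ⟨hr⟩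
  have hmem : ∀ x, σ x ∈ T ↔ x ∈ T := fun x => by
    conv_lhs => rw [← hT]
    simp [σ.injective.eq_iff]
  let τ : Equiv.Perm {x // x ∈ T} := σ.subtypePerm hmem
  have hτ : τ ^ r ^ 1 = 1 := by
    rw [pow_one, Equiv.Perm.subtypePerm_pow]
    ext x
    simp [hσ]
  have h := Equiv.Perm.card_fixedPoints_modEq (f := (τ : {x // x ∈ T} → {x // x ∈ T}))
    (hf := congrArg DFunLike.coe hτ |> (Equiv.Perm.coe_pow τ (r ^ 1)).symm.trans)
  rw [Fintype.card_coe] at h
  refine h.trans (congrArg (· % r) ?_ : _)
  rw [← Fintype.card_coe (T.filter fun x => σ x = x)]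
  exact Fintype.card_congr
    { toFun := fun x => ⟨x.1.1, Finset.mem_filter.2 ⟨x.1.2, congrArg Subtype.val x.2⟩⟩
      invFun := fun y => ⟨⟨y.1, (Finset.mem_filter.1 y.2).1⟩,
        Subtype.ext (Finset.mem_filter.1 y.2).2⟩
      left_inv := fun _ => rfl
      right_inv := fun _ => rfl }

/-- A permutation of prime order `r` with at most `n % r` fixed points. -/
theorem exists_perm_few_fixed {n r : ℕ} (hr : r.Prime) (hrn : r ≤ n) :
    ∃ σ : Equiv.Perm (Fin n), orderOf σ = r ∧
      (Finset.univ.filter fun x => σ x = x).card ≤ n % r := by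
  classical
  have : Fact r.Prime := ⟨hr⟩
  let e : (Fin (n / r) × Fin r) ⊕ Fin (n % r) ≃ Fin n :=
    (Fintype.equivFinOfCardEq (by simp [Nat.div_add_mod' n r]))
  let ρ : Equiv.Perm ((Fin (n / r) × Fin r) ⊕ Fin (n % r)) :=
    Equiv.sumCongr (Equiv.prodCongr (Equiv.refl _) (Equiv.addRight (⟨1, hr.one_lt⟩ : Fin r)))
      (Equiv.refl _)
  have hpow : ∀ i : ℕ, ∀ a : Fin (n / r), ∀ b : Fin r,
      ((ρ ^ i) (Sum.inl (a, b))) = Sum.inl (a, ⟨(b.1 + i) % r, Nat.mod_lt _ hr.pos⟩) := by
    intro i a b
    induction i with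
    | zero => simp [Nat.mod_eq_of_lt b.2]
    | succ i ih =>
      rw [pow_succ', Equiv.Perm.mul_apply, ih]
      simp only [ρ, Equiv.sumCongr_apply, Sum.map_inl, Equiv.prodCongr_apply, Prod.map_apply,
        Equiv.refl_apply, Equiv.coe_addRight, id_eq]
      congr 2
      ext
      simp [Fin.val_add, Nat.add_mod, ← add_assoc, Nat.one_mod_eq_one.2 hr.ne_one]
  have hpowr : ∀ i : ℕ, ∀ c : Fin (n % r), (ρ ^ i) (Sum.inr c) = Sum.inr c := by
    intro i c
    induction i with
    | zero => rfl
    | succ i ih => rw [pow_succ', Equiv.Perm.mul_apply, ih]; rfl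
  refine ⟨e.permCongr ρ, ?_, ?_⟩
  · rw [show e.permCongr ρ = e.permCongrHom ρ from rfl, MulEquiv.orderOf_eq]
    refine orderOf_eq_prime (Equiv.ext ?_) ?_
    · rintro (⟨a, b⟩ | c)
      · rw [hpow]
        simp [Nat.mod_eq_of_lt b.2]
      · rw [hpowr]; rfl
    · intro h
      have h1 := hpow 1 ⟨0, Nat.div_pos hrn hr.pos⟩ ⟨0, hr.pos⟩
      rw [pow_one, h] at h1
      simp [Nat.one_mod_eq_one.2 hr.ne_one] at h1
  · calc _ ≤ (Finset.univ.image fun c : Fin (n % r) => e (Sum.inr c)).card := Finset.card_le_card ?_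
      _ ≤ n % r := Finset.card_image_le.trans (by simp)
    intro x hx
    obtain ⟨y, rfl⟩ := e.surjective x
    replace hx : e (ρ y) = e y := by simpa using (Finset.mem_filter.1 hx).2
    rcases y with ⟨a, b⟩ | c
    · exfalso
      have h1 := (hpow 1 a b).symm.trans (e.injective hx)
      simp [Fin.ext_iff] at h1
      rcases Nat.lt_or_ge (b.1 + 1) r with h | h
      · rw [Nat.mod_eq_of_lt h] at h1; omega
      · have : b.1 + 1 = r := by omega
        rw [this, Nat.mod_self] at h1
        have := hr.two_le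
        omega
    · exact Finset.mem_image_of_mem _ (Finset.mem_univ c)

/-- For a prime `r` dividing `C(n,k)`: all permutations of order `r` fix a `k`-set iff
`k % r ≤ n % r`, and then `r ≤ k`. -/
theorem forall_fixes_subset_iff {n k r : ℕ} (hkn : k ≤ n) (hr : r.Prime)
    (hrd : r ∣ n.choose k) :
    ((∀ σ : Equiv.Perm (Fin n), orderOf σ = r → ∃ s : Finset (Fin n), s.card = k ∧ s.image σ = s)
      ↔ k % r ≤ n % r) ∧ (k % r ≤ n % r → r ≤ k) := by
  have hrk : k % r ≤ n % r → r ≤ k := by
    intro h
    by_contra hlt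
    push Not at hlt
    rw [Nat.mod_eq_of_lt hlt] at h
    have hd : r ∣ n.descFactorial k := by
      rw [Nat.descFactorial_eq_factorial_mul_choose]; exact hrd.mul_left _
    rw [Nat.descFactorial_eq_prod_range] at hd
    obtain ⟨i, hi, hdi⟩ := hr.prime.exists_mem_finset_dvd hd
    rw [Finset.mem_range] at hi
    have h2 : i % r = n % r := (Nat.modEq_iff_dvd' (show i ≤ n by omega)).2 hdi
    rw [Nat.mod_eq_of_lt (show i < r by omega)] at h2
    omega
  refine ⟨⟨fun h => ?_, fun h σ hσ => ?_⟩, hrk⟩
  · have hrn : r ≤ n := by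
      by_contra hlt
      push Not at hlt
      have : r ∣ n.factorial := hrd.trans (Nat.choose_mul_factorial_mul_factorial hkn ▸
        (dvd_mul_right _ _).mul_right _)
      exact absurd ((hr.dvd_factorial).1 this) (by omega)
    obtain ⟨σ, hσ, hfix⟩ := exists_perm_few_fixed hr hrn
    obtain ⟨s, hs, himg⟩ := h σ hσ
    have hmod := card_modEq_card_filter_fixed σ hr (hσ ▸ pow_orderOf_eq_one σ) s himg
    have hle : (s.filter fun x => σ x = x).card ≤ n % r :=
      (Finset.card_le_card (Finset.filter_subset_filter _ (Finset.subset_univ s))).trans hfix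
    rw [hs] at hmod
    rw [hmod, Nat.mod_eq_of_lt (hle.trans_lt (Nat.mod_lt _ hr.pos))]
    exact hle
  · have hpow : σ ^ r = 1 := hσ ▸ pow_orderOf_eq_one σ
    have himg : (Finset.univ : Finset (Fin n)).image σ = Finset.univ :=
      Finset.image_univ_of_surjective σ.surjective
    have hmod := card_modEq_card_filter_fixed σ hr hpow Finset.univ himg
    rw [Finset.card_univ, Fintype.card_fin] at hmod
    obtain ⟨s, -, hs, hsimg⟩ := exists_invariant_subset σ hr hpow k Finset.univ himg
      (by simpa using hkn) (h.trans (by rw [hmod]; exact Nat.mod_le _ _))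
    exact ⟨s, hs, hsimg⟩

end Cfsg.Agent.PermGroups
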