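import Cfsg.Agent.PermGroups.FourSetFStar

/-!
# Four-sets meeting evenly
-/

set_option autoImplicit false
set_option linter.style.haveILetI false
set_option maxHeartbeats 1000000

namespace Cfsg.Agent.PermGroups.FourSetFStar

open Equiv Equiv.Perm Cfsg.Agent.Components Cfsg.Agent.PermGroups.ThreeCycleFStar

/-- Parity conditions against three reference four-sets. -/
def Ev (A : Finset (Fin 8)) : Prop :=
  (A ∩ {7, 6, 5, 4}).card % 2 = 0 ∧ (A ∩ {7, 6, 3, 2}).card % 2 = 0 ∧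
    (A ∩ {7, 5, 3, 1}).card % 2 = 0

instance : DecidablePred Ev := fun A => by unfold Ev; infer_instance

/-- A plane of the affine space of order eight. -/
def Plane (A : Finset (Fin 8)) : Prop := A.card = 4 ∧ Ev A

instance : DecidablePred Plane := fun A => by unfold Plane; infer_instance

theorem trace_cases : ∀ A : Finset (Fin 8), A.card ≤ 4 → Ev A →
    (A.erase 0).card = 0 ∨ (A.erase 0).card = 3 ∨ (A.erase 0).card = 4 := by decide +kernel

theorem trace_three_meet : ∀ A ∈ (Finset.univ : Finset (Finset (Fin 8))).filter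
      (fun A => (0 : Fin 8) ∉ A ∧ A.card = 3 ∧ Ev A),
    ∀ B ∈ (Finset.univ : Finset (Finset (Fin 8))).filter
      (fun A => (0 : Fin 8) ∉ A ∧ A.card = 3 ∧ Ev A),
    (A ∩ B).card = 1 ∨ (A ∩ B).card = 3 := by decide +kernel

/-- The seven planes missing the origin, derived from three of them. -/
theorem plane_no_zero : ∀ A ∈ (Finset.univ : Finset (Finset (Fin 8))).filter
      (fun A => (0 : Fin 8) ∉ A ∧ Plane A),
    A ∈ ([{7, 6, 5, 4}, {7, 6, 3, 2}, {7, 5, 3, 1}, {5, 4, 3, 2}, {6, 4, 3, 1}, {6, 5, 2, 1},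
      {7, 4, 2, 1}] : List (Finset (Fin 8))) := by decide +kernel

theorem plane_zero : ∀ A ∈ (Finset.univ : Finset (Finset (Fin 8))).filter
      (fun A => (0 : Fin 8) ∈ A ∧ Plane A),
    ∀ C ∈ (Finset.univ : Finset (Finset (Fin 8))).filter
      (fun A => (0 : Fin 8) ∈ A ∧ Plane A),
    A = C ∨ ∃ B ∈ (Finset.univ : Finset (Finset (Fin 8))).filter
      (fun A => (0 : Fin 8) ∉ A ∧ Plane A),
      (A ∩ B).card = 2 ∧ C = (A \ B) ∪ (B \ A) := by decide +kernel

theorem plane_mk : ∀ p q s : Fin 8, p ≠ q → p ≠ s → q ≠ s →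
    Plane {p, q, s, p ^^^ q ^^^ s} := by decide +kernel

theorem plane_xor : ∀ p q s t : Fin 8, p ≠ q → p ≠ s → q ≠ s → Plane {p, q, s, t} →
    t = p ^^^ q ^^^ s := by decide +kernel

theorem xor_id : ∀ a b : Fin 8, a ^^^ a ^^^ b = b ∧ a ^^^ b ^^^ a = b ∧ b ^^^ a ^^^ a = b ∧
    (a ^^^ b) ^^^ b = a := by decide +kernel

/-- Translation by `v`. -/
def tr (v : Fin 8) : Perm (Fin 8) :=
  ⟨fun i => i ^^^ v, fun i => i ^^^ v, fun i => (xor_id i v).2.2.2, fun i => (xor_id i v).2.2.2⟩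

theorem xor_zero' : ∀ i : Fin 8, i ^^^ 0 = i ∧ 0 ^^^ i = i := by decide +kernel

theorem xor_comm' : ∀ i j : Fin 8, i ^^^ j = j ^^^ i := by decide +kernel

theorem tr_zero : tr 0 = 1 := by decide +kernel

theorem tr_mul : ∀ v w : Fin 8, tr v * tr w = tr (v ^^^ w) := by decide +kernel

theorem tr_comm : ∀ v w : Fin 8, tr v * tr w = tr w * tr v := by decide +kernel

theorem tr_inv : ∀ v : Fin 8, (tr v)⁻¹ = tr v := by decide +kernel

theorem tr_apply (v i : Fin 8) : tr v i = i ^^^ v := rfl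

theorem tr_split : ∀ v : Fin 8, v ≠ 0 → ∃ c a' c' : Fin 8,
    Plane {0, v, c, c ^^^ v} ∧ Plane {a', a' ^^^ v, c', c' ^^^ v} ∧
      tr v = dt 0 v c (c ^^^ v) * dt a' (a' ^^^ v) c' (c' ^^^ v) := by decide +kernel

variable {α : Type*} [Fintype α] [DecidableEq α] {H : Subgroup (Perm α)}

/-- A four-set inside the moved points. -/
def Fam (H : Subgroup (Perm α)) (S : Finset α) : Prop := Four H S ∧ S ⊆ moved H

theorem fam_image {S : Finset α} (hS : Fam H S) {g : Perm α} (hg : g ∈ H) :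
    Fam H (S.image g) :=
  ⟨four_image hS.1 hg, fun u hu => by
    obtain ⟨v, hv, rfl⟩ := Finset.mem_image.1 hu
    exact (moved_inv g hg v).2 (hS.2 hv)⟩

theorem split_two {S S' : Finset α} (hS : S.card = 4) (hS' : S'.card = 4)
    (h : (S ∩ S').card = 2) : ∃ a b c d e f, S = {a, b, c, d} ∧ S' = {a, b, e, f} ∧
      S \ S' = {c, d} ∧ S' \ S = {e, f} ∧ a ≠ b ∧ c ≠ d ∧ e ≠ f := by
  obtain ⟨a, b, hab, hI⟩ := Finset.card_eq_two.1 h
  have h1 := Finset.card_sdiff_add_card_inter S S'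
  have h2 := Finset.card_sdiff_add_card_inter S' S
  rw [Finset.inter_comm S' S] at h2
  obtain ⟨c, d, hcd, hD⟩ := Finset.card_eq_two.1 (show (S \ S').card = 2 by omega)
  obtain ⟨e, f, hef, hD'⟩ := Finset.card_eq_two.1 (show (S' \ S).card = 2 by omega)
  refine ⟨a, b, c, d, e, f, ?_, ?_, hD, hD', hab, hcd, hef⟩
  · rw [← Finset.sdiff_union_inter S S', hI, hD]; ext; simp; tauto
  · rw [← Finset.sdiff_union_inter S' S, Finset.inter_comm, hI, hD']; ext; simp; tauto

theorem fam_symm {S S' : Finset α} (hS : Fam H S) (hS' : Fam H S')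
    (h : (S ∩ S').card = 2) : Fam H ((S \ S') ∪ (S' \ S)) := by
  obtain ⟨a, b, c, d, e, f, rfl, rfl, hD, hD', hab, hcd, hef⟩ := split_two hS.1.1 hS'.1.1 h
  rw [hD, hD']
  obtain ⟨-, hac, had, hbc, hbd, -⟩ := four_distinct hS.1.1
  obtain ⟨-, hae, haf, hbe, hbf, -⟩ := four_distinct hS'.1.1
  have hc : c ∉ ({a, b, e, f} : Finset α) :=
    (Finset.mem_sdiff.1 (hD ▸ Finset.mem_insert_self c {d})).2
  have hd : d ∉ ({a, b, e, f} : Finset α) :=
    (Finset.mem_sdiff.1 (hD ▸ (by simp : d ∈ ({c, d} : Finset α)))).2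
  simp only [Finset.mem_insert, Finset.mem_singleton, not_or] at hc hd
  have := fam_image hS (hS'.1.2 a e b f (by ext; simp; tauto))
  obtain ⟨e1, -, e3, -⟩ := dt_apply (a := a) (b := e) (c := b) (d := f) hab haf hbe.symm hef
  simp only [Finset.image_insert, Finset.image_singleton, e1, e3,
    dt_fix hc.1 hc.2.2.1 hc.2.1 hc.2.2.2, dt_fix hd.1 hd.2.2.1 hd.2.1 hd.2.2.2] at this
  have heq : ({c, d} : Finset α) ∪ {e, f} = {e, f, c, d} := by ext; simp; tauto
  rwa [heq]

theorem three_of_three {S S' : Finset α} (hS : Fam H S) (hS' : Fam H S')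
    (h : (S ∩ S').card = 3) :
    ∃ t : ↥H, (t : Perm α).IsThreeCycle ∧ ∃ u ∈ moved H, (t : Perm α) u ≠ u := by
  obtain ⟨a, b, c, hab, hac, hbc, hI⟩ := Finset.card_eq_three.1 h
  have h1 := Finset.card_sdiff_add_card_inter S S'
  have h2 := Finset.card_sdiff_add_card_inter S' S
  rw [Finset.inter_comm S' S] at h2
  obtain ⟨d, hD⟩ := Finset.card_eq_one.1 (show (S \ S').card = 1 by have := hS.1.1; omega)
  obtain ⟨e, hD'⟩ := Finset.card_eq_one.1 (show (S' \ S).card = 1 by have := hS'.1.1; omega)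
  have hSe : S = {a, b, c, d} := by
    rw [← Finset.sdiff_union_inter S S', hI, hD]; ext; simp; tauto
  have hSe' : S' = {a, b, c, e} := by
    rw [← Finset.sdiff_union_inter S' S, Finset.inter_comm, hI, hD']; ext; simp; tauto
  subst hSe hSe'
  obtain ⟨-, -, -, -, -, hcd⟩ := four_distinct hS.1.1
  obtain ⟨-, -, -, -, -, hce⟩ := four_distinct hS'.1.1
  have hde : d ≠ e := by
    have hd : d ∉ ({a, b, c, e} : Finset α) :=
      (Finset.mem_sdiff.1 (hD ▸ Finset.mem_singleton_self d)).2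
    simp only [Finset.mem_insert, Finset.mem_singleton, not_or] at hd
    exact hd.2.2.2
  have heq : dt a b c d * dt a b c e = Equiv.swap c d * Equiv.swap c e := by
    have hc : Equiv.swap a b * Equiv.swap c d = Equiv.swap c d * Equiv.swap a b := by
      obtain ⟨-, hac, had, hbc, hbd, -⟩ := four_distinct hS.1.1
      rw [Equiv.mul_swap_eq_swap_mul, Equiv.swap_apply_of_ne_of_ne hac.symm hbc.symm,
        Equiv.swap_apply_of_ne_of_ne had.symm hbd.symm]
    simp only [dt]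
    rw [hc, mul_assoc, ← mul_assoc (Equiv.swap a b), Equiv.swap_mul_self, one_mul]
  refine ⟨⟨_, H.mul_mem (hS.1.2 a b c d rfl) (hS'.1.2 a b c e rfl)⟩, ?_, c, hS.2 (by simp), ?_⟩
  · show (dt a b c d * dt a b c e).IsThreeCycle
    rw [heq]
    exact Equiv.Perm.isThreeCycle_swap_mul_swap_same hcd hce hde
  · show (dt a b c d * dt a b c e) c ≠ c
    rw [heq]
    simp [Equiv.swap_apply_of_ne_of_ne hce.symm hde.symm, hce.symm]

theorem three_of_one {S S' : Finset α} (hS : Fam H S) (hS' : Fam H S')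
    (h : (S ∩ S').card = 1) :
    ∃ t : ↥H, (t : Perm α).IsThreeCycle ∧ ∃ u ∈ moved H, (t : Perm α) u ≠ u := by
  obtain ⟨d, hI⟩ := Finset.card_eq_one.1 h
  have hdS' : d ∈ S' := (Finset.mem_inter.1 (hI ▸ Finset.mem_singleton_self d)).2
  have hdS : d ∈ S := (Finset.mem_inter.1 (hI ▸ Finset.mem_singleton_self d)).1
  obtain ⟨e, f, g, hef, heg, hfg, hE⟩ := Finset.card_eq_three.1
    (show (S'.erase d).card = 3 by rw [Finset.card_erase_of_mem hdS', hS'.1.1])
  have hS'eq : S' = {d, e, f, g} := by rw [← Finset.insert_erase hdS', hE]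
  obtain ⟨hde, hdf, hdg, -, -, -⟩ := four_distinct (a := d) (b := e) (c := f) (d := g)
    (by rw [← hS'eq]; exact hS'.1.1)
  have hout : ∀ u ∈ S, u ≠ d → u ∉ S' := fun u hu hne hu' => hne (by
    have := Finset.mem_inter.2 ⟨hu, hu'⟩
    rwa [hI, Finset.mem_singleton] at this)
  have h2 := fam_image hS (hS'.1.2 d e f g hS'eq.symm)
  refine three_of_three hS h2 ?_
  have hkey : S ∩ S.image (dt d e f g) = S.erase d := by
    ext u
    simp only [Finset.mem_inter, Finset.mem_image, Finset.mem_erase]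
    constructor
    · rintro ⟨hu, v, hv, hvu⟩
      refine ⟨fun hud => ?_, hu⟩
      subst hud
      by_cases hvd : v = u
      · subst hvd
        rw [(dt_apply hdf hdg hef heg).1] at hvu
        exact hde hvu.symm
      · have := hout v hv hvd
        simp only [hS'eq, Finset.mem_insert, Finset.mem_singleton, not_or] at this
        rw [dt_fix this.1 this.2.1 this.2.2.1 this.2.2.2] at hvu
        exact hvd hvu
    · rintro ⟨hud, hu⟩
      have := hout u hu hud
      simp only [hS'eq, Finset.mem_insert, Finset.mem_singleton, not_or] at this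
      exact ⟨hu, u, hu, dt_fix this.1 this.2.1 this.2.2.1 this.2.2.2⟩
  rw [hkey, Finset.card_erase_of_mem hdS, hS.1.1]

section Quasi

variable (hF : Cfsg.IsQuasisimple ↥(Cfsg.generalizedFittingSubgroup ↥H))
variable (P : Sylow 2 ↥(alternatingGroup α))
    (hP : (P : Subgroup ↥(alternatingGroup α)).map (alternatingGroup α).subtype ≤ H)

include hF hP in
/-- The pairwise even configuration leads to an affine group, which is impossible. -/
theorem affine_false (ψ : Fin 8 ↪ α) (hO : ∀ u, u ∈ moved H ↔ u ∈ Set.range ψ)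
    (hall : ∀ A, Plane A → Fam H (A.map ψ)) (honly : ∀ A, Fam H (A.map ψ) → Plane A) : False := by
  classical
  set F := Cfsg.generalizedFittingSubgroup ↥H with hFdef
  haveI : Group.IsPerfect ↥F := hF.1
  set T : Fin 8 → Perm α := fun v => Perm.viaEmbeddingHom ψ (tr v) with hT
  have hTH : ∀ v, T v ∈ H := by
    intro v
    by_cases hv : v = 0
    · simp [hT, hv, tr_zero, H.one_mem]
    obtain ⟨c, a', c', h1, h2, h3⟩ := tr_split v hv
    simp only [hT, h3, map_mul, via_dt]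
    exact H.mul_mem ((hall _ h1).1.2 _ _ _ _ (by simp [Finset.map_insert]))
      ((hall _ h2).1.2 _ _ _ _ (by simp [Finset.map_insert]))
  have hπ : ∀ g : ↥H, ∃ π : Fin 8 → Fin 8, Function.Injective π ∧
      (∀ i, (g : Perm α) (ψ i) = ψ (π i)) ∧
      ∀ a b c, π (a ^^^ b ^^^ c) = π a ^^^ π b ^^^ π c := by
    intro g
    have h : ∀ i, ∃ j, ψ j = (g : Perm α) (ψ i) := fun i =>
      (hO _).1 ((moved_inv _ g.2 _).2 ((hO _).2 ⟨i, rfl⟩))
    choose π hπ using h
    have hinj : Function.Injective π := fun i j hij =>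
      ψ.injective ((g : Perm α).injective (by rw [← hπ, ← hπ, hij]))
    refine ⟨π, hinj, fun i => (hπ i).symm, fun a b c => ?_⟩
    by_cases hab : a = b
    · subst hab; rw [(xor_id a c).1, (xor_id (π a) (π c)).1]
    by_cases hac : a = c
    · subst hac; rw [(xor_id a b).2.1, (xor_id (π a) (π b)).2.1]
    by_cases hbc : b = c
    · subst hbc; rw [(xor_id b a).2.2.1, (xor_id (π b) (π a)).2.2.1]
    have h1 := fam_image (hall _ (plane_mk a b c hab hac hbc)) g.2
    have h2 := honly {π a, π b, π c, π (a ^^^ b ^^^ c)} (by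
      simpa [Finset.map_insert, Finset.image_insert, hπ] using h1)
    exact plane_xor _ _ _ _ (hinj.ne hab) (hinj.ne hac) (hinj.ne hbc) h2
  have hTψ : ∀ v i, T v (ψ i) = ψ (i ^^^ v) := fun v i => by
    simp only [hT, Perm.viaEmbeddingHom_apply, Perm.viaEmbedding_apply, tr_apply]
  have hTout : ∀ v u, u ∉ Set.range ψ → T v u = u := fun v u hu => by
    simp only [hT, Perm.viaEmbeddingHom_apply]
    exact Perm.viaEmbedding_apply_of_notMem _ _ _ hu
  have hTinv : ∀ v, (T v)⁻¹ = T v := fun v => by simp [hT, ← map_inv, tr_inv]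
  have hconj : ∀ (g : ↥H) v, ∃ w, (g : Perm α) * T v * (g : Perm α)⁻¹ = T w := by
    intro g v
    obtain ⟨π, -, h1, h2⟩ := hπ g
    refine ⟨π v ^^^ π 0, ?_⟩
    rw [mul_inv_eq_iff_eq_mul]
    refine Equiv.ext fun u => ?_
    rw [Perm.mul_apply, Perm.mul_apply]
    by_cases hu : u ∈ Set.range ψ
    · obtain ⟨i, rfl⟩ := hu
      rw [hTψ, h1, h1, hTψ]
      congr 1
      have e : i ^^^ v ^^^ 0 = i ^^^ v := (xor_zero' _).1
      rw [← e, h2]
      revert h2
      generalize π i = x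
      generalize π v = y
      generalize π 0 = z
      intro _
      revert x y z
      decide +kernel
    · have hu' : (g : Perm α) u ∉ Set.range ψ := fun h =>
        hu ((hO _).1 ((moved_inv _ g.2 u).1 ((hO _).2 h)))
      rw [hTout v u hu, hTout _ _ hu']
  let Z : Subgroup ↥F :=
    { carrier := {f | ∃ v, ((f : ↥H) : Perm α) = T v}
      one_mem' := ⟨0, by simp [hT, tr_zero]⟩
      mul_mem' := by
        rintro a b ⟨v, hv⟩ ⟨w, hw⟩
        refine ⟨v ^^^ w, ?_⟩
        rw [Subgroup.coe_mul, Subgroup.coe_mul, hv, hw, hT]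
        simp only [← map_mul, tr_mul]
      inv_mem' := by
        rintro a ⟨v, hv⟩
        exact ⟨v, by rw [Subgroup.coe_inv, Subgroup.coe_inv, hv, hTinv]⟩ }
  haveI : Z.Normal := ⟨fun a ⟨v, hv⟩ g => by
    obtain ⟨w, hw⟩ := hconj g.1 v
    exact ⟨w, by simpa [hv] using hw⟩⟩
  have hZtop : Z ≠ ⊤ := by
    intro h
    have hc : ∀ a b : ↥F, a * b = b * a := fun a b => by
      obtain ⟨v, hv⟩ := (SetLike.ext_iff.1 h a).2 (Subgroup.mem_top _)
      obtain ⟨w, hw⟩ := (SetLike.ext_iff.1 h b).2 (Subgroup.mem_top _)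
      refine Subtype.ext (Subtype.ext ?_)
      simp only [Subgroup.coe_mul, hv, hw, hT, ← map_mul, tr_comm v w]
    haveI : Nontrivial ↥F := quasisimple_nontrivial hF
    exact Group.IsPerfect.not_isSolvable ↥F (Group.isSolvable_of_comm hc)
  have hZc := normal_central hF Z hZtop
  have hTF : ∀ v f, f ∈ F → (f : Perm α) * T v = T v * (f : Perm α) := by
    intro v f hf
    have hc : (⟨T v, hTH v⟩ : ↥H) ∈ Subgroup.centralizer (F : Set ↥H) :=
      centralizes_of_comm hF _ fun g hg => hZc (by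
        obtain ⟨w, hw⟩ := hconj g v
        refine ⟨v ^^^ w, ?_⟩
        simp only [Subgroup.coe_mul, Subgroup.coe_inv]
        have hw' : (g : Perm α) * (T v)⁻¹ * (g : Perm α)⁻¹ = T w := by rw [hTinv]; exact hw
        calc T v * (g : Perm α) * (T v)⁻¹ * (g : Perm α)⁻¹
            = T v * ((g : Perm α) * (T v)⁻¹ * (g : Perm α)⁻¹) := by group
          _ = T (v ^^^ w) := by rw [hw', hT]; simp only [← map_mul, tr_mul])
    exact congrArg Subtype.val ((Subgroup.mem_centralizer_iff.1 hc) f hf)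
  refine hZtop (eq_top_iff.2 fun f _ => ?_)
  obtain ⟨π, -, h1, -⟩ := hπ f.1
  refine ⟨π 0, Equiv.ext fun u => ?_⟩
  by_cases hu : u ∈ Set.range ψ
  · obtain ⟨i, rfl⟩ := hu
    have := DFunLike.congr_fun (hTF i f.1 f.2) (ψ 0)
    rw [Perm.mul_apply, Perm.mul_apply, hTψ, h1 0, hTψ, (xor_zero' i).2] at this
    rw [this, hTψ, xor_comm']
  · rw [hTout _ _ hu]
    by_contra hne
    exact hu ((hO u).1 (mem_moved.2 ⟨f.1, f.2, hne⟩))

include hF hP in
/-- Some element of `H` is a three-cycle meeting the moved points. -/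
theorem exists_three (h8 : 8 ≤ (moved H).card) :
    ∃ t : ↥H, (t : Perm α).IsThreeCycle ∧ ∃ u ∈ moved H, (t : Perm α) u ≠ u := by
  classical
  by_contra hno
  set O := moved H with hOdef
  have hOc : (moved H).card = O.card := rfl
  have heven : ∀ S S', Fam H S → Fam H S' → (S ∩ S').card % 2 = 0 := by
    intro S S' hS hS'
    have h4 := Finset.card_le_card (Finset.inter_subset_left (s₁ := S) (s₂ := S'))
    rw [hS.1.1] at h4
    by_contra hodd
    rcases (show (S ∩ S').card = 1 ∨ (S ∩ S').card = 3 by omega) with h | h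
    · exact hno (three_of_one hS hS' h)
    · exact hno (three_of_three hS hS' h)
  obtain ⟨S₀, hS₀, hsub₀⟩ := exists_four P hP moved_inv (show 4 ≤ (moved H).card by omega)
  have hrel := rel_trivial hF P hP
  -- two sets meeting in two points
  obtain ⟨F₁, F₂, hF1, hF2, h12⟩ : ∃ F₁ F₂, Fam H F₁ ∧ Fam H F₂ ∧ (F₁ ∩ F₂).card = 2 := by
    by_contra hn
    push Not at hn
    have hsame : ∀ S S', Fam H S → Fam H S' → ∀ u, u ∈ S → u ∈ S' → S = S' := by
      intro S S' hS hS' u hu hu'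
      have h4 := Finset.card_le_card (Finset.inter_subset_left (s₁ := S) (s₂ := S'))
      rw [hS.1.1] at h4
      have h0 : (S ∩ S').card ≠ 0 := Finset.card_ne_zero_of_mem (Finset.mem_inter.2 ⟨hu, hu'⟩)
      have := heven S S' hS hS'
      have := hn S S' hS hS'
      have e1 := Finset.eq_of_subset_of_card_le (Finset.inter_subset_left (s₁ := S) (s₂ := S'))
        (by rw [hS.1.1]; omega)
      have e2 := Finset.eq_of_subset_of_card_le (Finset.inter_subset_right (s₁ := S) (s₂ := S'))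
        (by rw [hS'.1.1]; omega)
      exact e1.symm.trans e2
    rcases hrel (fun u v => u = v ∨ ∃ S, Fam H S ∧ u ∈ S ∧ v ∈ S)
        ⟨fun u => Or.inl rfl, fun {u v} h => by
            rcases h with rfl | ⟨S, hS, h1, h2⟩
            · exact Or.inl rfl
            · exact Or.inr ⟨S, hS, h2, h1⟩,
          fun {u v w} h h' => by
            rcases h with rfl | ⟨S, hS, h1, h2⟩
            · exact h'
            rcases h' with rfl | ⟨S', hS', h3, h4⟩
            · exact Or.inr ⟨S, hS, h1, h2⟩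
            obtain rfl := hsame S S' hS hS' v h2 h3
            exact Or.inr ⟨S, hS, h1, h4⟩⟩
        (fun g hg u v h => by
          rcases h with rfl | ⟨S, hS, h1, h2⟩
          · exact Or.inl rfl
          · exact Or.inr ⟨_, fam_image hS hg, Finset.mem_image_of_mem g h1,
              Finset.mem_image_of_mem g h2⟩) with h | h
    · obtain ⟨a, b, c, d, rfl, hab, -, -, -, -, -⟩ := four_supp hS₀
      exact hab (h a (hsub₀ (by simp)) b (hsub₀ (by simp))
        (Or.inr ⟨_, ⟨hS₀, hsub₀⟩, by simp, by simp⟩))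
    · obtain ⟨a, b, c, d, hSe, -⟩ := four_supp hS₀
      have ha : a ∈ S₀ := by simp [hSe]
      have := Finset.card_le_card (s := O) (t := S₀) fun u hu => by
        rcases h a (hsub₀ ha) u hu with rfl | ⟨S, hS, h1, h2⟩
        · exact ha
        · rwa [hsame _ _ ⟨hS₀, hsub₀⟩ hS a ha h1]
      rw [hS₀.1] at this
      omega
  obtain ⟨a, b, c, d, e, f, hF1e, hF2e, hD, hD', hab, hcd, hef⟩ :=
    split_two hF1.1.1 hF2.1.1 h12
  -- a third set separating the common pair
  obtain ⟨G, hG, hG2⟩ : ∃ G, Fam H G ∧ ¬ (a ∈ G ↔ b ∈ G) := by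
    by_contra hn
    push Not at hn
    rcases hrel (fun u v => ∀ S, Fam H S → (u ∈ S ↔ v ∈ S))
        ⟨fun _ _ _ => Iff.rfl, fun h S hS => (h S hS).symm,
          fun h h' S hS => (h S hS).trans (h' S hS)⟩
        (fun g hg u v h S hS => by
          have hk : ∀ w, g w ∈ S ↔ w ∈ S.image ⇑g⁻¹ := by
            intro w
            rw [Finset.mem_image]
            exact ⟨fun hw => ⟨g w, hw, by simp⟩, fun ⟨x, hx, hxw⟩ => by
              subst hxw; simpa using hx⟩
          rw [hk u, hk v]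
          exact h _ (fam_image hS (H.inv_mem hg))) with h | h
    · exact hab (h a (hF1.2 (by simp [hF1e])) b (hF1.2 (by simp [hF1e])) fun S hS => hn S hS)
    · have ha : a ∈ F₁ := by simp [hF1e]
      have := Finset.card_le_card (s := O) (t := F₁) fun u hu =>
        (h a (hF1.2 ha) u hu F₁ hF1).1 ha
      rw [hF1.1.1] at this
      omega
  obtain ⟨-, hac, had, hbc, hbd, -⟩ := four_distinct (hF1e ▸ hF1.1.1)
  obtain ⟨-, hae, haf, hbe, hbf, -⟩ := four_distinct (hF2e ▸ hF2.1.1)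
  have hc : c ∉ F₂ := (Finset.mem_sdiff.1 (hD ▸ Finset.mem_insert_self c {d})).2
  have hd : d ∉ F₂ := (Finset.mem_sdiff.1 (hD ▸ (by simp : d ∈ ({c, d} : Finset α)))).2
  simp only [hF2e, Finset.mem_insert, Finset.mem_singleton, not_or] at hc hd
  -- labels
  obtain ⟨p7, p6, p5, p4, p3, p2, p1, hnd, k1, k2, k3, hTO⟩ : ∃ p7 p6 p5 p4 p3 p2 p1 : α,
      [p7, p6, p5, p4, p3, p2, p1].Nodup ∧ Fam H {p7, p6, p5, p4} ∧ Fam H {p7, p6, p3, p2} ∧
      Fam H {p7, p5, p3, p1} ∧ ∀ u ∈ [p7, p6, p5, p4, p3, p2, p1], u ∈ O := by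
    have main : ∀ A B C D E' F' : α, A ≠ B → A ≠ C → A ≠ D → A ≠ E' → A ≠ F' → B ≠ C → B ≠ D →
        B ≠ E' → B ≠ F' → C ≠ D → C ≠ E' → C ≠ F' → D ≠ E' → D ≠ F' → E' ≠ F' →
        Fam H {A, B, C, D} → Fam H {A, B, E', F'} → A ∈ G → B ∉ G → C ∈ G → D ∉ G → E' ∈ G →
        F' ∉ G → ∃ p7 p6 p5 p4 p3 p2 p1 : α,
      [p7, p6, p5, p4, p3, p2, p1].Nodup ∧ Fam H {p7, p6, p5, p4} ∧ Fam H {p7, p6, p3, p2} ∧
      Fam H {p7, p5, p3, p1} ∧ ∀ u ∈ [p7, p6, p5, p4, p3, p2, p1], u ∈ O := by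
      intro A B C D E' F' n1 n2 n3 n4 n5 n6 n7 n8 n9 n10 n11 n12 n13 n14 n15 hh1 hh2 g1 g2 g3
        g4 g5 g6
      obtain ⟨w, hw⟩ := Finset.card_eq_one.1 (show (((G.erase A).erase C).erase E').card = 1 by
        rw [Finset.card_erase_of_mem (by simp [n11.symm, n4.symm, g5]),
          Finset.card_erase_of_mem (by simp [n2.symm, g3]), Finset.card_erase_of_mem g1, hG.1.1])
      have hwm : w ∈ ((G.erase A).erase C).erase E' := hw ▸ Finset.mem_singleton_self w
      simp only [Finset.mem_erase] at hwm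
      obtain ⟨w1, w2, w3, w4⟩ := hwm
      have hGe : G = {A, C, E', w} := by
        rw [← Finset.insert_erase g1, ← Finset.insert_erase (show C ∈ G.erase A by simp [n2.symm, g3]),
          ← Finset.insert_erase (show E' ∈ (G.erase A).erase C by simp [n11.symm, n4.symm, g5]), hw]
      have wB : w ≠ B := fun h => g2 (h ▸ w4)
      have wD : w ≠ D := fun h => g4 (h ▸ w4)
      have wF : w ≠ F' := fun h => g6 (h ▸ w4)
      refine ⟨A, B, C, D, E', F', w, by simp [*, Ne.symm wB, Ne.symm wD, Ne.symm wF, Ne.symm w1,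
        Ne.symm w2, Ne.symm w3], hh1, hh2, hGe ▸ hG, ?_⟩
      intro u hu
      simp only [List.mem_cons, List.not_mem_nil, or_false] at hu
      rcases hu with rfl | rfl | rfl | rfl | rfl | rfl | rfl
      · exact hh1.2 (by simp)
      · exact hh1.2 (by simp)
      · exact hh1.2 (by simp)
      · exact hh1.2 (by simp)
      · exact hh2.2 (by simp)
      · exact hh2.2 (by simp)
      · exact hG.2 w4
    have hodd : ∀ A B C D : α, C ≠ D → Fam H {A, B, C, D} → A ∈ G → B ∉ G → A ≠ C → A ≠ D →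
        (C ∈ G ∧ D ∉ G) ∨ (D ∈ G ∧ C ∉ G) := by
      intro A B C D hCD hh gA gB hAC hAD
      have := heven G _ hG hh
      rw [Finset.inter_comm] at this
      by_cases gC : C ∈ G <;> by_cases gD : D ∈ G
      · simp [gA, gB, gC, gD, hAC, hAD, hCD] at this
      · exact Or.inl ⟨gC, gD⟩
      · exact Or.inr ⟨gD, gC⟩
      · simp [gA, gB, gC, gD] at this
    have hswap : ∀ A B C D : α, ({A, B, C, D} : Finset α) = {A, B, D, C} := fun A B C D => by
      ext; simp; tauto
    rw [hF1e] at hF1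
    rw [hF2e] at hF2
    have choice : ∀ A B : α, A ≠ B → A ≠ c → A ≠ d → A ≠ e → A ≠ f → B ≠ c → B ≠ d → B ≠ e →
        B ≠ f → Fam H {A, B, c, d} → Fam H {A, B, e, f} → A ∈ G → B ∉ G →
        ∃ p7 p6 p5 p4 p3 p2 p1 : α,
      [p7, p6, p5, p4, p3, p2, p1].Nodup ∧ Fam H {p7, p6, p5, p4} ∧ Fam H {p7, p6, p3, p2} ∧
      Fam H {p7, p5, p3, p1} ∧ ∀ u ∈ [p7, p6, p5, p4, p3, p2, p1], u ∈ O := by
      intro A B m0 m1 m2 m3 m4 m5 m6 m7 m8 hh1 hh2 gA gB
      rcases hodd A B c d hcd hh1 gA gB m1 m2 with ⟨g1, g2⟩ | ⟨g1, g2⟩ <;>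
        rcases hodd A B e f hef hh2 gA gB m3 m4 with ⟨g3, g4⟩ | ⟨g3, g4⟩
      · exact main A B c d e f m0 m1 m2 m3 m4 m5 m6 m7 m8 hcd hc.2.2.1 hc.2.2.2 hd.2.2.1
          hd.2.2.2 hef hh1 hh2 gA gB g1 g2 g3 g4
      · exact main A B c d f e m0 m1 m2 m4 m3 m5 m6 m8 m7 hcd hc.2.2.2 hc.2.2.1 hd.2.2.2
          hd.2.2.1 hef.symm hh1 (hswap A B e f ▸ hh2) gA gB g1 g2 g3 g4
      · exact main A B d c e f m0 m2 m1 m3 m4 m6 m5 m7 m8 hcd.symm hd.2.2.1 hd.2.2.2 hc.2.2.1
          hc.2.2.2 hef (hswap A B c d ▸ hh1) hh2 gA gB g1 g2 g3 g4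
      · exact main A B d c f e m0 m2 m1 m4 m3 m6 m5 m8 m7 hcd.symm hd.2.2.2 hd.2.2.1 hc.2.2.2
          hc.2.2.1 hef.symm (hswap A B c d ▸ hh1) (hswap A B e f ▸ hh2) gA gB g1 g2 g3 g4
    by_cases ga : a ∈ G
    · exact choice a b hab hac had hae haf hbc hbd hbe hbf hF1 hF2 ga fun gb => hG2 (iff_of_true ga gb)
    · have gb : b ∈ G := by
        by_contra gb
        exact hG2 (iff_of_false ga gb)
      exact choice b a hab.symm hbc hbd hbe hbf hac had hae haf
        ((Finset.insert_comm b a {c, d}) ▸ hF1) ((Finset.insert_comm b a {e, f}) ▸ hF2) gb ga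
  -- traces
  let T : Finset α := [p7, p6, p5, p4, p3, p2, p1].toFinset
  have hTsub : T ⊆ O := fun u hu => hTO u (List.mem_toFinset.1 hu)
  have hTcard : T.card = 7 := List.toFinset_card_of_nodup hnd
  have hemb : ∀ x, x ∉ T → ∃ ψ : Fin 8 ↪ α, ψ 0 = x ∧ ψ 7 = p7 ∧ ψ 6 = p6 ∧ ψ 5 = p5 ∧
      ψ 4 = p4 ∧ ψ 3 = p3 ∧ ψ 2 = p2 ∧ ψ 1 = p1 := by
    intro x hx
    have hnd' : [x, p1, p2, p3, p4, p5, p6, p7].Nodup := by
      rw [List.nodup_cons]
      refine ⟨fun h => hx (List.mem_toFinset.2 (List.mem_reverse.1 h)), ?_⟩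
      exact List.nodup_reverse.2 hnd
    exact ⟨⟨[x, p1, p2, p3, p4, p5, p6, p7].get, List.nodup_iff_injective_get.1 hnd'⟩,
      rfl, rfl, rfl, rfl, rfl, rfl, rfl, rfl⟩
  have hT : ∀ (ψ : Fin 8 ↪ α), ψ 7 = p7 → ψ 6 = p6 → ψ 5 = p5 → ψ 4 = p4 → ψ 3 = p3 → ψ 2 = p2 →
      ψ 1 = p1 → (Finset.univ.erase (0 : Fin 8)).map ψ = T ∧
      ∀ S, Fam H S → ∃ A : Finset (Fin 8), A.card ≤ 4 ∧ Ev A ∧
        A = (Finset.univ.filter fun i => ψ i ∈ S) ∧ A.map ψ ⊆ S ∧
        (A.erase 0).map ψ = S ∩ T := by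
    intro ψ e7 e6 e5 e4 e3 e2 e1
    have hmapT : (Finset.univ.erase (0 : Fin 8)).map ψ = T := by
      rw [show Finset.univ.erase (0 : Fin 8) = {7, 6, 5, 4, 3, 2, 1} by decide]
      simp [T, Finset.map_insert, e7, e6, e5, e4, e3, e2, e1]
    refine ⟨hmapT, fun S hS => ?_⟩
    set A : Finset (Fin 8) := Finset.univ.filter fun i => ψ i ∈ S with hA
    have hmap : ∀ Q : Finset (Fin 8), (A ∩ Q).map ψ = S ∩ Q.map ψ := by
      intro Q; ext u
      simp only [hA, Finset.mem_map, Finset.mem_inter, Finset.mem_filter, Finset.mem_univ,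
        true_and]
      exact ⟨fun ⟨i, ⟨h1, h2⟩, h3⟩ => h3 ▸ ⟨h1, i, h2, rfl⟩,
        fun ⟨h1, i, h2, h3⟩ => ⟨i, ⟨h3 ▸ h1, h2⟩, h3⟩⟩
    have hsubS : A.map ψ ⊆ S := by
      intro u hu
      obtain ⟨i, hi, rfl⟩ := Finset.mem_map.1 hu
      exact (Finset.mem_filter.1 hi).2
    refine ⟨A, ?_, ⟨?_, ?_, ?_⟩, rfl, hsubS, ?_⟩
    · have := Finset.card_le_card hsubS
      rwa [Finset.card_map, hS.1.1] at this
    · have := heven S _ hS k1
      rw [← Finset.card_map ψ, hmap]
      simpa [Finset.map_insert, e7, e6, e5, e4] using this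
    · have := heven S _ hS k2
      rw [← Finset.card_map ψ, hmap]
      simpa [Finset.map_insert, e7, e6, e3, e2] using this
    · have := heven S _ hS k3
      rw [← Finset.card_map ψ, hmap]
      simpa [Finset.map_insert, e7, e5, e3, e1] using this
    · rw [← hmapT, ← hmap]
      congr 1
      ext i; simp [and_comm]
  -- a point outside `T`, and a set of trace three
  obtain ⟨x, hxO, hxT⟩ : ∃ x ∈ O, x ∉ T := by
    by_contra h
    push Not at h
    have := Finset.card_le_card (s := O) (t := T) h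
    omega
  obtain ⟨ψ', -, d7, d6, d5, d4, d3, d2, d1⟩ := hemb x hxT
  have hcases : ∀ S, Fam H S → (S ∩ T).card = 0 ∨ (S ∩ T).card = 3 ∨ (S ∩ T).card = 4 := by
    intro S hS
    obtain ⟨A, hA4, hev, -, -, hA⟩ := (hT ψ' d7 d6 d5 d4 d3 d2 d1).2 S hS
    rw [← hA, Finset.card_map]
    exact trace_cases A hA4 hev
  have hmeet : ∀ S S', Fam H S → Fam H S' → (S ∩ T).card = 3 → (S' ∩ T).card = 3 →
      ((S ∩ T) ∩ (S' ∩ T)).card = 1 ∨ ((S ∩ T) ∩ (S' ∩ T)).card = 3 := by
    intro S S' hS hS' h3 h3'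
    obtain ⟨A, hA4, hev, -, -, hA⟩ := (hT ψ' d7 d6 d5 d4 d3 d2 d1).2 S hS
    obtain ⟨A', hA4', hev', -, -, hA'⟩ := (hT ψ' d7 d6 d5 d4 d3 d2 d1).2 S' hS'
    have he : ∀ B : Finset (Fin 8), Ev B → Ev (B.erase 0) := by decide +kernel
    rw [← hA, Finset.card_map] at h3
    rw [← hA', Finset.card_map] at h3'
    rw [← hA, ← hA', ← Finset.map_inter, Finset.card_map]
    exact trace_three_meet _ (Finset.mem_filter.2 ⟨Finset.mem_univ _, Finset.notMem_erase _ _, h3,
      he A hev⟩) _ (Finset.mem_filter.2 ⟨Finset.mem_univ _, Finset.notMem_erase _ _, h3',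
      he A' hev'⟩)
  have hclosed : ∀ U : Finset α, (∀ S, Fam H S → (∃ u ∈ S, u ∈ U) → S ⊆ U) →
      (∃ u ∈ U, ∃ v ∈ U, u ≠ v ∧ ∃ S, Fam H S ∧ u ∈ S ∧ v ∈ S) → O ⊆ U := by
    intro U hU ⟨u, huU, v, hvU, huv, S, hS, hu, hv⟩
    let E := fun p q => ∃ S, Fam H S ∧ p ∈ S ∧ q ∈ S
    have hE : ∀ {p q}, E p q → E q p := fun ⟨S, hS, h1, h2⟩ => ⟨S, hS, h2, h1⟩
    rcases hrel (Relation.EqvGen E) (Relation.EqvGen.is_equivalence E)
        (fun g hg p q h => by
          induction h with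
          | rel p q h =>
            obtain ⟨S, hS, h1, h2⟩ := h
            exact Relation.EqvGen.rel _ _ ⟨_, fam_image hS hg, Finset.mem_image_of_mem g h1,
              Finset.mem_image_of_mem g h2⟩
          | refl => exact Relation.EqvGen.refl _
          | symm _ _ _ ih => exact Relation.EqvGen.symm _ _ ih
          | trans _ _ _ _ _ ih1 ih2 => exact Relation.EqvGen.trans _ _ _ ih1 ih2) with h | h
    · exact absurd (h u (hS.2 hu) v (hS.2 hv) (Relation.EqvGen.rel _ _ ⟨S, hS, hu, hv⟩)) huv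
    · intro w hw
      have key : ∀ p q, Relation.EqvGen E p q → (p ∈ U ↔ q ∈ U) := by
        intro p q hpq
        induction hpq with
        | rel p q h =>
          obtain ⟨S, hS, h1, h2⟩ := h
          exact ⟨fun hp => hU S hS ⟨p, h1, hp⟩ h2, fun hq => hU S hS ⟨q, h2, hq⟩ h1⟩
        | refl => exact Iff.rfl
        | symm _ _ _ ih => exact ih.symm
        | trans _ _ _ _ _ ih1 ih2 => exact ih1.trans ih2
      exact (key u w (h u (hS.2 hu) w hw)).1 huU
  have hpair : ∀ U, T ⊆ U → ∃ u ∈ U, ∃ v ∈ U, u ≠ v ∧ ∃ S, Fam H S ∧ u ∈ S ∧ v ∈ S := by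
    intro U hU
    refine ⟨p7, hU (by simp [T]), p6, hU (by simp [T]), ?_, _, k1, by simp, by simp⟩
    simp only [List.nodup_cons, List.mem_cons, not_or] at hnd
    exact hnd.1.1
  obtain ⟨S₃, hS₃, h33⟩ : ∃ S, Fam H S ∧ (S ∩ T).card = 3 := by
    by_contra hn
    push Not at hn
    have := Finset.card_le_card (hclosed T (fun S hS ⟨u, hu, huT⟩ => by
      rcases hcases S hS with h | h | h
      · exact absurd h (Finset.card_ne_zero_of_mem (Finset.mem_inter.2 ⟨hu, huT⟩))
      · exact absurd h (hn S hS)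
      · exact Finset.inter_eq_left.1 (Finset.eq_of_subset_of_card_le Finset.inter_subset_left
          (by rw [hS.1.1, h]))) (hpair T subset_rfl))
    omega
  obtain ⟨z, hz⟩ := Finset.card_eq_one.1 (show (S₃ \ T).card = 1 by
    have := Finset.card_sdiff_add_card_inter S₃ T
    have := hS₃.1.1
    omega)
  obtain ⟨hzS, hzT⟩ := Finset.mem_sdiff.1 (hz ▸ Finset.mem_singleton_self z)
  -- the eight points are everything
  have hU : ∀ S, Fam H S → (∃ u ∈ S, u ∈ insert z T) → S ⊆ insert z T := by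
    intro S hS ⟨u, hu, huU⟩
    rcases hcases S hS with h | h | h
    · exfalso
      have huz : u = z := by
        rcases Finset.mem_insert.1 huU with h' | h'
        · exact h'
        · exact absurd h (Finset.card_ne_zero_of_mem (Finset.mem_inter.2 ⟨hu, h'⟩))
      have h1 : S ∩ S₃ = {z} := by
        ext v
        simp only [Finset.mem_inter, Finset.mem_singleton]
        refine ⟨fun ⟨hv, hv3⟩ => ?_, fun hv => ⟨hv ▸ huz ▸ hu, hv ▸ hzS⟩⟩
        have : v ∈ S₃ \ T := Finset.mem_sdiff.2 ⟨hv3, fun hvT =>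
          Finset.card_ne_zero_of_mem (Finset.mem_inter.2 ⟨hv, hvT⟩) h⟩
        rwa [hz, Finset.mem_singleton] at this
      have := heven S S₃ hS hS₃
      rw [h1] at this
      simp at this
    · intro v hv
      by_contra hvU
      simp only [Finset.mem_insert, not_or] at hvU
      have hST : S \ T = {v} := by
        refine (Finset.eq_of_subset_of_card_le (Finset.singleton_subset_iff.2
          (Finset.mem_sdiff.2 ⟨hv, hvU.2⟩)) ?_).symm
        have := Finset.card_sdiff_add_card_inter S T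
        rw [hS.1.1] at this
        simp; omega
      have h1 : S ∩ S₃ = (S ∩ T) ∩ (S₃ ∩ T) := by
        ext w
        simp only [Finset.mem_inter]
        refine ⟨fun ⟨hw, hw3⟩ => ?_, fun h => ⟨h.1.1, h.2.1⟩⟩
        by_cases hwT : w ∈ T
        · exact ⟨⟨hw, hwT⟩, hw3, hwT⟩
        have e1 : w ∈ S \ T := Finset.mem_sdiff.2 ⟨hw, hwT⟩
        have e2 : w ∈ S₃ \ T := Finset.mem_sdiff.2 ⟨hw3, hwT⟩
        rw [hST, Finset.mem_singleton] at e1
        rw [hz, Finset.mem_singleton] at e2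
        exact absurd (e1.symm.trans e2) hvU.1
      have := heven S S₃ hS hS₃
      rw [h1] at this
      rcases hmeet S S₃ hS hS₃ h h33 with h' | h' <;> omega
    · exact (Finset.inter_eq_left.1 (Finset.eq_of_subset_of_card_le Finset.inter_subset_left
        (by rw [hS.1.1, h]))).trans (Finset.subset_insert _ _)
  have hOU : O ⊆ insert z T := hclosed _ hU (hpair _ (Finset.subset_insert _ _))
  have hUO : insert z T ⊆ O := Finset.insert_subset (hS₃.2 hzS) hTsub
  obtain ⟨ψ, q0, q7, q6, q5, q4, q3, q2, q1⟩ := hemb z hzT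
  obtain ⟨hmT, htr⟩ := hT ψ q7 q6 q5 q4 q3 q2 q1
  have hrange : ∀ u, u ∈ moved H ↔ u ∈ Set.range ψ := by
    intro u
    have : insert z T = Finset.univ.map ψ := by
      rw [← Finset.insert_erase (Finset.mem_univ (0 : Fin 8)), Finset.map_insert, hmT, q0]
    rw [← hOdef, Finset.Subset.antisymm hOU hUO, this]
    simp
  have honly : ∀ A, Fam H (A.map ψ) → Plane A := by
    intro A hA
    obtain ⟨A', -, hev, hA', -, -⟩ := htr _ hA
    have : A' = A := by rw [hA']; ext i; simp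
    exact ⟨by simpa using hA.1.1, this ▸ hev⟩
  have hsymm : ∀ A B : Finset (Fin 8), Fam H (A.map ψ) → Fam H (B.map ψ) → (A ∩ B).card = 2 →
      Fam H (((A \ B) ∪ (B \ A)).map ψ) := by
    intro A B hA hB h
    have := fam_symm hA hB (by rw [← Finset.map_inter, Finset.card_map, h])
    have e : ∀ A B : Finset (Fin 8), (A \ B).map ψ = A.map ψ \ B.map ψ := fun A B => by
      ext u; simp only [Finset.mem_map, Finset.mem_sdiff]
      exact ⟨fun ⟨i, ⟨h1, h2⟩, h3⟩ => ⟨⟨i, h1, h3⟩, fun ⟨j, h4, h5⟩ =>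
        h2 (ψ.injective (h5.trans h3.symm) ▸ h4)⟩,
        fun ⟨⟨i, h1, h3⟩, h2⟩ => ⟨i, ⟨h1, fun h => h2 ⟨i, h, h3⟩⟩, h3⟩⟩
    rwa [Finset.map_union, e, e]
  have r1 : Fam H (({7, 6, 5, 4} : Finset (Fin 8)).map ψ) := by
    simpa [Finset.map_insert, q7, q6, q5, q4] using k1
  have r2 : Fam H (({7, 6, 3, 2} : Finset (Fin 8)).map ψ) := by
    simpa [Finset.map_insert, q7, q6, q3, q2] using k2
  have r3 : Fam H (({7, 5, 3, 1} : Finset (Fin 8)).map ψ) := by
    simpa [Finset.map_insert, q7, q5, q3, q1] using k3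
  have r4 : Fam H (({5, 4, 3, 2} : Finset (Fin 8)).map ψ) := by
    have := hsymm _ _ r1 r2 (by decide)
    rwa [show ({7, 6, 5, 4} : Finset (Fin 8)) \ {7, 6, 3, 2} ∪ {7, 6, 3, 2} \ {7, 6, 5, 4} =
      {5, 4, 3, 2} by decide] at this
  have r5 : Fam H (({6, 4, 3, 1} : Finset (Fin 8)).map ψ) := by
    have := hsymm _ _ r1 r3 (by decide)
    rwa [show ({7, 6, 5, 4} : Finset (Fin 8)) \ {7, 5, 3, 1} ∪ {7, 5, 3, 1} \ {7, 6, 5, 4} =
      {6, 4, 3, 1} by decide] at this
  have r6 : Fam H (({6, 5, 2, 1} : Finset (Fin 8)).map ψ) := by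
    have := hsymm _ _ r4 r5 (by decide)
    rwa [show ({5, 4, 3, 2} : Finset (Fin 8)) \ {6, 4, 3, 1} ∪ {6, 4, 3, 1} \ {5, 4, 3, 2} =
      {6, 5, 2, 1} by decide] at this
  have r7 : Fam H (({7, 4, 2, 1} : Finset (Fin 8)).map ψ) := by
    have := hsymm _ _ r4 r3 (by decide)
    rwa [show ({5, 4, 3, 2} : Finset (Fin 8)) \ {7, 5, 3, 1} ∪ {7, 5, 3, 1} \ {5, 4, 3, 2} =
      {7, 4, 2, 1} by decide] at this
  have hno0 : ∀ A, (0 : Fin 8) ∉ A → Plane A → Fam H (A.map ψ) := by
    intro A h0 hA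
    have := plane_no_zero A (Finset.mem_filter.2 ⟨Finset.mem_univ _, h0, hA⟩)
    simp only [List.mem_cons, List.not_mem_nil, or_false] at this
    rcases this with rfl | rfl | rfl | rfl | rfl | rfl | rfl <;> assumption
  obtain ⟨A₃, -, -, hA₃, hA₃s, -⟩ := htr _ hS₃
  have hA₃eq : A₃.map ψ = S₃ := by
    refine Finset.Subset.antisymm hA₃s fun u hu => ?_
    obtain ⟨i, rfl⟩ := (hrange u).1 (hS₃.2 hu)
    rw [hA₃]; simp [hu]
  refine affine_false hF P hP ψ hrange (fun A hA => ?_) honly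
  by_cases h0 : (0 : Fin 8) ∈ A
  · have h03 : (0 : Fin 8) ∈ A₃ := by
      rw [hA₃]; simp [q0, hzS]
    rcases plane_zero A₃ (Finset.mem_filter.2 ⟨Finset.mem_univ _, h03,
        honly _ (hA₃eq ▸ hS₃)⟩) A (Finset.mem_filter.2 ⟨Finset.mem_univ _, h0, hA⟩) with
      h | ⟨B, hB, hc, hAB⟩
    · rw [← h, hA₃eq]; exact hS₃
    · obtain ⟨-, hB0, hBp⟩ := Finset.mem_filter.1 hB
      rw [hAB]
      exact hsymm _ _ (hA₃eq ▸ hS₃) (hno0 B hB0 hBp) hc
  · exact hno0 A h0 hA

end Quasi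

theorem eight_le {n : ℕ} (hn : 8 ≤ n) {H : Subgroup (Perm (Fin n))}
    (hF : Cfsg.IsQuasisimple ↥(Cfsg.generalizedFittingSubgroup ↥H))
    (P : Sylow 2 ↥(alternatingGroup (Fin n)))
    (hP : (P : Subgroup ↥(alternatingGroup (Fin n))).map (alternatingGroup (Fin n)).subtype ≤ H) :
    8 ≤ (moved H).card := by
  classical
  have hc := moved_compl_card hF P hP
  by_contra h
  push Not at h
  -- the Sylow subgroup embeds into the two symmetric groups
  let φ : ↥H →* Perm {x // x ∈ moved H} × Perm {x // x ∈ (moved H)ᶜ} :=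
    { toFun := fun g => ((g : Perm (Fin n)).subtypePerm (moved_inv _ g.2),
        (g : Perm (Fin n)).subtypePerm (fun u => by simp [moved_inv _ g.2 u]))
      map_one' := Prod.ext (Equiv.ext fun x => Subtype.ext (by simp))
        (Equiv.ext fun x => Subtype.ext (by simp))
      map_mul' := fun a b => Prod.ext (Equiv.ext fun x => Subtype.ext rfl)
        (Equiv.ext fun x => Subtype.ext rfl) }
  have hφ : Function.Injective φ := fun a b hab => by
    refine Subtype.ext (Equiv.ext fun u => ?_)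
    by_cases hu : u ∈ moved H
    · exact congrArg Subtype.val (DFunLike.congr_fun (congrArg Prod.fst hab) ⟨u, hu⟩)
    · exact congrArg Subtype.val
        (DFunLike.congr_fun (congrArg Prod.snd hab) ⟨u, Finset.mem_compl.2 hu⟩)
  let ι : ↥(P : Subgroup ↥(alternatingGroup (Fin n))) →* ↥H :=
    { toFun := fun p => ⟨_, hP ⟨p.1, p.2, rfl⟩⟩
      map_one' := rfl
      map_mul' := fun _ _ => rfl }
  have hι : Function.Injective ι := fun a b hab =>
    Subtype.ext (Subtype.ext (congrArg Subtype.val hab :))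
  have hd := Subgroup.card_dvd_of_injective (φ.comp ι) (hφ.comp hι)
  rw [Nat.card_prod, Nat.card_perm, Nat.card_perm, Nat.card_eq_finsetCard,
    Nat.card_eq_finsetCard] at hd
  have h64 : 2 ^ 6 ∣ Nat.card ↥(alternatingGroup (Fin n)) := by
    haveI : Nontrivial (Fin n) := Fin.nontrivial_iff_two_le.2 (by omega)
    have h2 := two_mul_nat_card_alternatingGroup (α := Fin n)
    rw [Nat.card_perm, Nat.card_fin] at h2
    have : 2 * 2 ^ 6 ∣ 2 * Nat.card ↥(alternatingGroup (Fin n)) := by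
      rw [h2]
      exact (show 2 * 2 ^ 6 ∣ Nat.factorial 8 by decide).trans (Nat.factorial_dvd_factorial hn)
    exact Nat.dvd_of_mul_dvd_mul_left (by norm_num) this
  have h64' := (P.pow_dvd_card_of_pow_dvd_card h64).trans hd
  revert h64' h hc
  generalize (moved H).card = s
  generalize (moved H)ᶜ.card = t
  intro ht hs hdvd
  revert hdvd
  interval_cases s <;> interval_cases t <;> decide

end Cfsg.Agent.PermGroups.FourSetFStar
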