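import Cfsg.Agent.PermGroups.ThreeCycleFStar

/-!
# Overgroups of Sylow two-subgroups of alternating groups with quasisimple F*

Four-sets carrying a Klein group inside `H`, their parity configuration, and the resulting
three-cycle.
-/

set_option autoImplicit false
set_option linter.style.haveILetI false
set_option maxHeartbeats 1000000

namespace Cfsg.Agent.PermGroups.FourSetFStar

open Equiv Equiv.Perm Cfsg.Agent.Components Cfsg.Agent.PermGroups.ThreeCycleFStar

variable {α : Type*} [Fintype α] [DecidableEq α]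

/-- A product of two transpositions. -/
def dt (a b c d : α) : Perm α := Equiv.swap a b * Equiv.swap c d

omit [Fintype α] in
theorem conj_dt (g : Perm α) (a b c d : α) :
    g * dt a b c d * g⁻¹ = dt (g a) (g b) (g c) (g d) := by
  rw [dt, dt, Equiv.swap_apply_apply, Equiv.swap_apply_apply]
  group

omit [Fintype α] in
theorem dt_fix {a b c d u : α} (ha : u ≠ a) (hb : u ≠ b) (hc : u ≠ c) (hd : u ≠ d) :
    dt a b c d u = u := by
  simp [dt, Equiv.swap_apply_of_ne_of_ne, ha, hb, hc, hd]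

omit [Fintype α] in
theorem dt_apply {a b c d : α} (hac : a ≠ c) (had : a ≠ d) (hbc : b ≠ c) (hbd : b ≠ d) :
    dt a b c d a = b ∧ dt a b c d b = a ∧ dt a b c d c = d ∧ dt a b c d d = c := by
  simp [dt, Equiv.swap_apply_of_ne_of_ne, hac, hac.symm, had, had.symm, hbc, hbc.symm, hbd,
    hbd.symm]

theorem four_distinct {a b c d : α} (h : ({a, b, c, d} : Finset α).card = 4) :
    a ≠ b ∧ a ≠ c ∧ a ≠ d ∧ b ≠ c ∧ b ≠ d ∧ c ≠ d := by
  have k2 : ∀ x y z : α, ({x, y, z} : Finset α).card ≤ 3 := fun x y z => Finset.card_le_three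
  refine ⟨?_, ?_, ?_, ?_, ?_, ?_⟩ <;> rintro rfl
  · have := k2 a c d; simp at h; omega
  · have h' : ({a, b, a, d} : Finset α) = {a, b, d} := by ext; simp; tauto
    have := k2 a b d; rw [h'] at h; omega
  · have h' : ({a, b, c, a} : Finset α) = {a, b, c} := by ext; simp; tauto
    have := k2 a b c; rw [h'] at h; omega
  · have h' : ({a, b, b, d} : Finset α) = {a, b, d} := by ext; simp
    have := k2 a b d; rw [h'] at h; omega
  · have h' : ({a, b, c, b} : Finset α) = {a, b, c} := by ext; simp; tauto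
    have := k2 a b c; rw [h'] at h; omega
  · have h' : ({a, b, c, c} : Finset α) = {a, b, c} := by ext; simp
    have := k2 a b c; rw [h'] at h; omega

variable {H : Subgroup (Perm α)}

/-- The group `H` contains the Klein group on the four-set `S`. -/
def Four (H : Subgroup (Perm α)) (S : Finset α) : Prop :=
  S.card = 4 ∧ ∀ a b c d : α, ({a, b, c, d} : Finset α) = S → dt a b c d ∈ H

omit [Fintype α] in
theorem four_image {S : Finset α} (hS : Four H S) {g : Perm α} (hg : g ∈ H) :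
    Four H (S.image g) := by
  refine ⟨by rw [Finset.card_image_of_injective _ g.injective, hS.1], fun a b c d h => ?_⟩
  have h' : ({g⁻¹ a, g⁻¹ b, g⁻¹ c, g⁻¹ d} : Finset α) = S := by
    have := congrArg (Finset.image ⇑g⁻¹) h
    rw [Finset.image_image] at this
    simpa [Finset.image_insert] using this
  have := H.mul_mem (H.mul_mem hg (hS.2 _ _ _ _ h')) (H.inv_mem hg)
  simpa [conj_dt] using this

/-! ### Existence of four-sets -/

/-- The Klein group on four letters. -/
def klein : Subgroup (Perm (Fin 4)) where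
  carrier := {p | p = 1 ∨ p = dt 0 1 2 3 ∨ p = dt 0 2 1 3 ∨ p = dt 0 3 1 2}
  one_mem' := Or.inl rfl
  mul_mem' := by
    intro a b ha hb
    simp only [Set.mem_setOf_eq] at ha hb ⊢
    rcases ha with rfl | rfl | rfl | rfl <;> rcases hb with rfl | rfl | rfl | rfl <;> decide
  inv_mem' := by
    intro a ha
    simp only [Set.mem_setOf_eq] at ha ⊢
    rcases ha with rfl | rfl | rfl | rfl <;> decide

theorem klein_sq : ∀ p ∈ klein, p ^ 2 = 1 ∧ Equiv.Perm.sign p = 1 := by
  intro p hp
  rcases hp with rfl | rfl | rfl | rfl <;> decide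

theorem klein_dt (i j k l : Fin 4) (h : i ≠ j ∧ i ≠ k ∧ i ≠ l ∧ j ≠ k ∧ j ≠ l ∧ k ≠ l) :
    dt i j k l ∈ klein := by
  show dt i j k l = 1 ∨ dt i j k l = dt 0 1 2 3 ∨ dt i j k l = dt 0 2 1 3 ∨
    dt i j k l = dt 0 3 1 2
  revert h i j k l
  decide +kernel

omit [Fintype α] in
theorem via_swap {k : ℕ} (e : Fin k ↪ α) (i j : Fin k) :
    Perm.viaEmbeddingHom e (Equiv.swap i j) = Equiv.swap (e i) (e j) := by
  ext u
  rw [Perm.viaEmbeddingHom_apply]
  by_cases hu : u ∈ Set.range e
  · obtain ⟨m, rfl⟩ := hu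
    rw [Perm.viaEmbedding_apply, e.injective.swap_apply]
  · rw [Perm.viaEmbedding_apply_of_notMem _ _ _ hu,
      Equiv.swap_apply_of_ne_of_ne (fun h => hu ⟨i, h.symm⟩) (fun h => hu ⟨j, h.symm⟩)]

omit [Fintype α] in
theorem via_dt {k : ℕ} (e : Fin k ↪ α) (i j l m : Fin k) :
    Perm.viaEmbeddingHom e (dt i j l m) = dt (e i) (e j) (e l) (e m) := by
  rw [dt, map_mul, via_swap, via_swap]; rfl

/-- The setwise stabiliser of `B` in the alternating group. -/
def altStab (B : Finset α) : Subgroup ↥(alternatingGroup α) where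
  carrier := {g | ∀ u, (g : Perm α) u ∈ B ↔ u ∈ B}
  one_mem' := by intro u; simp
  mul_mem' := by intro a b ha hb u; rw [Subgroup.coe_mul, Perm.mul_apply, ha, hb]
  inv_mem' := by
    intro a ha u
    have := ha ((a : Perm α)⁻¹ u)
    rw [apply_inv] at this
    rw [Subgroup.coe_inv]
    exact this.symm

theorem exists_four (P : Sylow 2 ↥(alternatingGroup α))
    (hP : (P : Subgroup ↥(alternatingGroup α)).map (alternatingGroup α).subtype ≤ H)
    {B : Finset α} (hB : ∀ h ∈ H, ∀ u, h u ∈ B ↔ u ∈ B) (h4 : 4 ≤ B.card) :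
    ∃ S, Four H S ∧ S ⊆ B := by
  obtain ⟨S₀, hS₀, hc⟩ := Finset.exists_subset_card_eq h4
  let e : Fin 4 ↪ α := (S₀.equivFinOfCardEq hc).symm.toEmbedding.trans
    (Function.Embedding.subtype _)
  have he : ∀ i, e i ∈ B := fun i => hS₀ ((S₀.equivFinOfCardEq hc).symm i).2
  have hsgn : ∀ p ∈ klein, Perm.viaEmbeddingHom e p ∈ alternatingGroup α := by
    intro p hp
    have hs : ∀ i j, i ≠ j → Equiv.Perm.sign (Perm.viaEmbeddingHom e (Equiv.swap i j)) = -1 :=
      fun i j hij => by rw [via_swap, Perm.sign_swap (e.injective.ne hij)]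
    rw [Perm.mem_alternatingGroup]
    rcases hp with rfl | rfl | rfl | rfl
    · simp
    all_goals rw [dt, map_mul, map_mul, hs _ _ (by decide), hs _ _ (by decide)]; decide
  have hstab : ∀ p (hp : p ∈ klein), (⟨_, hsgn p hp⟩ : ↥(alternatingGroup α)) ∈ altStab B := by
    intro p hp u
    show Perm.viaEmbeddingHom e p u ∈ B ↔ u ∈ B
    rw [Perm.viaEmbeddingHom_apply]
    by_cases hu : u ∈ Set.range e
    · obtain ⟨m, rfl⟩ := hu
      rw [Perm.viaEmbedding_apply]
      simp [he]
    · rw [Perm.viaEmbedding_apply_of_notMem _ _ _ hu]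
  let ψ : ↥klein →* ↥(altStab B) :=
    { toFun := fun p => ⟨⟨_, hsgn p.1 p.2⟩, hstab p.1 p.2⟩
      map_one' := Subtype.ext (Subtype.ext (by simp))
      map_mul' := fun p q => Subtype.ext (Subtype.ext (by simp)) }
  have hV : IsPGroup 2 ↥ψ.range := by
    refine IsPGroup.of_surjective ?_ ψ.rangeRestrict ψ.rangeRestrict_surjective
    exact fun p => ⟨1, Subtype.ext (by simpa using (klein_sq p.1 p.2).1)⟩
  obtain ⟨Q, hQ⟩ := hV.exists_le_sylow
  have hPle : (P : Subgroup ↥(alternatingGroup α)) ≤ altStab B := fun p hp =>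
    hB _ (hP ⟨p, hp, rfl⟩)
  obtain ⟨g, hg⟩ := MulAction.exists_smul_eq ↥(altStab B) Q (P.subtype hPle)
  set G : Perm α := ((g : ↥(alternatingGroup α)) : Perm α) with hG
  have hmem : ∀ p ∈ klein, G * Perm.viaEmbeddingHom e p * G⁻¹ ∈ H := by
    intro p hp
    have h1 : MulAut.conj g (ψ ⟨p, hp⟩) ∈ ((g • Q : Sylow 2 ↥(altStab B)) : Subgroup _) :=
      Subgroup.smul_mem_pointwise_smul (ψ ⟨p, hp⟩) (MulAut.conj g) (Q : Subgroup _) (hQ ⟨_, rfl⟩)
    rw [hg] at h1
    exact hP ⟨_, h1, rfl⟩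
  refine ⟨Finset.univ.image fun i => G (e i),
    ⟨?_, fun a b c d h => ?_⟩, ?_⟩
  · rw [Finset.card_image_of_injective _ (fun i j hij => e.injective (G.injective hij))]; rfl
  · have hin : ∀ x ∈ ({a, b, c, d} : Finset α), ∃ i, G (e i) = x := by
      intro x hx; rw [h] at hx; simpa using hx
    obtain ⟨i, rfl⟩ := hin a (by simp)
    obtain ⟨j, rfl⟩ := hin b (by simp)
    obtain ⟨k, rfl⟩ := hin c (by simp)
    obtain ⟨l, rfl⟩ := hin d (by simp)
    obtain ⟨h1, h2, h3, h4, h5, h6⟩ := four_distinct (α := α) (by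
      rw [h, Finset.card_image_of_injective _ (fun i j hij => e.injective (G.injective hij))]; rfl)
    rw [← conj_dt, ← via_dt]
    refine hmem _ (klein_dt i j k l ⟨?_, ?_, ?_, ?_, ?_, ?_⟩) <;> rintro rfl
    exacts [h1 rfl, h2 rfl, h3 rfl, h4 rfl, h5 rfl, h6 rfl]
  · intro x hx
    obtain ⟨i, -, rfl⟩ := Finset.mem_image.1 hx
    exact (g.2 (e i)).2 (he i)

/-! ### Consequences of quasisimplicity -/

section Quasi

variable (hF : Cfsg.IsQuasisimple ↥(Cfsg.generalizedFittingSubgroup ↥H))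

include hF in
theorem centralizes_of_comm (x : ↥H)
    (hx : ∀ f (hf : f ∈ Cfsg.generalizedFittingSubgroup ↥H),
      (⟨x * f * x⁻¹ * f⁻¹, (Cfsg.generalizedFittingSubgroup ↥H).mul_mem
        (Subgroup.Normal.conj_mem inferInstance f hf x)
        ((Cfsg.generalizedFittingSubgroup ↥H).inv_mem hf)⟩ :
          ↥(Cfsg.generalizedFittingSubgroup ↥H)) ∈ Subgroup.center _) :
    x ∈ Subgroup.centralizer (Cfsg.generalizedFittingSubgroup ↥H : Set ↥H) := by
  set F := Cfsg.generalizedFittingSubgroup ↥H with hFdef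
  haveI : Group.IsPerfect ↥F := hF.1
  let φ : ↥F →* ↥(Subgroup.center ↥F) :=
    { toFun := fun f => ⟨_, hx f.1 f.2⟩
      map_one' := Subtype.ext (Subtype.ext (by simp))
      map_mul' := fun f g => by
        refine Subtype.ext (Subtype.ext ?_)
        show x * (f.1 * g.1) * x⁻¹ * (f.1 * g.1)⁻¹ =
          (x * f.1 * x⁻¹ * f.1⁻¹) * (x * g.1 * x⁻¹ * g.1⁻¹)
        have hc := congrArg Subtype.val (Subgroup.mem_center_iff.1 (hx g.1 g.2) f)
        change f.1 * (x * g.1 * x⁻¹ * g.1⁻¹) = (x * g.1 * x⁻¹ * g.1⁻¹) * f.1 at hc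
        calc x * (f.1 * g.1) * x⁻¹ * (f.1 * g.1)⁻¹
            = (x * f.1 * x⁻¹) * ((x * g.1 * x⁻¹ * g.1⁻¹) * f.1⁻¹) := by group
          _ = (x * f.1 * x⁻¹) * (f.1⁻¹ * (f.1 * (x * g.1 * x⁻¹ * g.1⁻¹)) * f.1⁻¹) := by group
          _ = (x * f.1 * x⁻¹ * f.1⁻¹) * (x * g.1 * x⁻¹ * g.1⁻¹) := by rw [hc]; group }
  have hbot : φ.ker = ⊤ := by
    by_contra h
    haveI : Group.IsPerfect ↥φ.range :=
      Group.IsPerfect.ofSurjective φ.rangeRestrict_surjective
    have hne : Nontrivial ↥φ.range := by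
      rw [Subgroup.nontrivial_iff_ne_bot]
      rwa [Ne, MonoidHom.range_eq_bot_iff, ← MonoidHom.ker_eq_top_iff]
    exact Group.IsPerfect.not_isSolvable ↥φ.range (inferInstance)
  rw [Subgroup.mem_centralizer_iff]
  intro f hf
  have : φ ⟨f, hf⟩ = 1 := (SetLike.ext_iff.1 hbot _).2 (Subgroup.mem_top _)
  have h1 : x * f * x⁻¹ * f⁻¹ = 1 := congrArg (fun z => z.1.1) this
  rw [mul_inv_eq_one, mul_inv_eq_iff_eq_mul] at h1
  exact h1.symm

include hF in
theorem normal_central (N : Subgroup ↥(Cfsg.generalizedFittingSubgroup ↥H)) [N.Normal]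
    (hN : N ≠ ⊤) : N ≤ Subgroup.center _ :=
  (quasisimple_normal_eq_top_or_le_center hF N).resolve_left hN

include hF in
theorem eq_one_of_centralizes (x : ↥H)
    (hx : x ∈ Subgroup.centralizer (Cfsg.generalizedFittingSubgroup ↥H : Set ↥H))
    (hsupp : (x : Perm α).support.card ≤ 4) : x = 1 := by
  classical
  set F := Cfsg.generalizedFittingSubgroup ↥H with hFdef
  haveI : Group.IsPerfect ↥F := hF.1
  have hxF : x ∈ F := centralizer_generalizedFitting_le hx
  have hc : ∀ f ∈ F, ∀ v, (f : Perm α) ((x : Perm α) v) = (x : Perm α) ((f : Perm α) v) :=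
    fun f hf v => DFunLike.congr_fun (congrArg Subtype.val
      ((Subgroup.mem_centralizer_iff.1 hx) f hf)) v
  have hS : ∀ f ∈ F, ∀ v, (f : Perm α) v ∈ (x : Perm α).support ↔ v ∈ (x : Perm α).support := by
    intro f hf v
    rw [Perm.mem_support, Perm.mem_support, ← hc f hf v, (f : Perm α).injective.ne_iff]
  have hsol : Group.IsSolvable ↥(restr (x : Perm α).support F hS).range := by
    haveI := Cfsg.Agent.FGS4.isSolvable_perm_of_card_le_four
      (α := {y // y ∈ (x : Perm α).support}) (by rw [Fintype.card_coe]; exact hsupp)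
    infer_instance
  refine Subtype.ext (Equiv.ext fun u => ?_)
  by_cases hu : u ∈ (x : Perm α).support
  · exact restr_trivial hS hsol x hxF u hu
  · simpa [Perm.mem_support] using hu

include hF in
/-- An element of small support fixing pointwise an invariant set moved by `F*` is trivial. -/
theorem eq_one_of_fix (x : ↥H) (hsupp : (x : Perm α).support.card ≤ 4) (B : Set α)
    (hB : ∀ f ∈ Cfsg.generalizedFittingSubgroup ↥H, ∀ u ∈ B, (f : Perm α) u ∈ B)
    (hmove : ∃ f ∈ Cfsg.generalizedFittingSubgroup ↥H, ∃ u ∈ B, (f : Perm α) u ≠ u)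
    (hx : ∀ u ∈ B, (x : Perm α) u = u) : x = 1 := by
  set F := Cfsg.generalizedFittingSubgroup ↥H with hFdef
  let N : Subgroup ↥F :=
    { carrier := {f | ∀ u ∈ B, ((f : ↥H) : Perm α) u = u}
      one_mem' := by intro u _; simp
      mul_mem' := by
        intro a b ha hb u hu
        simp only [Subgroup.coe_mul, Perm.mul_apply]
        rw [hb u hu, ha u hu]
      inv_mem' := by
        intro a ha u hu
        simp only [Subgroup.coe_inv]
        rw [Perm.inv_eq_iff_eq, ha u hu] }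
  haveI : N.Normal := ⟨fun a ha g u hu => by
    have hu' := hB _ (F.inv_mem g.2) u hu
    simp only [Subgroup.coe_mul, Perm.mul_apply, Subgroup.coe_inv] at hu' ⊢
    rw [ha _ hu', apply_inv]⟩
  have hN : N ≠ ⊤ := by
    intro h
    obtain ⟨f, hf, u, hu, hne⟩ := hmove
    exact hne ((SetLike.ext_iff.1 h ⟨f, hf⟩).2 (Subgroup.mem_top _) u hu)
  refine eq_one_of_centralizes hF x (centralizes_of_comm hF x fun f hf =>
    normal_central hF N hN ?_) hsupp
  intro u hu
  have hu' := hB _ (F.inv_mem hf) u hu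
  simp only [Subgroup.coe_mul, Perm.mul_apply, Subgroup.coe_inv] at hu' ⊢
  have h1 : (x : Perm α)⁻¹ ((f : Perm α)⁻¹ u) = (f : Perm α)⁻¹ u := by
    rw [Perm.inv_eq_iff_eq, hx _ hu']
  rw [h1, apply_inv, hx u hu]

/-- The points moved by `F*`. -/
noncomputable def moved (H : Subgroup (Perm α)) : Finset α := by
  classical
  exact Finset.univ.filter fun u => ∃ f ∈ Cfsg.generalizedFittingSubgroup ↥H, (f : Perm α) u ≠ u

theorem mem_moved {u : α} :
    u ∈ moved H ↔ ∃ f ∈ Cfsg.generalizedFittingSubgroup ↥H, (f : Perm α) u ≠ u := by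
  classical
  simp [moved]

theorem moved_inv : ∀ h ∈ H, ∀ u, h u ∈ moved H ↔ u ∈ moved H := by
  have key : ∀ h ∈ H, ∀ u, u ∈ moved H → h u ∈ moved H := by
    intro h hh u hu
    obtain ⟨f, hf, hne⟩ := mem_moved.1 hu
    refine mem_moved.2 ⟨⟨h, hh⟩ * f * (⟨h, hh⟩ : ↥H)⁻¹,
      Subgroup.Normal.conj_mem inferInstance f hf _, ?_⟩
    simpa using hne
  intro h hh u
  exact ⟨fun hu => by simpa using key h⁻¹ (H.inv_mem hh) _ hu, key h hh u⟩

theorem four_supp {S : Finset α} (hS : Four H S) :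
    ∃ a b c d, S = {a, b, c, d} ∧ a ≠ b ∧ a ≠ c ∧ a ≠ d ∧ b ≠ c ∧ b ≠ d ∧ c ≠ d := by
  obtain ⟨a, t, hat, rfl, ht⟩ := Finset.card_eq_succ.1 hS.1
  obtain ⟨b, c, d, hbc, hbd, hcd, rfl⟩ := Finset.card_eq_three.1 ht
  simp only [Finset.mem_insert, Finset.mem_singleton, not_or] at hat
  exact ⟨a, b, c, d, rfl, hat.1, hat.2.1, hat.2.2, hbc, hbd, hcd⟩

theorem dt_support_card (a b c d : α) : (dt a b c d).support.card ≤ 4 := by
  refine (Finset.card_le_card (t := {a, b, c, d}) fun u hu => ?_).trans Finset.card_le_four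
  by_contra h
  simp only [Finset.mem_insert, Finset.mem_singleton, not_or] at h
  exact Perm.mem_support.1 hu (dt_fix h.1 h.2.1 h.2.2.1 h.2.2.2)

theorem dt_ne_one {a b c d : α} (hab : a ≠ b) (hac : a ≠ c) (had : a ≠ d) (hbc : b ≠ c)
    (hbd : b ≠ d) : dt a b c d ≠ 1 := by
  intro h
  have := (dt_apply hac had hbc hbd).1
  rw [h] at this
  exact hab this

include hF in
theorem no_four_fixing {S : Finset α} (hS : Four H S) (B : Set α)
    (hB : ∀ f ∈ Cfsg.generalizedFittingSubgroup ↥H, ∀ u ∈ B, (f : Perm α) u ∈ B)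
    (hmove : ∃ f ∈ Cfsg.generalizedFittingSubgroup ↥H, ∃ u ∈ B, (f : Perm α) u ≠ u) :
    ∃ u ∈ S, u ∈ B := by
  by_contra hno
  push Not at hno
  obtain ⟨a, b, c, d, rfl, hab, hac, had, hbc, hbd, hcd⟩ := four_supp hS
  have hx := eq_one_of_fix hF ⟨dt a b c d, hS.2 a b c d rfl⟩ (dt_support_card a b c d) B hB
    hmove (fun u hu => by
      have h := fun v hv (e : u = v) => hno v hv (e ▸ hu)
      exact dt_fix (h a (by simp)) (h b (by simp)) (h c (by simp)) (h d (by simp)))
  exact dt_ne_one hab hac had hbc hbd (congrArg Subtype.val hx)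

variable (P : Sylow 2 ↥(alternatingGroup α))
    (hP : (P : Subgroup ↥(alternatingGroup α)).map (alternatingGroup α).subtype ≤ H)

include hF in
theorem exists_moved : ∃ f ∈ Cfsg.generalizedFittingSubgroup ↥H, ∃ u, (f : Perm α) u ≠ u := by
  haveI : Nontrivial ↥(Cfsg.generalizedFittingSubgroup ↥H) := quasisimple_nontrivial hF
  obtain ⟨f, hf⟩ := exists_ne (1 : ↥(Cfsg.generalizedFittingSubgroup ↥H))
  refine ⟨f.1, f.2, ?_⟩
  by_contra h
  push Not at h
  exact hf (Subtype.ext (Subtype.ext (Equiv.ext h)))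

include hF in
/-- A nonempty invariant subset of the moved points has at least five points. -/
theorem five_le {B : Finset α}
    (hB : ∀ f ∈ Cfsg.generalizedFittingSubgroup ↥H, ∀ u, (f : Perm α) u ∈ B ↔ u ∈ B)
    (hne : ∃ u ∈ B, u ∈ moved H) : 5 ≤ B.card := by
  classical
  haveI : Group.IsPerfect ↥(Cfsg.generalizedFittingSubgroup ↥H) := hF.1
  by_contra h
  obtain ⟨u, hu, hum⟩ := hne
  obtain ⟨f, hf, hfu⟩ := mem_moved.1 hum
  have hsol : Group.IsSolvable ↥(restr B (Cfsg.generalizedFittingSubgroup ↥H) hB).range := by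
    haveI := Cfsg.Agent.FGS4.isSolvable_perm_of_card_le_four
      (α := {y // y ∈ B}) (by rw [Fintype.card_coe]; omega)
    infer_instance
  exact hfu (restr_trivial hB hsol f hf u hu)

include hF hP in
theorem moved_compl_card : (moved H)ᶜ.card ≤ 3 := by
  by_contra h
  have hinv : ∀ g ∈ H, ∀ u, g u ∈ (moved H)ᶜ ↔ u ∈ (moved H)ᶜ := by
    intro g hg u
    simp only [Finset.mem_compl, moved_inv g hg u]
  obtain ⟨S, hS, hsub⟩ := exists_four P hP hinv (by omega)
  obtain ⟨f, hf, v, hv⟩ := exists_moved hF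
  obtain ⟨u, huS, huB⟩ := no_four_fixing hF hS {u | u ∈ moved H}
    (fun g hg u hu => (moved_inv _ g.2 u).2 hu) ⟨f, hf, v, mem_moved.2 ⟨f, hf, hv⟩, hv⟩
  exact Finset.mem_compl.1 (hsub huS) huB

include hF hP in
theorem transitive {a b : α} (ha : a ∈ moved H) (hb : b ∈ moved H) : ∃ h ∈ H, h a = b := by
  classical
  by_contra hno
  push Not at hno
  let B : Finset α := Finset.univ.filter fun u => ∃ h ∈ H, h a = u
  have hBi : ∀ g ∈ H, ∀ u, g u ∈ B ↔ u ∈ B := by
    intro g hg u
    simp only [B, Finset.mem_filter, Finset.mem_univ, true_and]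
    constructor
    · rintro ⟨h, hh, he⟩
      exact ⟨g⁻¹ * h, H.mul_mem (H.inv_mem hg) hh, by simp [he]⟩
    · rintro ⟨h, hh, rfl⟩
      exact ⟨g * h, H.mul_mem hg hh, rfl⟩
  have h5 := five_le hF (B := B) (fun f _ => hBi _ f.2)
    ⟨a, by simp only [B, Finset.mem_filter, Finset.mem_univ, true_and]; exact ⟨1, H.one_mem, rfl⟩,
      ha⟩
  obtain ⟨S, hS, hsub⟩ := exists_four P hP hBi (by omega)
  obtain ⟨f, hf, hfb⟩ := mem_moved.1 hb
  obtain ⟨u, huS, huB⟩ := no_four_fixing hF hS {u | ∃ h ∈ H, h b = u}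
    (fun g _ u hu => by
      obtain ⟨h, hh, rfl⟩ := hu
      exact ⟨(g : Perm α) * h, H.mul_mem g.2 hh, rfl⟩) ⟨f, hf, b, ⟨1, H.one_mem, rfl⟩, hfb⟩
  obtain ⟨h, hh, rfl⟩ := huB
  have := hsub huS
  simp only [B, Finset.mem_filter, Finset.mem_univ, true_and] at this
  obtain ⟨k, hk, hka⟩ := this
  exact hno (h⁻¹ * k) (H.mul_mem (H.inv_mem hh) hk) (by simp [hka])

include hF hP in
/-- Invariant equivalence relations are trivial on the moved points. -/
theorem rel_trivial (r : α → α → Prop) (hr : Equivalence r)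
    (hinv : ∀ h ∈ H, ∀ u v, r u v → r (h u) (h v)) :
    (∀ a ∈ moved H, ∀ b ∈ moved H, r a b → a = b) ∨ (∀ a ∈ moved H, ∀ b ∈ moved H, r a b) := by
  classical
  by_contra hcon
  push Not at hcon
  obtain ⟨⟨p, hp, p', hp', hpp, hpne⟩, ⟨q, hq, q', hq', hqq⟩⟩ := hcon
  set F := Cfsg.generalizedFittingSubgroup ↥H with hFdef
  have hinv' : ∀ h : ↥H, ∀ u ∈ moved H, (h : Perm α) u ∈ moved H :=
    fun h u hu => (moved_inv _ h.2 u).2 hu
  let K : Subgroup ↥F :=
    { carrier := {f | ∀ u ∈ moved H, r u (((f : ↥H) : Perm α) u)}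
      one_mem' := by intro u _; simpa using hr.refl u
      mul_mem' := by
        intro a b ha hb u hu
        simp only [Subgroup.coe_mul, Perm.mul_apply]
        exact hr.trans (hb u hu) (ha _ (hinv' _ u hu))
      inv_mem' := by
        intro a ha u hu
        simp only [Subgroup.coe_inv]
        have := ha _ (hinv' (a : ↥H)⁻¹ u hu)
        simp only [Subgroup.coe_inv, apply_inv] at this
        exact hr.symm this }
  haveI : K.Normal := ⟨fun a ha g u hu => by
    have h := hinv _ (g : ↥H).2 _ _ (ha _ (hinv' (g : ↥H)⁻¹ u hu))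
    simp only [Subgroup.coe_inv, apply_inv] at h
    simpa using h⟩
  have h4 : 4 ≤ (moved H).card := by
    have := five_le hF (B := moved H) (fun f _ => moved_inv _ f.2) ⟨p, hp, hp⟩
    omega
  obtain ⟨S, hS, hsub⟩ := exists_four P hP moved_inv h4
  by_cases hK : K = ⊤
  · obtain ⟨a, b, c, d, hSeq, hab, hac, had, hbc, hbd, hcd⟩ := four_supp hS
    have ham : a ∈ moved H := hsub (by simp [hSeq])
    have hKm : ∀ (g : ↥H), g ∈ F → ∀ u ∈ moved H, r u ((g : Perm α) u) :=
      fun g hg => ((SetLike.ext_iff.1 hK ⟨g, hg⟩).2 (Subgroup.mem_top _) :)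
    let C : Finset α := (moved H).filter fun u => r a u
    have hC : ∀ f ∈ F, ∀ u, (f : Perm α) u ∈ C ↔ u ∈ C := by
      intro f hf u
      simp only [C, Finset.mem_filter, moved_inv _ f.2 u]
      refine and_congr_right fun hu => ⟨fun h => hr.trans h (hr.symm (hKm f hf u hu)),
        fun h => hr.trans h (hKm f hf u hu)⟩
    have h5 := five_le hF hC ⟨a, Finset.mem_filter.2 ⟨ham, hr.refl a⟩, ham⟩
    obtain ⟨z, hzC, hzS⟩ : ∃ z ∈ C, z ∉ S := by
      by_contra h
      push Not at h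
      have := Finset.card_le_card (s := C) (t := S) h
      rw [hS.1] at this
      omega
    have haz : r a z := (Finset.mem_filter.1 hzC).2
    have hz : z ≠ a ∧ z ≠ b ∧ z ≠ c ∧ z ≠ d := by
      simpa [hSeq] using hzS
    have hall : ∀ u ∈ S, r a u := by
      intro u hu
      have key : ∀ {x y w : α}, ({a, x, y, w} : Finset α) = S → a ≠ y → a ≠ w → x ≠ y →
          x ≠ w → r a x := by
        intro x y w he h1 h2 h3 h4
        have hne : z ≠ a ∧ z ≠ x ∧ z ≠ y ∧ z ≠ w := by simpa [← he] using hzS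
        have := hinv _ (hS.2 a x y w he) _ _ haz
        rw [(dt_apply h1 h2 h3 h4).1, dt_fix hne.1 hne.2.1 hne.2.2.1 hne.2.2.2] at this
        exact hr.trans haz (hr.symm this)
      rw [hSeq] at hu
      simp only [Finset.mem_insert, Finset.mem_singleton] at hu
      rcases hu with rfl | rfl | rfl | rfl
      · exact hr.refl _
      · exact key hSeq.symm hac had hbc hbd
      · exact key (x := u) (y := b) (w := d) (by rw [hSeq]; ext; simp; tauto) hab had hbc.symm hcd
      · exact key (x := u) (y := b) (w := c) (by rw [hSeq]; ext; simp; tauto) hab hac hbd.symm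
          hcd.symm
    obtain ⟨w, hw, haw⟩ : ∃ w ∈ moved H, ¬ r a w := by
      by_contra h
      push Not at h
      exact hqq (hr.trans (hr.symm (h q hq)) (h q' hq'))
    obtain ⟨f, hf, hfw⟩ := mem_moved.1 hw
    obtain ⟨u, huS, hu⟩ := no_four_fixing hF hS {u | u ∈ moved H ∧ r w u}
      (fun g hg u hu => ⟨hinv' g u hu.1, hr.trans hu.2 (hKm g hg u hu.1)⟩)
      ⟨f, hf, w, ⟨hw, hr.refl w⟩, hfw⟩
    exact haw (hr.trans (hall u huS) (hr.symm hu.2))
  · -- some nontrivial element of the Klein group preserves every class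
    obtain ⟨x, hx1, hx4, hxr⟩ : ∃ x : ↥H, x ≠ 1 ∧ (x : Perm α).support.card ≤ 4 ∧
        ∀ u, r u ((x : Perm α) u) := by
      obtain ⟨a, b, c, d, hSeq, hab, hac, had, hbc, hbd, hcd⟩ := four_supp hS
      obtain ⟨h, hh, rfl⟩ := transitive hF P hP hp (hsub (show a ∈ S by simp [hSeq]))
      set a' := h p' with ha'
      have hne : a' ≠ h p := fun e => hpne (h.injective e).symm
      have hra : r (h p) a' := hinv _ hh _ _ hpp
      -- rename
      generalize h p = a at *
      have hxb : ∀ {x y w : α}, ({a, x, y, w} : Finset α) = S → a ≠ x → a ≠ y → a ≠ w →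
          x ≠ y → x ≠ w → y ≠ w → r a x → r y w → ∃ x : ↥H, x ≠ 1 ∧
            (x : Perm α).support.card ≤ 4 ∧ ∀ u, r u ((x : Perm α) u) := by
        intro x y w he h0 h1 h2 h3 h4 h5 hr1 hr2
        refine ⟨⟨dt a x y w, hS.2 a x y w he⟩,
          fun e => dt_ne_one h0 h1 h2 h3 h4 (congrArg Subtype.val e),
          dt_support_card _ _ _ _, fun u => ?_⟩
        obtain ⟨e1, e2, e3, e4⟩ := dt_apply h1 h2 h3 h4
        show r u (dt a x y w u)
        by_cases hua : u = a
        · rw [hua, e1]; exact hr1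
        by_cases hux : u = x
        · rw [hux, e2]; exact hr.symm hr1
        by_cases huy : u = y
        · rw [huy, e3]; exact hr2
        by_cases huw : u = w
        · rw [huw, e4]; exact hr.symm hr2
        rw [dt_fix hua hux huy huw]
        exact hr.refl u
      by_cases hout : a' ∈ S
      · have hp3 : ∀ {y w : α}, ({a, a', y, w} : Finset α) = S → a ≠ y → a ≠ w → a' ≠ y →
            a' ≠ w → y ≠ w → ∃ x : ↥H, x ≠ 1 ∧
            (x : Perm α).support.card ≤ 4 ∧ ∀ u, r u ((x : Perm α) u) := by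
          intro y w he h1 h2 h3 h4 h5
          refine hxb he hne.symm h1 h2 h3 h4 h5 hra ?_
          have he' : ({a, y, a', w} : Finset α) = S := by rw [← he]; ext; simp; tauto
          have := hinv _ (hS.2 a y a' w he') _ _ hra
          obtain ⟨e1, -, e3, -⟩ := dt_apply (a := a) (b := y) (c := a') (d := w) hne.symm h2
            h3.symm h5
          rwa [e1, e3] at this
        rw [hSeq] at hout
        simp only [Finset.mem_insert, Finset.mem_singleton] at hout
        rcases hout with e | e | e | e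
        · exact absurd e hne
        · exact hp3 (by rw [e, hSeq]) hac had (e ▸ hbc) (e ▸ hbd) hcd
        · exact hp3 (y := b) (w := d) (by rw [e, hSeq]; ext; simp; tauto) hab had
            (e ▸ hbc.symm) (e ▸ hcd) hbd
        · exact hp3 (y := b) (w := c) (by rw [e, hSeq]; ext; simp; tauto) hab hac
            (e ▸ hbd.symm) (e ▸ hcd.symm) hbc
      · have hz : a' ≠ a ∧ a' ≠ b ∧ a' ≠ c ∧ a' ≠ d := by simpa [hSeq] using hout
        have h1 := hinv _ (hS.2 a b c d hSeq.symm) _ _ hra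
        have h2 := hinv _ (hS.2 a c b d (by rw [hSeq]; ext; simp; tauto)) _ _ hra
        have h3 := hinv _ (hS.2 a d b c (by rw [hSeq]; ext; simp; tauto)) _ _ hra
        rw [(dt_apply hac had hbc hbd).1, dt_fix hz.1 hz.2.1 hz.2.2.1 hz.2.2.2] at h1
        rw [(dt_apply hab had hbc.symm hcd).1, dt_fix hz.1 hz.2.2.1 hz.2.1 hz.2.2.2] at h2
        rw [(dt_apply hab hac hbd.symm hcd.symm).1, dt_fix hz.1 hz.2.2.2 hz.2.1 hz.2.2.1] at h3
        exact hxb hSeq.symm hab hac had hbc hbd hcd (hr.trans hra (hr.symm h1))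
          (hr.trans h2 (hr.symm h3))
    refine hx1 (eq_one_of_centralizes hF x (centralizes_of_comm hF x fun f hf =>
      normal_central hF K hK ?_) hx4)
    intro u hu
    simp only [Subgroup.coe_mul, Perm.mul_apply, Subgroup.coe_inv]
    have h1 := hxr ((x : Perm α)⁻¹ ((f : Perm α)⁻¹ u))
    rw [apply_inv] at h1
    have h2 := hinv _ f.2 _ _ (hr.symm h1)
    rw [apply_inv] at h2
    exact hr.trans h2 (hxr _)

end Quasi

end Cfsg.Agent.PermGroups.FourSetFStar
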