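import Cfsg.Agent.PermGroups.FrobeniusKernel
import Cfsg.Agent.FGS3.PGroupFrattini

/-!
A Frobenius quotient with cyclic complement of order `n` whose kernel acts nontrivially on a
coprime normal subgroup forces an element of order `p * n`.
-/

set_option autoImplicit false

namespace Cfsg.Agent.PermGroups.FrobeniusQuotientOrder

open scoped Pointwise

/-- The norm identity of a Frobenius action on an abelian group. -/
theorem trivial_of_norm_eq_one {Γ A : Type*} [Group Γ] [CommGroup A] (φ : Γ →* MulAut A)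
    (R : Subgroup Γ) [Finite R] (h : Γ) (hh : ∀ x ∈ R, h * x * h⁻¹ ∈ R)
    {n : ℕ} (hn : 1 ≤ n) (hfpf : ∀ i, 0 < i → i < n → ∀ x ∈ R, h ^ i * x = x * h ^ i → x = 1)
    (hcop : ∀ a : A, a ^ Nat.card R = 1 → a = 1)
    (hnorm : ∀ a : A, ∏ i ∈ Finset.range n, φ (h ^ i) a = 1) {x : Γ} (hx : x ∈ R) (a : A) :
    φ x a = a := by
  classical
  haveI := Fintype.ofFinite R
  have hhi : ∀ i : ℕ, ∀ y ∈ R, h ^ i * y * (h ^ i)⁻¹ ∈ R := by
    intro i
    induction i with
    | zero => intro y hy; simpa using hy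
    | succ i ih =>
      intro y hy
      rw [pow_succ']
      convert hh _ (ih y hy) using 1
      group
  set v := φ x a * a⁻¹ with hv
  have hS : ∏ y : R, φ (y : Γ) v = 1 := by
    simp only [hv, map_mul, map_inv, Finset.prod_mul_distrib, Finset.prod_inv_distrib]
    rw [mul_inv_eq_one]
    refine Fintype.prod_equiv (Equiv.mulRight (⟨x, hx⟩ : R)) _ _ fun y => ?_
    simp only [Equiv.coe_mulRight, Subgroup.coe_mul, map_mul, MulAut.mul_apply]
  have hShift : ∀ i : ℕ, ∏ y : R, φ (y : Γ) (φ (h ^ i) v) = 1 := by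
    intro i
    have hb : Function.Bijective
        (fun y : R => (⟨h ^ i * y * (h ^ i)⁻¹, hhi i y y.2⟩ : R)) := by
      refine Finite.injective_iff_bijective.1 fun y y' e => Subtype.ext ?_
      have e' : h ^ i * (y : Γ) * (h ^ i)⁻¹ = h ^ i * y' * (h ^ i)⁻¹ := congrArg Subtype.val e
      exact mul_left_cancel (mul_right_cancel e')
    rw [← hb.prod_comp]
    have e : ∀ y : R, φ (h ^ i * y * (h ^ i)⁻¹) (φ (h ^ i) v) = φ (h ^ i) (φ (y : Γ) v) := fun y => by
      rw [← MulAut.mul_apply, ← map_mul, ← MulAut.mul_apply, ← map_mul]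
      congr 2
      group
    simp only [e]
    rw [← map_prod, hS, map_one]
  have hterm : ∀ i ∈ Finset.range n, i ≠ 0 →
      ∏ y : R, φ (y : Γ) (φ (h ^ i) (φ ((y : Γ)⁻¹) v)) = 1 := by
    intro i hi hi0
    have hin := Finset.mem_range.1 hi
    have hb : Function.Bijective (fun y : R =>
        (⟨(y : Γ) * (h ^ i * (y : Γ)⁻¹ * (h ^ i)⁻¹), mul_mem y.2 (hhi i _ (inv_mem y.2))⟩ : R)) := by
      refine Finite.injective_iff_bijective.1 fun y y' e => ?_
      have e' : (y : Γ) * (h ^ i * (y : Γ)⁻¹ * (h ^ i)⁻¹) =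
          (y' : Γ) * (h ^ i * (y' : Γ)⁻¹ * (h ^ i)⁻¹) := congrArg Subtype.val e
      have h1 := hfpf i (Nat.pos_of_ne_zero hi0) hin ((y' : Γ)⁻¹ * y)
        (mul_mem (inv_mem y'.2) y.2) (by
          calc h ^ i * ((y' : Γ)⁻¹ * y)
              = (y' : Γ)⁻¹ * ((y' : Γ) * (h ^ i * (y' : Γ)⁻¹ * (h ^ i)⁻¹)) * h ^ i * y := by group
            _ = (y' : Γ)⁻¹ * ((y : Γ) * (h ^ i * (y : Γ)⁻¹ * (h ^ i)⁻¹)) * h ^ i * y := by rw [e']
            _ = (y' : Γ)⁻¹ * y * h ^ i := by group)
      exact (Subtype.ext (inv_mul_eq_one.1 h1)).symm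
    have e : ∀ y : R, φ (y : Γ) (φ (h ^ i) (φ ((y : Γ)⁻¹) v)) =
        φ ((y : Γ) * (h ^ i * (y : Γ)⁻¹ * (h ^ i)⁻¹)) (φ (h ^ i) v) := fun y => by
      simp only [← MulAut.mul_apply, ← map_mul]
      congr 2
      group
    simp only [e]
    exact (hb.prod_comp fun z : R => φ (z : Γ) (φ (h ^ i) v)).trans (hShift i)
  have hall : ∏ i ∈ Finset.range n, ∏ y : R, φ (y : Γ) (φ (h ^ i) (φ ((y : Γ)⁻¹) v)) = 1 := by
    rw [Finset.prod_comm]
    refine Finset.prod_eq_one fun y _ => ?_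
    rw [← map_prod, hnorm, map_one]
  rw [Finset.prod_eq_single 0 hterm (fun h0 => absurd (Finset.mem_range.2 hn) h0)] at hall
  have hone : ∀ y : R, φ (y : Γ) (φ (h ^ 0) (φ ((y : Γ)⁻¹) v)) = v := fun y => by
    rw [← MulAut.mul_apply, ← map_mul, ← MulAut.mul_apply, ← map_mul, pow_zero, mul_one,
      mul_inv_cancel, map_one, MulAut.one_apply]
  simp only [hone, Finset.prod_const, Finset.card_univ, ← Nat.card_eq_fintype_card] at hall
  exact mul_inv_eq_one.1 (hcop v hall)

variable {G : Type*} [Group G] [Finite G]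

/-- An element whose image in the quotient has order `n` and whose `n`-th power is nontrivial
gives an element of order `p * n`. -/
theorem exists_order (N : Subgroup G) [N.Normal] (g : G) {n : ℕ}
    (hn : orderOf (g : G ⧸ N) = n) (hg : g ^ n ≠ 1) :
    ∃ p : ℕ, p.Prime ∧ p ∣ Nat.card N ∧ ∃ g' : G, orderOf g' = p * n := by
  have hn0 : n ≠ 0 := hn ▸ (orderOf_pos _).ne'
  have hmem : g ^ n ∈ N := by
    rw [← QuotientGroup.eq_one_iff, QuotientGroup.mk_pow, ← hn, pow_orderOf_eq_one]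
  obtain ⟨p, hp, hpd⟩ := Nat.exists_prime_and_dvd (show orderOf (g ^ n) ≠ 1 by
    rwa [Ne, orderOf_eq_one_iff])
  refine ⟨p, hp, ?_, g ^ (orderOf (g ^ n) / p), ?_⟩
  · refine hpd.trans ?_
    have := orderOf_dvd_natCard (⟨g ^ n, hmem⟩ : N)
    rwa [Subgroup.orderOf_mk] at this
  have hdvd : n ∣ orderOf g := hn ▸ orderOf_map_dvd (QuotientGroup.mk' N) g
  obtain ⟨k, hk⟩ := hpd
  have ho : orderOf g = n * (p * k) := by
    rw [← hk, orderOf_pow, Nat.gcd_eq_right hdvd, Nat.mul_div_cancel' hdvd]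
  have hk0 : 0 < k := by
    rcases Nat.eq_zero_or_pos k with rfl | h
    · exact absurd hk (by simpa using (orderOf_pos (g ^ n)).ne')
    · exact h
  rw [hk, Nat.mul_div_cancel_left _ hp.pos, orderOf_pow, ho, ← mul_assoc,
    Nat.gcd_eq_right (dvd_mul_left k (n * p)), Nat.mul_div_cancel _ hk0, mul_comm]

/-- Order computation from a Frobenius action on a `p`-subgroup. -/
theorem order_of_action (N : Subgroup G) [N.Normal] {p : ℕ} [Fact p.Prime] (W : Subgroup G)
    (hWN : W ≤ N) (hW : IsPGroup p W) (R : Subgroup G) (hpR : ¬ p ∣ Nat.card R)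
    (hWR : ∀ x ∈ R, ∀ w ∈ W, x * w * x⁻¹ ∈ W) (h : G) (hWh : ∀ w ∈ W, h * w * h⁻¹ ∈ W)
    (hRh : ∀ x ∈ R, h * x * h⁻¹ ∈ R) {n : ℕ} (hn : 1 ≤ n) (hord : orderOf (h : G ⧸ N) = n)
    (hhn : h ^ n = 1)
    (hfpf : ∀ i, 0 < i → i < n → ∀ x ∈ R, h ^ i * x = x * h ^ i → x = 1)
    (hmin : ∀ D : Subgroup G, D < W → (∀ x ∈ R, ∀ w ∈ D, x * w * x⁻¹ ∈ D) →
      (∀ w ∈ D, h * w * h⁻¹ ∈ D) → ∀ x ∈ R, ∀ w ∈ D, x * w = w * x)
    (hne : ∃ x ∈ R, ∃ w ∈ W, x * w ≠ w * x) :
    ∃ p : ℕ, p.Prime ∧ p ∣ Nat.card N ∧ ∃ g : G, orderOf g = p * n := by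
  classical
  have hnormW : ∀ g : G, (∀ w ∈ W, g * w * g⁻¹ ∈ W) →
      g ∈ Subgroup.normalizer ((W : Subgroup G) : Set G) := by
    intro g hg
    rw [Subgroup.mem_normalizer_iff_map_conj_eq]
    refine Subgroup.eq_of_le_of_card_ge (by rintro _ ⟨w, hw, rfl⟩; exact hg w hw)
      (Subgroup.card_map_of_injective (MulAut.conj g).injective).ge
  set Γ := Subgroup.normalizer ((W : Subgroup G) : Set G) with hΓ
  set Φ : Subgroup W := frattini W with hΦ
  haveI : Φ.Characteristic := inferInstanceAs (frattini W).Characteristic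
  letI : CommGroup (W ⧸ Φ) :=
    { (inferInstance : Group (W ⧸ Φ)) with
      mul_comm := by
        intro a b
        induction a using QuotientGroup.induction_on with
        | H a =>
          induction b using QuotientGroup.induction_on with
          | H b =>
            rw [← QuotientGroup.mk_mul, ← QuotientGroup.mk_mul, QuotientGroup.eq]
            have := FGS3.commutator_le_frattini hW
              (Subgroup.commutator_mem_commutator (Subgroup.mem_top b⁻¹) (Subgroup.mem_top a⁻¹))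
            simpa [commutatorElement_def, mul_assoc] using this }
  let ψ : Γ →* MulAut (W ⧸ Φ) := MonoidHom.mk'
    (fun g => QuotientGroup.congr Φ Φ (Subgroup.normalizerMonoidHom W g)
      (Subgroup.characteristic_iff_map_eq.1 inferInstance _))
    (fun g g' => by
      ext a
      induction a using QuotientGroup.induction_on with
      | H a => simp [map_mul]; rfl)
  have hψ : ∀ (g : Γ) (w : W) (hgw : (g : G) * w * (g : G)⁻¹ ∈ W),
      ψ g (w : W ⧸ Φ) = ((⟨_, hgw⟩ : W) : W ⧸ Φ) := fun g w hgw => rfl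
  set hΓh : Γ := ⟨h, hnormW h hWh⟩ with hhΓ
  set RΓ : Subgroup Γ := R.subgroupOf Γ with hRΓ
  have hRle : R ≤ Γ := fun x hx => hnormW x (hWR x hx)
  by_cases hnorm : ∀ a : W ⧸ Φ, ∏ i ∈ Finset.range n, ψ (hΓh ^ i) a = 1
  · exfalso
    -- the action is trivial, hence `R` centralises `W`
    have htriv : ∀ x ∈ R, ∀ w ∈ W, w⁻¹ * (x * w * x⁻¹) ∈ Φ.map W.subtype := by
      intro x hx w hw
      have := trivial_of_norm_eq_one ψ RΓ hΓh (fun y hy => hRh _ hy) hn
        (fun i hi hin y hy e => Subtype.ext (hfpf i hi hin _ hy (by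
          have e' := congrArg (fun z : Γ => (z : G)) e
          simpa [hhΓ] using e')))
        (fun a ha => by
          obtain ⟨k, hk⟩ := (hW.to_quotient Φ).exists_card_eq
          have h1 : a ^ Nat.card (W ⧸ Φ) = 1 := pow_card_eq_one'
          have hcop : (Nat.card RΓ).Coprime (Nat.card (W ⧸ Φ)) := by
            rw [hk, Nat.card_congr (Subgroup.subgroupOfEquivOfLe hRle).toEquiv, Nat.coprime_comm]
            exact Nat.Coprime.pow_left k
              ((Nat.Prime.coprime_iff_not_dvd Fact.out).2 hpR)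
          have := pow_gcd_eq_one.2 ⟨ha, h1⟩
          rwa [hcop.gcd_eq_one, pow_one] at this)
        hnorm (x := ⟨x, hRle hx⟩) hx ((⟨w, hw⟩ : W) : W ⧸ Φ)
      rw [hψ ⟨x, hRle hx⟩ ⟨w, hw⟩ (hWR x hx w hw)] at this
      have h2 := QuotientGroup.eq.1 this.symm
      exact ⟨_, h2, rfl⟩
    have hDlt : Φ.map W.subtype < W := by
      refine lt_of_le_of_ne (Subgroup.map_subtype_le _) fun e => ?_
      obtain ⟨x, hx, w, hw, hxw⟩ := hne
      have htop : Φ = ⊤ := Subgroup.map_injective W.subtype_injective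
        (by rw [e, ← MonoidHom.range_eq_map, Subgroup.range_subtype])
      haveI : Nontrivial W := nontrivial_of_ne (⟨w, hw⟩ : W) 1 fun h1 => by
        have hw1 : w = 1 := congrArg Subtype.val h1
        exact hxw (by rw [hw1, mul_one, one_mul])
      obtain ⟨M, hM, -⟩ := (eq_top_or_exists_le_coatom (⊥ : Subgroup W)).resolve_left bot_ne_top
      exact hM.1 (top_le_iff.1 (htop ▸ frattini_le_coatom hM))
    have hDinv : ∀ g : G, g ∈ Γ → ∀ d ∈ Φ.map W.subtype, g * d * g⁻¹ ∈ Φ.map W.subtype := by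
      rintro g hg _ ⟨d, hd, rfl⟩
      refine ⟨Subgroup.normalizerMonoidHom W ⟨g, hg⟩ d, ?_, rfl⟩
      exact (Subgroup.characteristic_iff_map_eq.1 (inferInstance : Φ.Characteristic) _).le
        ⟨d, hd, rfl⟩
    have hDc := hmin _ hDlt (fun x hx => hDinv x (hRle hx)) (hDinv h (hnormW h hWh))
    obtain ⟨x, hx, w, hw, hxw⟩ := hne
    apply hxw
    set d := w⁻¹ * (x * w * x⁻¹) with hd
    have hdD := htriv x hx w hw
    have hpow : ∀ k : ℕ, x ^ k * w * (x ^ k)⁻¹ = w * d ^ k := by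
      intro k
      induction k with
      | zero => simp
      | succ k ih =>
        calc x ^ (k + 1) * w * (x ^ (k + 1))⁻¹ = x * (x ^ k * w * (x ^ k)⁻¹) * x⁻¹ := by
              rw [pow_succ']; group
          _ = (x * w * x⁻¹) * (x * d ^ k * x⁻¹) := by rw [ih]; group
          _ = (w * d) * d ^ k := by
              congr 1
              · rw [hd]; group
              · rw [hDc x hx _ (pow_mem hdD k), mul_inv_cancel_right]
          _ = w * d ^ (k + 1) := by rw [mul_assoc, ← pow_succ']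
    have h1 := hpow (orderOf x)
    rw [pow_orderOf_eq_one, one_mul, inv_one, mul_one, left_eq_mul] at h1
    obtain ⟨k, hk⟩ := hW.exists_card_eq
    have hdW : d ∈ W := Subgroup.map_subtype_le _ hdD
    have h2 : d ^ Nat.card W = 1 :=
      congrArg Subtype.val (pow_card_eq_one' (x := (⟨d, hdW⟩ : W)))
    have hcop : (orderOf x).Coprime (Nat.card W) := by
      refine Nat.Coprime.of_dvd_left ?_ (show (Nat.card R).Coprime (Nat.card W) by
        rw [hk, Nat.coprime_comm]
        exact Nat.Coprime.pow_left k ((Nat.Prime.coprime_iff_not_dvd Fact.out).2 hpR))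
      have := orderOf_dvd_natCard (⟨x, hx⟩ : R)
      rwa [Subgroup.orderOf_mk] at this
    have h3 := pow_gcd_eq_one.2 ⟨h1, h2⟩
    rw [hcop.gcd_eq_one, pow_one, hd, inv_mul_eq_one] at h3
    calc x * w = x * w * x⁻¹ * x := by group
      _ = w * x := by rw [← h3]
  · push Not at hnorm
    obtain ⟨a, ha⟩ := hnorm
    induction a using QuotientGroup.induction_on with
    | H w =>
    -- powers of `w * h`
    have key : ∀ k : ℕ, ∃ u : W, ((w : G) * h) ^ k = (u : G) * h ^ k ∧
        (u : W ⧸ Φ) = ∏ i ∈ Finset.range k, ψ (hΓh ^ i) (w : W ⧸ Φ) := by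
      intro k
      induction k with
      | zero => exact ⟨1, by simp, by simp⟩
      | succ k ih =>
        obtain ⟨u, hu, hu'⟩ := ih
        have hk : h ^ k * (w : G) * (h ^ k)⁻¹ ∈ W := by
          have := (Subgroup.mem_normalizer_iff.1 (pow_mem (hnormW h hWh) k) (w : G)).1 w.2
          exact this
        refine ⟨u * ⟨_, hk⟩, ?_, ?_⟩
        · rw [pow_succ, hu, Subgroup.coe_mul, pow_succ]; group
        · rw [QuotientGroup.mk_mul, hu', Finset.prod_range_succ,
            hψ (hΓh ^ k) w (by simpa [hhΓ] using hk)]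
          congr 3
    obtain ⟨u, hu, hu'⟩ := key n
    refine exists_order N ((w : G) * h) ?_ ?_
    · rw [QuotientGroup.mk_mul, (QuotientGroup.eq_one_iff _).2 (hWN w.2), one_mul, hord]
    · rw [hu, hhn, mul_one]
      intro h1
      apply ha
      rw [← hu', show u = 1 from Subtype.ext h1, QuotientGroup.mk_one]

/-- The order of a subgroup is determined by the Sylow subgroups it contains. -/
theorem le_of_sylow (N : Subgroup G) (C : Subgroup G)
    (h : ∀ p : ℕ, p.Prime → p ∣ Nat.card N →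
      ∃ P : Subgroup G, P ≤ N ∧ P ≤ C ∧ Nat.card P = p ^ (Nat.card N).factorization p) :
    N ≤ C := by
  have hd : Nat.card N ∣ Nat.card (N ⊓ C : Subgroup G) := by
    rw [← Nat.factorization_prime_le_iff_dvd Nat.card_pos.ne' Nat.card_pos.ne']
    intro p hp
    by_cases hpN : p ∣ Nat.card N
    · obtain ⟨P, hPN, hPC, hP⟩ := h p hp hpN
      rw [← hp.pow_dvd_iff_le_factorization Nat.card_pos.ne', ← hP]
      exact Subgroup.card_dvd_of_le (le_inf hPN hPC)
    · rw [Nat.factorization_eq_zero_of_not_dvd hpN]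
      exact Nat.zero_le _
  exact inf_eq_left.1 (Subgroup.eq_of_le_of_card_ge inf_le_left (Nat.le_of_dvd Nat.card_pos hd))

theorem main (N : Subgroup G) [N.Normal] (Fb Hb : Subgroup (G ⧸ N)) [Fb.Normal]
    (hHb : Cfsg.IsFrobeniusComplement Hb) (hker : Cfsg.frobeniusKernel Hb = (Fb : Set (G ⧸ N)))
    (hcyc : IsCyclic Hb) (hcop : (Nat.card Fb).Coprime (Nat.card N))
    (hnot : ¬ Fb ≤ (Subgroup.centralizer (N : Set G)).map (QuotientGroup.mk' N)) :
    ∃ p : ℕ, p.Prime ∧ p ∣ Nat.card N ∧ ∃ g : G, orderOf g = p * Nat.card Hb := by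
  classical
  set π := QuotientGroup.mk' N
  set M := Fb.comap π with hM
  have hMcard : Nat.card M = Nat.card Fb * Nat.card N := by
    have h := (Fb.comap π).index_mul_card
    rw [Subgroup.index_comap_of_surjective _ (QuotientGroup.mk'_surjective N),
      Subgroup.card_eq_card_quotient_mul_card_subgroup N, ← Fb.index_mul_card, mul_assoc] at h
    exact Nat.eq_of_mul_eq_mul_left (Nat.pos_of_ne_zero Subgroup.index_ne_zero_of_finite) h
  have hFH : Disjoint Fb Hb := by
    rw [Subgroup.disjoint_def]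
    intro x hx hxH
    rcases (mem_frobeniusKernel.1 (hker.symm ▸ (hx : x ∈ (Fb : Set (G ⧸ N))) : x ∈ Cfsg.frobeniusKernel Hb)) with e | e
    · exact e
    · exact absurd (show (1 : G ⧸ N)⁻¹ * x * 1 ∈ Hb by simpa using hxH) (e 1)
  -- a Sylow subgroup of the preimage acting nontrivially on `N`
  obtain ⟨r, hr, hrF, R, hR⟩ : ∃ r : ℕ, r.Prime ∧ r ∣ Nat.card Fb ∧
      ∃ R : Sylow r M, ∃ x ∈ (R : Subgroup M), ∃ y ∈ N, (x : G) * y ≠ y * (x : G) := by
    by_contra hall
    push Not at hall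
    apply hnot
    refine le_of_sylow Fb _ fun r hr hrd => ?_
    haveI : Fact r.Prime := ⟨hr⟩
    obtain ⟨R⟩ : Nonempty (Sylow r M) := inferInstance
    set R' : Subgroup G := (R : Subgroup M).map M.subtype with hR'
    have hrN : ¬ r ∣ Nat.card N := fun h =>
      hr.ne_one (Nat.eq_one_of_dvd_coprimes hcop hrd h)
    have hcR : Nat.card R' = r ^ (Nat.card Fb).factorization r := by
      rw [hR', Subgroup.card_map_of_injective M.subtype_injective, R.card_eq_multiplicity, hMcard,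
        Nat.factorization_mul Nat.card_pos.ne' Nat.card_pos.ne', Finsupp.add_apply,
        Nat.factorization_eq_zero_of_not_dvd hrN, add_zero]
    refine ⟨R'.map π, ?_, ?_, ?_⟩
    · rintro _ ⟨_, ⟨x, -, rfl⟩, rfl⟩
      exact x.2
    · refine Subgroup.map_mono ?_
      rintro _ ⟨x, hx, rfl⟩
      exact Subgroup.mem_centralizer_iff.2 fun y hy => (hall r hr hrd R x hx y hy).symm
    · have hdisj : Disjoint N R' := Subgroup.disjoint_of_coprime_natCard (by
        rw [hcR, Nat.coprime_comm]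
        exact Nat.Coprime.pow_left _ ((Nat.Prime.coprime_iff_not_dvd hr).2 hrN))
      rw [← hcR]
      refine (Nat.card_congr (Equiv.ofBijective (fun x : R' => (⟨π x, x, x.2, rfl⟩ : R'.map π))
        ⟨fun x y e => ?_, ?_⟩)).symm
      · have e' : π x = π y := congrArg Subtype.val e
        have hxy : (x : G)⁻¹ * y ∈ N := QuotientGroup.eq.1 e'
        exact Subtype.ext (inv_mul_eq_one.1
          (Subgroup.disjoint_def.1 hdisj hxy (mul_mem (inv_mem x.2) y.2)))
      · rintro ⟨_, x, hx, rfl⟩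
        exact ⟨⟨x, hx⟩, rfl⟩
  haveI : Fact r.Prime := ⟨hr⟩
  have hrN : ¬ r ∣ Nat.card N := fun h => hr.ne_one (Nat.eq_one_of_dvd_coprimes hcop hrF h)
  set R' : Subgroup G := (R : Subgroup M).map M.subtype with hR'
  have hRp : IsPGroup r R' := R.2.map M.subtype
  have hRdisj : Disjoint R' N := by
    obtain ⟨k, hk⟩ := hRp.exists_card_eq
    exact Subgroup.disjoint_of_coprime_natCard
      (by rw [hk]; exact Nat.Coprime.pow_left _ ((Nat.Prime.coprime_iff_not_dvd hr).2 hrN))
  have hRM : ∀ x ∈ R', π x ∈ Fb := by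
    rintro _ ⟨x, -, rfl⟩; exact x.2
  -- an element of the normaliser over a generator
  obtain ⟨h0, hh0⟩ := hcyc.exists_generator
  have hfr := Sylow.normalizer_sup_eq_top R
  have hmem : (h0 : G ⧸ N) ∈ (Subgroup.normalizer (R' : Set G)).map π ⊔ Fb := by
    have : (⊤ : Subgroup (G ⧸ N)) ≤ (Subgroup.normalizer (R' : Set G)).map π ⊔ Fb := by
      rw [← Subgroup.map_top_of_surjective π (QuotientGroup.mk'_surjective N), ← hfr,
        Subgroup.map_sup]
      exact sup_le le_sup_left (le_sup_of_le_right (by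
        rintro _ ⟨x, hx, rfl⟩; exact hx))
    exact this (Subgroup.mem_top _)
  obtain ⟨s, hs, f, hf, hsf⟩ := Subgroup.mem_sup_of_normal_right.1 hmem
  obtain ⟨h, hh, rfl⟩ := hs
  have hn1 : 1 < Nat.card Hb := Hb.one_lt_card_iff_ne_bot.2 hHb.1
  set n := Nat.card Hb with hn
  have hord0 : orderOf (h0 : G ⧸ N) = n := by
    rw [Subgroup.orderOf_coe, hn]
    exact orderOf_eq_card_of_forall_mem_zpowers hh0
  have hpowF : ∀ i : ℕ, ((π h) ^ i)⁻¹ * (h0 : G ⧸ N) ^ i ∈ Fb := by
    intro i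
    have e : QuotientGroup.mk' Fb (h0 : G ⧸ N) = QuotientGroup.mk' Fb (π h) := by
      rw [← hsf, map_mul, show QuotientGroup.mk' Fb f = 1 from (QuotientGroup.eq_one_iff f).2 hf,
        mul_one]
    exact QuotientGroup.eq.1 (by
      show QuotientGroup.mk' Fb ((π h) ^ i) = QuotientGroup.mk' Fb ((h0 : G ⧸ N) ^ i)
      rw [map_pow, map_pow, e])
  have hnotF : ∀ i, 0 < i → i < n → (π h) ^ i ∉ Fb := by
    intro i hi hin hc
    have h2 : (h0 : G ⧸ N) ^ i ∈ Fb := by simpa using mul_mem hc (hpowF i)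
    have h3 := Subgroup.disjoint_def.1 hFH h2 (pow_mem h0.2 i)
    have := orderOf_dvd_of_pow_eq_one h3
    rw [hord0] at this
    exact absurd (Nat.le_of_dvd hi this) (by omega)
  obtain ⟨g, hg⟩ : ∃ g, g⁻¹ * π h * g ∈ Hb := by
    by_contra hc
    push Not at hc
    have h1 : π h ∈ (Fb : Set (G ⧸ N)) := hker ▸ mem_frobeniusKernel.2 (Or.inr hc)
    exact hnotF 1 one_pos hn1 (by simpa using h1)
  have hordh : orderOf (π h) = n := by
    refine Nat.dvd_antisymm ?_ ?_
    · have h1 : orderOf (MulAut.conj g⁻¹ (π h)) = orderOf (π h) :=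
        orderOf_injective (MulAut.conj g⁻¹).toMonoidHom (MulAut.conj g⁻¹).injective _
      rw [← h1]
      have h2 := orderOf_dvd_natCard (⟨_, hg⟩ : Hb)
      rw [Subgroup.orderOf_mk, ← hn] at h2
      simpa using h2
    · by_contra hd
      have hpos : 0 < orderOf (π h) % n :=
        Nat.pos_of_ne_zero fun h0' => hd (Nat.dvd_of_mod_eq_zero h0')
      have h1 : (h0 : G ⧸ N) ^ orderOf (π h) ∈ Fb := by
        simpa [pow_orderOf_eq_one] using hpowF (orderOf (π h))
      have h2 := Subgroup.disjoint_def.1 hFH h1 (pow_mem h0.2 _)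
      exact hd (hord0 ▸ orderOf_dvd_of_pow_eq_one h2)
  -- fixed point free action
  have hfpf : ∀ (h' : G), π h' = π h → ∀ i, 0 < i → i < n → ∀ x ∈ R',
      h' ^ i * x = x * h' ^ i → x = 1 := by
    intro h' he i hi hin x hx hcomm
    have hc : (π h) ^ i * π x = π x * (π h) ^ i := by
      rw [← he, ← map_pow, ← map_mul, ← map_mul, hcomm]
    obtain ⟨g, hg⟩ : ∃ g, g⁻¹ * (π h) ^ i * g ∈ Hb := by
      by_contra hcc
      push Not at hcc
      exact hnotF i hi hin (hker ▸ mem_frobeniusKernel.2 (Or.inr hcc) : (π h) ^ i ∈ (Fb : Set (G ⧸ N)))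
    have hne : g⁻¹ * (π h) ^ i * g ≠ 1 := by
      intro e
      apply hnotF i hi hin
      have : (π h) ^ i = 1 := by
        calc (π h) ^ i = g * (g⁻¹ * (π h) ^ i * g) * g⁻¹ := by group
          _ = 1 := by rw [e]; group
      rw [this]; exact one_mem _
    have h1 := Frobenius.centralizer_kernel_eq_one hHb hFH hg hne
      (k := g⁻¹ * π x * g) (by
        have := (inferInstance : Fb.Normal).conj_mem _ (hRM x hx) g⁻¹
        simpa using this) (by
        calc g⁻¹ * (π h) ^ i * g * (g⁻¹ * π x * g) = g⁻¹ * ((π h) ^ i * π x) * g := by group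
          _ = g⁻¹ * (π x * (π h) ^ i) * g := by rw [hc]
          _ = g⁻¹ * π x * g * (g⁻¹ * (π h) ^ i * g) := by group)
    have hx1 : π x = 1 := by
      calc π x = g * (g⁻¹ * π x * g) * g⁻¹ := by group
        _ = 1 := by rw [h1]; group
    exact Subgroup.disjoint_def.1 hRdisj hx ((QuotientGroup.eq_one_iff x).1 hx1)
  have hhR : ∀ x ∈ R', h * x * h⁻¹ ∈ R' := fun x hx => (Subgroup.mem_normalizer_iff.1 hh x).1 hx
  -- invariant Sylow subgroups of `N`
  let Inv : Subgroup G → Prop := fun P => ∀ x ∈ R', ∀ w ∈ P, x * w * x⁻¹ ∈ P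
  obtain ⟨p, hp, P, hPN, hPp, hPc, hPinv, hPne⟩ : ∃ p : ℕ, p.Prime ∧ ∃ P : Subgroup G, P ≤ N ∧
      IsPGroup p P ∧ Nat.card P = p ^ (Nat.card N).factorization p ∧ Inv P ∧
      ∃ x ∈ R', ∃ w ∈ P, x * w ≠ w * x := by
    by_contra hall
    push Not at hall
    obtain ⟨x, hx, y, hy, hxy⟩ := hR
    have hxR : (x : G) ∈ R' := ⟨x, hx, rfl⟩
    apply hxy
    have hle := le_of_sylow N (Subgroup.centralizer (R' : Set G)) fun p hp hpd => by
      haveI : Fact p.Prime := ⟨hp⟩
      letI : MulAction R' (Sylow p N) :=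
        MulAction.compHom (Sylow p N) ((MulAut.conjNormal (H := N)).comp R'.subtype)
      have hmod := hRp.card_modEq_card_fixedPoints (Sylow p N)
      have hne : Nat.card (MulAction.fixedPoints R' (Sylow p N)) ≠ 0 := by
        intro h0'
        rw [h0', Nat.modEq_zero_iff_dvd] at hmod
        obtain ⟨P⟩ : Nonempty (Sylow p N) := inferInstance
        exact hrN ((hmod.trans P.card_dvd_index).trans (Subgroup.index_dvd_card _))
      obtain ⟨⟨P, hP⟩⟩ := (Nat.card_ne_zero.1 hne).1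
      set P' : Subgroup G := (P : Subgroup N).map N.subtype with hP'
      have hcard : Nat.card P' = p ^ (Nat.card N).factorization p := by
        rw [hP', Subgroup.card_map_of_injective N.subtype_injective, P.card_eq_multiplicity]
      have hinv : Inv P' := by
        rintro z hz _ ⟨w, hw, rfl⟩
        refine ⟨MulAut.conjNormal z w, ?_, by simp⟩
        have e : ((⟨z, hz⟩ : R') • P : Sylow p N) = P := hP ⟨z, hz⟩
        rw [← e]
        exact Subgroup.smul_mem_pointwise_smul w (MulAut.conjNormal z) _ hw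
      refine ⟨P', by rintro _ ⟨w, -, rfl⟩; exact w.2, ?_, hcard⟩
      intro w hw
      refine Subgroup.mem_centralizer_iff.2 fun z hz => ?_
      exact hall p hp P' (by rintro _ ⟨v, -, rfl⟩; exact v.2) (P.2.map N.subtype) hcard hinv
        z hz w hw
    exact Subgroup.mem_centralizer_iff.1 (hle hy) x hxR
  haveI : Fact p.Prime := ⟨hp⟩
  -- move `h` to normalise `P`
  set P2 : Subgroup G := P.map (MulAut.conj h).toMonoidHom with hP2
  have hP2N : P2 ≤ N := by
    rintro _ ⟨w, hw, rfl⟩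
    exact (inferInstance : N.Normal).conj_mem w (hPN hw) h
  have hP2c : Nat.card P2 = Nat.card P :=
    Subgroup.card_map_of_injective (MulAut.conj h).injective
  have hP2inv : Inv P2 := by
    rintro x hx _ ⟨w, hw, rfl⟩
    have hx' : h⁻¹ * x * h ∈ R' := by
      have := (Subgroup.mem_normalizer_iff.1 (inv_mem hh) x).1 hx
      simpa using this
    exact ⟨h⁻¹ * x * h * w * (h⁻¹ * x * h)⁻¹, hPinv _ hx' w hw, by
      simp only [MulEquiv.coe_toMonoidHom, MulAut.conj_apply]; group⟩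
  obtain ⟨c, hcN, hcR, hcP⟩ : ∃ c ∈ N, (∀ x ∈ R', x * c = c * x) ∧
      ∀ w ∈ P2, c * w * c⁻¹ ∈ P := by
    set S : Subgroup G := N ⊓ Subgroup.normalizer (P2 : Set G) with hS
    obtain ⟨c0, hc0⟩ := MulAction.exists_smul_eq N
      (Sylow.ofCard (P2.subgroupOf N) (by
        rw [Nat.card_congr (Subgroup.subgroupOfEquivOfLe hP2N).toEquiv, hP2c, hPc]) : Sylow p N)
      (Sylow.ofCard (P.subgroupOf N) (by
        rw [Nat.card_congr (Subgroup.subgroupOfEquivOfLe hPN).toEquiv, hPc]))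
    have hc0P : ∀ w ∈ P2, (c0 : G) * w * (c0 : G)⁻¹ ∈ P := by
      intro w hw
      have h1 := Subgroup.smul_mem_pointwise_smul (⟨w, hP2N hw⟩ : N) (MulAut.conj c0)
        (P2.subgroupOf N) hw
      have h2 : MulAut.conj c0 • P2.subgroupOf N = P.subgroupOf N := by
        have := congrArg (fun Q : Sylow p N => (Q : Subgroup N)) hc0
        simpa [Sylow.coe_subgroup_smul] using this
      rw [h2] at h1
      exact h1
    let X : Set G := {c | c ∈ N ∧ ∀ w ∈ P2, c * w * c⁻¹ ∈ P}
    have hPP2 : ∀ c ∈ X, ∀ u ∈ P, c⁻¹ * u * c ∈ P2 := by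
      intro c hc u hu
      have heq : P2.map (MulAut.conj c).toMonoidHom = P :=
        Subgroup.eq_of_le_of_card_ge (by rintro _ ⟨w, hw, rfl⟩; exact hc.2 w hw)
          (by rw [Subgroup.card_map_of_injective (MulAut.conj c).injective, hP2c])
      rw [← heq] at hu
      obtain ⟨w, hw, rfl⟩ := hu
      simpa [mul_assoc] using hw
    have hXcard : Nat.card X = Nat.card S := by
      refine Nat.card_congr ⟨fun c => ⟨(c0 : G)⁻¹ * c.1, N.mul_mem (N.inv_mem c0.2) c.2.1, ?_⟩,
        fun z => ⟨(c0 : G) * z.1, mul_mem c0.2 z.2.1, fun w hw => ?_⟩,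
        fun c => Subtype.ext (mul_inv_cancel_left _ _), fun z => Subtype.ext (inv_mul_cancel_left _ _)⟩
      · refine Subgroup.mem_normalizer_iff_map_conj_eq.2 ?_
        refine Subgroup.eq_of_le_of_card_ge ?_
          (Subgroup.card_map_of_injective (MulAut.conj ((c0 : G)⁻¹ * c.1)).injective).ge
        rintro _ ⟨w, hw, rfl⟩
        have := hPP2 (c0 : G) ⟨c0.2, hc0P⟩ _ (c.2.2 w hw)
        simpa [mul_assoc] using this
      · have := hc0P _ ((Subgroup.mem_normalizer_iff.1 z.2.2 w).1 hw)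
        simpa [mul_assoc] using this
    have hconj : ∀ x ∈ R', ∀ c ∈ X, x * c * x⁻¹ ∈ X := by
      intro x hx c hc
      refine ⟨(inferInstance : N.Normal).conj_mem c hc.1 x, fun w hw => ?_⟩
      have h1 := hP2inv x⁻¹ (inv_mem hx) w hw
      have h2 := hPinv x hx _ (hc.2 _ h1)
      simpa [mul_assoc] using h2
    letI : MulAction R' X :=
      { smul := fun x c => ⟨(x : G) * c * (x : G)⁻¹, hconj x x.2 c c.2⟩
        one_smul := fun c => Subtype.ext (by show (1 : G) * c * (1 : G)⁻¹ = c; simp)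
        mul_smul := fun x y c => Subtype.ext (by
          show ((x : G) * y) * c * ((x : G) * y)⁻¹ = (x : G) * ((y : G) * c * (y : G)⁻¹) * (x : G)⁻¹
          group) }
    have hmod := hRp.card_modEq_card_fixedPoints X
    have hne : Nat.card (MulAction.fixedPoints R' X) ≠ 0 := by
      intro h0'
      rw [h0', Nat.modEq_zero_iff_dvd, hXcard] at hmod
      exact hrN (hmod.trans (Subgroup.card_dvd_of_le inf_le_left))
    obtain ⟨⟨c, hc⟩⟩ := (Nat.card_ne_zero.1 hne).1
    refine ⟨c.1, c.2.1, fun x hx => ?_, c.2.2⟩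
    have := congrArg Subtype.val (hc ⟨x, hx⟩)
    change x * (c : G) * x⁻¹ = c at this
    calc x * (c : G) = x * (c : G) * x⁻¹ * x := by group
      _ = (c : G) * x := by rw [this]
  set h' := c * h with hh'
  have hπ' : π h' = π h := by
    rw [hh', map_mul, show π c = 1 from (QuotientGroup.eq_one_iff c).2 hcN, one_mul]
  have hh'R : ∀ x ∈ R', h' * x * h'⁻¹ ∈ R' := by
    intro x hx
    have h1 := hhR x hx
    have : h' * x * h'⁻¹ = h * x * h⁻¹ := by
      calc h' * x * h'⁻¹ = c * (h * x * h⁻¹) * c⁻¹ := by rw [hh']; group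
        _ = h * x * h⁻¹ := by rw [← hcR _ h1, mul_inv_cancel_right]
    rwa [this]
  have hh'P : ∀ w ∈ P, h' * w * h'⁻¹ ∈ P := by
    intro w hw
    have h1 := hcP _ ⟨w, hw, rfl⟩
    simpa [hh', mul_assoc] using h1
  have hord' : orderOf (h' : G ⧸ N) = n := by
    show orderOf (π h') = n
    rw [hπ', hordh]
  by_cases hhn : h' ^ n = 1
  swap
  · exact exists_order N h' hord' hhn
  -- a minimal invariant subgroup
  let Good : Subgroup G → Prop := fun W => W ≤ P ∧ Inv W ∧ (∀ w ∈ W, h' * w * h'⁻¹ ∈ W) ∧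
    ∃ x ∈ R', ∃ w ∈ W, x * w ≠ w * x
  have hex : ∃ k, ∃ W, Good W ∧ Nat.card W = k := ⟨_, P, ⟨le_rfl, hPinv, hh'P, hPne⟩, rfl⟩
  obtain ⟨W, ⟨hWP, hWinv, hWh, hWne⟩, hWc⟩ := Nat.find_spec hex
  have hpR : ¬ p ∣ Nat.card R' := by
    intro hd
    obtain ⟨k, hk⟩ := hRp.exists_card_eq
    rw [hk] at hd
    have hpr : p = r := (Nat.prime_dvd_prime_iff_eq hp hr).1 (hp.dvd_of_dvd_pow hd)
    subst hpr
    obtain ⟨x, hx, w, hw, hxw⟩ := hPne
    rw [Nat.factorization_eq_zero_of_not_dvd hrN, pow_zero, Subgroup.card_eq_one] at hPc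
    rw [hPc, Subgroup.mem_bot] at hw
    exact hxw (by rw [hw, mul_one, one_mul])
  refine order_of_action N W (hWP.trans hPN) (hPp.to_le hWP) R' hpR hWinv h' hWh hh'R
    (by omega) hord' hhn (hfpf h' hπ') (fun D hD hD1 hD2 => ?_) hWne
  by_contra hc'
  push Not at hc'
  have hlt : Nat.card D < Nat.card W :=
    lt_of_le_of_ne (Nat.le_of_dvd Nat.card_pos (Subgroup.card_dvd_of_le hD.le))
      (fun e => hD.ne (Subgroup.eq_of_le_of_card_ge hD.le e.ge))
  exact Nat.find_min hex (hWc ▸ hlt) ⟨D, ⟨hD.le.trans hWP, hD1, hD2, hc'⟩, rfl⟩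

end Cfsg.Agent.PermGroups.FrobeniusQuotientOrder
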