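import Mathlib

/-!
Marggraff's theorem: a primitive group with a Jordan set of size at most half the degree is
triply transitive.
-/

set_option autoImplicit false

namespace Cfsg.Agent.PermGroups

open MulAction
open scoped Pointwise

variable {G Ω : Type*} [Group G] [MulAction G Ω]

/-- A transitive `Jordan set` gives transitivity of the fixing subgroup of its complement. -/
theorem isPretransitive_ofFixingSubgroup_compl {Γ : Set Ω}
    (htr : ∀ x ∈ Γ, ∀ y ∈ Γ, ∃ g : G, (∀ z ∉ Γ, g • z = z) ∧ g • x = y) :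
    IsPretransitive (fixingSubgroup G Γᶜ) (SubMulAction.ofFixingSubgroup G Γᶜ) := by
  refine ⟨fun u v => ?_⟩
  obtain ⟨g, hg, hgx⟩ := htr (u : Ω) (not_not.1 u.2) (v : Ω) (not_not.1 v.2)
  exact ⟨⟨g, fun z => hg z.1 z.2⟩, Subtype.ext hgx⟩

/-- Double counting. -/
theorem sum_card_filter_mem [DecidableEq Ω] (S : Finset (Finset Ω)) (U : Finset Ω) :
    ∑ y ∈ U, (S.filter (y ∈ ·)).card = ∑ B ∈ S, (U ∩ B).card := by
  simp only [Finset.card_filter]
  rw [Finset.sum_comm]
  refine Finset.sum_congr rfl fun B _ => ?_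
  rw [← Finset.card_filter, Finset.filter_mem_eq_inter]

/-- Marggraff's theorem. -/
theorem three_transitive_of_small_jordan_set [Finite Ω] (hprim : IsPreprimitive G Ω) (Γ : Set Ω)
    (h1 : 1 < Γ.ncard) (h2 : 2 * Γ.ncard ≤ Nat.card Ω)
    (htr : ∀ x ∈ Γ, ∀ y ∈ Γ, ∃ g : G, (∀ z ∉ Γ, g • z = z) ∧ g • x = y) :
    IsMultiplyPretransitive G Ω 3 := by
  classical
  haveI := Fintype.ofFinite Ω
  set k := Γ.ncard with hk
  set n := Nat.card Ω with hn
  have hcompl : Γᶜ.ncard = n - k := Set.ncard_compl Γ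
  have htwo : IsMultiplyPretransitive G Ω 2 :=
    hprim.is_two_pretransitive (s := Γᶜ) (n := n - k - 1) (by omega) (by omega)
      (isPretransitive_ofFixingSubgroup_compl htr)
  have h2t : ∀ {a b c d : Ω}, a ≠ b → c ≠ d → ∃ g : G, g • a = c ∧ g • b = d :=
    is_two_pretransitive_iff.1 htwo
  -- choose `a` outside `Γ`
  obtain ⟨a, ha⟩ : (Γᶜ).Nonempty := Set.nonempty_of_ncard_ne_zero (by omega)
  haveI : IsPretransitive G Ω := hprim.toIsPretransitive
  rw [SubMulAction.ofStabilizer.isMultiplyPretransitive (a := a)]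
  haveI hGa : IsPretransitive (stabilizer G a) (SubMulAction.ofStabilizer G a) := by
    rw [← is_one_pretransitive_iff, ← SubMulAction.ofStabilizer.isMultiplyPretransitive]
    exact htwo
  -- the translates of `Γ`
  let Γf : Finset Ω := Γ.toFinset
  have hΓf : Γf.card = k := (Set.ncard_eq_toFinset_card' Γ).symm
  obtain ⟨T, hT⟩ : ∃ T : Finset (Finset Ω), ∀ B, B ∈ T ↔ ∃ g : G, B = Γf.image (g • ·) :=
    ⟨Finset.univ.filter fun B => ∃ g : G, B = Γf.image (g • ·), fun B => by simp⟩
  have hTcard : ∀ B ∈ T, B.card = k := by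
    intro B hB
    obtain ⟨g, rfl⟩ := (hT B).1 hB
    rw [Finset.card_image_of_injective _ (MulAction.injective g), hΓf]
  have hTsmul : ∀ (g : G), ∀ B ∈ T, B.image (g • ·) ∈ T := by
    intro g B hB
    obtain ⟨h, rfl⟩ := (hT B).1 hB
    refine (hT _).2 ⟨g * h, ?_⟩
    rw [Finset.image_image]
    exact Finset.image_congr fun x _ => (mul_smul g h x).symm
  have hmemim : ∀ (g : G) (B : Finset Ω) (u : Ω), g • u ∈ B.image (g • ·) ↔ u ∈ B := fun g B u => by
    simp
  let pr : Ω → Ω → ℕ := fun u v => (T.filter fun B => u ∈ B ∧ v ∈ B).card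
  have hpr : ∀ (g : G) u v, pr u v ≤ pr (g • u) (g • v) := by
    intro g u v
    refine Finset.card_le_card_of_injOn (·.image (g • ·)) ?_
      (Finset.image_injective (MulAction.injective g)).injOn
    intro B hB
    rw [Finset.mem_coe, Finset.mem_filter] at hB
    rw [Finset.mem_coe, Finset.mem_filter]
    exact ⟨hTsmul g B hB.1, (hmemim g B u).2 hB.2.1, (hmemim g B v).2 hB.2.2⟩
  -- Jordan sets and blocks of the stabiliser of `a`
  refine (@IsPreprimitive.is_two_pretransitive _ _ _ _ ?_ ((Subtype.val : SubMulAction.ofStabilizer G a → Ω) ⁻¹' Γᶜ)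
    (n - k - 2) ?_ ?_ ?_)
  · refine ⟨fun {B} hB => ?_⟩
    by_contra hnt
    rw [IsTrivialBlock, not_or] at hnt
    obtain ⟨hsub, huniv⟩ := hnt
    obtain ⟨x', hx', y', hy', hxy'⟩ := Set.not_subsingleton_iff.1 hsub
    set B' : Finset Ω := B.toFinset.image Subtype.val with hB'
    have hdcard : B'.card = B.ncard := by
      rw [hB', Finset.card_image_of_injective _ Subtype.val_injective, Set.ncard_eq_toFinset_card']
    have hcardα : Nat.card (SubMulAction.ofStabilizer G a) + 1 = n :=
      SubMulAction.nat_card_ofStabilizer_add_one_eq G a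
    have hd : 2 * B.ncard + 1 ≤ n := by
      obtain ⟨c, hc⟩ := hB.ncard_dvd_card ⟨x', hx'⟩
      have hc2 : 2 ≤ c := by
        by_contra hc1
        refine huniv (Set.eq_univ_of_univ_subset ?_)
        rw [Set.univ_subset_iff]
        refine Set.eq_of_subset_of_ncard_le (Set.subset_univ _) ?_
        rw [Set.ncard_univ, hc]
        calc B.ncard * c ≤ B.ncard * 1 := Nat.mul_le_mul_left _ (by omega)
          _ = B.ncard := mul_one _
      have : B.ncard * 2 ≤ B.ncard * c := Nat.mul_le_mul_left _ hc2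
      omega
    have hmemB : ∀ u : Ω, u ∈ B' ↔ ∃ hu : u ∈ SubMulAction.ofStabilizer G a, (⟨u, hu⟩ : SubMulAction.ofStabilizer G a) ∈ B := fun u => by
      simp [hB']
    have haB : a ∉ B' := fun h => by
      obtain ⟨hu, -⟩ := (hmemB a).1 h
      exact hu rfl
    -- a translate avoiding `a` is inside or outside a block
    have key : ∀ Δ ∈ T, a ∉ Δ → ∀ u ∈ Δ, u ∈ B' → ∀ z ∈ B', z ∉ Δ → Δ ⊆ B' := by
      intro Δ hΔ haΔ u hu huB z hzB hzΔ v hv
      obtain ⟨g, rfl⟩ := (hT Δ).1 hΔ
      simp only [Finset.mem_image, Γf, Set.mem_toFinset] at hu hv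
      obtain ⟨u₀, hu₀, rfl⟩ := hu
      obtain ⟨v₀, hv₀, rfl⟩ := hv
      obtain ⟨h, hh, hh'⟩ := htr u₀ hu₀ v₀ hv₀
      have hfix : ∀ w, w ∉ Γf.image (g • ·) → (g * h * g⁻¹) • w = w := by
        intro w hw
        rw [mul_smul, mul_smul, hh _ fun hmem => hw (Finset.mem_image.2
          ⟨g⁻¹ • w, Set.mem_toFinset.2 hmem, smul_inv_smul g w⟩), smul_inv_smul]
      obtain ⟨hu', huB'⟩ := (hmemB _).1 huB
      obtain ⟨hz', hzB'⟩ := (hmemB _).1 hzB
      let t : stabilizer G a := ⟨g * h * g⁻¹, hfix a haΔ⟩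
      have htB : t • B = B := hB.smul_eq_of_nonempty ⟨⟨z, hz'⟩,
        ⟨⟨z, hz'⟩, hzB', Subtype.ext (hfix z hzΔ)⟩, hzB'⟩
      have : t • (⟨g • u₀, hu'⟩ : SubMulAction.ofStabilizer G a) ∈ B :=
        htB ▸ Set.smul_mem_smul_set huB'
      refine (hmemB _).2 ⟨?_, ?_⟩
      · intro e
        have e' : g • v₀ = a := e
        exact haΔ (e' ▸ Finset.mem_image.2 ⟨v₀, Set.mem_toFinset.2 hv₀, rfl⟩)
      convert this using 1
      apply Subtype.ext
      show g • v₀ = (g * h * g⁻¹) • g • u₀
      rw [mul_smul, mul_smul, inv_smul_smul, hh']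
    set x : Ω := (x' : Ω) with hx
    set y : Ω := (y' : Ω) with hy
    have hxB : x ∈ B' := (hmemB x).2 ⟨x'.2, hx'⟩
    have hyB : y ∈ B' := (hmemB y).2 ⟨y'.2, hy'⟩
    have hxy : x ≠ y := fun e => hxy' (Subtype.ext e)
    have hxa : x ≠ a := fun e => haB (e ▸ hxB)
    set lam := pr x a with hlam
    have hconst : ∀ u v : Ω, u ≠ v → pr u v = lam := by
      intro u v huv
      obtain ⟨g, g1, g2⟩ := h2t huv hxa
      refine le_antisymm ?_ ?_
      · have := hpr g u v
        rwa [g1, g2] at this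
      · have := hpr g⁻¹ x a
        rwa [← g1, ← g2, inv_smul_smul, inv_smul_smul, g1, g2] at this
    set Sx := T.filter (x ∈ ·) with hSx
    have hrel : Sx.card * (k - 1) = lam * (n - 1) := by
      have h := sum_card_filter_mem Sx (Finset.univ.erase x)
      have hL : ∀ u ∈ Finset.univ.erase x, (Sx.filter (u ∈ ·)).card = lam := fun u hu => by
        rw [hSx, Finset.filter_filter]
        exact hconst x u (Finset.ne_of_mem_erase hu).symm
      have hR : ∀ B ∈ Sx, (Finset.univ.erase x ∩ B).card = k - 1 := fun B hB => by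
        rw [hSx, Finset.mem_filter] at hB
        rw [Finset.erase_inter, Finset.univ_inter, Finset.card_erase_of_mem hB.2, hTcard B hB.1]
      rw [Finset.sum_congr rfl hL, Finset.sum_congr rfl hR, Finset.sum_const, Finset.sum_const,
        Finset.card_erase_of_mem (Finset.mem_univ x), Finset.card_univ,
        ← Nat.card_eq_fintype_card, smul_eq_mul, smul_eq_mul] at h
      rw [← h, mul_comm]
    have hr : 0 < Sx.card := by
      obtain ⟨u, hu⟩ := Set.nonempty_of_ncard_ne_zero (s := Γ) (by omega)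
      obtain ⟨g, hg⟩ := exists_smul_eq G u x
      refine Finset.card_pos.2 ⟨Γf.image (g • ·), ?_⟩
      rw [hSx, Finset.mem_filter]
      exact ⟨(hT _).2 ⟨g, rfl⟩, hg ▸ (hmemim g Γf u).2 (Set.mem_toFinset.2 hu)⟩
    have hlam : 0 < lam := by
      by_contra h0
      have h0' : lam = 0 := by omega
      rw [h0', zero_mul] at hrel
      rcases mul_eq_zero.1 hrel with h | h <;> omega
    -- a translate through `x` avoiding `a` and `y`
    obtain ⟨Δ₁, hΔ₁, hx₁, ha₁, hy₁⟩ : ∃ Δ ∈ T, x ∈ Δ ∧ a ∉ Δ ∧ y ∉ Δ := by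
      by_contra hno
      push Not at hno
      have hsub' : Sx ⊆ (T.filter fun B => x ∈ B ∧ a ∈ B) ∪ (T.filter fun B => x ∈ B ∧ y ∈ B) := by
        intro B hB
        rw [hSx, Finset.mem_filter] at hB
        rw [Finset.mem_union, Finset.mem_filter, Finset.mem_filter]
        by_cases haB' : a ∈ B
        · exact Or.inl ⟨hB.1, hB.2, haB'⟩
        · exact Or.inr ⟨hB.1, hB.2, hno B hB.1 hB.2 haB'⟩
      have h3 : Sx.card ≤ lam + lam := by
        refine (Finset.card_le_card hsub').trans ((Finset.card_union_le _ _).trans ?_)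
        exact Nat.add_le_add le_rfl (hconst x y hxy).le
      have h4 : lam * (n - 1) ≤ lam * (2 * (k - 1)) := by
        rw [← hrel]
        calc Sx.card * (k - 1) ≤ (lam + lam) * (k - 1) := Nat.mul_le_mul_right _ h3
          _ = lam * (2 * (k - 1)) := by ring
      have := Nat.le_of_mul_le_mul_left h4 hlam
      omega
    have hk_lt : k < B'.card := by
      rw [← hTcard Δ₁ hΔ₁]
      exact Finset.card_lt_card (Finset.ssubset_iff_subset_ne.2
        ⟨key Δ₁ hΔ₁ ha₁ x hx₁ hxB y hyB hy₁, fun e => hy₁ (e ▸ hyB)⟩)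
    -- a translate through `x` and a point outside the block, avoiding `a`
    obtain ⟨Δ₂, hΔ₂, hx₂, ha₂, z, hz, hzB⟩ :
        ∃ Δ ∈ T, x ∈ Δ ∧ a ∉ Δ ∧ ∃ z ∈ Δ, z ∉ B' := by
      by_contra hno
      push Not at hno
      set U := (Finset.univ \ B').erase a with hU
      set S := T.filter (fun B => x ∈ B ∧ a ∈ B) with hS
      have hUcard : U.card = n - B'.card - 1 := by
        rw [hU, Finset.card_erase_of_mem (by simp [haB]),
          Finset.card_sdiff_of_subset (Finset.subset_univ _), Finset.card_univ,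
          ← Nat.card_eq_fintype_card]
      have hlow : U.card * lam ≤ ∑ u ∈ U, (S.filter (u ∈ ·)).card := by
        rw [← smul_eq_mul, ← Finset.sum_const]
        refine Finset.sum_le_sum fun u hu => ?_
        rw [hU, Finset.mem_erase, Finset.mem_sdiff] at hu
        rw [← hconst x u fun e => hu.2.2 (e ▸ hxB)]
        refine Finset.card_le_card fun B hB => ?_
        rw [Finset.mem_filter] at hB
        rw [Finset.mem_filter, hS, Finset.mem_filter]
        refine ⟨⟨hB.1, hB.2.1, ?_⟩, hB.2.2⟩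
        by_contra haB'
        exact hu.2.2 (hno B hB.1 hB.2.1 haB' u hB.2.2)
      have hupp : ∑ B ∈ S, (U ∩ B).card ≤ lam * (k - 2) := by
        refine (Finset.sum_le_card_nsmul S _ (k - 2) fun B hB => ?_).trans_eq (smul_eq_mul _ _)
        rw [hS, Finset.mem_filter] at hB
        have hsub2 : U ∩ B ⊆ (B.erase x).erase a := by
          intro u hu
          rw [Finset.mem_inter, hU, Finset.mem_erase, Finset.mem_sdiff] at hu
          rw [Finset.mem_erase, Finset.mem_erase]
          exact ⟨hu.1.1, fun e => hu.1.2.2 (e ▸ hxB), hu.2⟩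
        refine (Finset.card_le_card hsub2).trans_eq ?_
        rw [Finset.card_erase_of_mem (Finset.mem_erase.2 ⟨hxa.symm, hB.2.2⟩),
          Finset.card_erase_of_mem hB.2.1, hTcard B hB.1]
        rfl
      have h5 : lam * (n - B'.card - 1) ≤ lam * (k - 2) := by
        rw [← hUcard, mul_comm]
        exact hlow.trans ((sum_card_filter_mem S U).trans_le hupp)
      have := Nat.le_of_mul_le_mul_left h5 hlam
      omega
    have hle : B' ⊆ Δ₂ := by
      intro u hu
      by_contra hu'
      exact hzB (key Δ₂ hΔ₂ ha₂ x hx₂ hxB u hu hu' hz)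
    have := Finset.card_le_card hle
    rw [hTcard Δ₂ hΔ₂] at this
    omega
  · -- the size of the complement
    have himg : (Subtype.val : SubMulAction.ofStabilizer G a → Ω) '' (Subtype.val ⁻¹' Γᶜ) = Γᶜ \ {a} := by
      ext u
      simp [SubMulAction.mem_ofStabilizer_iff, and_comm]
    rw [← Set.ncard_image_of_injective _ Subtype.val_injective, himg,
      Set.ncard_sdiff_singleton_of_mem ha]
    omega
  · have := SubMulAction.nat_card_ofStabilizer_add_one_eq G a
    omega
  · refine ⟨fun u v => ?_⟩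
    obtain ⟨g, hg, hgx⟩ := htr ((u : SubMulAction.ofStabilizer G a) : Ω) (not_not.1 u.2)
      ((v : SubMulAction.ofStabilizer G a) : Ω) (not_not.1 v.2)
    exact ⟨⟨⟨g, hg a ha⟩, fun z => Subtype.ext (hg _ z.2)⟩, Subtype.ext (Subtype.ext hgx)⟩

end Cfsg.Agent.PermGroups
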