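import Cfsg.Agent.PermGroups.Marggraff
import Cfsg.Agent.PermGroups.Transitivity
import Cfsg.Agent.S0711

/-!
# Marggraff's theorem on small Jordan sets

A primitive permutation group with a Jordan set of more than one and fewer than half of the points
contains the alternating group.  The proof studies, for a translate `A` of the Jordan set, the
minimal unions `A ∪ W` with translates `W` meeting it: the new parts form Jordan sets of at most
half the size for the stabiliser of `A` acting outside `A`, to which induction applies.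
-/

set_option autoImplicit false

namespace Cfsg.Agent.PermGroups.SmallJordan

open MulAction Equiv

variable {α : Type*} [Fintype α] [DecidableEq α]

/-- The elements of `G` supported in `U` are transitive on `U`. -/
def Jordan (G : Subgroup (Perm α)) (U : Finset α) : Prop :=
  ∀ x ∈ U, ∀ y ∈ U, ∃ g ∈ G, (∀ z, z ∉ U → g z = z) ∧ g x = y

/-- Being a translate. -/
def Translate (G : Subgroup (Perm α)) (Γ A : Finset α) : Prop := ∃ g ∈ G, A = Γ.image g

/-- A union of `A` with a translate meeting it. -/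
def Ext (G : Subgroup (Perm α)) (Γ A U : Finset α) : Prop :=
  ∃ W, Translate G Γ W ∧ (A ∩ W).Nonempty ∧ ¬ W ⊆ A ∧ U = A ∪ W

/-- A minimal union. -/
def MinExt (G : Subgroup (Perm α)) (Γ A U : Finset α) : Prop :=
  Ext G Γ A U ∧ ∀ U', Ext G Γ A U' → U' ⊆ U → U' = U

/-- The missing parts of the translates of `A` inside `U`. -/
def Cls (G : Subgroup (Perm α)) (A U N : Finset α) : Prop :=
  ∃ g ∈ G, (∀ z, z ∉ U → g z = z) ∧ N = U \ A.image g

variable {G : Subgroup (Perm α)} {Γ A U : Finset α}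

theorem image_subset_self {g : Perm α} (hg : ∀ z, z ∉ U → g z = z) : U.image g = U := by
  refine Finset.eq_of_subset_of_card_le (fun w hw => ?_)
    (by rw [Finset.card_image_of_injective _ g.injective])
  obtain ⟨u, hu, rfl⟩ := Finset.mem_image.1 hw
  by_contra h
  have := hg _ h
  exact h (by rwa [g.injective this])

theorem Jordan.image (hJ : Jordan G U) {g : Perm α} (hg : g ∈ G) : Jordan G (U.image g) := by
  intro x hx y hy
  obtain ⟨x', hx', rfl⟩ := Finset.mem_image.1 hx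
  obtain ⟨y', hy', rfl⟩ := Finset.mem_image.1 hy
  obtain ⟨h, hh, hfix, hxy⟩ := hJ x' hx' y' hy'
  refine ⟨g * h * g⁻¹, mul_mem (mul_mem hg hh) (inv_mem hg), fun z hz => ?_, by simp [hxy]⟩
  have : g⁻¹ z ∉ U := fun hm => hz (Finset.mem_image.2 ⟨_, hm, by simp⟩)
  rw [Perm.mul_apply, Perm.mul_apply, hfix _ this, ← Perm.mul_apply, mul_inv_cancel, Perm.one_apply]

theorem Jordan.union {V : Finset α} (hU : Jordan G U) (hV : Jordan G V) (hne : (U ∩ V).Nonempty) :
    Jordan G (U ∪ V) := by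
  obtain ⟨c, hc⟩ := hne
  rw [Finset.mem_inter] at hc
  have key : ∀ x ∈ U ∪ V, ∃ g ∈ G, (∀ z, z ∉ U ∪ V → g z = z) ∧ g x = c := by
    intro x hx
    rw [Finset.mem_union] at hx
    rcases hx with hx | hx
    · obtain ⟨g, hg, hf, he⟩ := hU x hx c hc.1
      exact ⟨g, hg, fun z hz => hf z fun h => hz (Finset.mem_union_left _ h), he⟩
    · obtain ⟨g, hg, hf, he⟩ := hV x hx c hc.2
      exact ⟨g, hg, fun z hz => hf z fun h => hz (Finset.mem_union_right _ h), he⟩
  intro x hx y hy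
  obtain ⟨g, hg, hgf, hgx⟩ := key x hx
  obtain ⟨h, hh, hhf, hhy⟩ := key y hy
  refine ⟨h⁻¹ * g, mul_mem (inv_mem hh) hg, fun z hz => ?_, ?_⟩
  · rw [Perm.mul_apply, hgf z hz, Perm.inv_eq_iff_eq, hhf z hz]
  · rw [Perm.mul_apply, hgx, Perm.inv_eq_iff_eq, hhy]

theorem Translate.card (hA : Translate G Γ A) : A.card = Γ.card := by
  obtain ⟨g, -, rfl⟩ := hA
  exact Finset.card_image_of_injective _ g.injective

theorem Translate.jordan (hΓ : Jordan G Γ) (hA : Translate G Γ A) : Jordan G A := by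
  obtain ⟨g, hg, rfl⟩ := hA
  exact hΓ.image hg

theorem Translate.image (hA : Translate G Γ A) {h : Perm α} (hh : h ∈ G) :
    Translate G Γ (A.image h) := by
  obtain ⟨g, hg, rfl⟩ := hA
  exact ⟨h * g, mul_mem hh hg, by rw [Finset.image_image]; rfl⟩

theorem Ext.image (hE : Ext G Γ A U) {h : Perm α} (hh : h ∈ G) :
    Ext G Γ (A.image h) (U.image h) := by
  obtain ⟨W, hW, hne, hnot, rfl⟩ := hE
  refine ⟨W.image h, hW.image hh, ?_, fun hs => hnot fun z hz => ?_, Finset.image_union _ _⟩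
  · obtain ⟨c, hc⟩ := hne
    rw [Finset.mem_inter] at hc
    exact ⟨h c, Finset.mem_inter.2 ⟨Finset.mem_image_of_mem _ hc.1, Finset.mem_image_of_mem _ hc.2⟩⟩
  · exact h.injective.mem_finset_image.1 (hs (Finset.mem_image_of_mem _ hz))

theorem image_inv_image (S : Finset α) (h : Perm α) : (S.image h).image ⇑h⁻¹ = S := by
  rw [Finset.image_image]
  convert Finset.image_id (s := S) using 2
  ext z; simp

theorem image_image_inv (S : Finset α) (h : Perm α) : (S.image ⇑h⁻¹).image h = S := by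
  rw [Finset.image_image]
  convert Finset.image_id (s := S) using 2
  ext z; simp

theorem MinExt.image (hE : MinExt G Γ A U) {h : Perm α} (hh : h ∈ G) :
    MinExt G Γ (A.image h) (U.image h) := by
  refine ⟨hE.1.image hh, fun U' hU' hsub => ?_⟩
  have h1 := hU'.image (inv_mem hh)
  rw [image_inv_image] at h1
  have h2 := hE.2 _ h1 (by
    have := Finset.image_subset_image (f := ⇑h⁻¹) hsub
    rwa [image_inv_image] at this)
  rw [← h2, image_image_inv]

theorem Ext.jordan (hΓ : Jordan G Γ) (hA : Translate G Γ A) (hE : Ext G Γ A U) : Jordan G U := by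
  obtain ⟨W, hW, hne, -, rfl⟩ := hE
  exact (hA.jordan hΓ).union (hW.jordan hΓ) hne

theorem Ext.subset (hE : Ext G Γ A U) : A ⊆ U := by
  obtain ⟨W, -, -, -, rfl⟩ := hE
  exact Finset.subset_union_left

theorem Ext.ssubset (hE : Ext G Γ A U) : A ⊂ U := by
  obtain ⟨W, -, -, hnot, rfl⟩ := hE
  exact Finset.ssubset_iff_subset_ne.2 ⟨Finset.subset_union_left, fun e =>
    hnot (Finset.union_eq_left.1 e.symm)⟩

theorem Ext.card_lt (hA : Translate G Γ A) (hE : Ext G Γ A U) : U.card < 2 * Γ.card := by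
  obtain ⟨W, hW, hne, -, rfl⟩ := hE
  have := Finset.card_union_add_card_inter A W
  have := Finset.card_pos.2 hne
  rw [hA.card, hW.card] at *
  omega

variable (hΓ : Jordan G Γ) (hA : Translate G Γ A) (hU : MinExt G Γ A U)

section

include hU

theorem image_subset {g : Perm α} (hfix : ∀ z, z ∉ U → g z = z) : A.image g ⊆ U :=
  (Finset.image_subset_image hU.1.subset).trans (image_subset_self hfix).le

theorem minExt_move {g : Perm α} (hg : g ∈ G) (hfix : ∀ z, z ∉ U → g z = z) :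
    MinExt G Γ (A.image g) U := by
  have := hU.image hg
  rwa [image_subset_self hfix] at this

include hA

theorem union_image {g : Perm α} (hg : g ∈ G) (hfix : ∀ z, z ∉ U → g z = z) (hne : A.image g ≠ A) :
    A ∪ A.image g = U := by
  refine hU.2 _ ⟨A.image g, hA.image hg, ?_, fun hs => hne ?_, rfl⟩
    (Finset.union_subset hU.1.subset (image_subset hU hfix))
  · by_contra h
    rw [Finset.not_nonempty_iff_eq_empty] at h
    have h1 := Finset.card_union_add_card_inter A (A.image g)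
    rw [h, Finset.card_empty, (hA.image hg).card, hA.card] at h1
    have h2 := Finset.card_le_card (Finset.union_subset hU.1.subset (image_subset hU hfix))
    have := hU.1.card_lt hA
    omega
  · exact Finset.eq_of_subset_of_card_le hs (by rw [(hA.image hg).card, hA.card])

theorem cls_card {N : Finset α} (hN : Cls G A U N) : N.card + Γ.card = U.card := by
  obtain ⟨g, hg, hfix, rfl⟩ := hN
  rw [Finset.card_sdiff_of_subset (image_subset hU hfix), (hA.image hg).card]
  have := Finset.card_le_card (image_subset hU hfix)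
  rw [(hA.image hg).card] at this
  omega

theorem cls_eq {N N' : Finset α} (hN : Cls G A U N) (hN' : Cls G A U N')
    (hne : (N ∩ N').Nonempty) : N = N' := by
  obtain ⟨g, hg, hgf, rfl⟩ := hN
  obtain ⟨h, hh, hhf, rfl⟩ := hN'
  by_contra hne'
  have hmove := minExt_move hU hg hgf
  have hfix' : ∀ z, z ∉ U → (h * g⁻¹) z = z := fun z hz => by
    rw [Perm.mul_apply, Perm.inv_eq_iff_eq.2 (hgf z hz).symm, hhf z hz]
  have himg : (A.image g).image ⇑(h * g⁻¹) = A.image h := by
    rw [Finset.image_image]; congr 1; ext z; simp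
  have h1 := union_image (hA.image hg) hmove (mul_mem hh (inv_mem hg)) hfix' (fun e => hne' (by
    rw [himg] at e; rw [e]))
  rw [himg] at h1
  obtain ⟨c, hc⟩ := hne
  simp only [Finset.mem_inter, Finset.mem_sdiff] at hc
  have hcU := hc.1.1
  rw [← h1, Finset.mem_union] at hcU
  rcases hcU with h2 | h2
  · exact hc.1.2 h2
  · exact hc.2.2 h2

theorem sdiff_cls : Cls G A U (U \ A) :=
  ⟨1, one_mem _, fun _ _ => rfl, by simp⟩

theorem cls_subset {N : Finset α} (hN : Cls G A U N) (hne : N ≠ U \ A) : N ⊆ A := by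
  intro z hz
  by_contra hzA
  apply hne
  refine cls_eq hA hU hN (sdiff_cls hA hU) ⟨z, Finset.mem_inter.2 ⟨hz, Finset.mem_sdiff.2 ⟨?_, hzA⟩⟩⟩
  obtain ⟨g, -, hfix, rfl⟩ := hN
  exact (Finset.mem_sdiff.1 hz).1

include hΓ

theorem cls_cover {x : α} (hx : x ∈ A) : ∃ N, Cls G A U N ∧ x ∈ N ∧ N ⊆ A := by
  obtain ⟨q, hq⟩ : (U \ A).Nonempty := by
    rw [Finset.sdiff_nonempty]
    exact fun h => hU.1.ssubset.2 h
  rw [Finset.mem_sdiff] at hq
  obtain ⟨g, hg, hfix, hgx⟩ := hU.1.jordan hΓ hA q hq.1 x (hU.1.subset hx)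
  have hxN : x ∈ U \ A.image g := by
    rw [Finset.mem_sdiff]
    refine ⟨hU.1.subset hx, fun h => hq.2 ?_⟩
    obtain ⟨u, hu, hu'⟩ := Finset.mem_image.1 h
    rwa [g.injective (hgx.trans hu'.symm)]
  refine ⟨_, ⟨g, hg, hfix, rfl⟩, hxN, cls_subset hA hU ⟨g, hg, hfix, rfl⟩ fun e => ?_⟩
  rw [e, Finset.mem_sdiff] at hxN
  exact hxN.2 hx

theorem two_mul_card_sdiff : 2 * (U \ A).card ≤ Γ.card := by
  obtain ⟨W, hW, hne, -, hUW⟩ := hU.1
  obtain ⟨p, hp⟩ := hne
  obtain ⟨N, hN, -, hNA⟩ := cls_cover hΓ hA hU (Finset.mem_inter.1 hp).1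
  have hcard : ∀ N, Cls G A U N → N.card = (U \ A).card := fun N hN => by
    have := cls_card hA hU hN
    have := cls_card hA hU (sdiff_cls hA hU)
    omega
  by_cases hNeq : N = A
  · exfalso
    have := cls_card hA hU hN
    have := hU.1.card_lt hA
    rw [hNeq, hA.card] at *
    omega
  obtain ⟨q, hq, hqN⟩ := Finset.exists_of_ssubset (Finset.ssubset_iff_subset_ne.2 ⟨hNA, hNeq⟩)
  obtain ⟨N', hN', hqN', hN'A⟩ := cls_cover hΓ hA hU hq
  have hdis : Disjoint N N' := by
    rw [Finset.disjoint_iff_inter_eq_empty, ← Finset.not_nonempty_iff_eq_empty]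
    intro h
    exact hqN (cls_eq hA hU hN hN' h ▸ hqN')
  have := Finset.card_le_card (Finset.union_subset hNA hN'A)
  rw [Finset.card_union_of_disjoint hdis, hcard N hN, hcard N' hN', hA.card] at this
  omega

theorem exists_stab {x y : α} (hx : x ∈ U \ A) (hy : y ∈ U \ A) :
    ∃ g ∈ G, (∀ z, z ∉ U → g z = z) ∧ g x = y ∧ A.image g = A := by
  obtain ⟨g, hg, hfix, hgx⟩ := hU.1.jordan hΓ hA x (Finset.mem_sdiff.1 hx).1 y (Finset.mem_sdiff.1 hy).1
  refine ⟨g, hg, hfix, hgx, ?_⟩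
  have hyN : y ∈ U \ A.image g := by
    rw [Finset.mem_sdiff]
    refine ⟨(Finset.mem_sdiff.1 hy).1, fun h => ?_⟩
    obtain ⟨u, hu, hu'⟩ := Finset.mem_image.1 h
    exact (Finset.mem_sdiff.1 hx).2 (g.injective (hgx.trans hu'.symm) ▸ hu)
  have he := cls_eq hA hU ⟨g, hg, hfix, rfl⟩ (sdiff_cls hA hU) ⟨y, Finset.mem_inter.2 ⟨hyN, hy⟩⟩
  refine Finset.eq_of_subset_of_card_le (fun z hz => ?_) (by rw [(hA.image hg).card, hA.card])
  by_contra hzA
  have : z ∈ U \ A := Finset.mem_sdiff.2 ⟨image_subset hU hfix hz, hzA⟩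
  rw [← he, Finset.mem_sdiff] at this
  exact this.2 hz

end

include hΓ in
/-- Each point of a union lies in a minimal union inside it. -/
theorem exists_minExt : ∀ (c : ℕ) (A W : Finset α), Translate G Γ A → Translate G Γ W →
    (A ∩ W).Nonempty → (W \ A).card = c → ∀ x ∈ W, x ∉ A →
    ∃ U, MinExt G Γ A U ∧ x ∈ U ∧ U ⊆ A ∪ W := by
  intro c
  induction c using Nat.strong_induction_on with
  | _ c ih =>
  intro A W hA hW hne hc x hxW hxA
  have hE : Ext G Γ A (A ∪ W) := ⟨W, hW, hne, fun h => hxA (h hxW), rfl⟩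
  classical
  obtain ⟨U0, hU0, hmin⟩ := Finset.exists_min_image
    (Finset.univ.filter fun U => Ext G Γ A U ∧ U ⊆ A ∪ W) Finset.card
    ⟨A ∪ W, Finset.mem_filter.2 ⟨Finset.mem_univ _, hE, subset_rfl⟩⟩
  rw [Finset.mem_filter] at hU0
  have hU : MinExt G Γ A U0 := ⟨hU0.2.1, fun U' hU' hsub =>
    Finset.eq_of_subset_of_card_le hsub
      (hmin U' (Finset.mem_filter.2 ⟨Finset.mem_univ _, hU', hsub.trans hU0.2.2⟩))⟩
  by_cases hxU : x ∈ U0
  · exact ⟨U0, hU, hxU, hU0.2.2⟩
  obtain ⟨p, hpA, hpW⟩ : ∃ p ∈ A, p ∉ W := by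
    by_contra h
    push Not at h
    exact hxA (Finset.eq_of_subset_of_card_le h (by rw [hA.card, hW.card]) ▸ hxW)
  obtain ⟨N, hN, hpN, hNA⟩ := cls_cover hΓ hA hU hpA
  have hNc := cls_card hA hU hN
  have hMc := cls_card hA hU (sdiff_cls hA hU)
  obtain ⟨g, hg, hfix, rfl⟩ := hN
  have hMW : U0 \ A ⊆ W \ A := fun z hz => by
    rw [Finset.mem_sdiff] at hz ⊢
    exact ⟨(Finset.mem_union.1 (hU0.2.2 hz.1)).resolve_left hz.2, hz.2⟩
  have hVeq : ∀ z, z ∈ A.image g ↔ z ∈ U0 ∧ z ∉ U0 \ A.image g := fun z => by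
    rw [Finset.mem_sdiff]
    exact ⟨fun h => ⟨image_subset hU hfix h, fun h' => h'.2 h⟩, fun h => by tauto⟩
  have hVW : (A.image g ∩ W).Nonempty := by
    obtain ⟨q, hq⟩ : (U0 \ A).Nonempty := by
      rw [Finset.sdiff_nonempty]; exact fun h => hU.1.ssubset.2 h
    refine ⟨q, Finset.mem_inter.2 ⟨(hVeq q).2 ⟨(Finset.mem_sdiff.1 hq).1, fun h => ?_⟩,
      (Finset.mem_sdiff.1 (hMW hq)).1⟩⟩
    exact (Finset.mem_sdiff.1 hq).2 (hNA h)
  have hsub : W \ A.image g ⊆ ((W \ A) \ (U0 \ A)) ∪ ((U0 \ A.image g) ∩ W) := fun z hz => by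
    simp only [Finset.mem_union, Finset.mem_sdiff, Finset.mem_inter] at hz ⊢
    by_cases hzU : z ∈ U0
    · exact Or.inr ⟨⟨hzU, hz.2⟩, hz.1⟩
    · exact Or.inl ⟨⟨hz.1, fun h => hzU (hU.1.subset h)⟩, fun h => hzU h.1⟩
  have hlt : (W \ A.image g).card < c := by
    have h1 := (Finset.card_le_card hsub).trans (Finset.card_union_le _ _)
    rw [Finset.card_sdiff_of_subset hMW, hc] at h1
    have h2 : ((U0 \ A.image g) ∩ W).card < (U0 \ A.image g).card :=
      Finset.card_lt_card (Finset.ssubset_iff_subset_ne.2 ⟨Finset.inter_subset_left, fun e =>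
        hpW (Finset.mem_inter.1 (show p ∈ (U0 \ A.image g) ∩ W by rw [e]; exact hpN)).2⟩)
    have h3 := Finset.card_le_card hMW
    omega
  have hgx : g x = x := hfix x hxU
  obtain ⟨U', hU', hxU', hU'sub⟩ := ih _ hlt (A.image g) W (hA.image hg) hW hVW rfl x hxW
    (fun h => hxU (image_subset hU hfix h))
  refine ⟨U'.image ⇑g⁻¹, ?_, Finset.mem_image.2 ⟨x, hxU', Perm.inv_eq_iff_eq.2 hgx.symm⟩, ?_⟩
  · have := hU'.image (inv_mem hg)
    rwa [image_inv_image] at this
  · intro z hz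
    obtain ⟨w, hw, rfl⟩ := Finset.mem_image.1 hz
    by_cases hwU : w ∈ U0
    · apply hU0.2.2
      by_contra h
      have h' := hfix _ h
      rw [← Perm.mul_apply, mul_inv_cancel, Perm.one_apply] at h'
      exact h (h' ▸ hwU)
    · rw [Perm.inv_eq_iff_eq.2 (hfix w hwU).symm]
      refine Finset.mem_union_right _ ((Finset.mem_union.1 (hU'sub hw)).resolve_left fun h => ?_)
      exact hwU (image_subset hU hfix h)

include hΓ in
/-- Two minimal unions with unrelated new parts have the same classes on `A`. -/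
theorem cls_subset_of_unrelated (hA : Translate G Γ A) {U1 U2 : Finset α}
    (h1 : MinExt G Γ A U1) (h2 : MinExt G Γ A U2)
    (hunrel : ∀ U, MinExt G Γ A U → ∀ x ∈ U \ A, ∀ y ∈ U \ A, x ∈ U1 → y ∈ U2 → False)
    {N N' : Finset α} (hN : Cls G A U1 N) (hN' : Cls G A U2 N') (hNA : N ⊆ A)
    (hN'A : N' ⊆ A) (hne : (N ∩ N').Nonempty) : N ⊆ N' := by
  intro z hz
  by_contra hzN'
  have hm1 := two_mul_card_sdiff hΓ hA h1
  have hm2 := two_mul_card_sdiff hΓ hA h2
  have hNc := cls_card hA h1 hN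
  have hN'c := cls_card hA h2 hN'
  have hMc1 := cls_card hA h1 (sdiff_cls hA h1)
  have hMc2 := cls_card hA h2 (sdiff_cls hA h2)
  obtain ⟨g, hg, hgf, rfl⟩ := hN
  obtain ⟨h, hh, hhf, rfl⟩ := hN'
  obtain ⟨c, hcA, hc⟩ : ∃ c ∈ A, c ∉ (U1 \ A.image g) ∪ (U2 \ A.image h) := by
    by_contra hall
    push Not at hall
    have h3 := Finset.card_union_add_card_inter (U1 \ A.image g) (U2 \ A.image h)
    have h4 := Finset.card_pos.2 hne
    have h5 := Finset.card_le_card hall
    rw [hA.card] at h5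
    omega
  rw [Finset.mem_union, not_or, Finset.mem_sdiff, Finset.mem_sdiff] at hc
  have hcg : c ∈ A.image g := by by_contra hh; exact hc.1 ⟨h1.1.subset hcA, hh⟩
  have hch : c ∈ A.image h := by by_contra hh; exact hc.2 ⟨h2.1.subset hcA, hh⟩
  rw [Finset.mem_sdiff] at hz
  have hzA : z ∈ A := hNA (Finset.mem_sdiff.2 hz)
  have hzh : z ∈ A.image h := by
    by_contra hh
    exact hzN' (Finset.mem_sdiff.2 ⟨h2.1.subset hzA, hh⟩)
  obtain ⟨U', hU', hzU', hU'sub⟩ := exists_minExt hΓ _ (A.image g) (A.image h) (hA.image hg)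
    (hA.image hh) ⟨c, Finset.mem_inter.2 ⟨hcg, hch⟩⟩ rfl z hzh hz.2
  set U := U'.image ⇑g⁻¹ with hUdef
  have hU : MinExt G Γ A U := by
    have := hU'.image (inv_mem hg)
    rwa [image_inv_image] at this
  set w := g⁻¹ z with hw
  have hgw : g w = z := by simp [hw]
  have hwU1 : w ∈ U1 := by
    by_contra hh
    exact hh ((hgf w hh).symm.trans hgw ▸ hz.1)
  have hwA : w ∉ A := fun hh => hz.2 (Finset.mem_image.2 ⟨w, hh, hgw⟩)
  have hwM : w ∈ U \ A := Finset.mem_sdiff.2 ⟨Finset.mem_image.2 ⟨z, hzU', rfl⟩, hwA⟩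
  have hsub : U ⊆ U1 := by
    intro v hv
    by_contra hv1
    obtain ⟨u, hu, rfl⟩ := Finset.mem_image.1 hv
    have hvA : g⁻¹ u ∉ A := fun hh => hv1 (h1.1.subset hh)
    have e := hgf _ hv1
    rw [← Perm.mul_apply, mul_inv_cancel, Perm.one_apply] at e
    rcases Finset.mem_union.1 (hU'sub hu) with hh | hh
    · exact hv1 (e ▸ image_subset h1 hgf hh)
    · refine hunrel U hU w hwM _ (Finset.mem_sdiff.2 ⟨hv, hvA⟩) hwU1 ?_
      rw [← e]
      exact image_subset h2 hhf hh
  have hUeq := h1.2 U hU.1 hsub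
  -- but some point of the new part is missing
  obtain ⟨c', hc'⟩ := hne
  rw [Finset.mem_inter, Finset.mem_sdiff, Finset.mem_sdiff] at hc'
  have : g⁻¹ c' ∈ U := by
    rw [hUeq]
    by_contra hh
    have e := hgf _ hh
    rw [← Perm.mul_apply, mul_inv_cancel, Perm.one_apply] at e
    exact hh (e ▸ hc'.1.1)
  obtain ⟨u, hu, hue⟩ := Finset.mem_image.1 this
  rw [g⁻¹.injective hue] at hu
  rcases Finset.mem_union.1 (hU'sub hu) with hh | hh
  · exact hc'.1.2 hh
  · exact hc'.2.2 hh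

end Cfsg.Agent.PermGroups.SmallJordan
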