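import Cfsg.Agent.PermGroups.ThreeCycleFStar
import Cfsg.Agent.PermGroups.PElementReduce
import Cfsg.Agent.FGS3.PGroupFrattini
import Cfsg.Agent.FGS3.AlmostAlternating
import Cfsg.Prelude.Def_LocalEven

/-!
# Overgroups of Sylow three-subgroups of alternating groups

Apart from degrees `6`, `9` and `3 ^ a + 1`, they generate the whole alternating group.
-/

set_option autoImplicit false
set_option linter.style.haveILetI false
set_option linter.unusedSectionVars false
set_option maxHeartbeats 1000000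

namespace Cfsg.Agent.PermGroups.MinimalThree

open Equiv Equiv.Perm Cfsg.Agent.Suzuki.AutAlt Cfsg.Agent.PermGroups.ThreeCycleFStar
open Cfsg.Agent.PermGroups.PElementPairs (exists_even_map stab res)

variable {α : Type*} [Fintype α] [DecidableEq α] {H : Subgroup (Perm α)}

theorem full_union {A B : Finset α} (hA : Full H A) (hB : Full H B) (hA3 : 3 ≤ A.card)
    (hB3 : 3 ≤ B.card) (hx : ∃ x ∈ A, x ∈ B) : Full H (A ∪ B) := by
  obtain ⟨x, hxA, hxB⟩ := hx
  have key : ∀ T : Finset α, T ⊆ B → Full H (A ∪ T) := by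
    intro T
    induction T using Finset.induction with
    | empty => intro _; simpa using hA
    | insert y T hy ih =>
      intro hT
      have h1 := ih fun u hu => hT (Finset.mem_insert_of_mem hu)
      have hyB := hT (Finset.mem_insert_self y T)
      rw [Finset.union_insert]
      by_cases hyx : y = x
      · subst hyx
        rwa [Finset.insert_eq_of_mem (Finset.mem_union_left _ hxA)]
      obtain ⟨z, hz⟩ := Finset.card_pos.1
        (show 0 < ((B.erase x).erase y).card by
          rw [Finset.card_erase_of_mem (Finset.mem_erase.2 ⟨hyx, hyB⟩),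
            Finset.card_erase_of_mem hxB]
          omega)
      simp only [Finset.mem_erase] at hz
      exact full_insert_of_cycle h1 (hA3.trans (Finset.card_le_card Finset.subset_union_left))
        (Ne.symm hyx) (Ne.symm hz.2.1) (Ne.symm hz.1)
        (hB x hxB y hyB z hz.2.2 (Ne.symm hyx) (Ne.symm hz.2.1) (Ne.symm hz.1))
        (Finset.mem_union_left _ hxA)
  exact key B subset_rfl

theorem full_image {A : Finset α} (hA : Full H A) {g : Perm α} (hg : g ∈ H) :
    Full H (A.image g) := by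
  intro a ha b hb c hc hab hac hbc
  obtain ⟨a', ha', rfl⟩ := Finset.mem_image.1 ha
  obtain ⟨b', hb', rfl⟩ := Finset.mem_image.1 hb
  obtain ⟨c', hc', rfl⟩ := Finset.mem_image.1 hc
  rw [← conj_cyc]
  exact H.mul_mem (H.mul_mem hg (hA a' ha' b' hb' c' hc' (fun h => hab (by rw [h]))
    (fun h => hac (by rw [h])) (fun h => hbc (by rw [h])))) (H.inv_mem hg)

theorem alt_le_of_full (h : Full H Finset.univ) : alternatingGroup α ≤ H := by
  rw [← closure_three_cycles_eq_alternating, Subgroup.closure_le]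
  intro t ht
  obtain ⟨u, hu⟩ : ∃ u, t u ≠ u := by
    by_contra h'
    push Not at h'
    exact ht.ne_one (Equiv.ext h')
  obtain ⟨h1, h2, h3⟩ := ne_two (f := t) ht hu
  rw [SetLike.mem_coe, eq_cyc ht hu]
  exact h _ (Finset.mem_univ _) _ (Finset.mem_univ _) _ (Finset.mem_univ _) h1 h2 h3

/-- `H` contains every proper overgroup of the even group `S`. -/
structure Absorbs (S H : Subgroup (Perm α)) : Prop where
  le_alt : S ≤ alternatingGroup α
  absorb : ∀ K : Subgroup (Perm α), S ≤ K → K ≤ alternatingGroup α →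
    (∃ g ∈ alternatingGroup α, g ∉ K) → K ≤ H

variable {S : Subgroup (Perm α)}

theorem stab_rel (hA : Absorbs S H) (r : α → α → Prop)
    (hinv : ∀ s ∈ S, ∀ u v, r u v → r (s u) (s v)) (h5 : 5 ≤ Fintype.card α)
    {a b c : α} (hab : a ≠ b) (hr : r a b) (hac : ¬ r a c) (hca : a ≠ c)
    {g : Perm α} (hg : g ∈ alternatingGroup α) (hgr : ∀ u v, r u v ↔ r (g u) (g v)) : g ∈ H := by
  let K : Subgroup (Perm α) :=
    { carrier := {k | k ∈ alternatingGroup α ∧ ∀ u v, r u v ↔ r (k u) (k v)}
      one_mem' := ⟨one_mem _, fun u v => by simp⟩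
      mul_mem' := fun {x y} hx hy => ⟨mul_mem hx.1 hy.1, fun u v => by
        rw [Perm.mul_apply, Perm.mul_apply, ← hx.2, ← hy.2]⟩
      inv_mem' := fun {x} hx => ⟨inv_mem hx.1, fun u v => by
        have := hx.2 (x⁻¹ u) (x⁻¹ v)
        rw [apply_inv, apply_inv] at this
        exact this.symm⟩ }
  refine hA.absorb K (fun s hs => ⟨hA.le_alt hs, fun u v => ⟨hinv s hs u v, fun h => ?_⟩⟩)
    (fun k hk => hk.1) ?_ ⟨hg, hgr⟩
  · have := hinv s⁻¹ (S.inv_mem hs) _ _ h
    simpa using this
  · obtain ⟨σ, hσ, hmap⟩ := exists_even_map ![a, b] ![a, c]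
      (by intro i j h; fin_cases i <;> fin_cases j <;> simp [hab, Ne.symm hab] at h ⊢)
      (by intro i j h; fin_cases i <;> fin_cases j <;> simp [hca, Ne.symm hca] at h ⊢) (by omega)
    refine ⟨σ, Perm.mem_alternatingGroup.2 hσ, fun hK => hac ?_⟩
    have := (hK.2 a b).1 hr
    rwa [show σ a = a by simpa using hmap 0, show σ b = c by simpa using hmap 1] at this

theorem stab_cent (hA : Absorbs S H) (c : Perm α) (hc : ∀ s ∈ S, s * c = c * s)
    (h5 : 5 ≤ Fintype.card α) {a : α} (ha : c a ≠ a)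
    {g : Perm α} (hg : g ∈ alternatingGroup α) (hgc : g * c = c * g) : g ∈ H := by
  refine hA.absorb (alternatingGroup α ⊓ Subgroup.centralizer ({c} : Set (Perm α)))
    (fun s hs => ⟨hA.le_alt hs, Subgroup.mem_centralizer_singleton_iff.2 (hc s hs)⟩)
    inf_le_left ?_ ⟨hg, Subgroup.mem_centralizer_singleton_iff.2 hgc⟩
  obtain ⟨d, -, hd⟩ := Finset.exists_mem_notMem_of_card_lt_card (s := ({a, c a} : Finset α))
    (t := Finset.univ) (by rw [Finset.card_univ]; exact lt_of_le_of_lt Finset.card_le_two (by omega))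
  simp only [Finset.mem_insert, Finset.mem_singleton, not_or] at hd
  obtain ⟨σ, hσ, hmap⟩ := exists_even_map ![a, c a] ![a, d]
    (by intro i j h; fin_cases i <;> fin_cases j <;> simp [ha, Ne.symm ha] at h ⊢)
    (by intro i j h; fin_cases i <;> fin_cases j <;> simp [hd.1, Ne.symm hd.1] at h ⊢) (by omega)
  refine ⟨σ, Perm.mem_alternatingGroup.2 hσ, fun hK => hd.2 ?_⟩
  have := DFunLike.congr_fun (Subgroup.mem_centralizer_singleton_iff.1 hK.2) a
  rw [Perm.mul_apply, Perm.mul_apply, show σ a = a by simpa using hmap 0,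
    show σ (c a) = d by simpa using hmap 1] at this
  exact this

theorem full_class (hA : Absorbs S H) (r : α → α → Prop) (he : Equivalence r)
    (hinv : ∀ s ∈ S, ∀ u v, r u v → r (s u) (s v)) (h5 : 5 ≤ Fintype.card α)
    {a b c : α} (hab : a ≠ b) (hr : r a b) (hac : ¬ r a c) (B : Finset α)
    (hB : ∀ u ∈ B, ∀ v ∈ B, r u v) : Full H B := by
  intro x hx y hy z hz hxy hxz hyz
  refine stab_rel hA r hinv h5 hab hr hac (fun h => hac (h ▸ he.refl a))
    (cyc_three hxy hxz hyz).mem_alternatingGroup ?_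
  have hk : ∀ u, r u (cyc x y z u) := by
    intro u
    rcases eq_or_ne u x with rfl | h1
    · rw [cyc_a hxy hyz]; exact hB _ hx _ hy
    rcases eq_or_ne u y with rfl | h2
    · rw [cyc_b]; exact hB _ hy _ hz
    rcases eq_or_ne u z with rfl | h3
    · rw [cyc_x hxz hyz]; exact hB _ hz _ hx
    rw [cyc_other h1 h2 h3]; exact he.refl u
  intro u v
  exact ⟨fun h => he.trans (he.symm (hk u)) (he.trans h (hk v)),
    fun h => he.trans (hk u) (he.trans h (he.symm (hk v)))⟩

theorem full_two (hA : Absorbs S H) (B : Finset α) (hinv : ∀ s ∈ S, ∀ u, s u ∈ B ↔ u ∈ B)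
    (h5 : 5 ≤ Fintype.card α) {a b c : α} (hab : a ≠ b) (haB : a ∈ B) (hbB : b ∈ B) (hcB : c ∉ B) :
    Full H B ∧ Full H Bᶜ := by
  have he : Equivalence fun u v : α => (u ∈ B ↔ v ∈ B) :=
    ⟨fun _ => Iff.rfl, fun h => h.symm, fun h h' => h.trans h'⟩
  have hi : ∀ s ∈ S, ∀ u v : α, (u ∈ B ↔ v ∈ B) → (s u ∈ B ↔ s v ∈ B) := fun s hs u v h => by
    rw [hinv s hs, hinv s hs]; exact h
  constructor
  · exact full_class hA _ he hi h5 hab (iff_of_true haB hbB) (fun h => hcB (h.1 haB)) B
      fun u hu v hv => iff_of_true hu hv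
  · exact full_class hA _ he hi h5 hab (iff_of_true haB hbB) (fun h => hcB (h.1 haB)) Bᶜ
      fun u hu v hv => iff_of_false (Finset.mem_compl.1 hu) (Finset.mem_compl.1 hv)

/-- Rotate three blocks of three letters. -/
def rot : Perm (Fin 3 × Fin 3) :=
  ⟨fun x => (x.1 + 1, x.2), fun x => (x.1 - 1, x.2), fun x => by simp, fun x => by simp⟩

/-- Gluing two sets by permuting three triples cyclically. -/
theorem glue (hA : Absorbs S H) (h5 : 5 ≤ Fintype.card α) (c : Perm α)
    (hc : ∀ s ∈ S, s * c = c * s) (hc3 : c ^ 3 = 1) {B B' : Finset α}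
    (hd : Disjoint B B') (hB : Full H B) (hB' : Full H B') (hB6 : 6 ≤ B.card)
    (hB3 : 3 ≤ B'.card) (hcB : ∀ u, c u ∈ B ↔ u ∈ B) (hcB' : ∀ u, c u ∈ B' ↔ u ∈ B')
    (hfree : ∀ u, u ∈ B ∨ u ∈ B' → c u ≠ u) : Full H (B ∪ B') := by
  classical
  obtain ⟨b, hb⟩ := Finset.card_pos.1 (show 0 < B.card by omega)
  obtain ⟨x, hx⟩ := Finset.card_pos.1 (show 0 < B'.card by omega)
  obtain ⟨b', hb', hb'T⟩ := Finset.exists_mem_notMem_of_card_lt_card
    (s := ({b, c b, c (c b)} : Finset α)) (t := B) (lt_of_le_of_lt Finset.card_le_three (by omega))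
  simp only [Finset.mem_insert, Finset.mem_singleton, not_or] at hb'T
  have c3 : ∀ u, c (c (c u)) = u := fun u => by
    have := DFunLike.congr_fun hc3 u
    simpa [pow_succ] using this
  let pw : Fin 3 → α → α := fun k u => (c ^ (k : ℕ)) u
  let rep : Fin 3 → α := ![b, x, b']
  let f : Fin 3 × Fin 3 → α := fun ik => pw ik.2 (rep ik.1)
  have hinB : ∀ k u, u ∈ B → pw k u ∈ B := by
    intro k u hu; fin_cases k <;> simp [pw, pow_succ, hu, hcB]
  have hinB' : ∀ k u, u ∈ B' → pw k u ∈ B' := by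
    intro k u hu; fin_cases k <;> simp [pw, pow_succ, hu, hcB']
  have hnd : ∀ u, u ∈ B ∨ u ∈ B' → ∀ k l, pw k u = pw l u → k = l := by
    intro u hu k l h
    have f1 := hfree u hu
    have f2 : c (c u) ≠ u := fun h' => f1 (by
      have := c3 u; rw [h'] at this; exact this)
    have f3 : c (c u) ≠ c u := fun h' => f1 (c.injective h')
    fin_cases k <;> fin_cases l <;> simp [pw, pow_succ] at h ⊢ <;> grind
  have hne2 : ∀ k l, pw k b ≠ pw l b' := by
    intro k l h0
    have h1 := congrArg c h0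
    have h2 := congrArg c h1
    have : b' = b ∨ b' = c b ∨ b' = c (c b) := by
      fin_cases k <;> fin_cases l <;> simp [pw, pow_succ, c3] at h0 h1 h2 ⊢ <;> grind
    rcases this with e | e | e
    exacts [hb'T.1 e, hb'T.2.1 e, hb'T.2.2 e]
  have hdis : ∀ u ∈ B, ∀ v ∈ B', u ≠ v := fun u hu v hv h =>
    Finset.disjoint_left.1 hd hu (h ▸ hv)
  have hf : Function.Injective f := by
    rintro ⟨i, k⟩ ⟨j, l⟩ h
    fin_cases i <;> fin_cases j <;> simp only [f, rep] at h ⊢ <;> dsimp at h
    · rw [hnd b (Or.inl hb) k l h]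
    · exact absurd h (hdis _ (hinB k b hb) _ (hinB' l x hx))
    · exact absurd h (hne2 k l)
    · exact absurd h.symm (hdis _ (hinB l b hb) _ (hinB' k x hx))
    · rw [hnd x (Or.inr hx) k l h]
    · exact absurd h.symm (hdis _ (hinB l b' hb') _ (hinB' k x hx))
    · exact absurd h.symm (hne2 l k)
    · exact absurd h (hdis _ (hinB k b' hb') _ (hinB' l x hx))
    · rw [hnd b' (Or.inl hb') k l h]
  let e : Fin 3 × Fin 3 ↪ α := ⟨f, hf⟩
  set g := Perm.viaEmbeddingHom e rot with hg
  have hgalt : g ∈ alternatingGroup α := by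
    rw [Perm.mem_alternatingGroup]
    have h3 : Perm.sign g ^ 3 = 1 := by
      rw [← map_pow, hg, ← map_pow, show rot ^ 3 = 1 by decide +kernel, map_one, map_one]
    rcases Int.units_eq_one_or (Perm.sign g) with h | h
    · exact h
    · rw [h] at h3; exact absurd h3 (by decide)
  have hgf : ∀ ik, g (f ik) = f (rot ik) := fun ik => by
    rw [hg, Perm.viaEmbeddingHom_apply]; exact Perm.viaEmbedding_apply rot e ik
  have hcf : ∀ i k, c (f (i, k)) = f (i, k + 1) := by
    intro i k
    fin_cases k <;> simp [f, pw, pow_succ, c3]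
  have hgc : g * c = c * g := by
    ext u
    rw [Perm.mul_apply, Perm.mul_apply]
    by_cases hu : u ∈ Set.range f
    · obtain ⟨⟨i, k⟩, rfl⟩ := hu
      rw [hcf, hgf, hgf]
      exact (hcf (i + 1) k).symm
    · have hcu : c u ∉ Set.range f := by
        rintro ⟨⟨i, k⟩, hik⟩
        apply hu
        refine ⟨(i, k + 2), ?_⟩
        apply c.injective
        rw [hcf, ← hik]
        congr 2
        fin_cases k <;> rfl
      have hout : ∀ v, v ∉ Set.range f → g v = v := fun v hv => by
        rw [hg, Perm.viaEmbeddingHom_apply]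
        exact Perm.viaEmbedding_apply_of_notMem _ _ _ hv
      rw [hout _ hu, hout _ hcu]
  have hgH : g ∈ H := stab_cent hA c hc h5 (hfree b (Or.inl hb)) hgalt hgc
  have e1 : g b = x := by
    have := hgf (0, 0); simpa [f, pw, rep, rot] using this
  have e2 : g b' = b := by
    have := hgf (2, 0); simpa [f, pw, rep, rot] using this
  have h1 := full_union hB (full_image hB hgH) (by omega)
    (by rw [Finset.card_image_of_injective _ g.injective]; omega)
    ⟨b, hb, Finset.mem_image.2 ⟨b', hb', e2⟩⟩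
  have h2 := full_union h1 hB' (le_trans (by omega) (Finset.card_le_card Finset.subset_union_left)) hB3
    ⟨x, Finset.mem_union_right _ (Finset.mem_image.2 ⟨b, hb, e1⟩), hx⟩
  intro u hu v hv w hw
  have hsub : B ∪ B' ⊆ B ∪ B.image g ∪ B' :=
    Finset.union_subset_union Finset.subset_union_left subset_rfl
  exact h2 u (hsub hu) v (hsub hv) w (hsub hw)

/-- The orbit of `x` under `S`. -/
noncomputable def orbS (S : Subgroup (Perm α)) (x : α) : Finset α := by
  classical
  exact Finset.univ.filter fun u => ∃ s ∈ S, s x = u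

theorem mem_orbS {x u : α} : u ∈ orbS S x ↔ ∃ s ∈ S, s x = u := by
  classical
  simp [orbS]

theorem orbS_inv (x : α) : ∀ s ∈ S, ∀ u, s u ∈ orbS S x ↔ u ∈ orbS S x := by
  intro s hs u
  rw [mem_orbS, mem_orbS]
  constructor
  · rintro ⟨t, ht, he⟩
    exact ⟨s⁻¹ * t, S.mul_mem (S.inv_mem hs) ht, by simp [he]⟩
  · rintro ⟨t, ht, rfl⟩
    exact ⟨s * t, S.mul_mem hs ht, rfl⟩

theorem orbS_card (hS : IsPGroup 3 ↥S) (x : α) : ∃ a, (orbS S x).card = 3 ^ a := by
  haveI : Fact (Nat.Prime 3) := ⟨Nat.prime_three⟩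
  obtain ⟨a, ha⟩ := hS.card_orbit x
  refine ⟨a, ?_⟩
  rw [← ha, ← Nat.card_eq_finsetCard]
  refine Nat.card_congr (Equiv.subtypeEquivRight fun u => ?_)
  rw [mem_orbS, MulAction.mem_orbit_iff]
  exact ⟨fun ⟨s, hs, h⟩ => ⟨⟨s, hs⟩, h⟩, fun ⟨⟨s, hs⟩, h⟩ => ⟨s, hs, h⟩⟩

/-- A central element of order three, fixed-point-free on an orbit and trivial outside. -/
theorem exists_central (hS : IsPGroup 3 ↥S) (x : α) (h2 : 2 ≤ (orbS S x).card) :
    ∃ c : Perm α, c ^ 3 = 1 ∧ (∀ s ∈ S, s * c = c * s) ∧ (∀ u ∈ orbS S x, c u ≠ u) ∧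
      (∀ u, u ∉ orbS S x → c u = u) ∧ ∀ u, c u ∈ orbS S x ↔ u ∈ orbS S x := by
  classical
  haveI : Fact (Nat.Prime 3) := ⟨Nat.prime_three⟩
  set O := orbS S x with hO
  have hle : S ≤ stab O := fun s hs => orbS_inv x s hs
  let ρ := (res O).comp (Subgroup.inclusion hle)
  have hxO : x ∈ O := mem_orbS.2 ⟨1, S.one_mem, rfl⟩
  have hp : IsPGroup 3 ↥ρ.range := hS.of_surjective ρ.rangeRestrict ρ.rangeRestrict_surjective
  haveI : Nontrivial ↥ρ.range := by
    obtain ⟨u, hu, hux⟩ := Finset.exists_mem_ne (by omega : 1 < O.card) x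
    obtain ⟨s, hs, hsu⟩ := mem_orbS.1 hu
    refine ⟨⟨⟨_, ⟨⟨s, hs⟩, rfl⟩⟩, 1, fun h => hux ?_⟩⟩
    have := congrArg Subtype.val (DFunLike.congr_fun (congrArg Subtype.val h) ⟨x, hxO⟩)
    rw [← hsu]
    exact this
  haveI := hp.center_nontrivial
  obtain ⟨e, he⟩ := IsPGroup.iff_card.1 (hp.to_subgroup (Subgroup.center ↥ρ.range))
  have he0 : e ≠ 0 := fun h => by
    rw [h, pow_zero] at he
    exact absurd he (Finite.one_lt_card_iff_nontrivial.2 inferInstance).ne'
  obtain ⟨z, hz⟩ := exists_prime_orderOf_dvd_card' (G := ↥(Subgroup.center ↥ρ.range)) 3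
    (he ▸ dvd_pow_self 3 he0)
  set c' : Perm {u // u ∈ O} := ((z : ↥ρ.range) : Perm {u // u ∈ O}) with hc'
  have hz3 : c' ^ 3 = 1 := by
    have := pow_orderOf_eq_one z
    rw [hz] at this
    exact congrArg (fun w : ↥(Subgroup.center ↥ρ.range) => ((w : ↥ρ.range) : Perm {u // u ∈ O})) this
  have hcomm : ∀ s : ↥S, ρ s * c' = c' * ρ s := fun s =>
    congrArg Subtype.val (Subgroup.mem_center_iff.1 z.2 ⟨ρ s, ⟨s, rfl⟩⟩)
  have hfree : ∀ u, c' u ≠ u := by
    intro u hu
    have hone : c' = 1 := by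
      refine Equiv.ext fun w => ?_
      obtain ⟨s, hs, hsu⟩ := mem_orbS.1 u.2
      obtain ⟨t, ht, htw⟩ := mem_orbS.1 w.2
      have hw : w = ρ ⟨t * s⁻¹, S.mul_mem ht (S.inv_mem hs)⟩ u := Subtype.ext (by
        show (w : α) = (t * s⁻¹) (u : α)
        rw [← hsu, ← htw]; simp)
      rw [hw, ← Perm.mul_apply, ← hcomm, Perm.mul_apply, hu]
      rfl
    have : z = 1 := Subtype.ext (Subtype.ext hone)
    rw [this, orderOf_one] at hz
    omega
  set c : Perm α := Perm.ofSubtype c' with hcdef
  have hout : ∀ u, u ∉ O → c u = u := fun u hu => Perm.ofSubtype_apply_of_not_mem _ hu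
  have hin : ∀ u (hu : u ∈ O), c u = (c' ⟨u, hu⟩ : α) := fun u hu =>
    Perm.ofSubtype_apply_of_mem _ hu
  refine ⟨c, by rw [hcdef, ← map_pow, hz3, map_one], fun s hs => ?_,
    fun u hu h => hfree ⟨u, hu⟩ (Subtype.ext ((hin u hu).symm.trans h)), hout, fun u => ?_⟩
  · ext u
    rw [Perm.mul_apply, Perm.mul_apply]
    by_cases hu : u ∈ O
    · have hsu := (orbS_inv x s hs u).2 hu
      rw [hin u hu, hin _ hsu]
      exact congrArg Subtype.val (DFunLike.congr_fun (hcomm ⟨s, hs⟩) ⟨u, hu⟩)
    · rw [hout u hu, hout _ (mt (orbS_inv x s hs u).1 hu)]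
  · by_cases hu : u ∈ O
    · simp [hin u hu, hu]
    · rw [hout u hu]

/-- The transitive case. -/
theorem full_transitive (hS : IsPGroup 3 ↥S) (hA : Absorbs S H) (h27 : 27 ≤ Fintype.card α)
    (x : α) (htr : orbS S x = Finset.univ) : Full H Finset.univ := by
  classical
  haveI : Fact (Nat.Prime 3) := ⟨Nat.prime_three⟩
  obtain ⟨c, hc3, hcS, hfree, -, -⟩ :=
    exists_central hS x (by rw [htr, Finset.card_univ]; omega)
  have hfree' : ∀ u, c u ≠ u := fun u => hfree u (htr ▸ Finset.mem_univ u)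
  have hcomm : ∀ s ∈ S, ∀ u, s (c u) = c (s u) := fun s hs u => DFunLike.congr_fun (hcS s hs) u
  have c3 : ∀ u, c (c (c u)) = u := fun u => by
    have := DFunLike.congr_fun hc3 u
    simpa [pow_succ] using this
  let T : Finset α := {x, c x, c (c x)}
  let L : Subgroup ↥S :=
    { carrier := {s | (s : Perm α) x ∈ T}
      one_mem' := by simp [T]
      mul_mem' := fun {s t} hs ht => by
        simp only [T, Set.mem_setOf_eq, Finset.mem_insert, Finset.mem_singleton] at hs ht ⊢
        rw [Subgroup.coe_mul, Perm.mul_apply]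
        rcases ht with e | e | e <;> rw [e] <;> (try simp only [hcomm _ s.2]) <;>
          rcases hs with e' | e' | e' <;> rw [e'] <;> simp [c3]
      inv_mem' := fun {s} hs => by
        simp only [T, Set.mem_setOf_eq, Finset.mem_insert, Finset.mem_singleton] at hs ⊢
        rw [Subgroup.coe_inv]
        have h' : ∀ v, (s : Perm α) v = x → (s : Perm α)⁻¹ x = v := fun v hv =>
          Perm.inv_eq_iff_eq.2 hv.symm
        rcases hs with e | e | e
        · exact Or.inl (h' x e)
        · exact Or.inr (Or.inr (h' _ (by rw [hcomm _ s.2, hcomm _ s.2, e, c3])))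
        · exact Or.inr (Or.inl (h' _ (by rw [hcomm _ s.2, e, c3]))) }
  have hL : L ≠ ⊤ := by
    intro h
    have : (Finset.univ : Finset α) ⊆ T := fun u _ => by
      obtain ⟨s, hs, rfl⟩ := mem_orbS.1 (htr ▸ Finset.mem_univ u)
      exact (SetLike.ext_iff.1 h ⟨s, hs⟩).2 (Subgroup.mem_top _)
    have := Finset.card_le_card this
    have h3 : T.card ≤ 3 := Finset.card_le_three
    rw [Finset.card_univ] at this
    omega
  obtain ⟨K, hK, hLK⟩ := (eq_top_or_exists_le_coatom L).resolve_left hL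
  haveI hKn : K.Normal := FGS3.normal_of_coatom hS hK
  have hKi : K.index = 3 := FGS3.index_of_coatom hS hK
  let r : α → α → Prop := fun u v => ∃ k ∈ K, (k : Perm α) u = v
  have he : Equivalence r := ⟨fun u => ⟨1, K.one_mem, rfl⟩,
    fun ⟨k, hk, h⟩ => ⟨k⁻¹, K.inv_mem hk, by simp [← h]⟩,
    fun ⟨k, hk, h⟩ ⟨l, hl, h'⟩ => ⟨l * k, K.mul_mem hl hk, by simp [h, h']⟩⟩
  have hinv : ∀ s ∈ S, ∀ u v, r u v → r (s u) (s v) := fun s hs u v ⟨k, hk, h⟩ =>
    ⟨⟨s, hs⟩ * k * (⟨s, hs⟩ : ↥S)⁻¹, hKn.conj_mem k hk _, by simp [h]⟩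
  let cls : α → Finset α := fun a => Finset.univ.filter fun u => r a u
  have hcls : ∀ a u, u ∈ cls a ↔ r a u := fun a u => by simp [cls]
  have hxc : r x (c x) := by
    obtain ⟨s, hs, hsx⟩ := mem_orbS.1 (htr ▸ Finset.mem_univ (c x))
    exact ⟨⟨s, hs⟩, hLK (show s x ∈ T by simp [T, hsx]), hsx⟩
  have hrc : ∀ a, r a (c a) := by
    intro a
    obtain ⟨s, hs, rfl⟩ := mem_orbS.1 (htr ▸ Finset.mem_univ a)
    have := hinv s hs _ _ hxc
    rwa [hcomm s hs] at this
  have hcard : ∀ a, 9 ≤ (cls a).card := by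
    intro a
    have hcover : (Finset.univ : Finset α) ⊆ (Finset.univ : Finset (↥S ⧸ K)).biUnion
        fun q => (cls a).image fun u => ((q.out : ↥S) : Perm α) u := by
      intro v _
      obtain ⟨s, hs, rfl⟩ := mem_orbS.1 (htr ▸ Finset.mem_univ v)
      obtain ⟨t, ht, rfl⟩ := mem_orbS.1 (htr ▸ Finset.mem_univ a)
      refine Finset.mem_biUnion.2 ⟨QuotientGroup.mk (⟨s * t⁻¹, S.mul_mem hs (S.inv_mem ht)⟩ : ↥S),
        Finset.mem_univ _, ?_⟩
      obtain ⟨k, hk⟩ := QuotientGroup.mk_out_eq_mul K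
        (⟨s * t⁻¹, S.mul_mem hs (S.inv_mem ht)⟩ : ↥S)
      refine Finset.mem_image.2 ⟨((k : ↥S)⁻¹ : ↥S).1 (t x), (hcls _ _).2
        ⟨(k : ↥S)⁻¹, K.inv_mem k.2, rfl⟩, ?_⟩
      rw [hk]
      simp
    have h1 := (Finset.card_le_card hcover).trans Finset.card_biUnion_le
    rw [Finset.card_univ] at h1
    have h2 : ∑ q : ↥S ⧸ K, ((cls a).image fun u => ((q.out : ↥S) : Perm α) u).card ≤
        3 * (cls a).card := by
      refine (Finset.sum_le_sum fun q _ => Finset.card_image_le).trans ?_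
      rw [Finset.sum_const, Finset.card_univ, smul_eq_mul, ← Nat.card_eq_fintype_card,
        ← Subgroup.index_eq_card, hKi]
    omega
  have hnt : ∃ y, ¬ r x y := by
    by_contra h
    push Not at h
    apply hK.1
    refine eq_top_iff.2 fun s _ => ?_
    obtain ⟨k, hk, hks⟩ := h ((s : Perm α) x)
    have : k⁻¹ * s ∈ K := hLK (show ((k⁻¹ * s : ↥S) : Perm α) x ∈ T by simp [T, ← hks])
    simpa using K.mul_mem hk this
  obtain ⟨y, hy⟩ := hnt
  have hfull : ∀ a, Full H (cls a) := fun a =>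
    full_class hA r he hinv (by omega) (Ne.symm (hfree' x)) hxc hy (cls a)
      fun u hu v hv => he.trans (he.symm ((hcls a u).1 hu)) ((hcls a v).1 hv)
  have hcin : ∀ a u, c u ∈ cls a ↔ u ∈ cls a := fun a u => by
    rw [hcls, hcls]
    exact ⟨fun h => he.trans h (he.symm (hrc u)), fun h => he.trans h (hrc u)⟩
  obtain ⟨S0, hS0, hmax⟩ := Finset.exists_max_image
    (Finset.univ.filter fun B : Finset α => Full H B ∧ cls x ⊆ B) Finset.card
    ⟨cls x, by simp [hfull x]⟩
  simp only [Finset.mem_filter, Finset.mem_univ, true_and] at hS0 hmax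
  suffices hu : ∀ u, u ∈ S0 by
    intro a _ b _ d _; exact hS0.1 a (hu a) b (hu b) d (hu d)
  intro u
  have hxx : x ∈ cls x := (hcls x x).2 (he.refl x)
  have hfu : Full H (cls x ∪ cls u) := by
    by_cases h : r x u
    · have : cls u = cls x := by
        ext v; rw [hcls, hcls]
        exact ⟨fun h' => he.trans h h', fun h' => he.trans (he.symm h) h'⟩
      rw [this, Finset.union_self]; exact hfull x
    · refine glue hA (by omega) c hcS hc3 (Finset.disjoint_left.2 fun v hv hv' =>
        h (he.trans ((hcls _ _).1 hv) (he.symm ((hcls _ _).1 hv')))) (hfull x) (hfull u)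
        (le_trans (by norm_num) (hcard x)) (le_trans (by norm_num) (hcard u)) (hcin x) (hcin u)
        fun v _ => hfree' v
  have h3 : ∀ B : Finset α, cls x ⊆ B → 3 ≤ B.card := fun B hB =>
    le_trans (le_trans (by norm_num) (hcard x)) (Finset.card_le_card hB)
  have hU := full_union hS0.1 hfu (h3 _ hS0.2) (h3 _ Finset.subset_union_left)
    ⟨x, hS0.2 hxx, Finset.mem_union_left _ hxx⟩
  have hle := hmax _ ⟨hU, hS0.2.trans Finset.subset_union_left⟩
  rw [Finset.eq_of_subset_of_card_le Finset.subset_union_left hle]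
  exact Finset.mem_union_right _ (Finset.mem_union_right _ ((hcls u u).2 (he.refl u)))

/-- The main dichotomy. -/
theorem full_or (hS : IsPGroup 3 ↥S) (hA : Absorbs S H) (h5 : 5 ≤ Fintype.card α) :
    Full H Finset.univ ∨ Fintype.card α = 6 ∨ Fintype.card α = 9 ∨
      ∃ a, 2 ≤ a ∧ Fintype.card α = 3 ^ a + 1 := by
  classical
  obtain ⟨x⟩ : Nonempty α := Fintype.card_pos_iff.1 (by omega)
  set O := orbS S x with hOdef
  obtain ⟨a, ha⟩ := orbS_card hS x
  rw [← hOdef] at ha
  by_cases htop : O = Finset.univ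
  · rw [htop, Finset.card_univ] at ha
    rcases Nat.lt_or_ge (Fintype.card α) 27 with h | h
    · right; right; left
      rcases a with _ | _ | _ | a
      · simp at ha; omega
      · simp at ha; omega
      · simpa using ha
      · have : 27 ≤ 3 ^ (a + 1 + 1 + 1) := by
          calc 27 = 3 ^ 3 := by norm_num
            _ ≤ _ := Nat.pow_le_pow_right (by norm_num) (by omega)
        omega
    · exact Or.inl (full_transitive hS hA h x htop)
  obtain ⟨y, hy⟩ : ∃ y, y ∉ O := by
    by_contra h; push Not at h; exact htop (Finset.eq_univ_iff_forall.2 h)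
  set O' := orbS S y with hO'def
  obtain ⟨b, hb⟩ := orbS_card hS y
  rw [← hO'def] at hb
  have hxO : x ∈ O := mem_orbS.2 ⟨1, S.one_mem, rfl⟩
  have hyO' : y ∈ O' := mem_orbS.2 ⟨1, S.one_mem, rfl⟩
  have hdis : Disjoint O O' := Finset.disjoint_left.2 fun u hu hu' => hy (by
    obtain ⟨s, hs, hsu⟩ := mem_orbS.1 hu
    obtain ⟨t, ht, htu⟩ := mem_orbS.1 hu'
    exact mem_orbS.2 ⟨t⁻¹ * s, S.mul_mem (S.inv_mem ht) hs, by simp [hsu, ← htu]⟩)
  have hcardle : ∀ B : Finset α, Bᶜ.card = Fintype.card α - B.card := Finset.card_compl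
  by_cases hthree : O ∪ O' = Finset.univ
  · have hsum : O.card + O'.card = Fintype.card α := by
      rw [← Finset.card_union_of_disjoint hdis, hthree, Finset.card_univ]
    have hcompl : Oᶜ = O' := by
      ext u
      rw [Finset.mem_compl]
      refine ⟨fun hu => ?_, fun hu hu' => Finset.disjoint_left.1 hdis hu' hu⟩
      have := Finset.mem_univ u
      rw [← hthree, Finset.mem_union] at this
      exact this.resolve_left hu
    have key : ∀ (x y : α) (a b : ℕ), (orbS S x).card = 3 ^ a → (orbS S y).card = 3 ^ b →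
        Disjoint (orbS S x) (orbS S y) → orbS S x ∪ orbS S y = Finset.univ →
        (orbS S x)ᶜ = orbS S y → b ≤ a →
        Full H Finset.univ ∨ Fintype.card α = 6 ∨ Fintype.card α = 9 ∨
          ∃ a, 2 ≤ a ∧ Fintype.card α = 3 ^ a + 1 := by
      intro x y a b ha hb hdis hthree hcompl hab
      have hsum : (orbS S x).card + (orbS S y).card = Fintype.card α := by
        rw [← Finset.card_union_of_disjoint hdis, hthree, Finset.card_univ]
      have hpow : 3 ^ b ≤ 3 ^ a := Nat.pow_le_pow_right (by norm_num) hab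
      rcases a with _ | _ | a
      · simp at ha hpow; omega
      · rcases b with _ | _ | b
        · simp at ha hb; omega
        · right; left; simp at ha hb; omega
        · omega
      have h9 : 9 ≤ 3 ^ (a + 1 + 1) := by
        calc 9 = 3 ^ 2 := by norm_num
          _ ≤ _ := Nat.pow_le_pow_right (by norm_num) (by omega)
      rcases b with _ | b
      · right; right; right; exact ⟨a + 1 + 1, by omega, by simp at hb; omega⟩
      left
      have h3 : 3 ≤ 3 ^ (b + 1) := by
        calc 3 = 3 ^ 1 := by norm_num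
          _ ≤ _ := Nat.pow_le_pow_right (by norm_num) (by omega)
      obtain ⟨c, hc3, hcS, hcf, hco, hci⟩ := exists_central hS x (by omega)
      obtain ⟨d, hd3, hdS, hdf, hdo, hdi⟩ := exists_central hS y (by omega)
      have hcd : c * d = d * c := by
        ext u
        rw [Perm.mul_apply, Perm.mul_apply]
        by_cases hu : u ∈ orbS S x
        · have hu' : u ∉ orbS S y := Finset.disjoint_left.1 hdis hu
          rw [hdo u hu', hdo _ (Finset.disjoint_left.1 hdis ((hci u).2 hu))]
        · have hu' : u ∈ orbS S y := hcompl ▸ Finset.mem_compl.2 hu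
          rw [hco u hu, hco _ (fun h => Finset.disjoint_left.1 hdis h ((hdi u).2 hu'))]
      obtain ⟨p, hp, q, hq, hpq⟩ := Finset.one_lt_card.1
        (show 1 < (orbS S x).card by omega)
      have hyout : y ∉ orbS S x := fun h =>
        Finset.disjoint_left.1 hdis h (mem_orbS.2 ⟨1, S.one_mem, rfl⟩)
      obtain ⟨hfx, hfy⟩ := full_two hA (orbS S x) (orbS_inv x) h5 hpq hp hq hyout
      rw [hcompl] at hfy
      have := glue hA h5 (c * d) (fun s hs => by
          rw [← mul_assoc, hcS s hs, mul_assoc, hdS s hs, mul_assoc])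
        (by rw [(show Commute c d from hcd).mul_pow, hc3, hd3, one_mul]) hdis hfx hfy
        (by omega) (by omega)
        (fun u => by
          rw [Perm.mul_apply, hci]
          by_cases hu : u ∈ orbS S y
          · exact iff_of_false (fun h => Finset.disjoint_left.1 hdis h ((hdi u).2 hu))
              (fun h => Finset.disjoint_left.1 hdis h hu)
          · rw [hdo u hu])
        (fun u => by
          rw [Perm.mul_apply]
          by_cases hu : u ∈ orbS S x
          · rw [hdo u (Finset.disjoint_left.1 hdis hu)]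
            exact iff_of_false (Finset.disjoint_left.1 hdis ((hci u).2 hu))
              (Finset.disjoint_left.1 hdis hu)
          · have hu' : u ∈ orbS S y := hcompl ▸ Finset.mem_compl.2 hu
            rw [hco _ (fun h => Finset.disjoint_left.1 hdis h ((hdi u).2 hu'))]
            exact hdi u)
        (fun u hu => by
          rw [Perm.mul_apply]
          rcases hu with hu | hu
          · rw [hdo u (Finset.disjoint_left.1 hdis hu)]; exact hcf u hu
          · rw [hco _ (fun h => Finset.disjoint_left.1 hdis h ((hdi u).2 hu))]; exact hdf u hu)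
      rwa [hthree] at this
    rcases Nat.le_total b a with h | h
    · exact key x y a b ha hb hdis hthree hcompl h
    · refine key y x b a hb ha hdis.symm (by rw [Finset.union_comm]; exact hthree) ?_ h
      show O'ᶜ = O
      rw [← hcompl, compl_compl]
  · -- at least three orbits
    left
    obtain ⟨w, hw⟩ : ∃ w, w ∉ O ∪ O' := by
      by_contra h; push Not at h; exact hthree (Finset.eq_univ_iff_forall.2 h)
    set C := (O ∪ O')ᶜ with hC
    have hCinv : ∀ s ∈ S, ∀ u, s u ∈ C ↔ u ∈ C := fun s hs u => by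
      simp only [hC, Finset.mem_compl, Finset.mem_union, hOdef, hO'def, orbS_inv x s hs u,
        orbS_inv y s hs u]
    have hwC : w ∈ C := Finset.mem_compl.2 hw
    have hd1 : Disjoint O C := Finset.disjoint_left.2 fun u hu hu' =>
      Finset.mem_compl.1 hu' (Finset.mem_union_left _ hu)
    have hd2 : Disjoint O' C := Finset.disjoint_left.2 fun u hu hu' =>
      Finset.mem_compl.1 hu' (Finset.mem_union_right _ hu)
    have hsum : O.card + O'.card + C.card = Fintype.card α := by
      rw [← Finset.card_union_of_disjoint hdis, hC, Finset.card_compl]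
      have := Finset.card_le_univ (O ∪ O')
      omega
    have main : ∀ X Y Z : Finset α, (∀ s ∈ S, ∀ u, s u ∈ X ↔ u ∈ X) →
        (∀ s ∈ S, ∀ u, s u ∈ Y ↔ u ∈ Y) → (∀ s ∈ S, ∀ u, s u ∈ Z ↔ u ∈ Z) →
        Disjoint X Y → Disjoint X Z → Disjoint Y Z → 0 < X.card → 2 ≤ Y.card → 0 < Z.card →
        X ∪ Y ∪ Z = Finset.univ → Full H Finset.univ := by
      intro X Y Z hX hY hZ dXY dXZ dYZ cX cY cZ hu
      obtain ⟨p, hp, q, hq, hpq⟩ := Finset.one_lt_card.1 (show 1 < Y.card by omega)
      obtain ⟨i, hi⟩ := Finset.card_pos.1 cX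
      obtain ⟨k, hk⟩ := Finset.card_pos.1 cZ
      have h1 := (full_two hA (X ∪ Y) (fun s hs u => by simp [hX s hs u, hY s hs u]) h5 hpq
        (Finset.mem_union_right _ hp) (Finset.mem_union_right _ hq) (c := k) (by
          simp only [Finset.mem_union, not_or]
          exact ⟨fun h => Finset.disjoint_left.1 dXZ h hk,
            fun h => Finset.disjoint_left.1 dYZ h hk⟩)).1
      have h2 := (full_two hA (Y ∪ Z) (fun s hs u => by simp [hY s hs u, hZ s hs u]) h5 hpq
        (Finset.mem_union_left _ hp) (Finset.mem_union_left _ hq) (c := i) (by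
          simp only [Finset.mem_union, not_or]
          exact ⟨fun h => Finset.disjoint_left.1 dXY hi h,
            fun h => Finset.disjoint_left.1 dXZ hi h⟩)).1
      have := full_union h1 h2 (by rw [Finset.card_union_of_disjoint dXY]; omega)
        (by rw [Finset.card_union_of_disjoint dYZ]; omega)
        ⟨p, Finset.mem_union_right _ hp, Finset.mem_union_left _ hp⟩
      rwa [show X ∪ Y ∪ (Y ∪ Z) = Finset.univ by
        rw [← hu]; ext u; simp only [Finset.mem_union]; tauto] at this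
    have hu : O ∪ O' ∪ C = Finset.univ := by rw [hC]; exact Finset.union_compl _
    have pO : 0 < O.card := Finset.card_pos.2 ⟨x, hxO⟩
    have pO' : 0 < O'.card := Finset.card_pos.2 ⟨y, hyO'⟩
    have pC : 0 < C.card := Finset.card_pos.2 ⟨w, hwC⟩
    rcases (show 2 ≤ O'.card ∨ 2 ≤ O.card ∨ 2 ≤ C.card by omega) with h | h | h
    · exact main O O' C (orbS_inv x) (orbS_inv y) hCinv hdis hd1 hd2 pO h pC hu
    · refine main O' O C (orbS_inv y) (orbS_inv x) hCinv hdis.symm hd2 hd1 pO' h pC ?_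
      rw [Finset.union_comm O']; exact hu
    · refine main O C O' (orbS_inv x) hCinv (orbS_inv y) hd1 hdis hd2.symm pO h pO' ?_
      rw [Finset.union_assoc, Finset.union_comm C, ← Finset.union_assoc]; exact hu

theorem degrees {n : ℕ} (hn : 5 ≤ n) (hmin : Cfsg.IsPMinimal 3 ↥(alternatingGroup (Fin n))) :
    n = 6 ∨ n = 9 ∨ ∃ a : ℕ, 2 ≤ a ∧ n = 3 ^ a + 1 := by
  haveI : Fact (Nat.Prime 3) := ⟨Nat.prime_three⟩
  obtain ⟨P⟩ : Nonempty (Sylow 3 ↥(alternatingGroup (Fin n))) := inferInstance
  obtain ⟨-, M, ⟨hM, hPM⟩, huniq⟩ := hmin P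
  have hA : Absorbs ((P : Subgroup ↥(alternatingGroup (Fin n))).map (alternatingGroup (Fin n)).subtype)
      (M.map (alternatingGroup (Fin n)).subtype) := by
    refine ⟨?_, fun K hSK hKA ⟨g, hg, hgK⟩ => ?_⟩
    · rintro _ ⟨p, -, rfl⟩; exact p.2
    obtain ⟨K', hK', hle⟩ := (eq_top_or_exists_le_coatom
      (K.subgroupOf (alternatingGroup (Fin n)))).resolve_left
        (fun h => hgK (Subgroup.subgroupOf_eq_top.1 h hg))
    have := huniq K' ⟨hK', fun p hp => hle (Subgroup.mem_subgroupOf.2 (hSK ⟨p, hp, rfl⟩))⟩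
    subst this
    intro k hk
    exact ⟨⟨k, hKA hk⟩, hle (Subgroup.mem_subgroupOf.2 hk), rfl⟩
  have hp : IsPGroup 3 ↥((P : Subgroup ↥(alternatingGroup (Fin n))).map
      (alternatingGroup (Fin n)).subtype) := P.isPGroup'.map _
  rcases full_or hp hA (by simpa using hn) with h | h
  · exfalso
    apply hM.1
    refine eq_top_iff.2 fun g _ => ?_
    obtain ⟨m, hm, hmg⟩ := alt_le_of_full h g.2
    rwa [← Subtype.ext (a1 := m) (a2 := g) hmg]
  · simpa using h

/-- An odd-order automorphism subgroup lies in the socle. -/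
theorem mem_of_three {X : Type*} [Group X] [Finite X] {n : ℕ} (hn : 5 ≤ n) (F : Subgroup X)
    [F.Normal] (hC : Subgroup.centralizer (F : Set X) ≤ F)
    (e : ↥F ≃* ↥(alternatingGroup (Fin n))) {x : X} (hx : ∃ k, orderOf x = 3 ^ k) : x ∈ F := by
  obtain ⟨k, hk⟩ := hx
  let φ : X →* MulAut ↥(alternatingGroup (Fin n)) :=
    (MulAut.congr e).toMonoidHom.comp MulAut.conjNormal
  have hodd : Odd (3 ^ k) := Odd.pow ⟨1, rfl⟩
  obtain ⟨g, hg⟩ := FGS3.AlmostAlternating.exists_perm hn (φ x) hodd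
    (by rw [← hk, ← map_pow, pow_orderOf_eq_one, map_one])
  have hginj := FGS3.AlmostAlternating.conjNormal_injective hn
  have hgo : g ^ 3 ^ k = 1 := hginj (by
    rw [map_pow, hg, ← hk, ← map_pow, pow_orderOf_eq_one, map_one, map_one])
  have hsgn : Perm.sign g = 1 := by
    have := congrArg Perm.sign hgo
    rw [map_pow, map_one] at this
    rcases Int.units_eq_one_or (Perm.sign g) with h | h
    · exact h
    · rw [h, Odd.neg_one_pow hodd] at this; exact absurd this (by decide)
  set a : ↥(alternatingGroup (Fin n)) := ⟨g, Perm.mem_alternatingGroup.2 hsgn⟩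
  have hd : ∀ f : ↥F, x * (f : X) * x⁻¹ = (e.symm a : ↥F) * (f : X) * ((e.symm a : ↥F) : X)⁻¹ := by
    intro f
    have h1 : φ x (e f) = a * e f * a⁻¹ := by
      rw [← hg]
      exact Subtype.ext (MulAut.conjNormal_apply g (e f))
    have h2 : φ x (e f) = e (MulAut.conjNormal x f) := by
      show e (MulAut.conjNormal x (e.symm (e f))) = _
      rw [e.symm_apply_apply]
    have h3 := congrArg e.symm (h2.symm.trans h1)
    rw [e.symm_apply_apply, map_mul, map_mul, map_inv, e.symm_apply_apply] at h3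
    have h4 := congrArg Subtype.val h3
    rwa [MulAut.conjNormal_apply, Subgroup.coe_mul, Subgroup.coe_mul, Subgroup.coe_inv] at h4
  have hy : ((e.symm a : ↥F) : X)⁻¹ * x ∈ F := hC (by
    rw [Subgroup.mem_centralizer_iff]
    intro f hf
    have := hd ⟨f, hf⟩
    simp only at this
    calc f * (((e.symm a : ↥F) : X)⁻¹ * x)
        = ((e.symm a : ↥F) : X)⁻¹ * ((e.symm a : ↥F) * f * ((e.symm a : ↥F) : X)⁻¹) * x := by group
      _ = ((e.symm a : ↥F) : X)⁻¹ * (x * f * x⁻¹) * x := by rw [this]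
      _ = ((e.symm a : ↥F) : X)⁻¹ * x * f := by group)
  simpa using F.mul_mem (e.symm a).2 hy

end Cfsg.Agent.PermGroups.MinimalThree
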