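import Mathlib
import Cfsg.Agent.Linear.Card

/-!
Element orders and fixed vectors in `SL₂` of characteristic `2`, and orders in `PSL₂(7)`.
-/

set_option autoImplicit false

namespace Cfsg.Agent.PermGroups

open Matrix

variable {F : Type*} [Field F]

theorem sl_two_sq (g : SpecialLinearGroup (Fin 2) F) :
    g.1 * g.1 = (g.1 0 0 + g.1 1 1) • g.1 - 1 := by
  have hd : g.1 0 0 * g.1 1 1 - g.1 0 1 * g.1 1 0 = 1 := (det_fin_two g.1).symm.trans g.2
  ext i j
  fin_cases i <;> fin_cases j <;> simp [mul_apply, Fin.sum_univ_two] <;>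
    first | ring1 | linear_combination hd | linear_combination -hd

/-- In characteristic two, an element of `SL₂` fixing a nonzero vector squares to `1`. -/
theorem sq_eq_one_of_fixed_vector [CharP F 2] {g : SpecialLinearGroup (Fin 2) F} {v : Fin 2 → F}
    (hgv : g.1 *ᵥ v = v) (hv : v ≠ 0) : g ^ 2 = 1 := by
  have h2 : (2 : F) = 0 := CharP.cast_eq_zero F 2
  have hd : g.1 0 0 * g.1 1 1 - g.1 0 1 * g.1 1 0 = 1 := (det_fin_two g.1).symm.trans g.2
  have h0 : (g.1 - 1).det = 0 := exists_mulVec_eq_zero_iff.1 ⟨v, hv, by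
    rw [sub_mulVec, hgv, one_mulVec, sub_self]⟩
  rw [det_fin_two] at h0
  simp at h0
  have ht : g.1 0 0 + g.1 1 1 = 0 := by linear_combination hd - h0 + h2
  apply Subtype.ext
  show (g ^ 2).1 = 1
  rw [sq]
  show g.1 * g.1 = 1
  rw [sl_two_sq g, ht, zero_smul, zero_sub]
  ext i j
  simp only [Matrix.neg_apply]
  linear_combination (-(1 : Matrix (Fin 2) (Fin 2) F) i j) * h2

/-- A prime power is not a product of two distinct primes. -/
theorem not_mul_dvd_prime_pow {r s p k : ℕ} (hr : r.Prime) (hs : s.Prime) (hp : p.Prime)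
    (hrs : r ≠ s) : ¬ r * s ∣ p ^ k := fun h => hrs <|
  ((Nat.prime_dvd_prime_iff_eq hr hp).1 (hr.dvd_of_dvd_pow ((dvd_mul_right r s).trans h))).trans
    ((Nat.prime_dvd_prime_iff_eq hs hp).1 (hs.dvd_of_dvd_pow ((dvd_mul_left s r).trans h))).symm

/-- Element orders in `SL₂(8)`. -/
theorem sl_two_eight_orders [Fintype F] [CharP F 2] (hF : Fintype.card F = 8)
    (g : SpecialLinearGroup (Fin 2) F) : g ^ 2 = 1 ∨ g ^ 7 = 1 ∨ g ^ 9 = 1 := by
  have h2 : (2 : F) = 0 := CharP.cast_eq_zero F 2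
  set M := g.1 with hM
  set t := M 0 0 + M 1 1 with ht
  have hsq : M * M = t • M + 1 := by
    rw [sl_two_sq g]
    ext i j
    simp only [Matrix.sub_apply, Matrix.add_apply]
    linear_combination (-(1 : Matrix (Fin 2) (Fin 2) F) i j) * h2
  -- powers of `M` in the basis `M`, `1`
  have hstep : ∀ a b c d : F, (a • M + b • (1 : Matrix (Fin 2) (Fin 2) F)) * (c • M + d • 1) =
      (a * c * t + a * d + b * c) • M + (a * c + b * d) • 1 := by
    intro a b c d
    simp only [add_mul, mul_add, smul_mul_assoc, mul_smul_comm, one_mul, mul_one, hsq, smul_smul,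
      smul_add, add_smul]
    module
  have hval : ∀ n : ℕ, (g ^ n).1 = M ^ n := fun n => Matrix.SpecialLinearGroup.coe_pow g n
  by_cases h0 : t = 0
  · left
    apply Subtype.ext
    rw [hval, sq, hsq, h0, zero_smul, zero_add]; rfl
  right
  have ht7 : t ^ 7 = 1 := by
    have := FiniteField.pow_card_sub_one_eq_one t h0
    rwa [hF] at this
  have e1 : M = (1 : F) • M + (0 : F) • (1 : Matrix (Fin 2) (Fin 2) F) := by simp
  have e2 : M ^ 2 = t • M + (1 : F) • (1 : Matrix (Fin 2) (Fin 2) F) := by rw [sq, hsq, one_smul]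
  have e4 : M ^ 4 = (t ^ 3) • M + (t ^ 2 + 1) • (1 : Matrix (Fin 2) (Fin 2) F) := by
    rw [show M ^ 4 = M ^ 2 * M ^ 2 by rw [← pow_add], e2, hstep,
      show t * t * t + t * 1 + 1 * t = t ^ 3 by linear_combination t * h2,
      show t * t + 1 * 1 = t ^ 2 + 1 by ring]
  have e8 : M ^ 8 = (1 : F) • M + (t ^ 6 + t ^ 4 + 1) • (1 : Matrix (Fin 2) (Fin 2) F) := by
    rw [show M ^ 8 = M ^ 4 * M ^ 4 by rw [← pow_add], e4, hstep,
      show t ^ 3 * t ^ 3 * t + t ^ 3 * (t ^ 2 + 1) + (t ^ 2 + 1) * t ^ 3 = 1 by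
        linear_combination ht7 + (t ^ 5 + t ^ 3) * h2,
      show t ^ 3 * t ^ 3 + (t ^ 2 + 1) * (t ^ 2 + 1) = t ^ 6 + t ^ 4 + 1 by
        linear_combination t ^ 2 * h2]
  set c := t ^ 6 + t ^ 4 + 1 with hc
  have hcc : c * (c + t) = 0 := by
    rw [hc]
    linear_combination (t ^ 5 + 2 * t ^ 3 + t + 1) * ht7 +
      (t ^ 3 + t + t ^ 6 + t ^ 5 + t ^ 4 + 1) * h2
  rcases mul_eq_zero.1 hcc with hc0 | hct
  · left
    apply Subtype.ext
    rw [hc0, zero_smul, add_zero, one_smul] at e8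
    have h8 : g ^ 8 = g := Subtype.ext (by rw [hval, e8])
    have h7 : g ^ 7 = 1 := by
      have : g ^ 7 * g = 1 * g := by rw [← pow_succ, h8, one_mul]
      exact mul_right_cancel this
    rw [h7]
  · right
    have hct' : c = t := by linear_combination hct - t * h2
    apply Subtype.ext
    rw [hval, pow_succ, e8, hct']
    conv_lhs => arg 2; rw [e1]
    rw [hstep, show (1 : F) * 1 * t + 1 * 0 + t * 1 = 0 by linear_combination t * h2,
      show (1 : F) * 1 + t * 0 = 1 by ring, zero_smul, one_smul, zero_add]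
    rfl

/-- Element orders in `PSL₂(7)`, on the level of `SL₂(7)`. -/
theorem sl_two_seven_orders [Fintype F] (hF : Fintype.card F = 7)
    (g : SpecialLinearGroup (Fin 2) F) :
    ∀ x : ProjectiveSpecialLinearGroup (Fin 2) F, x = QuotientGroup.mk g →
      x ^ 4 = 1 ∨ x ^ 3 = 1 ∨ x ^ 7 = 1 := by
  rintro _ rfl
  have : Fact (Nat.Prime 7) := ⟨by norm_num⟩
  have : CharP F 7 := charP_of_card_eq_prime hF
  have h7 : (7 : F) = 0 := CharP.cast_eq_zero F 7
  obtain ⟨z, hz7, hz⟩ : ∃ z : ℕ, z < 7 ∧ (z : F) = g.1 0 0 + g.1 1 1 := by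
    obtain ⟨y, hy⟩ := ((Fintype.bijective_iff_injective_and_card _).2
      ⟨(ZMod.castHom (dvd_refl 7) F).injective, by rw [ZMod.card, hF]⟩).2 (g.1 0 0 + g.1 1 1)
    exact ⟨y.val, ZMod.val_lt y, by rw [← hy, ZMod.castHom_apply, ZMod.natCast_val]⟩
  set M := g.1 with hM
  set t := M 0 0 + M 1 1 with ht
  have hsq : M * M = t • M - 1 := sl_two_sq g
  have key : ∀ n : ℕ, (M ^ n = 1 ∨ M ^ n = -1) →
      (QuotientGroup.mk g : ProjectiveSpecialLinearGroup (Fin 2) F) ^ n = 1 := by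
    intro n hn
    rw [← QuotientGroup.mk_pow, QuotientGroup.eq_one_iff, Subgroup.mem_center_iff]
    intro a
    apply Subtype.ext
    show a.1 * (g ^ n).1 = (g ^ n).1 * a.1
    rw [show (g ^ n).1 = M ^ n from Matrix.SpecialLinearGroup.coe_pow g n]
    rcases hn with e | e <;> rw [e] <;> simp
  have hstep : ∀ a b c d : F, (a • M + b • (1 : Matrix (Fin 2) (Fin 2) F)) * (c • M + d • 1) =
      (a * c * t + a * d + b * c) • M + (b * d - a * c) • 1 := by
    intro a b c d
    simp only [add_mul, mul_add, smul_mul_assoc, mul_smul_comm, one_mul, mul_one, hsq, smul_smul,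
      smul_sub, add_smul, sub_smul]
    module
  have e1 : M = (1 : F) • M + (0 : F) • (1 : Matrix (Fin 2) (Fin 2) F) := by simp
  have e2 : M ^ 2 = t • M + (-1 : F) • (1 : Matrix (Fin 2) (Fin 2) F) := by
    rw [sq, hsq, neg_one_smul, sub_eq_add_neg]
  have e3 : M ^ 3 = (t * t - 1) • M + (-t) • (1 : Matrix (Fin 2) (Fin 2) F) := by
    rw [pow_succ, e2]
    conv_lhs => arg 2; rw [e1]
    rw [hstep]; congr 2 <;> ring
  have e4 : M ^ 4 = (t ^ 3 - 2 * t) • M + (1 - t * t) • (1 : Matrix (Fin 2) (Fin 2) F) := by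
    rw [show M ^ 4 = M ^ 2 * M ^ 2 by rw [← pow_add], e2, hstep]; congr 2 <;> ring
  have e7 : M ^ 7 = ((t * t - 1) * (t ^ 3 - 2 * t) * t + (t * t - 1) * (1 - t * t)
      + (-t) * (t ^ 3 - 2 * t)) • M
      + ((-t) * (1 - t * t) - (t * t - 1) * (t ^ 3 - 2 * t)) • (1 : Matrix (Fin 2) (Fin 2) F) := by
    rw [show M ^ 7 = M ^ 3 * M ^ 4 by rw [← pow_add], e3, e4, hstep]
  have fin : ∀ (n : ℕ) (a b : F), M ^ n = a • M + b • (1 : Matrix (Fin 2) (Fin 2) F) →
      a = 0 → b = 1 ∨ b = -1 →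
      (QuotientGroup.mk g : ProjectiveSpecialLinearGroup (Fin 2) F) ^ n = 1 := by
    intro n a b e ha hb
    apply key
    rcases hb with rfl | rfl
    · left; rw [e, ha, zero_smul, zero_add, one_smul]
    · right; rw [e, ha, zero_smul, zero_add, neg_one_smul]
  interval_cases z <;> norm_num at hz
  · exact .inl (fin 4 _ _ e4 (by rw [← hz]; ring) (.inl (by rw [← hz]; ring)))
  · exact .inr (.inl (fin 3 _ _ e3 (by rw [← hz]; ring) (.inr (by rw [← hz]))))
  · exact .inr (.inr (fin 7 _ _ e7 (by rw [← hz]; linear_combination h7)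
      (.inl (by rw [← hz]; linear_combination -h7))))
  · exact .inl (fin 4 _ _ e4 (by rw [← hz]; linear_combination 3 * h7)
      (.inr (by rw [← hz]; linear_combination -h7)))
  · exact .inl (fin 4 _ _ e4 (by rw [← hz]; linear_combination 8 * h7)
      (.inr (by rw [← hz]; linear_combination -2 * h7)))
  · exact .inr (.inr (fin 7 _ _ e7 (by rw [← hz]; linear_combination 1807 * h7)
      (.inr (by rw [← hz]; linear_combination -377 * h7))))
  · exact .inr (.inl (fin 3 _ _ e3 (by rw [← hz]; linear_combination 5 * h7)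
      (.inl (by rw [← hz]; linear_combination -h7))))

end Cfsg.Agent.PermGroups
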