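import Cfsg.Agent.PermGroups.SmallJordanSet

/-!
# Quasiprimitive groups with a small Jordan set
-/

set_option autoImplicit false

namespace Cfsg.Agent.PermGroups.SmallJordan

open MulAction Equiv

theorem quasiprimitive_small_jordan {G Ω : Type*} [Group G] [Finite G] [MulAction G Ω]
    [FaithfulSMul G Ω] [Fintype Ω] [DecidableEq Ω]
    (hqp : ∀ N : Subgroup G, N.Normal → N ≠ ⊥ → IsPretransitive ↥N Ω)
    (Γ : Finset Ω) (h1 : 1 < Γ.card) (h2 : 2 * Γ.card < Fintype.card Ω)
    (hJ : ∀ x ∈ Γ, ∀ y ∈ Γ, ∃ g : G, (∀ z, z ∉ Γ → g • z = z) ∧ g • x = y) :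
    ∀ σ : Equiv.Perm Ω, Equiv.Perm.sign σ = 1 → ∃ x : G, (MulAction.toPerm x : Equiv.Perm Ω) = σ := by
  classical
  obtain ⟨u0, hu0, w0, hw0, hu0w0⟩ := Finset.one_lt_card.1 h1
  haveI hGt : IsPretransitive G Ω := by
    have htop : (⊤ : Subgroup G) ≠ ⊥ := fun e => by
      obtain ⟨g, -, hg⟩ := hJ u0 hu0 w0 hw0
      have : g = 1 := Subgroup.mem_bot.1 (e ▸ Subgroup.mem_top g)
      exact hu0w0 (by rw [← hg, this, one_smul])
    have := hqp ⊤ inferInstance htop
    exact ⟨fun a b => by obtain ⟨g, hg⟩ := this.exists_smul_eq a b; exact ⟨g.1, hg⟩⟩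
  by_cases hprim : IsPreprimitive G Ω
  · intro σ hσ
    set R := (toPermHom G Ω).range
    haveI : IsPretransitive R Ω := ⟨fun a b => by
      obtain ⟨g, hg⟩ := exists_smul_eq G a b; exact ⟨⟨_, g, rfl⟩, hg⟩⟩
    have hR : IsPreprimitive R Ω := ⟨fun {B} hB => hprim.isTrivialBlock_of_isBlock (by
      rw [isBlock_iff_smul_eq_or_disjoint] at hB ⊢
      intro g
      exact hB ⟨_, g, rfl⟩)⟩
    have hle := alternating_le R hR Γ h1 h2 (fun x hx y hy => by
      obtain ⟨g, hf, hxy⟩ := hJ x hx y hy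
      exact ⟨toPerm g, ⟨g, rfl⟩, hf, hxy⟩)
    obtain ⟨g, hg⟩ := hle (Perm.mem_alternatingGroup.2 hσ)
    exact ⟨g, hg⟩
  exfalso
  haveI : Nonempty Ω := ⟨u0⟩
  obtain ⟨a, ha⟩ : ∃ a : Ω, a ∉ Γ := by
    by_contra h
    push Not at h
    rw [Finset.eq_univ_of_forall h, Finset.card_univ] at h2
    omega
  haveI : Nontrivial Ω := ⟨⟨u0, w0, hu0w0⟩⟩
  have hnc : ¬ IsCoatom (stabilizer G a) := fun h =>
    hprim ((isCoatom_stabilizer_iff_preprimitive G a).1 h)
  have hntop : stabilizer G a ≠ ⊤ := by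
    intro e
    obtain ⟨g, hg⟩ := exists_smul_eq G a u0
    have : g • a = a := mem_stabilizer_iff.1 (e.symm ▸ Subgroup.mem_top g)
    exact ha (by rw [← this, hg]; exact hu0)
  obtain ⟨L, hL, hLa⟩ := (eq_top_or_exists_le_coatom (stabilizer G a)).resolve_left hntop
  obtain ⟨l, hlL, hla⟩ : ∃ l ∈ L, l • a ≠ a := by
    by_contra h
    push Not at h
    exact hnc (le_antisymm hLa h ▸ hL)
  haveI : Finite (G ⧸ L) := inferInstance
  haveI := Fintype.ofFinite (G ⧸ L)
  -- the map onto the cosets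
  have hmove : ∀ x : Ω, ∃ g : G, g • a = x := fun x => exists_smul_eq G a x
  choose mv hmv using hmove
  set π : Ω → G ⧸ L := fun x => QuotientGroup.mk (mv x) with hπ
  have hπg : ∀ (g : G) (x : Ω), π (g • x) = g • π x := by
    intro g x
    show QuotientGroup.mk (mv (g • x)) = g • (QuotientGroup.mk (mv x) : G ⧸ L)
    rw [show g • (QuotientGroup.mk (mv x) : G ⧸ L) = QuotientGroup.mk (g * mv x) from rfl,
      QuotientGroup.eq]
    apply hLa
    rw [mem_stabilizer_iff, mul_smul, mul_smul, hmv]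
    exact inv_smul_eq_iff.2 (hmv (g • x)).symm
  haveI hqprim : IsPreprimitive G (G ⧸ L) := by
    haveI : Nontrivial (G ⧸ L) := by
      rw [← Finite.one_lt_card_iff_nontrivial, ← Subgroup.index_eq_card]
      exact Subgroup.one_lt_index_of_ne_top hL.1
    refine (isCoatom_stabilizer_iff_preprimitive G ((1 : G) : G ⧸ L)).1 ?_
    rwa [MulAction.stabilizer_quotient]
  have hother : ∀ x : Ω, ∃ x', x' ≠ x ∧ π x' = π x := by
    intro x
    refine ⟨(mv x) • l • a, fun e => hla ?_, ?_⟩
    · conv_rhs at e => rw [← hmv x]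
      exact MulAction.injective (mv x) e
    · rw [hπg, hπg]
      conv_rhs => rw [← hmv x, hπg]
      congr 1
      have h1 : π a = QuotientGroup.mk (mv a) := rfl
      rw [h1, show l • (QuotientGroup.mk (mv a) : G ⧸ L) = QuotientGroup.mk (l * mv a) from rfl,
        QuotientGroup.eq]
      have hma : mv a ∈ L := hLa (mem_stabilizer_iff.2 (hmv a))
      exact L.mul_mem (L.inv_mem (L.mul_mem hlL hma)) hma
  -- the kernel is trivial
  set φ := toPermHom G (G ⧸ L) with hφ
  have hker : φ.ker = ⊥ := by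
    by_contra hne
    haveI := hqp φ.ker inferInstance hne
    apply hL.1
    rw [eq_top_iff]
    intro g _
    obtain ⟨k, hk⟩ := exists_smul_eq φ.ker a (g • a)
    have h1 : π (g • a) = π a := by
      rw [← hk, show (k • a : Ω) = (k : G) • a from rfl, hπg]
      exact congrArg (fun σ : Perm (G ⧸ L) => σ (π a)) k.2
    rw [hπg] at h1
    have hma : mv a ∈ L := hLa (mem_stabilizer_iff.2 (hmv a))
    change g • (QuotientGroup.mk (mv a) : G ⧸ L) = QuotientGroup.mk (mv a) at h1
    rw [show g • (QuotientGroup.mk (mv a) : G ⧸ L) = QuotientGroup.mk (g * mv a) from rfl,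
      QuotientGroup.eq] at h1
    have e : g = mv a * ((g * mv a)⁻¹ * mv a)⁻¹ * (mv a)⁻¹ := by group
    rw [e]
    exact L.mul_mem (L.mul_mem hma (L.inv_mem h1)) (L.inv_mem hma)
  have hinj : Function.Injective φ := (MonoidHom.ker_eq_bot_iff φ).1 hker
  -- the Jordan set is a union of fibres
  have hnotin : ∀ u ∈ Γ, ∃ w ∈ Γ, π w ≠ π u := by
    intro u hu
    by_contra h
    push Not at h
    obtain ⟨g, hgf, hgu⟩ := hJ u0 hu0 w0 hw0
    have : g = 1 := hinj (by
      rw [map_one]
      ext q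
      obtain ⟨r, rfl⟩ := QuotientGroup.mk_surjective q
      have hq : (QuotientGroup.mk r : G ⧸ L) = π (r • a) := by
        rw [hπg]
        show QuotientGroup.mk r = r • (QuotientGroup.mk (mv a) : G ⧸ L)
        rw [show r • (QuotientGroup.mk (mv a) : G ⧸ L) = QuotientGroup.mk (r * mv a) from rfl,
          QuotientGroup.eq, ← mul_assoc, inv_mul_cancel, one_mul]
        exact hLa (mem_stabilizer_iff.2 (hmv a))
      show g • (QuotientGroup.mk r : G ⧸ L) = QuotientGroup.mk r
      rw [hq, ← hπg]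
      by_cases hm : r • a ∈ Γ
      · have hmem : g • r • a ∈ Γ := by
          by_contra hh
          apply hh
          have e : g • r • a = r • a := MulAction.injective g (hgf _ hh)
          rw [e]
          exact hm
        rw [h _ hmem, h _ hm]
      · rw [hgf _ hm])
    exact hu0w0 (by rw [← hgu, this, one_smul])
  have hunion : ∀ u ∈ Γ, ∀ v, π v = π u → v ∈ Γ := by
    intro u hu v hv
    by_contra hvΓ
    obtain ⟨w, hw, hwu⟩ := hnotin u hu
    obtain ⟨g, hgf, hgu⟩ := hJ u hu w hw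
    apply hwu
    rw [← hgu, hπg, ← hv, ← hπg, hgf v hvΓ]
  set Γ' := Γ.image π with hΓ'
  have hΓ'1 : 1 < Γ'.card := by
    obtain ⟨w, hw, hwu⟩ := hnotin u0 hu0
    exact Finset.one_lt_card.2 ⟨_, Finset.mem_image_of_mem _ hw, _, Finset.mem_image_of_mem _ hu0, hwu⟩
  -- the fibres have the same size
  set d := (Finset.univ.filter fun x => π x = π a).card with hd
  have hfib : ∀ y : Ω, (Finset.univ.filter fun x => π x = π y).card = d := by
    intro y
    refine Finset.card_bij' (fun x _ => (mv y)⁻¹ • x) (fun x _ => mv y • x) ?_ ?_ ?_ ?_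
    · intro x hx
      rw [Finset.mem_filter] at hx ⊢
      refine ⟨Finset.mem_univ _, ?_⟩
      rw [hπg, hx.2, ← hπg]
      congr 1
      exact inv_smul_eq_iff.2 (hmv y).symm
    · intro x hx
      rw [Finset.mem_filter] at hx ⊢
      refine ⟨Finset.mem_univ _, ?_⟩
      rw [hπg, hx.2, ← hπg, hmv]
    · intro x _; exact smul_inv_smul _ _
    · intro x _; exact inv_smul_smul _ _
  have hd2 : 2 ≤ d := by
    obtain ⟨x', hx', hπ'⟩ := hother a
    exact Finset.one_lt_card.2 ⟨x', Finset.mem_filter.2 ⟨Finset.mem_univ _, hπ'⟩, a,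
      Finset.mem_filter.2 ⟨Finset.mem_univ _, rfl⟩, hx'⟩
  have hΓd : Γ.card = Γ'.card * d := by
    rw [Finset.card_eq_sum_card_image π Γ, ← smul_eq_mul, ← Finset.sum_const]
    refine Finset.sum_congr rfl fun q hq => ?_
    obtain ⟨u, hu, rfl⟩ := Finset.mem_image.1 hq
    rw [← hfib u]
    congr 1
    ext x
    simp only [Finset.mem_filter, Finset.mem_univ, true_and]
    exact ⟨fun h => h.2, fun h => ⟨hunion u hu x h, h⟩⟩
  have hsurj : ∀ q : G ⧸ L, ∃ x, π x = q := by
    intro q
    obtain ⟨r, rfl⟩ := QuotientGroup.mk_surjective q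
    refine ⟨r • a, ?_⟩
    rw [hπg]
    show r • (QuotientGroup.mk (mv a) : G ⧸ L) = QuotientGroup.mk r
    rw [show r • (QuotientGroup.mk (mv a) : G ⧸ L) = QuotientGroup.mk (r * mv a) from rfl,
      QuotientGroup.eq, mul_inv_rev, mul_assoc, inv_mul_cancel, mul_one]
    exact L.inv_mem (hLa (mem_stabilizer_iff.2 (hmv a)))
  have hnd : Fintype.card Ω = Fintype.card (G ⧸ L) * d := by
    rw [← Finset.card_univ, Finset.card_eq_sum_card_fiberwise (f := π) (t := Finset.univ)
      (fun x _ => Finset.mem_coe.2 (Finset.mem_univ _)), ← Finset.card_univ, ← smul_eq_mul,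
      ← Finset.sum_const]
    refine Finset.sum_congr rfl fun q _ => ?_
    obtain ⟨x, rfl⟩ := hsurj q
    exact hfib x
  have hΓ'2 : 2 * Γ'.card < Fintype.card (G ⧸ L) := by
    by_contra h
    push Not at h
    have := Nat.mul_le_mul_right d h
    rw [mul_assoc, ← hΓd, ← hnd] at this
    omega
  -- primitive on the cosets
  set R := φ.range
  haveI : IsPretransitive R (G ⧸ L) := ⟨fun x y => by
    obtain ⟨g, hg⟩ := exists_smul_eq G x y; exact ⟨⟨_, g, rfl⟩, hg⟩⟩
  have hR : IsPreprimitive R (G ⧸ L) := ⟨fun {B} hB => hqprim.isTrivialBlock_of_isBlock (by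
    rw [isBlock_iff_smul_eq_or_disjoint] at hB ⊢
    intro g
    exact hB ⟨_, g, rfl⟩)⟩
  have hle := alternating_le R hR Γ' hΓ'1 hΓ'2 (fun x hx y hy => by
    obtain ⟨u, hu, rfl⟩ := Finset.mem_image.1 hx
    obtain ⟨w, hw, rfl⟩ := Finset.mem_image.1 hy
    obtain ⟨g, hgf, hgu⟩ := hJ u hu w hw
    refine ⟨φ g, ⟨g, rfl⟩, fun q hq => ?_, ?_⟩
    · obtain ⟨z, rfl⟩ := hsurj q
      show g • π z = π z
      rw [← hπg, hgf z fun hz => hq (Finset.mem_image_of_mem _ hz)]
    · show g • π u = π w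
      rw [← hπg, hgu])
  -- an even element of the fixing group of the complement
  obtain ⟨f, hff, hf1, hfs⟩ : ∃ f : G, (∀ z, z ∉ Γ → f • z = z) ∧ f ≠ 1 ∧ Perm.sign (φ f) = 1 := by
    by_contra h
    push Not at h
    have h4 : 4 ≤ Γ.card := by
      rw [hΓd]
      exact Nat.mul_le_mul hΓ'1 hd2
    choose q hqf hqx using fun x : {x // x ∈ Γ} => hJ u0 hu0 x x.2
    have hinjq : Function.Injective fun x : {x // x ∈ Γ} => Perm.sign (φ (q x)) := by
      intro x y hxy
      have hxy' : Perm.sign (φ (q x)) = Perm.sign (φ (q y)) := hxy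
      by_contra hne
      refine h ((q y)⁻¹ * q x) (fun z hz => ?_) (fun e => hne ?_) ?_
      · rw [mul_smul, hqf x z hz, inv_smul_eq_iff, hqf y z hz]
      · rw [inv_mul_eq_one] at e
        exact Subtype.ext (by rw [← hqx x, ← hqx y, e])
      · rw [map_mul, map_inv, map_mul, map_inv, hxy', inv_mul_cancel]
    have := Fintype.card_le_of_injective _ hinjq
    rw [Fintype.card_coe, Fintype.card_units_int] at this
    omega
  have h5 : 5 ≤ Fintype.card (G ⧸ L) := by omega
  obtain ⟨v, hv⟩ : ∃ v : Ω, v ∉ Γ := ⟨a, ha⟩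
  set e := π v with he
  have hfe : φ f e = e := by
    show f • π v = π v
    rw [← hπg, hff v hv]
  have hcard6 : 6 ≤ Fintype.card (G ⧸ L) := by
    by_contra hlt
    have hsub : (φ f).support ⊆ Γ' := fun q hq => by
      obtain ⟨z, rfl⟩ := hsurj q
      by_contra hz
      refine Perm.mem_support.1 hq ?_
      show f • π z = π z
      rw [← hπg, hff z fun h => hz (Finset.mem_image_of_mem _ h)]
    have h' := Finset.card_le_card hsub
    have hne : φ f ≠ 1 := fun e' => hf1 (hinj (by rw [e', map_one]))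
    have h2' := Perm.two_le_card_support_of_ne_one hne
    have hsw := (Perm.card_support_eq_two.1 (show (φ f).support.card = 2 by omega)).sign_eq
    rw [hfs] at hsw
    exact absurd hsw (by decide)
  -- lift the stabiliser of a coset in the alternating group
  let H := {q : G ⧸ L // q ≠ e}
  have hlift : ∀ σ : alternatingGroup H, ∃ g : G, φ g = Perm.ofSubtype (σ : Perm H) := fun σ =>
    hle (Perm.mem_alternatingGroup.2 (by
      rw [Perm.sign_ofSubtype]; exact Perm.mem_alternatingGroup.1 σ.2))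
  choose lift hlifteq using hlift
  let ψ : alternatingGroup H →* G := MonoidHom.mk' lift (fun σ τ => hinj (by
    rw [map_mul, hlifteq, hlifteq, hlifteq, Subgroup.coe_mul, map_mul]))
  have hψe : ∀ σ, (ψ σ) • e = e := fun σ => by
    show φ (lift σ) e = e
    rw [hlifteq]
    exact Perm.ofSubtype_apply_of_not_mem _ (fun h => h rfl)
  let Φ := {x : Ω // π x = e}
  have hinv : ∀ σ (x : Ω), π x = e → π (ψ σ • x) = e := fun σ x hx => by rw [hπg, hx, hψe]
  let χ : alternatingGroup H →* Perm Φ := MonoidHom.mk'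
    (fun σ => (toPerm (ψ σ) : Perm Ω).subtypePerm (fun x => by
      refine ⟨fun hx => ?_, hinv σ x⟩
      have := hinv σ⁻¹ _ hx
      rwa [map_inv, toPerm_apply, inv_smul_smul] at this))
    (fun σ τ => by ext x; simp [map_mul, mul_smul])
  haveI : IsSimpleGroup (alternatingGroup H) := alternatingGroup.isSimpleGroup (by
    rw [Nat.card_eq_fintype_card, Fintype.card_subtype_compl, Fintype.card_subtype_eq]
    omega)
  have hall : ∀ g : G, φ g e = e → Perm.sign (φ g) = 1 → ∃ σ, ψ σ = g := by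
    intro g hge hgs
    have hmem : ∀ q, φ g q ≠ e ↔ q ≠ e := fun q => by
      rw [not_iff_not]
      exact ⟨fun h => (φ g).injective (h.trans hge.symm), fun h => h ▸ hge⟩
    refine ⟨⟨(φ g).subtypePerm hmem, Perm.mem_alternatingGroup.2 ?_⟩, hinj ?_⟩
    · rw [Perm.sign_subtypePerm]
      · exact hgs
      · intro q hq e'
        exact hq (e' ▸ hge)
    · show φ (lift _) = φ g
      rw [hlifteq, Perm.ofSubtype_subtypePerm]
      intro q hq e'
      exact hq (e' ▸ hge)
  have htriv : χ.ker = ⊤ := by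
    refine (χ.normal_ker.eq_bot_or_eq_top).resolve_left fun hb => ?_
    obtain ⟨σ, hσ⟩ := hall f hfe hfs
    have hσ1 : σ ∈ χ.ker := by
      rw [MonoidHom.mem_ker]
      refine Perm.ext fun x => Subtype.ext ?_
      show ψ σ • (x : Ω) = x
      rw [hσ, hff]
      intro hxΓ
      exact hv (hunion _ hxΓ v (x.2.trans rfl).symm)
    rw [hb, Subgroup.mem_bot] at hσ1
    exact hf1 (by rw [← hσ, hσ1, map_one])
  obtain ⟨v', hv', hπv'⟩ := hother v
  -- the even elements are transitive
  set N := (Perm.sign.comp φ).ker with hN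
  have hN1 : N ≠ ⊥ := fun h => hf1 (by
    rw [← Subgroup.mem_bot, ← h]; exact hfs)
  haveI := hqp N inferInstance hN1
  obtain ⟨g, hg⟩ := exists_smul_eq N v v'
  have hge : φ (g : G) e = e := by
    show (g : G) • π v = π v
    rw [← hπg, show (g : G) • v = v' from hg, hπv']
  obtain ⟨σ, hσ⟩ := hall g hge g.2
  have h0 : χ σ ⟨v, rfl⟩ = (⟨v, rfl⟩ : Φ) := by
    rw [show χ σ = 1 from MonoidHom.mem_ker.1 (htriv ▸ Subgroup.mem_top σ)]; rfl
  have h0' : ψ σ • v = v := congrArg Subtype.val h0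
  rw [hσ, show (g : G) • v = v' from hg] at h0'
  exact hv' h0'

end Cfsg.Agent.PermGroups.SmallJordan
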