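import Cfsg.Agent.PermGroups.MinimalJordanUnion

/-!
# Marggraff's theorem: small Jordan sets force the alternating group
-/

set_option autoImplicit false

namespace Cfsg.Agent.PermGroups.SmallJordan

open MulAction Equiv
open scoped Pointwise

universe u

variable {α : Type u} [Fintype α] [DecidableEq α]

/-- The permutations of the complement of `A` induced by the elements preserving `A`. -/
def outerGroup (G : Subgroup (Perm α)) (A : Finset α) : Subgroup (Perm {z : α // z ∉ A}) where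
  carrier := {σ | ∃ g ∈ G, ∀ w : {z : α // z ∉ A}, ((σ w : {z : α // z ∉ A}) : α) = g w}
  one_mem' := ⟨1, one_mem _, fun _ => rfl⟩
  mul_mem' := by
    rintro σ τ ⟨g, hg, hg'⟩ ⟨h, hh, hh'⟩
    exact ⟨g * h, mul_mem hg hh, fun w => by rw [Perm.mul_apply, hg', hh', Perm.mul_apply]⟩
  inv_mem' := by
    rintro σ ⟨g, hg, hg'⟩
    refine ⟨g⁻¹, inv_mem hg, fun w => ?_⟩
    obtain ⟨v, rfl⟩ := σ.surjective w
    rw [Perm.coe_inv, σ.symm_apply_apply, hg']
    simp

/-- The permutation of the complement induced by a permutation preserving `A`. -/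
theorem exists_outer {G : Subgroup (Perm α)} {A : Finset α} {g : Perm α} (hg : g ∈ G)
    (hgA : A.image g = A) : ∃ σ ∈ outerGroup G A, ∀ w : {z : α // z ∉ A}, ((σ w : {z : α // z ∉ A}) : α) = g w := by
  have h : ∀ z, g z ∉ A ↔ z ∉ A := fun z => by
    rw [not_iff_not]
    conv_lhs => rw [← hgA, g.injective.mem_finset_image]
  exact ⟨g.subtypePerm h, ⟨g, hg, fun w => rfl⟩, fun w => rfl⟩

variable {G : Subgroup (Perm α)} {Γ A : Finset α}

/-- Consequences of three-transitivity for the translates. -/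
theorem translate_facts (h3 : IsMultiplyPretransitive G α 3) (h1 : 1 < Γ.card)
    (hn : Γ.card < Fintype.card α) {x y p : α} (hxy : x ≠ y) (hpx : p ≠ x) (hpy : p ≠ y) :
    ∃ W, Translate G Γ W ∧ x ∈ W ∧ p ∈ W ∧ y ∉ W := by
  have hmove : ∀ a b c a' b' c' : α, a ≠ b → a ≠ c → b ≠ c → a' ≠ b' → a' ≠ c' → b' ≠ c' →
      ∃ g ∈ G, g a = a' ∧ g b = b' ∧ g c = c' := by
    intro a b c a' b' c' hab hac hbc hab' hac' hbc'
    let e : Fin 3 ↪ α := ⟨![a, b, c], fun i j h => by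
      fin_cases i <;> fin_cases j <;>
        simp [hab, hac, hbc, Ne.symm hab, Ne.symm hac, Ne.symm hbc] at h ⊢⟩
    let e' : Fin 3 ↪ α := ⟨![a', b', c'], fun i j h => by
      fin_cases i <;> fin_cases j <;>
        simp [hab', hac', hbc', Ne.symm hab', Ne.symm hac', Ne.symm hbc'] at h ⊢⟩
    obtain ⟨g, hg⟩ := h3.exists_smul_eq e e'
    have hgi : ∀ i, (g : Perm α) (e i) = e' i := fun i => congrArg (fun q : Fin 3 ↪ α => q i) hg
    exact ⟨g, g.2, hgi 0, hgi 1, hgi 2⟩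
  obtain ⟨c1, hc1, c2, hc2, hc12⟩ := Finset.one_lt_card.1 h1
  obtain ⟨c3, hc3⟩ : ∃ c3, c3 ∉ Γ := by
    by_contra h
    push Not at h
    rw [Finset.eq_univ_of_forall h, Finset.card_univ] at hn
    omega
  have h13 : c1 ≠ c3 := fun e => hc3 (e ▸ hc1)
  have h23 : c2 ≠ c3 := fun e => hc3 (e ▸ hc2)
  obtain ⟨g, hg, g1, g2, g3⟩ := hmove c1 c2 c3 x p y hc12 h13 h23 (Ne.symm hpx) hxy hpy
  exact ⟨Γ.image g, ⟨g, hg, rfl⟩, g1 ▸ Finset.mem_image_of_mem _ hc1,
    g2 ▸ Finset.mem_image_of_mem _ hc2, g3 ▸ fun h => hc3 (g.injective.mem_finset_image.1 h)⟩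

variable (hΓ : Jordan G Γ) (h3 : IsMultiplyPretransitive G α 3) (h1 : 1 < Γ.card)
  (hn : 2 * Γ.card < Fintype.card α) (hA : Translate G Γ A)

include hΓ h3 h1 hn hA

theorem exists_minExt_sep {x y : α} (hx : x ∉ A) (hy : y ∉ A) (hxy : x ≠ y) :
    ∃ U, MinExt G Γ A U ∧ x ∈ U ∧ y ∉ U := by
  obtain ⟨p, hp⟩ : A.Nonempty := Finset.card_pos.1 (by rw [hA.card]; omega)
  obtain ⟨W, hW, hxW, hpW, hyW⟩ := translate_facts (Γ := Γ) h3 h1 (by omega) hxy
    (fun e => hx (e ▸ hp)) (fun e => hy (e ▸ hp))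
  obtain ⟨U, hU, hxU, hUs⟩ := exists_minExt hΓ _ A W hA hW ⟨p, Finset.mem_inter.2 ⟨hp, hpW⟩⟩ rfl x hxW hx
  exact ⟨U, hU, hxU, fun h => (Finset.mem_union.1 (hUs h)).elim hy hyW⟩

theorem exists_minExt_cover {x : α} (hx : x ∉ A) : ∃ U, MinExt G Γ A U ∧ x ∈ U := by
  obtain ⟨y, hy⟩ : ∃ y, y ∉ insert x A := by
    by_contra h
    push Not at h
    have := Finset.card_le_card (show Finset.univ ⊆ insert x A from fun z _ => h z)
    have := Finset.card_insert_le x A
    rw [hA.card] at this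
    rw [Finset.card_univ] at *
    omega
  rw [Finset.mem_insert, not_or] at hy
  obtain ⟨U, hU, hxU, -⟩ := exists_minExt_sep hΓ h3 h1 hn hA hx hy.2 (Ne.symm hy.1)
  exact ⟨U, hU, hxU⟩

/-- Membership in a common new part. -/
theorem connected {U0 : Finset α} (hU0 : MinExt G Γ A U0) (hm : 1 < (U0 \ A).card) {x y : α}
    (hx : x ∉ A) (hy : y ∉ A) :
    Relation.ReflTransGen (fun a b => ∃ U, MinExt G Γ A U ∧ a ∈ U \ A ∧ b ∈ U \ A) x y := by
  classical
  by_contra hnot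
  set R := fun a b => ∃ U, MinExt G Γ A U ∧ a ∈ U \ A ∧ b ∈ U \ A with hR
  have hsymm : ∀ a b, Relation.ReflTransGen R a b → Relation.ReflTransGen R b a := by
    intro a b h
    induction h with
    | refl => exact Relation.ReflTransGen.refl
    | tail _ hbc ih =>
      obtain ⟨U, hU, h1, h2⟩ := hbc
      exact Relation.ReflTransGen.head ⟨U, hU, h2, h1⟩ ih
  obtain ⟨a, ha, b, hb, hab⟩ := Finset.one_lt_card.1 hm
  have haA := (Finset.mem_sdiff.1 ha).2
  obtain ⟨U', hU', haU', hbU'⟩ := exists_minExt_sep hΓ h3 h1 hn hA haA (Finset.mem_sdiff.1 hb).2 hab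
  obtain ⟨c, hcA, hc⟩ : ∃ c, c ∉ A ∧ ¬ Relation.ReflTransGen R a c := by
    by_cases h : Relation.ReflTransGen R a x
    · exact ⟨y, hy, fun h' => hnot ((hsymm _ _ h).trans h')⟩
    · exact ⟨x, hx, h⟩
  obtain ⟨U2, hU2, hcU2⟩ := exists_minExt_cover hΓ h3 h1 hn hA hcA
  have hcM : c ∈ U2 \ A := Finset.mem_sdiff.2 ⟨hcU2, hcA⟩
  have haM' : a ∈ U' \ A := Finset.mem_sdiff.2 ⟨haU', haA⟩
  -- both unions through `a` have the classes of `U2`
  have hsame : ∀ U1, MinExt G Γ A U1 → a ∈ U1 \ A → ∀ N N', Cls G A U1 N → Cls G A U2 N' →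
      N ⊆ A → N' ⊆ A → (N ∩ N').Nonempty → N = N' := by
    intro U1 hU1 haU1 N N' hN hN' hNA hN'A hne
    have hun : ∀ U, MinExt G Γ A U → ∀ v ∈ U \ A, ∀ w ∈ U \ A, v ∈ U1 → w ∈ U2 → False :=
      fun U hU v hv w hw hv1 hw2 => hc ((Relation.ReflTransGen.single
        ⟨U1, hU1, haU1, Finset.mem_sdiff.2 ⟨hv1, (Finset.mem_sdiff.1 hv).2⟩⟩).trans
        ((Relation.ReflTransGen.single ⟨U, hU, hv, hw⟩).trans (Relation.ReflTransGen.single
        ⟨U2, hU2, Finset.mem_sdiff.2 ⟨hw2, (Finset.mem_sdiff.1 hw).2⟩, hcM⟩)))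
    refine Finset.Subset.antisymm (cls_subset_of_unrelated hΓ hA hU1 hU2 hun hN hN' hNA hN'A hne)
      (cls_subset_of_unrelated hΓ hA hU2 hU1 ?_ hN' hN hN'A hNA (by rwa [Finset.inter_comm]))
    exact fun U hU w hw v hv hw2 hv1 => hun U hU v hv w hw hv1 hw2
  obtain ⟨p, hp⟩ : A.Nonempty := Finset.card_pos.1 (by rw [hA.card]; omega)
  obtain ⟨N, hN, hpN, hNA⟩ := cls_cover hΓ hA hU0 hp
  obtain ⟨N', hN', hpN', hN'A⟩ := cls_cover hΓ hA hU' hp
  obtain ⟨N2, hN2, hpN2, hN2A⟩ := cls_cover hΓ hA hU2 hp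
  have e1 := hsame U0 hU0 ha N N2 hN hN2 hNA hN2A ⟨p, Finset.mem_inter.2 ⟨hpN, hpN2⟩⟩
  have e2 := hsame U' hU' haM' N' N2 hN' hN2 hN'A hN2A ⟨p, Finset.mem_inter.2 ⟨hpN', hpN2⟩⟩
  have hNN' : N = N' := e1.trans e2.symm
  obtain ⟨z, hz', hz0⟩ : ∃ z ∈ U', z ∉ U0 := by
    by_contra h
    push Not at h
    exact hbU' ((hU0.2 U' hU'.1 h).symm ▸ (Finset.mem_sdiff.1 hb).1)
  obtain ⟨d, hdA, hdN⟩ : ∃ d ∈ A, d ∉ N := by
    by_contra h
    push Not at h
    have := Finset.card_le_card h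
    rw [hA.card] at this
    have := cls_card hA hU0 hN
    have := cls_card hA hU0 (sdiff_cls hA hU0)
    have := two_mul_card_sdiff hΓ hA hU0
    omega
  obtain ⟨g, hg, hgf, rfl⟩ := hN
  obtain ⟨h, hh, hhf, rfl⟩ := hN'
  have hdg : d ∈ A.image g := by
    by_contra hh'
    exact hdN (Finset.mem_sdiff.2 ⟨hU0.1.subset hdA, hh'⟩)
  have hdh : d ∈ A.image h := by
    by_contra hh'
    exact hdN (hNN'.symm ▸ Finset.mem_sdiff.2 ⟨hU'.1.subset hdA, hh'⟩)
  have hzA : z ∉ A := fun e => hz0 (hU0.1.subset e)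
  have hzh : z ∈ A.image h := by
    by_contra hh'
    exact hzA (hN'A (Finset.mem_sdiff.2 ⟨hz', hh'⟩))
  obtain ⟨V, hV, hzV, hVs⟩ := exists_minExt hΓ _ (A.image g) (A.image h) (hA.image hg)
    (hA.image hh) ⟨d, Finset.mem_inter.2 ⟨hdg, hdh⟩⟩ rfl z hzh
    (fun e => hz0 (image_subset hU0 hgf e))
  set U := V.image ⇑g⁻¹ with hUdef
  have hU : MinExt G Γ A U := by
    have := hV.image (inv_mem hg)
    rwa [image_inv_image] at this
  have hout : ∀ v ∈ U, v ∉ A → v ∉ U0 ∧ v ∈ U' := by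
    intro v hv hvA
    obtain ⟨u, hu, rfl⟩ := Finset.mem_image.1 hv
    have hgu : g (g⁻¹ u) = u := by simp
    have huV : u ∉ A.image g := fun hh' => by
      obtain ⟨w, hw, hw'⟩ := Finset.mem_image.1 hh'
      rw [← hw'] at hvA
      exact hvA (by simpa using hw)
    have huh : u ∈ A.image h := (Finset.mem_union.1 (hVs hu)).resolve_left huV
    have hnot0 : g⁻¹ u ∉ U0 := by
      intro h0
      have huU0 : u ∈ U0 := by
        by_contra hh'
        have := hgf u hh'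
        exact hh' (g.injective (this.trans hgu.symm) ▸ h0)
      have huN : u ∈ U0 \ A.image g := Finset.mem_sdiff.2 ⟨huU0, huV⟩
      rw [hNN'] at huN
      exact (Finset.mem_sdiff.1 huN).2 huh
    have e := hgf _ hnot0
    rw [hgu] at e
    exact ⟨hnot0, e ▸ image_subset hU' hhf huh⟩
  have hsub : U ⊆ U' := fun v hv => by
    by_cases hvA : v ∈ A
    · exact hU'.1.subset hvA
    · exact (hout v hv hvA).2
  have hUeq := hU'.2 U hU.1 hsub
  exact (hout a (hUeq.symm ▸ haU') haA).1 (Finset.mem_sdiff.1 ha).1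

theorem outer_transitive {U0 : Finset α} (hU0 : MinExt G Γ A U0) (hm : 1 < (U0 \ A).card) :
    IsPretransitive (outerGroup G A) {z : α // z ∉ A} := by
  refine ⟨fun x y => ?_⟩
  suffices H : ∀ v w : α, Relation.ReflTransGen
      (fun a b => ∃ U, MinExt G Γ A U ∧ a ∈ U \ A ∧ b ∈ U \ A) v w →
      ∀ (hv : v ∉ A) (hw : w ∉ A), ∃ σ : outerGroup G A,
        σ • (⟨v, hv⟩ : {z : α // z ∉ A}) = ⟨w, hw⟩ from
    H x y (connected hΓ h3 h1 hn hA hU0 hm x.2 y.2) x.2 y.2
  intro v w h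
  induction h with
  | refl => exact fun _ _ => ⟨1, one_smul _ _⟩
  | @tail b c _ hbc ih =>
    intro hv hw
    obtain ⟨U, hU, hb, hc⟩ := hbc
    obtain ⟨σ, hσ⟩ := ih hv (Finset.mem_sdiff.1 hb).2
    obtain ⟨g, hg, -, hgbc, hgA⟩ := exists_stab hΓ hA hU hb hc
    obtain ⟨τ, hτ, hτ'⟩ := exists_outer hg hgA
    refine ⟨⟨τ, hτ⟩ * σ, ?_⟩
    rw [mul_smul, hσ]
    exact Subtype.ext ((hτ' _).trans hgbc)

theorem outer_primitive {U0 : Finset α} (hU0 : MinExt G Γ A U0) (hm : 1 < (U0 \ A).card) :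
    IsPreprimitive (outerGroup G A) {z : α // z ∉ A} := by
  classical
  haveI := outer_transitive hΓ h3 h1 hn hA hU0 hm
  refine ⟨fun {D} hD => ?_⟩
  by_cases hss : D.Subsingleton
  · exact Or.inl hss
  right
  obtain ⟨x, hx, y, hy, hxy⟩ := Set.not_subsingleton_iff.1 hss
  have hne : (x : α) ≠ (y : α) := fun e => hxy (Subtype.ext e)
  obtain ⟨U, hU, hxU, hyU⟩ := exists_minExt_sep hΓ h3 h1 hn hA x.2 y.2 hne
  have key : ∀ U, MinExt G Γ A U → ∀ u ∈ D, (u : α) ∈ U → ∀ z ∈ D, (z : α) ∉ U →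
      ∀ v : {z : α // z ∉ A}, (v : α) ∈ U → v ∈ D := by
    intro U hU u hu huU z hz hzU v hv
    obtain ⟨g, hg, hgf, hgu, hgA⟩ := exists_stab hΓ hA hU
      (Finset.mem_sdiff.2 ⟨huU, u.2⟩) (Finset.mem_sdiff.2 ⟨hv, v.2⟩)
    obtain ⟨τ, hτ, hτ'⟩ := exists_outer hg hgA
    set t : outerGroup G A := ⟨τ, hτ⟩
    have htz : t • z = z := Subtype.ext ((hτ' z).trans (hgf _ hzU))
    have htD : t • D = D := hD.smul_eq_of_nonempty ⟨z, ⟨z, hz, htz⟩, hz⟩
    have : t • u ∈ D := htD ▸ Set.smul_mem_smul_set hu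
    rwa [show t • u = v from Subtype.ext ((hτ' u).trans hgu)] at this
  have hUD := key U hU x hx hxU y hy hyU
  have hall : ∀ U', MinExt G Γ A U' → ∀ u ∈ D, (u : α) ∈ U' →
      ∀ v : {z : α // z ∉ A}, (v : α) ∈ U' → v ∈ D := by
    intro U' hU' u hu huU'
    by_cases hz : ∃ z ∈ D, (z : α) ∉ U'
    · obtain ⟨z, hz, hzU'⟩ := hz
      exact key U' hU' u hu huU' z hz hzU'
    · push Not at hz
      exfalso
      have : U ⊆ U' := fun v hv => by
        by_cases hvA : v ∈ A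
        · exact hU'.1.subset hvA
        · exact hz ⟨v, hvA⟩ (hUD ⟨v, hvA⟩ hv)
      exact hyU ((hU'.2 U hU.1 this).symm ▸ hz y hy)
  suffices H : ∀ w : α, Relation.ReflTransGen
      (fun a b => ∃ U, MinExt G Γ A U ∧ a ∈ U \ A ∧ b ∈ U \ A) (x : α) w →
      ∀ hw : w ∉ A, (⟨w, hw⟩ : {z : α // z ∉ A}) ∈ D from
    Set.eq_univ_of_forall fun w => H w (connected hΓ h3 h1 hn hA hU0 hm x.2 w.2) w.2
  intro w h
  induction h with
  | refl => exact fun _ => hx
  | @tail b c _ hbc ih =>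
    intro hw
    obtain ⟨U', hU', hb, hc⟩ := hbc
    exact hall U' hU' _ (ih (Finset.mem_sdiff.1 hb).2) (Finset.mem_sdiff.1 hb).1 ⟨c, hw⟩
      (Finset.mem_sdiff.1 hc).1

omit hΓ h3 h1 hn hA

/-- Every set of the size of a new part outside `A` is a new part, by induction. -/
theorem alternating_le_aux : ∀ (n : ℕ) {α : Type u} [Fintype α] [DecidableEq α]
    (G : Subgroup (Perm α)), Fintype.card α = n → IsPreprimitive G α →
    ∀ Γ : Finset α, 1 < Γ.card → 2 * Γ.card < n → Jordan G Γ → alternatingGroup α ≤ G := by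
  intro n
  induction n using Nat.strong_induction_on with
  | _ n ih =>
  intro α _ _ G hα hprim Γ h1 hn hΓ
  classical
  have h3 : IsMultiplyPretransitive G α 3 := by
    refine three_transitive_of_small_jordan_set hprim (Γ : Set α) ?_ ?_ fun x hx y hy => ?_
    · rwa [Set.ncard_coe_finset]
    · rw [Set.ncard_coe_finset, Nat.card_eq_fintype_card, hα]; omega
    · obtain ⟨g, hg, hf, he⟩ := hΓ x hx y hy
      exact ⟨⟨g, hg⟩, fun z hz => hf z hz, he⟩
  have hn' : 2 * Γ.card < Fintype.card α := by omega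
  have hA : Translate G Γ Γ := ⟨1, one_mem _, by simp⟩
  obtain ⟨x0, hx0⟩ : ∃ x, x ∉ Γ := by
    by_contra h
    push Not at h
    rw [Finset.eq_univ_of_forall h, Finset.card_univ] at hn'
    omega
  obtain ⟨U0, hU0, hU0m⟩ : ∃ U0, MinExt G Γ Γ U0 ∧ ((1 < (U0 \ Γ).card) ∨
      ∀ U, MinExt G Γ Γ U → (U \ Γ).card ≤ 1) := by
    by_cases h : ∃ U, MinExt G Γ Γ U ∧ 1 < (U \ Γ).card
    · obtain ⟨U, hU, hm⟩ := h
      exact ⟨U, hU, Or.inl hm⟩
    · push Not at h
      obtain ⟨U, hU, -⟩ := exists_minExt_cover hΓ h3 h1 hn' hA hx0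
      exact ⟨U, hU, Or.inr h⟩
  have hm2 := two_mul_card_sdiff hΓ hA hU0
  have hM1 : 1 ≤ (U0 \ Γ).card := by
    rw [Nat.one_le_iff_ne_zero, Ne, Finset.card_eq_zero, Finset.sdiff_eq_empty_iff_subset]
    exact fun h => hU0.1.ssubset.2 h
  set m := (U0 \ Γ).card with hm
  -- unions avoiding a prescribed small set
  have hP : ∀ S : Finset α, Disjoint S Γ → S.card + m ≤ Fintype.card α - Γ.card →
      ∀ z, z ∉ S → z ∉ Γ → ∃ U, MinExt G Γ Γ U ∧ z ∈ U ∧ Disjoint S U := by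
    intro S hSΓ hS z hzS hzΓ
    rcases hU0m with hbig | hsmall
    swap
    · obtain ⟨U, hU, hzU⟩ := exists_minExt_cover hΓ h3 h1 hn' hA hzΓ
      refine ⟨U, hU, hzU, Finset.disjoint_left.2 fun v hvS hvU => ?_⟩
      have hvΓ : v ∉ Γ := Finset.disjoint_left.1 hSΓ hvS
      exact hzS (Finset.card_le_one.1 (hsmall U hU) v (Finset.mem_sdiff.2 ⟨hvU, hvΓ⟩) z
        (Finset.mem_sdiff.2 ⟨hzU, hzΓ⟩) ▸ hvS)
    -- induction on the outer group
    set H := {w : α // w ∉ Γ}
    have hHc : Fintype.card H = n - Γ.card := by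
      rw [Fintype.card_subtype_compl, Fintype.card_coe, hα]
    have hMc : ((U0 \ Γ).subtype (· ∉ Γ)).card = m := by
      rw [Finset.card_subtype, Finset.filter_true_of_mem fun w hw => (Finset.mem_sdiff.1 hw).2]
    have hH := ih (n - Γ.card) (by omega) (outerGroup G Γ) hHc
      (outer_primitive hΓ h3 h1 hn' hA hU0 hbig) ((U0 \ Γ).subtype (· ∉ Γ))
      (by omega) (by omega) (by
        intro a ha b hb
        rw [Finset.mem_subtype] at ha hb
        obtain ⟨g, hg, hgf, hgab, hgA⟩ := exists_stab hΓ hA hU0 ha hb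
        obtain ⟨τ, hτ, hτ'⟩ := exists_outer hg hgA
        refine ⟨τ, hτ, fun w hw => Subtype.ext ((hτ' w).trans (hgf _ fun hwU => hw ?_)),
          Subtype.ext ((hτ' a).trans hgab)⟩
        rw [Finset.mem_subtype]
        exact Finset.mem_sdiff.2 ⟨hwU, w.2⟩)
    -- a target containing `z`
    have hcompl : (insert z S ∪ Γ)ᶜ.card + (S.card + Γ.card + 1) = Fintype.card α := by
      rw [Finset.card_compl, Finset.card_union_of_disjoint (Finset.disjoint_insert_left.2
        ⟨hzΓ, hSΓ⟩), Finset.card_insert_of_notMem hzS]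
      have : (insert z S ∪ Γ).card ≤ Fintype.card α := Finset.card_le_univ _
      rw [Finset.card_union_of_disjoint (Finset.disjoint_insert_left.2
        ⟨hzΓ, hSΓ⟩), Finset.card_insert_of_notMem hzS] at this
      omega
    obtain ⟨T0, hT0s, hT0⟩ := Finset.exists_subset_card_eq (s := (insert z S ∪ Γ)ᶜ) (n := m - 1)
      (by omega)
    have hT0mem : ∀ w ∈ T0, w ≠ z ∧ w ∉ S ∧ w ∉ Γ := fun w hw => by
      have := hT0s hw
      simpa [not_or, and_assoc] using this
    set T : Finset H := (insert z T0).subtype (· ∉ Γ) with hT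
    have hTc : T.card = m := by
      rw [hT, Finset.card_subtype, Finset.filter_true_of_mem, Finset.card_insert_of_notMem
        (fun h => (hT0mem z h).1 rfl), hT0]
      · omega
      · intro w hw
        rcases Finset.mem_insert.1 hw with rfl | hw
        · exact hzΓ
        · exact (hT0mem w hw).2.2
    have hfour : 2 ≤ Fintype.card H - m := by omega
    haveI : IsMultiplyPretransitive (alternatingGroup H) H (Nat.card H - 2) :=
      alternatingGroup.isMultiplyPretransitive H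
    have hmt : IsMultiplyPretransitive (alternatingGroup H) H m :=
      isMultiplyPretransitive_of_le (n := Nat.card H - 2)
        (by rw [Nat.card_eq_fintype_card]; omega) (Nat.sub_le _ _)
    let e1 : Fin m ↪ H :=
      (((U0 \ Γ).subtype (· ∉ Γ)).equivFinOfCardEq hMc).symm.toEmbedding.trans
        (Function.Embedding.subtype _)
    let e2 : Fin m ↪ H := (T.equivFinOfCardEq hTc).symm.toEmbedding.trans
      (Function.Embedding.subtype _)
    obtain ⟨σ, hσ⟩ := hmt.exists_smul_eq e1 e2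
    obtain ⟨g, hg, hgσ⟩ := hH σ.2
    have hgΓ : Γ.image g = Γ := by
      refine Finset.eq_of_subset_of_card_le (fun w hw => ?_)
        (by rw [Finset.card_image_of_injective _ g.injective])
      obtain ⟨v, hv, rfl⟩ := Finset.mem_image.1 hw
      by_contra hwΓ
      obtain ⟨u, hu⟩ := (σ : Perm H).surjective ⟨g v, hwΓ⟩
      have := (hgσ u).symm.trans (congrArg Subtype.val hu)
      exact u.2 (g.injective this ▸ hv)
    have hUg : MinExt G Γ Γ (U0.image g) := by
      have := hU0.image hg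
      rwa [hgΓ] at this
    have hnew : ∀ w, w ∉ Γ → (w ∈ U0.image g ↔ w ∈ insert z T0) := by
      intro w hw
      constructor
      · intro hwU
        obtain ⟨v, hv, rfl⟩ := Finset.mem_image.1 hwU
        have hvΓ : v ∉ Γ := fun h => hw (hgΓ ▸ Finset.mem_image_of_mem _ h)
        set i := ((U0 \ Γ).subtype (· ∉ Γ)).equivFinOfCardEq hMc
          ⟨⟨v, hvΓ⟩, Finset.mem_subtype.2 (Finset.mem_sdiff.2 ⟨hv, hvΓ⟩)⟩ with hi
        have h2 := congrArg (fun q : Fin m ↪ H => ((q i : H) : α)) hσ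
        have h3' : (((σ : Perm H) (e1 i) : H) : α) = ((e2 i : H) : α) := h2
        rw [hgσ, show e1 i = (⟨v, hvΓ⟩ : H) by simp [e1, hi]] at h3'
        rw [h3']
        exact Finset.mem_subtype.1 ((T.equivFinOfCardEq hTc).symm i).2
      · intro hwT
        set j := T.equivFinOfCardEq hTc ⟨⟨w, hw⟩, Finset.mem_subtype.2 hwT⟩ with hj
        have h2 := congrArg (fun q : Fin m ↪ H => ((q j : H) : α)) hσ
        have h3' : (((σ : Perm H) (e1 j) : H) : α) = ((e2 j : H) : α) := h2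
        rw [hgσ, show e2 j = (⟨w, hw⟩ : H) by simp [e2, hj]] at h3'
        refine Finset.mem_image.2 ⟨_, ?_, h3'⟩
        exact (Finset.mem_sdiff.1 (Finset.mem_subtype.1
          ((((U0 \ Γ).subtype (· ∉ Γ)).equivFinOfCardEq hMc).symm j).2)).1
    refine ⟨U0.image g, hUg, (hnew z hzΓ).2 (Finset.mem_insert_self _ _),
      Finset.disjoint_left.2 fun v hvS hvU => ?_⟩
    rcases Finset.mem_insert.1 ((hnew v (Finset.disjoint_left.1 hSΓ hvS)).1 hvU) with rfl | h
    · exact hzS hvS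
    · exact (hT0mem v h).2.1 hvS
  -- fixators of small sets outside `Γ` are transitive
  have hfix : ∀ S : Finset α, Disjoint S Γ → S.card + m ≤ Fintype.card α - Γ.card →
      ∀ a b, a ∉ S → b ∉ S → ∃ g ∈ G, (∀ w ∈ S, g w = w) ∧ g a = b := by
    intro S hSΓ hS
    obtain ⟨c, hc⟩ : Γ.Nonempty := Finset.card_pos.1 (by omega)
    have key : ∀ a, a ∉ S → ∃ g ∈ G, (∀ w ∈ S, g w = w) ∧ g a = c := by
      intro a ha
      by_cases haΓ : a ∈ Γ
      · obtain ⟨g, hg, hgf, hga⟩ := hΓ a haΓ c hc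
        exact ⟨g, hg, fun w hw => hgf w (Finset.disjoint_left.1 hSΓ hw), hga⟩
      · obtain ⟨U, hU, haU, hdis⟩ := hP S hSΓ hS a ha haΓ
        obtain ⟨g, hg, hgf, hga⟩ := hU.1.jordan hΓ hA a haU c (hU.1.subset hc)
        exact ⟨g, hg, fun w hw => hgf w (Finset.disjoint_left.1 hdis hw), hga⟩
    intro a b ha hb
    obtain ⟨g, hg, hgS, hga⟩ := key a ha
    obtain ⟨h, hh, hhS, hhb⟩ := key b hb
    refine ⟨h⁻¹ * g, mul_mem (inv_mem hh) hg, fun w hw => ?_, ?_⟩
    · rw [Perm.mul_apply, hgS w hw, Perm.inv_eq_iff_eq, hhS w hw]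
    · rw [Perm.mul_apply, hga, Perm.inv_eq_iff_eq, hhb]
  set t := Fintype.card α - Γ.card - m + 1 with ht
  have htrans : ∀ l, l ≤ t → IsMultiplyPretransitive G α l := by
    intro l
    induction l with
    | zero => intro _; exact is_zero_pretransitive' (G := G)
    | succ l ihl =>
      intro hl
      have hl' := ihl (by omega)
      refine isMultiplyPretransitive_of_fixator (by omega) fun s hs a b ha hb => ?_
      obtain ⟨S, hSs, hSc⟩ := Finset.exists_subset_card_eq (s := Γᶜ) (n := l)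
        (by rw [Finset.card_compl]; omega)
      let e1 : Fin l ↪ α := (s.equivFinOfCardEq (by omega)).symm.toEmbedding.trans
        (Function.Embedding.subtype _)
      let e2 : Fin l ↪ α := (S.equivFinOfCardEq hSc).symm.toEmbedding.trans
        (Function.Embedding.subtype _)
      obtain ⟨q, hq⟩ := hl'.exists_smul_eq e1 e2
      have hqs : ∀ w ∈ s, (q : Perm α) w ∈ S := by
        intro w hw
        have := congrArg (fun f : Fin l ↪ α => f (s.equivFinOfCardEq (by omega) ⟨w, hw⟩)) hq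
        have h' : (q : Perm α) (e1 (s.equivFinOfCardEq (by omega) ⟨w, hw⟩)) =
            e2 (s.equivFinOfCardEq (by omega) ⟨w, hw⟩) := this
        rw [show e1 (s.equivFinOfCardEq (by omega) ⟨w, hw⟩) = w by simp [e1]] at h'
        rw [h']
        exact ((S.equivFinOfCardEq hSc).symm _).2
      have hout : ∀ c, c ∉ s → (q : Perm α) c ∉ S := by
        intro c hc hcS
        have himg : s.image (q : Perm α) = S := Finset.eq_of_subset_of_card_le
          (fun w hw => by obtain ⟨v, hv, rfl⟩ := Finset.mem_image.1 hw; exact hqs v hv)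
          (by rw [Finset.card_image_of_injective _ (q : Perm α).injective]; omega)
        rw [← himg, (q : Perm α).injective.mem_finset_image] at hcS
        exact hc hcS
      obtain ⟨g, hg, hgS, hgab⟩ := hfix S (Finset.disjoint_left.2 fun w hw =>
        Finset.mem_compl.1 (hSs hw)) (by omega) _ _ (hout a ha) (hout b hb)
      refine ⟨q⁻¹ * ⟨g, hg⟩ * q, fun w hw => ?_, ?_⟩
      · show (q : Perm α)⁻¹ (g ((q : Perm α) w)) = w
        rw [Perm.inv_eq_iff_eq, hgS _ (hqs w hw)]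
      · show (q : Perm α)⁻¹ (g ((q : Perm α) a)) = b
        rw [Perm.inv_eq_iff_eq, hgab]
  obtain ⟨a, ha, b, hb, hab⟩ := Finset.one_lt_card.1 h1
  obtain ⟨g, hg, hgf, hgab⟩ := hΓ a ha b hb
  have hg1 : g ≠ 1 := fun e => hab (by rw [← hgab, e]; rfl)
  have hsupp : g.support ⊆ Γ := fun w hw => by
    by_contra h
    exact Perm.mem_support.1 hw (hgf w h)
  exact (Cfsg.Agent.S0711.result G (k := t) (by omega) (by omega) (htrans t le_rfl) g hg hg1
    (by have := Finset.card_le_card hsupp; omega)).2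

theorem alternating_le (G : Subgroup (Perm α)) (hprim : IsPreprimitive G α) (Γ : Finset α)
    (h1 : 1 < Γ.card) (hn : 2 * Γ.card < Fintype.card α) (hΓ : Jordan G Γ) :
    alternatingGroup α ≤ G :=
  alternating_le_aux _ G rfl hprim Γ h1 hn hΓ

end Cfsg.Agent.PermGroups.SmallJordan
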