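import Cfsg.Agent.PermGroups.OrbitalAlgebra
import Mathlib.RingTheory.Polynomial.RationalRoot

/-!
Orbitals, their trace equations, and divisibility of subdegrees by constituent degrees.
-/

set_option autoImplicit false
set_option linter.style.haveILetI false
set_option linter.unusedSectionVars false

namespace Cfsg.Agent.PermGroups

open MulAction
open scoped ComplexConjugate

universe u v

variable {G : Type u} [Group G] [Fintype G] {Ω : Type v} [Fintype Ω] [MulAction G Ω]

/-- The orbital through a pair of points. -/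
def orbRel (a b : Ω) (x y : Ω) : Prop := ∃ g : G, g • a = x ∧ g • b = y

theorem orbRel_smul (a b : Ω) (g : G) (x y : Ω) :
    orbRel (G := G) a b (g • x) (g • y) ↔ orbRel (G := G) a b x y := by
  refine ⟨fun ⟨h, h1, h2⟩ => ⟨g⁻¹ * h, ?_, ?_⟩, fun ⟨h, h1, h2⟩ => ⟨g * h, ?_, ?_⟩⟩ <;>
    simp [mul_smul, h1, h2]

theorem orbRel_self_iff (a b y : Ω) :
    orbRel (G := G) a b a y ↔ y ∈ orbit (stabilizer G a) b := by
  refine ⟨fun ⟨g, h1, h2⟩ => ⟨⟨g, h1⟩, h2⟩, ?_⟩
  rintro ⟨⟨g, hg⟩, h2⟩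
  exact ⟨g, hg, h2⟩

theorem orbRel_ne {a b x y : Ω} (hab : b ≠ a) (h : orbRel (G := G) a b x y) : x ≠ y := by
  obtain ⟨g, rfl, rfl⟩ := h
  exact fun h => hab (MulAction.injective g h).symm

/-- The valency of an orbital is the subdegree. -/
theorem sum_entry_orbRel [IsPretransitive G Ω] (a b x : Ω) :
    ∑ y, entry (relOp (orbRel (G := G) a b)) x y =
      (Nat.card (orbit (stabilizer G a) b) : ℂ) := by
  classical
  obtain ⟨g, rfl⟩ := exists_smul_eq G a x
  simp only [entry_relOp]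
  rw [← Equiv.sum_comp (MulAction.toPerm g)]
  simp only [MulAction.toPerm_apply, orbRel_smul, orbRel_self_iff, Finset.sum_boole]
  rw [Nat.card_eq_fintype_card, ← Set.toFinset_card]
  congr 2
  ext y; simp

/-- The principal projector averages. -/
theorem entry_charProj_one [IsPretransitive G Ω] (x y : Ω) :
    entry (charProj (Cfsg.permRep ℂ G Ω) (fun _ => 1)) x y = (Fintype.card Ω : ℂ)⁻¹ := by
  classical
  haveI : Nonempty Ω := ⟨x⟩
  have hconst : ∀ x x' y y' : Ω, entry (charProj (Cfsg.permRep ℂ G Ω) (fun _ => 1)) x y =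
      entry (charProj (Cfsg.permRep ℂ G Ω) (fun _ => 1)) x' y' := by
    intro x x' y y'
    obtain ⟨k, rfl⟩ := exists_smul_eq G x' x
    obtain ⟨l, rfl⟩ := exists_smul_eq G y' y
    rw [entry_charProj, entry_charProj]
    congr 1
    refine Fintype.sum_equiv ((Equiv.mulLeft l⁻¹).trans (Equiv.mulRight k)) _ _ fun g => ?_
    simp only [Equiv.trans_apply, Equiv.coe_mulLeft, Equiv.coe_mulRight]
    exact if_congr (by rw [mul_smul, mul_smul, inv_smul_eq_iff]) rfl rfl
  have htr := trace_charProj (Cfsg.permRep ℂ G Ω) (Chars.isIrrCharacter_one (G := G))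
  rw [classInner_one_of_transitive, mul_one, trace_eq_sum_entry,
    Finset.sum_congr rfl fun z _ => hconst z x z y, Finset.sum_const, Finset.card_univ, nsmul_eq_mul] at htr
  exact eq_inv_of_mul_eq_one_right htr

theorem trace_relOp_mul_one [IsPretransitive G Ω] (a b : Ω) :
    LinearMap.trace ℂ (Ω → ℂ)
      (relOp (orbRel (G := G) a b) * charProj (Cfsg.permRep ℂ G Ω) (fun _ => 1) : Module.End ℂ (Ω → ℂ)) =
      (Nat.card (orbit (stabilizer G a) b) : ℂ) := by
  haveI : Nonempty Ω := ⟨a⟩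
  rw [Module.End.mul_eq_comp, trace_eq_sum_entry]
  simp only [entry_comp, entry_charProj_one, ← Finset.sum_mul, sum_entry_orbRel, Finset.sum_const,
    Finset.card_univ, nsmul_eq_mul]
  have : (Fintype.card Ω : ℂ) ≠ 0 := by exact_mod_cast Fintype.card_ne_zero
  field_simp

theorem trace_relOp_orbRel {a b : Ω} (hab : b ≠ a) :
    LinearMap.trace ℂ (Ω → ℂ) (relOp (orbRel (G := G) a b)) = 0 := by
  classical
  rw [trace_eq_sum_entry]
  refine Finset.sum_eq_zero fun x _ => ?_
  rw [entry_relOp, if_neg fun h => orbRel_ne hab h rfl]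

/-- A rational algebraic integer is an integer. -/
theorem dvd_of_integral_mul {f d : ℤ} {x : ℂ} (hx : IsIntegral ℤ x) (h : (f : ℂ) * x = d) :
    f ∣ d := by
  rcases eq_or_ne f 0 with rfl | hf
  · rw [Int.cast_zero, zero_mul] at h
    have hd : d = 0 := by exact_mod_cast h.symm
    rw [hd]
  have hxq : x = algebraMap ℚ ℂ ((d : ℚ) / f) := by
    rw [map_div₀, map_intCast, map_intCast, eq_div_iff (by exact_mod_cast hf), mul_comm, h]
  rw [hxq, isIntegral_algebraMap_iff (algebraMap ℚ ℂ).injective, IsIntegrallyClosed.isIntegral_iff] at hx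
  obtain ⟨z, hz⟩ := hx
  refine ⟨z, ?_⟩
  have hz' : (z : ℚ) = (d : ℚ) / f := by simpa using hz
  rw [eq_div_iff (by exact_mod_cast hf : (f : ℚ) ≠ 0)] at hz'
  rw [mul_comm]
  exact_mod_cast hz'.symm

/-- A common divisor of the degrees of the non-principal constituents divides every subdegree. -/
theorem dvd_subdegree [IsPretransitive G Ω] (f : ℕ)
    (hf : ∀ χ : G → ℂ, Cfsg.IsIrrCharacter G χ → χ ≠ (fun _ => 1) →
      classInner (Cfsg.permRep ℂ G Ω).character χ ≠ 0 → ∃ m : ℕ, χ 1 = (f : ℂ) * m)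
    {a b : Ω} (hab : b ≠ a) : f ∣ Nat.card (orbit (stabilizer G a) b) := by
  classical
  set T : Module.End ℂ (Ω → ℂ) := relOp (orbRel (G := G) a b) with hT
  have hcomm : ∀ g, T * Cfsg.permRep ℂ G Ω g = Cfsg.permRep ℂ G Ω g * T :=
    relOp_commute (orbRel_smul a b)
  let one : Cfsg.IrrCharacter G := ⟨fun _ => 1, Chars.isIrrCharacter_one⟩
  have hterm : ∀ χ : Cfsg.IrrCharacter G, χ ≠ one → ∃ x : ℂ, IsIntegral ℤ x ∧
      LinearMap.trace ℂ (Ω → ℂ) (T * charProj (Cfsg.permRep ℂ G Ω) (χ : G → ℂ)) = (f : ℂ) * x := by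
    intro χ hne
    by_cases h0 : classInner (Cfsg.permRep ℂ G Ω).character (χ : G → ℂ) = 0
    · exact ⟨0, isIntegral_zero, by rw [charProj_eq_zero _ χ.2 h0, mul_zero, map_zero, mul_zero]⟩
    obtain ⟨m, hm⟩ := hf _ χ.2 (fun h => hne (Subtype.ext h)) h0
    obtain ⟨x, hx, htr⟩ := exists_integral_trace _ χ.2 T hcomm (relOp_isIntegral _)
    refine ⟨m * x, IsIntegral.mul ?_ hx, by rw [htr, hm]; ring⟩
    exact_mod_cast (isIntegral_algebraMap (R := ℤ) (A := ℂ) (x := (m : ℤ)))
  choose x hx htr using hterm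
  have hsum : LinearMap.trace ℂ (Ω → ℂ) T =
      ∑ χ : Cfsg.IrrCharacter G, LinearMap.trace ℂ (Ω → ℂ) (T * charProj (Cfsg.permRep ℂ G Ω) (χ : G → ℂ)) := by
    rw [← map_sum, ← Finset.mul_sum, sum_charProj, mul_one]
  rw [trace_relOp_orbRel hab, ← Finset.add_sum_erase _ _ (Finset.mem_univ one), trace_relOp_mul_one] at hsum
  let X : ℂ := ∑ χ ∈ (Finset.univ.erase one).attach, x χ.1 (Finset.ne_of_mem_erase χ.2)
  have hX : (f : ℂ) * X = -(Nat.card (orbit (stabilizer G a) b) : ℂ) := by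
    rw [Finset.mul_sum, eq_neg_iff_add_eq_zero, add_comm]
    refine Eq.trans ?_ hsum.symm
    rw [← Finset.sum_attach (Finset.univ.erase one)]
    congr 1
    exact Finset.sum_congr rfl fun χ _ => (htr _ _).symm
  have h := dvd_of_integral_mul (f := (f : ℤ)) (d := -(Nat.card (orbit (stabilizer G a) b) : ℤ))
    (IsIntegral.sum _ fun χ _ => hx _ _) (by push_cast; exact hX)
  exact Int.natCast_dvd_natCast.1 (dvd_neg.1 h)

/-- In a multiplicity-free case a commuting operator is scalar on every isotypic component. -/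
theorem exists_scalar_charProj {V : Type v} [AddCommGroup V] [Module ℂ V] [FiniteDimensional ℂ V]
    (ρ : Representation ℂ G V)
    (hmf : ∀ χ : G → ℂ, Cfsg.IsIrrCharacter G χ →
      classInner ρ.character χ = 0 ∨ classInner ρ.character χ = 1)
    {T : Module.End ℂ V} (hT : ∀ g, T * ρ g = ρ g * T) {χ : G → ℂ} (hχ : Cfsg.IsIrrCharacter G χ) :
    ∃ c : ℂ, T * charProj ρ χ = c • charProj ρ χ := by
  obtain ⟨c, hc⟩ := mem_span_charProj ρ hmf (T := T) hT
  refine ⟨c ⟨χ, hχ⟩, ?_⟩
  rw [hc, Finset.sum_mul, Finset.sum_eq_single (⟨χ, hχ⟩ : Cfsg.IrrCharacter G)]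
  · rw [smul_mul_assoc, (charProj_mul ρ hχ hχ).1 rfl]
  · intro ψ _ hne
    rw [smul_mul_assoc, (charProj_mul ρ ψ.2 hχ).2 (fun h => hne (Subtype.ext h)), smul_zero]
  · simp

/-- The points are partitioned into the suborbits. -/
theorem sum_card_suborbits (a : Ω) [Fintype (orbitRel.Quotient (stabilizer G a) Ω)] :
    ∑ ω : orbitRel.Quotient (stabilizer G a) Ω, Nat.card ω.orbit = Fintype.card Ω := by
  rw [← Nat.card_eq_fintype_card, Nat.card_congr (selfEquivSigmaOrbits' (stabilizer G a) Ω),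
    Nat.card_sigma]

end Cfsg.Agent.PermGroups
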