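import Cfsg.Agent.Suzuki.AutAlternating
import Cfsg.Agent.Components.FStar
import Cfsg.Agent.FGS4.Swaps
import Cfsg.Prelude.Def_Local

/-!
# Permutation groups with quasisimple generalized Fitting subgroup containing three-cycles
-/

set_option autoImplicit false
set_option linter.style.haveILetI false

namespace Cfsg.Agent.PermGroups.ThreeCycleFStar

open Equiv Equiv.Perm Cfsg.Agent.Suzuki.AutAlt

variable {α : Type*} [Fintype α] [DecidableEq α]

omit [Fintype α] [DecidableEq α] in
theorem apply_inv (g : Perm α) (u : α) : g (g⁻¹ u) = u := g.apply_symm_apply u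

theorem cyc_inv {a b x : α} (hab : a ≠ b) (hax : a ≠ x) (hbx : b ≠ x) :
    (cyc a b x)⁻¹ = cyc b a x := by
  rw [inv_eq_iff_mul_eq_one]
  ext u
  rw [Perm.mul_apply, Perm.one_apply]
  rcases eq_or_ne u a with rfl | h1
  · rw [cyc_b, cyc_x hax hbx]
  rcases eq_or_ne u b with rfl | h2
  · rw [cyc_a hab.symm hax, cyc_a hab hbx]
  rcases eq_or_ne u x with rfl | h3
  · rw [cyc_x hbx hax, cyc_b]
  · rw [cyc_other h2 h1 h3, cyc_other h1 h2 h3]

omit [Fintype α] in
theorem cyc_rot {a b x : α} (hab : a ≠ b) (hax : a ≠ x) (hbx : b ≠ x) :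
    cyc a b x = cyc b x a := by
  ext u
  rcases eq_or_ne u a with rfl | h1
  · simp [cyc, swap_apply_of_ne_of_ne, hab, hab.symm, hax, hax.symm, hbx, hbx.symm]
  rcases eq_or_ne u b with rfl | h2
  · simp [cyc, swap_apply_of_ne_of_ne, hab, hab.symm, hax, hax.symm, hbx, hbx.symm]
  rcases eq_or_ne u x with rfl | h3
  · simp [cyc, swap_apply_of_ne_of_ne, hab, hab.symm, hax, hax.symm, hbx, hbx.symm]
  · rw [cyc_other h1 h2 h3, cyc_other h2 h3 h1]

/-- All three-cycles on `S` belong to `H`. -/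
def Full (H : Subgroup (Perm α)) (S : Finset α) : Prop :=
  ∀ a ∈ S, ∀ b ∈ S, ∀ c ∈ S, a ≠ b → a ≠ c → b ≠ c → cyc a b c ∈ H

variable {H : Subgroup (Perm α)}

theorem full_insert_of_edge {S : Finset α} (hS : Full H S) {y u v : α} (hy : y ∉ S)
    (hu : u ∈ S) (hv : v ∈ S) (huv : u ≠ v) (he : cyc u v y ∈ H) : Full H (insert y S) := by
  have hne : ∀ {a : α}, a ∈ S → a ≠ y := fun ha h => hy (h ▸ ha)
  let E : α → α → Prop := fun a b => cyc a b y ∈ H
  have hsymm : ∀ a ∈ S, ∀ b ∈ S, a ≠ b → E a b → E b a := by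
    intro a ha b hb hab h
    show cyc b a y ∈ H
    rw [← cyc_inv hab (hne ha) (hne hb)]
    exact H.inv_mem h
  have hstep : ∀ a ∈ S, ∀ b ∈ S, ∀ w ∈ S, a ≠ b → w ≠ a → w ≠ b → E a b → E b w := by
    intro a ha b hb w hw hab hwa hwb h
    have hc := hS a ha b hb w hw hab hwa.symm hwb.symm
    have h' := H.mul_mem (H.mul_mem hc h) (H.inv_mem hc)
    rwa [conj_cyc, cyc_a hab hwb.symm, cyc_b,
      cyc_other (hne ha).symm (hne hb).symm (hne hw).symm] at h'
  have hfrom : ∀ a ∈ S, a ≠ v → E v a := by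
    intro a ha hav
    by_cases hau : a = u
    · subst hau; exact hsymm a ha v hv huv he
    · exact hstep u hu v hv a ha huv hau hav he
  have hall : ∀ a ∈ S, ∀ b ∈ S, a ≠ b → E a b := by
    intro a ha b hb hab
    by_cases hav : a = v
    · subst hav; exact hfrom b hb (Ne.symm hab)
    by_cases hbv : b = v
    · subst hbv; exact hsymm b hb a ha (Ne.symm hab) (hfrom a ha hav)
    exact hstep v hv a ha b hb (Ne.symm hav) hbv (Ne.symm hab) (hfrom a ha hav)
  intro a ha b hb c hc hab hac hbc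
  rw [Finset.mem_insert] at ha hb hc
  rcases hc with rfl | hc
  · exact hall a (ha.resolve_left hac) b (hb.resolve_left hbc) hab
  rcases ha with rfl | ha
  · rw [cyc_rot hab hac hbc]
    exact hall b (hb.resolve_left (Ne.symm hab)) c hc hbc
  rcases hb with rfl | hb
  · rw [cyc_rot hab hac hbc, cyc_rot hbc (Ne.symm hab) (Ne.symm hac)]
    exact hall c hc a ha (Ne.symm hac)
  exact hS a ha b hb c hc hab hac hbc

theorem full_insert_of_cycle {S : Finset α} (hS : Full H S) (h3 : 3 ≤ S.card) {x y z : α}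
    (hxy : x ≠ y) (hxz : x ≠ z) (hyz : y ≠ z) (ht : cyc x y z ∈ H) (hx : x ∈ S) :
    Full H (insert y S) := by
  by_cases hy : y ∈ S
  · rwa [Finset.insert_eq_of_mem hy]
  by_cases hz : z ∈ S
  · refine full_insert_of_edge hS hy hz hx (Ne.symm hxz) ?_
    rw [cyc_rot (Ne.symm hxz) (Ne.symm hyz) hxy]
    exact ht
  obtain ⟨a, ha, b, hb, hab⟩ := Finset.one_lt_card.1
    (show 1 < (S.erase x).card by rw [Finset.card_erase_of_mem hx]; omega)
  rw [Finset.mem_erase] at ha hb
  refine full_insert_of_edge hS hy ha.2 hb.2 hab ?_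
  have hc := hS a ha.2 b hb.2 x hx hab ha.1 hb.1
  have h' := H.mul_mem (H.mul_mem ht hc) (H.inv_mem ht)
  rw [conj_cyc, cyc_a hxy hyz] at h'
  rwa [cyc_other ha.1 (show a ≠ y from fun h => hy (by rw [← h]; exact ha.2)) (show a ≠ z from fun h => hz (by rw [← h]; exact ha.2)),
    cyc_other hb.1 (show b ≠ y from fun h => hy (by rw [← h]; exact hb.2)) (show b ≠ z from fun h => hz (by rw [← h]; exact hb.2))] at h'

theorem full_triple {x y z : α} (hxy : x ≠ y) (hxz : x ≠ z) (hyz : y ≠ z) (ht : cyc x y z ∈ H) :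
    Full H {x, y, z} := by
  have h1 : cyc y z x ∈ H := by rwa [← cyc_rot hxy hxz hyz]
  have h2 : cyc z x y ∈ H := by rwa [← cyc_rot hyz (Ne.symm hxy) (Ne.symm hxz)]
  have h3 : cyc y x z ∈ H := by rw [← cyc_inv hxy hxz hyz]; exact H.inv_mem ht
  have h4 : cyc x z y ∈ H := by rwa [← cyc_rot (Ne.symm hxy) hyz hxz]
  have h5 : cyc z y x ∈ H := by rwa [← cyc_rot hxz hxy (Ne.symm hyz)]
  intro a ha b hb c hc hab hac hbc
  simp only [Finset.mem_insert, Finset.mem_singleton] at ha hb hc
  rcases ha with rfl | rfl | rfl <;> rcases hb with rfl | rfl | rfl <;>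
    rcases hc with rfl | rfl | rfl <;>
    first | exact absurd rfl hab | exact absurd rfl hac | exact absurd rfl hbc | assumption

/-- A maximal `Full` set. -/
def MaxFull (H : Subgroup (Perm α)) (S : Finset α) : Prop :=
  Full H S ∧ 3 ≤ S.card ∧
    ∀ x y z : α, x ≠ y → x ≠ z → y ≠ z → cyc x y z ∈ H → x ∈ S → y ∈ S ∧ z ∈ S

theorem exists_maxFull {x y z : α} (hxy : x ≠ y) (hxz : x ≠ z) (hyz : y ≠ z)
    (ht : cyc x y z ∈ H) : ∃ S, MaxFull H S ∧ x ∈ S := by
  classical
  obtain ⟨S, hS, hmax⟩ := Finset.exists_max_image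
    (Finset.univ.filter fun S : Finset α => Full H S ∧ {x, y, z} ⊆ S) Finset.card
    ⟨{x, y, z}, by simpa using full_triple hxy hxz hyz ht⟩
  simp only [Finset.mem_filter, Finset.mem_univ, true_and] at hS hmax
  have h3 : 3 ≤ S.card := by
    rw [← Finset.card_eq_three.2 ⟨x, y, z, hxy, hxz, hyz, rfl⟩]
    exact Finset.card_le_card hS.2
  refine ⟨S, ⟨hS.1, h3, ?_⟩, hS.2 (by simp)⟩
  intro a b c hab hac hbc h ha
  have key : ∀ {b c : α}, a ≠ b → a ≠ c → b ≠ c → cyc a b c ∈ H → b ∈ S := by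
    intro b c hab hac hbc h
    by_contra hb
    have := hmax (insert b S) ⟨full_insert_of_cycle hS.1 h3 hab hac hbc h ha,
      hS.2.trans (Finset.subset_insert _ _)⟩
    rw [Finset.card_insert_of_notMem hb] at this
    omega
  refine ⟨key hab hac hbc h, key hac hab hbc.symm ?_⟩
  have := H.inv_mem h
  rwa [cyc_inv hab hac hbc, cyc_rot (Ne.symm hab) hbc hac] at this

/-- The subgroup generated by the three-cycles of `H`. -/
def threeGen (H : Subgroup (Perm α)) : Subgroup ↥H :=
  Subgroup.closure {h : ↥H | (h : Perm α).IsThreeCycle}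

instance threeGen_normal : (threeGen H).Normal := by
  constructor
  intro x hx g
  induction hx using Subgroup.closure_induction with
  | mem h hh =>
    refine Subgroup.subset_closure ?_
    show ((g * h * g⁻¹ : ↥H) : Perm α).IsThreeCycle
    rw [Subgroup.coe_mul, Subgroup.coe_mul, Subgroup.coe_inv, Equiv.Perm.IsThreeCycle,
      Equiv.Perm.cycleType_conj]
    exact hh
  | one => simpa using (threeGen H).one_mem
  | mul a b _ _ ha hb =>
    rw [show g * (a * b) * g⁻¹ = (g * a * g⁻¹) * (g * b * g⁻¹) by group]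
    exact (threeGen H).mul_mem ha hb
  | inv a _ ha =>
    rw [show g * a⁻¹ * g⁻¹ = (g * a * g⁻¹)⁻¹ by group]
    exact (threeGen H).inv_mem ha

theorem maxFull_preserved {S : Finset α} (hS : MaxFull H S) {h : ↥H} (hh : h ∈ threeGen H) :
    ∀ u, (h : Perm α) u ∈ S ↔ u ∈ S := by
  induction hh using Subgroup.closure_induction with
  | mem t ht =>
    intro u
    have ht' : (t : Perm α).IsThreeCycle := ht
    by_cases hu : (t : Perm α) u = u
    · rw [hu]
    obtain ⟨h1, h2, h3⟩ := ne_two ht' hu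
    have hmem : cyc u ((t : Perm α) u) ((t : Perm α) ((t : Perm α) u)) ∈ H := by
      rw [← eq_cyc ht' hu]; exact t.2
    constructor
    · intro h
      have hr := hS.2.2 _ _ _ h3 (Ne.symm h1) (Ne.symm h2)
        (by rwa [← cyc_rot h1 h2 h3]) h
      exact hr.2
    · intro h
      exact (hS.2.2 _ _ _ h1 h2 h3 hmem h).1
  | one => intro u; simp
  | mul a b _ _ ha hb => intro u; rw [Subgroup.coe_mul, Perm.mul_apply, ha, hb]
  | inv a _ ha =>
    intro u
    rw [Subgroup.coe_inv]
    have := (ha ((a : Perm α)⁻¹ u))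
    rw [apply_inv] at this
    exact this.symm

/-- The alternating group on `S`, inside `Perm α`. -/
def altOn (S : Finset α) : Subgroup (Perm α) :=
  (alternatingGroup {x // x ∈ S}).map Perm.ofSubtype

theorem ofSubtype_cyc (S : Finset α) (a b c : {x // x ∈ S}) :
    Perm.ofSubtype (cyc a b c) = cyc (a : α) b c := by
  simp [cyc, map_mul, Perm.ofSubtype_swap_eq]

theorem altOn_le {S : Finset α} (hS : Full H S) : altOn S ≤ H := by
  rw [altOn, ← closure_three_cycles_eq_alternating, MonoidHom.map_closure, Subgroup.closure_le]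
  rintro _ ⟨t, ht, rfl⟩
  obtain ⟨u, hu⟩ : ∃ u, t u ≠ u := by
    by_contra h
    push Not at h
    exact ht.ne_one (Equiv.ext h)
  obtain ⟨h1, h2, h3⟩ := ne_two ht hu
  rw [SetLike.mem_coe, eq_cyc ht hu, ofSubtype_cyc]
  exact hS _ (u : {x // x ∈ S}).2 _ (t u).2 _ (t (t u)).2
    (fun h => h1 (Subtype.ext h)) (fun h => h2 (Subtype.ext h)) (fun h => h3 (Subtype.ext h))

theorem altOn_fix {S : Finset α} {p : Perm α} (hp : p ∈ altOn S) {u : α} (hu : u ∉ S) :
    p u = u := by
  obtain ⟨q, -, rfl⟩ := hp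
  exact Perm.ofSubtype_apply_of_not_mem q hu

theorem altOn_conj {S : Finset α} {g : Perm α} (hg : ∀ u, g u ∈ S ↔ u ∈ S) {p : Perm α}
    (hp : p ∈ altOn S) : g * p * g⁻¹ ∈ altOn S := by
  obtain ⟨q, hq, rfl⟩ := hp
  let g' : Perm {x // x ∈ S} := g.subtypePerm hg
  refine ⟨g' * q * g'⁻¹, ?_, ?_⟩
  · rw [SetLike.mem_coe] at hq ⊢
    exact (inferInstance : (alternatingGroup {x // x ∈ S}).Normal).conj_mem q hq g'
  · apply Equiv.ext
    intro u
    rw [Perm.mul_apply, Perm.mul_apply]
    have hgi : g⁻¹ u ∈ S ↔ u ∈ S := by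
      conv_rhs => rw [← apply_inv g u]
      exact (hg _).symm
    by_cases hu : u ∈ S
    · rw [Perm.ofSubtype_apply_of_mem _ hu, Perm.ofSubtype_apply_of_mem _ (hgi.2 hu)]
      rfl
    · rw [Perm.ofSubtype_apply_of_not_mem _ hu,
        Perm.ofSubtype_apply_of_not_mem _ (mt hgi.1 hu), apply_inv]

/-- The restriction to an invariant finite set. -/
def restr (S : Finset α) (L : Subgroup ↥H) (hL : ∀ h ∈ L, ∀ u, (h : Perm α) u ∈ S ↔ u ∈ S) :
    ↥L →* Perm {x // x ∈ S} where
  toFun h := (((h : ↥H) : Perm α)).subtypePerm (hL h.1 h.2)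
  map_one' := by ext; simp
  map_mul' a b := by ext; rfl

theorem restr_trivial {S : Finset α} {L : Subgroup ↥H}
    (hL : ∀ h ∈ L, ∀ u, (h : Perm α) u ∈ S ↔ u ∈ S) [Group.IsPerfect ↥L]
    (hs : Group.IsSolvable ↥(restr S L hL).range) : ∀ h ∈ L, ∀ u ∈ S, (h : Perm α) u = u := by
  haveI := hs
  haveI : Group.IsPerfect ↥(restr S L hL).range :=
    Group.IsPerfect.ofSurjective (restr S L hL).rangeRestrict_surjective
  intro h hh u hu
  have htriv : Subsingleton ↥(restr S L hL).range := by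
    by_contra hn
    rw [not_subsingleton_iff_nontrivial] at hn
    exact Group.IsPerfect.not_isSolvable _ hs
  have h1 : restr S L hL ⟨h, hh⟩ = 1 := congrArg Subtype.val
    (htriv.elim ⟨_, ⟨⟨h, hh⟩, rfl⟩⟩ 1)
  exact congrArg Subtype.val (DFunLike.congr_fun h1 ⟨u, hu⟩)

open Cfsg.Agent.Components in
/-- With quasisimple generalized Fitting subgroup, the three-cycles of `H` all live on one set,
whose alternating group is that subgroup. -/
theorem exists_altOn (hF : Cfsg.IsQuasisimple ↥(Cfsg.generalizedFittingSubgroup ↥H))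
    (hne : ∃ t : ↥H, (t : Perm α).IsThreeCycle) :
    ∃ S : Finset α, 5 ≤ S.card ∧
      Nonempty (↥(Cfsg.generalizedFittingSubgroup ↥H) ≃* ↥(alternatingGroup {x // x ∈ S})) ∧
      ∀ x y z : α, x ≠ y → x ≠ z → y ≠ z → cyc x y z ∈ H → x ∈ S := by
  classical
  set F := Cfsg.generalizedFittingSubgroup ↥H with hFdef
  haveI hFperf : Group.IsPerfect ↥F := hF.1
  haveI hFn : F.Normal := by rw [hFdef]; infer_instance
  have hCF : Subgroup.centralizer (F : Set ↥H) ≤ F := centralizer_generalizedFitting_le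
  set N := threeGen H with hNdef
  have hcases := quasisimple_normal_eq_top_or_le_center hF ((N ⊓ F).subgroupOf F)
  have hFN : F ≤ N := by
    rcases hcases with h | h
    · exact (Subgroup.subgroupOf_eq_top.1 h).trans inf_le_left
    exfalso
    have hZ : ⁅⁅F, N⁆, F⁆ = ⊥ := by
      rw [Subgroup.commutator_eq_bot_iff_le_centralizer]
      intro w hw
      have hw' : w ∈ N ⊓ F := ⟨Subgroup.commutator_le_right F N hw,
        Subgroup.commutator_le_left F N hw⟩
      rw [Subgroup.mem_centralizer_iff]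
      intro f hf
      have := h (x := ⟨w, hw'.2⟩) (Subgroup.mem_subgroupOf.2 hw')
      exact congrArg Subtype.val (Subgroup.mem_center_iff.1 this ⟨f, hf⟩)
    have hcomm : ⁅⁅F, F⁆, N⁆ = ⊥ := Subgroup.commutator_commutator_eq_bot_of_rotate hZ
      (by rw [Subgroup.commutator_comm N F]; exact hZ)
    have hFF : ⁅F, F⁆ = F := by
      have := congrArg (Subgroup.map F.subtype) (Group.IsPerfect.commutator_eq_top (G := ↥F))
      rwa [commutator_def, Subgroup.map_commutator, ← MonoidHom.range_eq_map,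
        Subgroup.range_subtype] at this
    rw [hFF, Subgroup.commutator_eq_bot_iff_le_centralizer] at hcomm
    obtain ⟨t, ht⟩ := hne
    have htN : t ∈ N := Subgroup.subset_closure ht
    obtain ⟨u, hu⟩ : ∃ u, (t : Perm α) u ≠ u := by
      by_contra h'
      push Not at h'
      exact ht.ne_one (Equiv.ext h')
    obtain ⟨h1, h2, h3⟩ := ne_two ht hu
    set s := (t : Perm α) with hs
    have hct : ∀ f ∈ F, ∀ v, (f : Perm α) (s v) = s ((f : Perm α) v) := by
      intro f hf v
      have := (Subgroup.mem_centralizer_iff.1 (hcomm hf)) t htN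
      exact (DFunLike.congr_fun (congrArg Subtype.val this) v).symm
    have hS : ∀ f ∈ F, ∀ v, (f : Perm α) v ∈ s.support ↔ v ∈ s.support := by
      intro f hf v
      rw [Perm.mem_support, Perm.mem_support, ← hct f hf v, (f : Perm α).injective.ne_iff]
    have hsol : Group.IsSolvable ↥(restr s.support F hS).range := by
      haveI := Cfsg.Agent.FGS4.isSolvable_perm_of_card_le_four
        (α := {x // x ∈ s.support}) (by rw [Fintype.card_coe, ht.card_support]; norm_num)
      infer_instance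
    have htF : t ∈ F := hCF (Subgroup.mem_centralizer_iff.2 fun f hf =>
      ((Subgroup.mem_centralizer_iff.1 (hcomm hf)) t htN).symm)
    exact hu (restr_trivial hS hsol t htF u (Perm.mem_support.2 hu))
  -- a large maximal set
  obtain ⟨S, hS, h5⟩ : ∃ S, MaxFull H S ∧ 5 ≤ S.card := by
    by_contra hno
    push Not at hno
    have hFbot : ∀ f ∈ F, ∀ u, (f : Perm α) u = u := by
      intro f hf u
      by_cases hu : ∃ y z : α, u ≠ y ∧ u ≠ z ∧ y ≠ z ∧ cyc u y z ∈ H
      · obtain ⟨y, z, a, b, c, d⟩ := hu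
        obtain ⟨S, hS, huS⟩ := exists_maxFull a b c d
        have hSp : ∀ h ∈ F, ∀ v, (h : Perm α) v ∈ S ↔ v ∈ S :=
          fun h hh => maxFull_preserved hS (hFN hh)
        have hsol : Group.IsSolvable ↥(restr S F hSp).range := by
          haveI := Cfsg.Agent.FGS4.isSolvable_perm_of_card_le_four
            (α := {x // x ∈ S}) (by rw [Fintype.card_coe]; have := hno S hS; omega)
          infer_instance
        exact restr_trivial hSp hsol f hf u huS
      · have hN : ∀ h ∈ N, (h : Perm α) u = u := by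
          intro h hh
          induction hh using Subgroup.closure_induction with
          | mem t ht =>
            by_contra htu
            obtain ⟨h1, h2, h3⟩ := ne_two (f := (t : Perm α)) ht htu
            exact hu ⟨_, _, h1, h2, h3, by rw [← eq_cyc ht htu]; exact t.2⟩
          | one => simp
          | mul a b _ _ ha hb => rw [Subgroup.coe_mul, Perm.mul_apply, hb, ha]
          | inv a _ ha => rw [Subgroup.coe_inv, Perm.inv_eq_iff_eq, ha]
        exact hN f (hFN hf)
    haveI : Nontrivial ↥F := quasisimple_nontrivial hF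
    obtain ⟨f, hf⟩ := exists_ne (1 : ↥F)
    exact hf (Subtype.ext (Subtype.ext (Equiv.ext (hFbot f.1 f.2))))
  set A : Subgroup ↥H := (altOn S).subgroupOf H with hAdef
  have hAN : A ≤ N := by
    intro p hp
    have h1 : (p : Perm α) ∈ (threeGen H).map H.subtype := by
      have hle : altOn S ≤ (threeGen H).map H.subtype := by
        rw [altOn, ← closure_three_cycles_eq_alternating, MonoidHom.map_closure,
          Subgroup.closure_le]
        rintro _ ⟨q, hq, rfl⟩
        have hmem : Perm.ofSubtype q ∈ H := altOn_le hS.1 ⟨q, hq.mem_alternatingGroup, rfl⟩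
        exact ⟨⟨_, hmem⟩, Subgroup.subset_closure (show (Perm.ofSubtype q).IsThreeCycle by
          rw [Equiv.Perm.IsThreeCycle, Perm.cycleType_ofSubtype]; exact hq), rfl⟩
      exact hle hp
    obtain ⟨q, hq, hqp⟩ := h1
    rwa [← Subtype.ext (by exact hqp) (a2 := p)]
  have hAconj : ∀ g ∈ N, ∀ a ∈ A, g * a * g⁻¹ ∈ A := fun g hg a ha =>
    altOn_conj (maxFull_preserved hS hg) ha
  let eA : ↥A ≃* ↥(alternatingGroup {x // x ∈ S}) :=
    (Subgroup.subgroupOfEquivOfLe (altOn_le hS.1)).trans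
      ((alternatingGroup {x // x ∈ S}).equivMapOfInjective _ Perm.ofSubtype_injective).symm
  haveI hsimp : IsSimpleGroup ↥A := by
    haveI := alternatingGroup.isSimpleGroup (α := {x // x ∈ S})
      (by rw [Nat.card_eq_fintype_card, Fintype.card_coe]; exact h5)
    exact eA.isSimpleGroup
  have hAF : A ≤ F := by
    haveI : (F.subgroupOf A).Normal := ⟨fun a ha g =>
      Subgroup.mem_subgroupOf.2 (hFn.conj_mem _ (Subgroup.mem_subgroupOf.1 ha) g.1)⟩
    rcases (inferInstance : (F.subgroupOf A).Normal).eq_bot_or_eq_top with h | h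
    · rw [Subgroup.subgroupOf_eq_bot, disjoint_iff] at h
      refine le_trans ?_ hCF
      intro a ha
      rw [Subgroup.mem_centralizer_iff]
      intro f hf
      have hc : f * a * f⁻¹ * a⁻¹ ∈ F ⊓ A := by
        refine ⟨?_, A.mul_mem (hAconj f (hFN hf) a ha) (A.inv_mem ha)⟩
        have := F.mul_mem hf (hFn.conj_mem _ (F.inv_mem hf) a)
        simpa [mul_assoc] using this
      rw [h, Subgroup.mem_bot, mul_inv_eq_one, mul_inv_eq_iff_eq_mul] at hc
      exact hc
    · exact Subgroup.subgroupOf_eq_top.1 h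
  have hAeq : A = F := by
    haveI : (A.subgroupOf F).Normal := ⟨fun a ha g =>
      Subgroup.mem_subgroupOf.2 (hAconj g.1 (hFN g.2) _ (Subgroup.mem_subgroupOf.1 ha))⟩
    rcases quasisimple_normal_eq_top_or_le_center hF (A.subgroupOf F) with h | h
    · exact le_antisymm hAF (Subgroup.subgroupOf_eq_top.1 h)
    · exfalso
      obtain ⟨a, b, c, hab, hac, hbc, d, had, hbd, hcd⟩ :
          ∃ a b c : {x // x ∈ S}, a ≠ b ∧ a ≠ c ∧ b ≠ c ∧ ∃ d, a ≠ d ∧ b ≠ d ∧ c ≠ d := by
        obtain ⟨a, b, c, hab, hac, hbc⟩ := Fintype.two_lt_card_iff.1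
          (show 2 < Fintype.card {x // x ∈ S} by rw [Fintype.card_coe]; omega)
        obtain ⟨d, hd⟩ : ∃ d, d ∉ ({a, b, c} : Finset {x // x ∈ S}) := by
          by_contra hd; push Not at hd
          have h' := (Finset.card_le_card fun y (_ : y ∈ Finset.univ) => hd y).trans
            Finset.card_le_three
          rw [Finset.card_univ, Fintype.card_coe] at h'
          omega
        simp only [Finset.mem_insert, Finset.mem_singleton, not_or] at hd
        exact ⟨a, b, c, hab, hac, hbc, d, Ne.symm hd.1, Ne.symm hd.2.1, Ne.symm hd.2.2⟩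
      let x : ↥A := eA.symm ⟨cyc a b c, (cyc_three hab hac hbc).mem_alternatingGroup⟩
      let y : ↥A := eA.symm ⟨cyc a b d, (cyc_three hab had hbd).mem_alternatingGroup⟩
      have hxy : x * y = y * x := by
        have := Subgroup.mem_center_iff.1 (h (x := ⟨y.1, hAF y.2⟩) (Subgroup.mem_subgroupOf.2 y.2))
          ⟨x.1, hAF x.2⟩
        exact Subtype.ext (congrArg (fun z : ↥F => z.1) this)
      have h' := DFunLike.congr_fun (congrArg Subtype.val (congrArg eA hxy)) a
      simp only [x, y, map_mul, MulEquiv.apply_symm_apply, Subgroup.coe_mul, Perm.mul_apply] at h'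
      rw [cyc_a hab hbd, cyc_b, cyc_a hab hbc, cyc_b] at h'
      exact hcd h'
  refine ⟨S, h5, ⟨(MulEquiv.subgroupCongr hAeq.symm).trans eA⟩, ?_⟩
  intro x y z hxy hxz hyz ht
  by_contra hx
  have hy : y ∉ S := fun hy => hx
    (hS.2.2 y z x hyz (Ne.symm hxy) (Ne.symm hxz) (by rwa [← cyc_rot hxy hxz hyz]) hy).2
  have hz : z ∉ S := fun hz => hx (hS.2.2 z x y (Ne.symm hxz) (Ne.symm hyz) hxy
    (by rwa [← cyc_rot hyz (Ne.symm hxy) (Ne.symm hxz), ← cyc_rot hxy hxz hyz]) hz).1
  let t : ↥H := ⟨cyc x y z, ht⟩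
  have htF : t ∈ F := by
    apply hCF
    rw [Subgroup.mem_centralizer_iff]
    intro f hf
    rw [← hAeq] at hf
    have hfix : ∀ u, u ∉ S → (f : Perm α) u = u := fun u hu => altOn_fix hf hu
    apply Subtype.ext
    show (f : Perm α) * cyc x y z = cyc x y z * (f : Perm α)
    rw [← mul_inv_eq_iff_eq_mul, conj_cyc, hfix x hx, hfix y hy, hfix z hz]
  rw [← hAeq] at htF
  have := altOn_fix (p := (t : Perm α)) htF hx
  exact hxy.symm (by rwa [show (t : Perm α) x = y from cyc_a hxy hyz] at this)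

theorem card_bound {n : ℕ} (H : Subgroup (Perm (Fin n))) (P : Sylow 3 (Perm (Fin n)))
    (hP : (P : Subgroup (Perm (Fin n))) ≤ H) :
    ∃ φ : Fin (n / 3) × Fin 3 → Fin n, Function.Injective φ ∧
      ∀ i, cyc (φ (i, 0)) (φ (i, 1)) (φ (i, 2)) ∈ H := by
  haveI : Fact (Nat.Prime 3) := ⟨Nat.prime_three⟩
  let φ₀ : Fin (n / 3) × Fin 3 → Fin n := fun p => ⟨3 * p.1.val + p.2.val, by
    have h1 := p.1.2
    have h2 := p.2.2
    omega⟩
  have hinj : Function.Injective φ₀ := by
    rintro ⟨i, a⟩ ⟨j, b⟩ h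
    have h' : 3 * i.val + a.val = 3 * j.val + b.val := congrArg Fin.val h
    have ha := a.2
    have hb := b.2
    exact Prod.ext (Fin.ext (by simp only; omega)) (Fin.ext (by simp only; omega))
  let c : Fin (n / 3) → Perm (Fin n) := fun i => cyc (φ₀ (i, 0)) (φ₀ (i, 1)) (φ₀ (i, 2))
  have hne : ∀ i a j b, (i, a) ≠ (j, b) → φ₀ (i, a) ≠ φ₀ (j, b) := fun i a j b h e => h (hinj e)
  have hcomm : ∀ i j, Commute (c i) (c j) := by
    intro i j
    by_cases hij : i = j
    · subst hij; rfl
    show c i * c j = c j * c i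
    rw [← mul_inv_eq_iff_eq_mul]
    show c i * cyc (φ₀ (j, 0)) (φ₀ (j, 1)) (φ₀ (j, 2)) * (c i)⁻¹ = c j
    rw [conj_cyc]
    have hd : ∀ a b, φ₀ (j, b) ≠ φ₀ (i, a) := fun a b => hne _ _ _ _ (by simp [Ne.symm hij])
    simp only [c, cyc_other (hd 0 _) (hd 1 _) (hd 2 _)]
  let Q := Subgroup.closure (Set.range c)
  have hQc : ∀ a ∈ Q, ∀ b ∈ Q, a * b = b * a := by
    intro a ha b hb
    have : Q ≤ Subgroup.centralizer (Q : Set (Perm (Fin n))) := by
      rw [Subgroup.centralizer_closure, Subgroup.closure_le]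
      rintro _ ⟨i, rfl⟩
      rw [SetLike.mem_coe, Subgroup.mem_centralizer_iff]
      rintro _ ⟨j, rfl⟩
      exact hcomm j i
    exact ((Subgroup.mem_centralizer_iff.1 (this ha)) b hb).symm
  have hQ : IsPGroup 3 ↥Q := by
    intro x
    refine ⟨1, Subtype.ext ?_⟩
    rw [Subgroup.coe_pow, pow_one, Subgroup.coe_one]
    obtain ⟨x, hx⟩ := x
    show x ^ 3 = 1
    induction hx using Subgroup.closure_induction with
    | mem y hy =>
      obtain ⟨i, rfl⟩ := hy
      rw [← (cyc_three (hne i 0 i 1 (by simp)) (hne i 0 i 2 (by simp))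
        (hne i 1 i 2 (by simp))).orderOf]
      exact pow_orderOf_eq_one _
    | one => simp
    | mul a b ha hb h1 h2 =>
      rw [Commute.mul_pow (hQc a ha b hb), h1, h2, one_mul]
    | inv a _ h => rw [inv_pow, h, inv_one]
  obtain ⟨R, hR⟩ := hQ.exists_le_sylow
  obtain ⟨g, hg⟩ := MulAction.exists_smul_eq (Perm (Fin n)) R P
  refine ⟨fun p => g (φ₀ p), g.injective.comp hinj, fun i => hP ?_⟩
  rw [← conj_cyc, ← hg, Sylow.coe_subgroup_smul]
  exact ⟨c i, hR (Subgroup.subset_closure ⟨i, rfl⟩), rfl⟩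

end Cfsg.Agent.PermGroups.ThreeCycleFStar
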