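import Cfsg.Agent.PermGroups.TwicePrimeLocal
import Cfsg.Agent.PermGroups.ZassenhausChar
import Cfsg.Agent.PermGroups.OrbitalAlgebra
import Cfsg.Agent.PermGroups.DerangementIndex

/-!
The constituents of the permutation character of a transitive group of even permutations on
`2 p` points with a semiregular Sylow subgroup of order `p`.
-/

set_option autoImplicit false
set_option linter.style.haveILetI false
set_option linter.unusedSectionVars false

namespace Cfsg.Agent.PermGroups

open MulAction
open scoped ComplexConjugate Classical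

universe u v

variable {K : Type u} {α : Type v} [Group K] [Fintype K] [MulAction K α] [FaithfulSMul K α]
  [Fintype α] [DecidableEq α] {p : ℕ} [hp : Fact p.Prime]

/-- A subgroup of prime order lies in every subgroup containing one of its non-trivial elements. -/
theorem le_of_mem_of_card_prime {L : Type*} [Group L] {P H : Subgroup L} (hP : Nat.card P = p) {v : L}
    (hv : v ∈ P) (hv1 : v ≠ 1) (hvH : v ∈ H) : P ≤ H := by
  intro y hy
  have := mem_zpowers_of_prime_card (g := (⟨v, hv⟩ : P)) (g' := ⟨y, hy⟩) hP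
    (fun e => hv1 (congrArg Subtype.val e))
  obtain ⟨i, hi⟩ := Subgroup.mem_zpowers_iff.1 this
  rw [← show v ^ i = y from (SubgroupClass.coe_zpow _ i).symm.trans (congrArg Subtype.val hi)]
  exact zpow_mem hvH i

set_option maxHeartbeats 4000000 in
/-- The constituents. -/
theorem twice_prime_constituents (hp2 : p ≠ 2) (hα : Fintype.card α = 2 * p) [IsPretransitive K α]
    (hcomm : IsPretransitive (commutator K) α) (P : Subgroup K) (hP : Nat.card P = p)
    (hfree : ∀ v ∈ P, v ≠ 1 → ∀ x : α, v • x ≠ x)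
    (heven : ∀ k : K, Equiv.Perm.sign (MulAction.toPerm k : Equiv.Perm α) = 1)
    (hsq : ¬ p ^ 2 ∣ Nat.card K) (a : α) :
    Nat.card (orbitRel.Quotient (stabilizer K a) α) = 2 ∨
    ∃ χ₁ : Cfsg.IrrCharacter K,
      (χ₁ : K → ℂ) 1 = p ∧ classInner (Cfsg.permRep ℂ K α).character (χ₁ : K → ℂ) = 1 ∧
      (∀ χ : K → ℂ, Cfsg.IsIrrCharacter K χ →
        classInner (Cfsg.permRep ℂ K α).character χ = 0 ∨ classInner (Cfsg.permRep ℂ K α).character χ = 1) ∧
      (∀ χ : Cfsg.IrrCharacter K, χ ≠ χ₁ → (χ : K → ℂ) ≠ (fun _ => 1) →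
        classInner (Cfsg.permRep ℂ K α).character (χ : K → ℂ) ≠ 0 → ∑ v : P, (χ : K → ℂ) v = 0) ∧
      2 ≤ Nat.card ↥(stabilizer K a ⊓ Subgroup.normalizer (P : Set K)) ∧
      ((Nat.card (orbitRel.Quotient (stabilizer K a) α) = 3 ∧ ∃ R : Cfsg.IrrCharacter K,
          (R : K → ℂ) 1 = ((p - 1 : ℕ) : ℂ) ∧ ∀ χ : Cfsg.IrrCharacter K,
            classInner (Cfsg.permRep ℂ K α).character (χ : K → ℂ) ≠ 0 →
              (χ : K → ℂ) = (fun _ => 1) ∨ χ = χ₁ ∨ χ = R) ∨
        ∃ e : ℕ, e * Nat.card ↥(stabilizer K a ⊓ Subgroup.normalizer (P : Set K)) = p - 1 ∧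
          Nat.card (orbitRel.Quotient (stabilizer K a) α) = 2 + e) := by
  obtain ⟨hNW, hfreeW, -⟩ := normalizer_stabilizer_spec hp2 hα P hP hfree heven hsq a
  set W := stabilizer K a ⊓ Subgroup.normalizer (P : Set K) with hW
  set w := Nat.card W with hw
  haveI : IsCyclic P := isCyclic_of_prime_card hP
  letI : CommGroup P := { (inferInstance : Group P) with mul_comm := IsCyclic.commutative.is_comm.comm }
  haveI : Finite (P →* ℂˣ) := Nat.finite_of_card_ne_zero (by
    rw [CommGroup.card_monoidHom_of_hasEnoughRootsOfUnity P ℂ, hP]; exact hp.out.ne_zero)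
  letI : Fintype (P →* ℂˣ) := Fintype.ofFinite _
  have hdual : Fintype.card (P →* ℂˣ) = p := by
    rw [← Nat.card_eq_fintype_card, CommGroup.card_monoidHom_of_hasEnoughRootsOfUnity P ℂ, hP]
  haveI : Nonempty α := ⟨a⟩
  -- `2 ≤ w`
  have hw2 : 2 ≤ w := by
    by_contra hlt
    have hw1 : Nat.card W = 1 := by
      have : 0 < Nat.card W := Nat.card_pos
      omega
    have hWbot : W = ⊥ := Subgroup.card_eq_one.1 hw1
    have hcardN : Nat.card P = p ^ (Nat.card K).factorization p := by
      rw [hP]
      have h1 : (Nat.card K).factorization p = 1 := by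
        refine le_antisymm ?_ ((hp.out.dvd_iff_one_le_factorization Nat.card_pos.ne').1
          (hP ▸ Subgroup.card_subgroup_dvd_card P))
        by_contra h
        exact hsq ((hp.out.pow_dvd_iff_le_factorization Nat.card_pos.ne').2 (by omega))
      rw [h1, pow_one]
    let S : Sylow p K := Sylow.ofCard P hcardN
    have hNC : Subgroup.normalizer ((S : Subgroup K) : Set K) ≤ Subgroup.centralizer ((S : Subgroup K) : Set K) := by
      intro n hn
      obtain ⟨v, hv, x, hx, rfl⟩ := hNW n hn
      rw [hWbot, Subgroup.mem_bot] at hx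
      rw [hx, mul_one, Subgroup.mem_centralizer_iff]
      intro y hy
      exact congrArg Subtype.val (mul_comm (⟨y, hy⟩ : P) ⟨v, hv⟩)
    have hc := MonoidHom.ker_transferSylow_isComplement' S hNC
    set Q := (MonoidHom.transferSylow S hNC).ker with hQ
    have hle : commutator K ≤ Q := by
      rw [commutator_def, Subgroup.commutator_le]
      intro x _ y _
      rw [hQ, MonoidHom.mem_ker, map_commutatorElement, commutatorElement_eq_one_iff_mul_comm]
      exact mul_comm (G := P) _ _
    have hQt : IsPretransitive Q α := ⟨fun x y => by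
      obtain ⟨⟨c, hc'⟩, hcx⟩ := hcomm.exists_smul_eq x y
      exact ⟨⟨c, hle hc'⟩, hcx⟩⟩
    have h2 : 2 * p ∣ Nat.card Q := by
      have := hQt
      rw [← hα, ← Nat.card_eq_fintype_card, ← index_stabilizer_of_transitive Q a]
      exact Subgroup.index_dvd_card _
    have h3 : Nat.card Q * p = Nat.card K := by
      rw [← hc.card_mul]
      exact congrArg _ hP.symm
    exact hsq (by rw [← h3, sq]; exact Nat.mul_dvd_mul ((dvd_mul_left p 2).trans h2) dvd_rfl)
  -- multiplicities
  set π : K → ℂ := (Cfsg.permRep ℂ K α).character with hπ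
  have hπc : Cfsg.IsCharacter K π := Chars.isCharacter_of_rep _
  have hres : ∀ χ : Cfsg.IrrCharacter K, Cfsg.IsCharacter P (fun v : P => (χ : K → ℂ) v) := fun χ =>
    Chars.isCharacter_restrict (Chars.isCharacter_of_isIrr χ.2) P
  choose M hM using fun χ : Cfsg.IrrCharacter K =>
    Chars.exists_classInner_eq_nat hπc (Chars.isCharacter_of_isIrr χ.2)
  choose r hr using fun (χ : Cfsg.IrrCharacter K) (l : P →* ℂˣ) =>
    Chars.exists_classInner_eq_nat (hres χ) (Chars.isCharacter_hom l)
  choose dg hdg0 hdg using fun χ : Cfsg.IrrCharacter K =>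
    (⟨_, Nat.pos_of_ne_zero (fun h => Chars.irr_apply_one_ne_zero χ.2
      (by rw [(Chars.exists_irr_apply_one_eq χ.2).choose_spec.2]; exact_mod_cast congrArg Nat.cast h)),
      (Chars.exists_irr_apply_one_eq χ.2).choose_spec.2⟩ : ∃ n : ℕ, 0 < n ∧ (χ : K → ℂ) 1 = n)
  have hpC : (p : ℂ) ≠ 0 := Nat.cast_ne_zero.2 hp.out.ne_zero
  have hPC : (Nat.card P : ℂ) = p := by rw [hP]
  have hconj : ∀ (l : P →* ℂˣ) (v : P), conj (l v : ℂ) = (l⁻¹ v : ℂˣ) := fun l v => by
    rw [← Chars.char_inv_eq_conj (Chars.isCharacter_hom l), map_inv, MonoidHom.inv_apply]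
  -- orthogonality of the linear characters
  have hlin : ∀ l μ : P →* ℂˣ, classInner (fun v => (l v : ℂ)) (fun v => (μ v : ℂ)) = if l = μ then 1 else 0 := by
    intro l μ
    have h := sum_hom_apply (l * μ⁻¹)
    rw [Chars.classInner_def, Finset.sum_congr rfl fun v _ => show (l v : ℂ) * conj (μ v : ℂ) = ((l * μ⁻¹) v : ℂˣ) by
      rw [hconj, MonoidHom.mul_apply, Units.val_mul], h]
    by_cases e : l = μ
    · subst e
      rw [if_pos rfl, if_pos (mul_inv_cancel l), inv_mul_cancel₀ (by rw [hPC]; exact hpC)]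
    · rw [if_neg e, if_neg (fun h' => e (mul_inv_eq_one.1 h')), mul_zero]
  have hdualsum : ∀ v : P, ∑ l : P →* ℂˣ, (l v : ℂ) = if v = 1 then (p : ℂ) else 0 := by
    intro v
    split_ifs with hv
    · subst hv; simp [hdual]
    obtain ⟨l₀, hl₀⟩ : ∃ l₀ : P →* ℂˣ, l₀ v ≠ 1 := CommGroup.exists_apply_ne_one_of_hasEnoughRootsOfUnity P ℂ hv
    have h : (l₀ v : ℂ) * ∑ l : P →* ℂˣ, (l v : ℂ) = ∑ l : P →* ℂˣ, (l v : ℂ) := by
      rw [Finset.mul_sum]
      exact Fintype.sum_equiv (Equiv.mulLeft l₀) _ _ fun l => by simp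
    by_contra h0
    exact hl₀ (Units.ext ((mul_eq_right₀ h0).1 h))
  have hdeg : ∀ χ, (dg χ : ℂ) = ∑ l : P →* ℂˣ, (r χ l : ℂ) := by
    intro χ
    simp only [← hr, Chars.classInner_def]
    rw [← Finset.mul_sum, Finset.sum_comm]
    simp only [← Finset.mul_sum]
    rw [Finset.sum_congr rfl fun (v : P) _ => show (χ : K → ℂ) (v : K) * ∑ l : P →* ℂˣ, conj (l v : ℂ) =
      (χ : K → ℂ) (v : K) * (if v = 1 then (p : ℂ) else 0) by
      rw [← map_sum, hdualsum]; split_ifs <;> simp]
    simp only [mul_ite, mul_zero, Finset.sum_ite_eq', Finset.mem_univ, if_true]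
    rw [OneMemClass.coe_one, hdg, hPC, mul_comm _ (p : ℂ), inv_mul_cancel_left₀ hpC]
  have hdegN : ∀ χ, dg χ = ∑ l : P →* ℂˣ, r χ l := fun χ => by exact_mod_cast hdeg χ
  have hπsum : π = ∑ χ : Cfsg.IrrCharacter K, (M χ : ℂ) • (χ : K → ℂ) := by
    conv_lhs => rw [Chars.eq_sum_classInner (Chars.isClassFunction_of_isCharacter hπc)]
    exact Finset.sum_congr rfl fun χ _ => by rw [hM]
  have hcol : ∀ l : P →* ℂˣ, ∑ χ : Cfsg.IrrCharacter K, M χ * r χ l = 2 := by
    intro l
    have h : classInner (fun v : P => π v) (fun v => (l v : ℂ)) = 2 := by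
      rw [Chars.classInner_def, Finset.sum_eq_single (1 : P)]
      · rw [OneMemClass.coe_one, map_one, Units.val_one, map_one, mul_one, hπ, permRep_character_eq,
          fixedBy_one_eq_univ, Nat.card_univ, Nat.card_eq_fintype_card (α := α), hα, hPC]
        push_cast
        field_simp
      · intro v _ hv
        have h0 : fixedBy α (v : K) = ∅ := Set.eq_empty_iff_forall_notMem.2 fun x hx =>
          hfree v v.2 (fun e => hv (Subtype.ext e)) x hx
        rw [hπ, permRep_character_eq, h0]
        simp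
      · simp
    rw [hπsum] at h
    have h' : classInner (∑ χ : Cfsg.IrrCharacter K, (M χ : ℂ) • fun v : P => (χ : K → ℂ) v)
        (fun v => (l v : ℂ)) = 2 := by
      rw [← h]
      congr 1
      funext v
      simp
    rw [Chars.classInner_sum_left] at h'
    simp only [Chars.classInner_smul_left, hr] at h'
    exact_mod_cast h'
  -- the action of the stabiliser on linear characters
  let cj : W → P →* P := fun x => MonoidHom.mk'
    (fun v => ⟨(x : K)⁻¹ * v * x, (Subgroup.mem_normalizer_iff''.1 x.2.2 _).1 v.2⟩) fun u v => Subtype.ext (by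
      show (x : K)⁻¹ * (u * v : K) * x = (x : K)⁻¹ * u * x * ((x : K)⁻¹ * v * x)
      group)
  let act : W → (P →* ℂˣ) → (P →* ℂˣ) := fun x l => l.comp (cj x)
  have hactmul : ∀ x y l, act x (act y l) = act (x * y) l := fun x y l => MonoidHom.ext fun v => by
    show l (cj y (cj x v)) = l (cj (x * y) v)
    congr 1
    exact Subtype.ext (by
      show (y : K)⁻¹ * ((x : K)⁻¹ * v * x) * y = ((x : K) * y)⁻¹ * v * ((x : K) * y)
      group)
  have hact1 : ∀ l, act 1 l = l := fun l => MonoidHom.ext fun v => by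
    show l (cj 1 v) = l v
    congr 1
    exact Subtype.ext (by
      show (1 : K)⁻¹ * v * (1 : K) = v
      group)
  have hactr : ∀ χ x l, r χ (act x l) = r χ l := by
    intro χ x l
    have h : classInner (fun v : P => (χ : K → ℂ) v) (fun v => (act x l v : ℂ)) =
        classInner (fun v : P => (χ : K → ℂ) v) (fun v => (l v : ℂ)) := by
      rw [Chars.classInner_def, Chars.classInner_def]
      congr 1
      refine Fintype.sum_bijective (cj x) ?_ _ _ fun v => ?_
      · refine Finite.injective_iff_bijective.1 fun u v e => Subtype.ext ?_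
        have e' : (x : K)⁻¹ * u * x = (x : K)⁻¹ * v * x := congrArg Subtype.val e
        simpa using e'
      · show (χ : K → ℂ) v * conj (l (cj x v) : ℂ) = (χ : K → ℂ) ((x : K)⁻¹ * v * x) * conj (l (cj x v) : ℂ)
        have h := (Chars.isClassFunction_irr χ) (v : K) (x : K)⁻¹
        rw [inv_inv] at h
        rw [h]
    rw [hr, hr] at h
    exact_mod_cast h
  have hactfree : ∀ x l, l ≠ 1 → act x l = l → x = 1 := by
    intro x l hl e
    obtain ⟨v, hv⟩ : ∃ v : P, v ≠ 1 := by
      haveI : Nontrivial P := Finite.one_lt_card_iff_nontrivial.1 (by rw [hP]; exact hp.out.one_lt)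
      exact exists_ne 1
    have hker : ∀ u : P, l u = 1 → u = 1 := by
      intro u hu
      by_contra hu1
      refine hl (MonoidHom.ext fun y => ?_)
      obtain ⟨i, hi⟩ := Subgroup.mem_zpowers_iff.1 (mem_zpowers_of_prime_card (g' := y) hP hu1)
      rw [← hi, map_zpow, hu, one_zpow, MonoidHom.one_apply]
    have h1 : cj x v = v := by
      refine mul_inv_eq_one.1 (hker _ ?_)
      rw [map_mul, map_inv, ← show act x l v = l (cj x v) from rfl, e, mul_inv_cancel]
    refine Subtype.ext (hfreeW x x.2 v v.2 (fun e' => hv (Subtype.ext e')) ?_)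
    have h2 : (x : K)⁻¹ * v * x = v := congrArg Subtype.val h1
    calc (x : K) * v = x * ((x : K)⁻¹ * v * x) := by rw [h2]
      _ = v * x := by group
  have hactne : ∀ x l, l ≠ 1 → act x l ≠ 1 := fun x l hl e => hl (by
    have h := congrArg (act x⁻¹) e
    rw [hactmul, inv_mul_cancel, hact1] at h
    rw [h]
    exact MonoidHom.ext fun v => rfl)
  have hfib : ∀ l, l ≠ 1 → (Finset.univ.filter fun μ => ∃ x, act x l = μ).card = w := by
    intro l hl
    rw [hw, Nat.card_eq_fintype_card, ← Finset.card_univ,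
      ← Finset.card_image_of_injective Finset.univ (f := fun x => act x l) fun x y e => ?_]
    · congr 1
      ext μ
      simp
    · have h := congrArg (act y⁻¹) e
      simp only [hactmul, inv_mul_cancel, hact1] at h
      exact (inv_mul_eq_one.1 (hactfree _ l hl h)).symm
  -- invariant sets have size divisible by `w`
  have hdvdw : ∀ S : Finset (P →* ℂˣ), (∀ l ∈ S, l ≠ 1) → (∀ x, ∀ l ∈ S, act x l ∈ S) → w ∣ S.card := by
    intro S hS1 hSinv
    letI : MulAction W (P →* ℂˣ) := { smul := act, one_smul := hact1, mul_smul := fun x y l => (hactmul x y l).symm }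
    rw [← Nat.card_eq_finsetCard]
    refine dvd_natCard_of_invariant (S : Set (P →* ℂˣ)) (fun x l hl => hSinv x l hl) w fun l hl => ?_
    rw [← hfib l (hS1 l hl), Nat.card_coe_set_eq, ← Set.ncard_coe_finset]
    refine dvd_of_eq (congrArg Set.ncard ?_)
    ext μ
    simp only [Finset.coe_filter, Finset.mem_univ, true_and, Set.mem_setOf_eq]
    exact Iff.rfl
  have hsumdvd : ∀ χ, w ∣ ∑ l ∈ Finset.univ.erase 1, r χ l := by
    intro χ
    rw [← Finset.sum_fiberwise_of_maps_to (g := r χ) (t := (Finset.univ.erase (1 : P →* ℂˣ)).image (r χ))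
      (fun l hl => Finset.mem_image_of_mem _ hl)]
    refine Finset.dvd_sum fun i _ => ?_
    rw [Finset.sum_congr rfl (fun l hl => (Finset.mem_filter.1 hl).2), Finset.sum_const, smul_eq_mul]
    refine dvd_mul_of_dvd_left (hdvdw _ (fun l hl => Finset.ne_of_mem_erase (Finset.mem_filter.1 hl).1) ?_) _
    intro x l hl
    simp only [Finset.mem_filter, Finset.mem_erase, Finset.mem_univ, and_true] at hl ⊢
    exact ⟨hactne x l hl.1, by rw [hactr, hl.2]⟩
  -- differences of two inequivalent characters have norm two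
  have hpair : ∀ l μ : P →* ℂˣ, l ≠ 1 → μ ≠ 1 → (∀ x, act x l ≠ μ) →
      ∃ X Y : Cfsg.IrrCharacter K, X ≠ Y ∧ dg X = dg Y ∧
        ∀ χ, (r χ l : ℤ) - r χ μ = (if χ = X then 1 else 0) - (if χ = Y then 1 else 0) := by
    intro l μ hl hμ hne
    let θ : P → ℂ := (fun v => (l v : ℂ)) - fun v => (μ v : ℂ)
    set F := Cfsg.indFun P θ with hF
    have hθ1 : θ 1 = 0 := by simp [θ]
    have hinner : ∀ χ : Cfsg.IrrCharacter K, classInner F (χ : K → ℂ) = ((r χ l : ℤ) - r χ μ : ℤ) := by
      intro χ
      rw [hF, Chars.classInner_indFun P θ (Chars.isClassFunction_irr χ), ← Chars.classInner_conj_symm,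
        Chars.classInner_sub_right, hr, hr]
      simp
    have hFP : ∀ v : P, F v = ∑ x : W, θ (cj x v) := by
      intro v
      by_cases hv : v = 1
      · subst hv
        rw [OneMemClass.coe_one, hF, Chars.indFun_apply_one, hθ1, mul_zero, eq_comm]
        exact Finset.sum_eq_zero fun x _ => by rw [map_one, hθ1]
      have hinjm : Function.Injective (fun q : P × W => (q.1 : K) * (q.2 : K)) := by
        rintro ⟨u, x⟩ ⟨u', x'⟩ e
        have e' : (u : K) * x = (u' : K) * x' := e
        have h1 : ((u'⁻¹ * u : P) : K) = (x' : K) * (x : K)⁻¹ := by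
          rw [Subgroup.coe_mul, Subgroup.coe_inv, eq_mul_inv_iff_mul_eq, mul_assoc, e', inv_mul_cancel_left]
        have h2 : u'⁻¹ * u = 1 := by
          by_contra hne'
          refine hfree _ (u'⁻¹ * u).2 (fun e0 => hne' (Subtype.ext e0)) a ?_
          rw [h1]
          exact mem_stabilizer_iff.1 ((stabilizer K a).mul_mem x'.2.1 ((stabilizer K a).inv_mem x.2.1))
        have h3 : u = u' := (inv_mul_eq_one.1 h2).symm
        subst h3
        exact Prod.ext rfl (Subtype.ext (mul_left_cancel e'))
      have himg : ∀ g : K, g⁻¹ * v * g ∈ P → ∃ q : P × W, (q.1 : K) * (q.2 : K) = g := by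
        intro g hg
        have hle : P ≤ P.comap (MulAut.conj g⁻¹).toMonoidHom :=
          le_of_mem_of_card_prime hP v.2 (fun e => hv (Subtype.ext e)) (by simpa using hg)
        have hn : g⁻¹ ∈ Subgroup.normalizer (P : Set K) := by
          have himgeq : P.map (MulAut.conj g⁻¹).toMonoidHom = P :=
            Subgroup.eq_of_le_of_card_ge (Subgroup.map_le_iff_le_comap.2 hle)
              (le_of_eq (Nat.card_congr (P.equivMapOfInjective _ (MulAut.conj g⁻¹).injective).toEquiv))
          rw [Subgroup.mem_normalizer_iff]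
          intro y
          refine ⟨fun hy => hle hy, fun hy => ?_⟩
          rw [← himgeq] at hy
          obtain ⟨z, hz, hzy⟩ := hy
          rwa [show y = z from ((MulAut.conj g⁻¹).injective hzy).symm]
        obtain ⟨u, hu, x, hx, e⟩ := hNW g (by simpa using inv_mem hn)
        exact ⟨⟨⟨u, hu⟩, ⟨x, hx⟩⟩, e.symm⟩
      rw [hF, Chars.indFun_apply, ← Finset.sum_subset (Finset.subset_univ (Finset.univ.image
        (fun q : P × W => (q.1 : K) * (q.2 : K)))) (fun g _ hg => Chars.extendByZero_of_not_mem _ _ fun h => by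
          obtain ⟨q, hq⟩ := himg g h
          exact hg (Finset.mem_image.2 ⟨q, Finset.mem_univ _, hq⟩)),
        Finset.sum_image (fun q _ q' _ e => hinjm e), Fintype.sum_prod_type]
      have hterm : ∀ (u : P) (x : W), Cfsg.extendByZero P θ (((u : K) * x)⁻¹ * v * ((u : K) * x)) = θ (cj x v) := by
        intro u x
        have e : ((u : K) * x)⁻¹ * v * ((u : K) * x) = ((cj x v : P) : K) := by
          have hc : (u : K)⁻¹ * v * u = v := by
            rw [mul_assoc, show (v : K) * u = u * v from congrArg Subtype.val (mul_comm v u),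
              inv_mul_cancel_left]
          calc ((u : K) * x)⁻¹ * v * ((u : K) * x) = (x : K)⁻¹ * ((u : K)⁻¹ * v * u) * x := by group
            _ = (x : K)⁻¹ * v * x := by rw [hc]
            _ = _ := rfl
        rw [e, Chars.extendByZero_coe]
      simp only [hterm, Finset.sum_const, Finset.card_univ, nsmul_eq_mul]
      rw [← Nat.card_eq_fintype_card, hPC, inv_mul_cancel_left₀ hpC]
    have hnorm : classInner F F = 2 := by
      have hne' : ∀ x, act x μ ≠ l := fun x e => hne x⁻¹ (by rw [← e, hactmul, inv_mul_cancel, hact1])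
      have h1 : (fun v : P => F v) = ∑ x : W, ((fun v => (act x l v : ℂ)) - fun v => (act x μ v : ℂ)) := by
        funext v
        rw [hFP, Finset.sum_apply]
        rfl
      rw [hF, Chars.classInner_indFun P θ (Chars.isClassFunction_indFun _ _), ← hF, h1,
        Chars.classInner_sum_right]
      simp only [θ, Chars.classInner_sub_left, Chars.classInner_sub_right, hlin]
      rw [Finset.sum_eq_single (1 : W)]
      · rw [hact1, hact1, if_pos rfl, if_pos rfl,
          if_neg (show l ≠ μ from fun e => hne 1 ((hact1 l).trans e)),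
          if_neg (show μ ≠ l from fun e => hne 1 ((hact1 l).trans e.symm))]
        norm_num
      · intro x _ hx
        rw [if_neg (fun e => hx (hactfree x l hl e.symm)), if_neg (fun e => hne x e.symm),
          if_neg (fun e => hne' x e.symm), if_neg (fun e => hx (hactfree x μ hμ e.symm))]
        norm_num
      · simp
    have hsq2 : ∑ χ : Cfsg.IrrCharacter K, ((r χ l : ℤ) - r χ μ) ^ 2 = 2 := by
      rw [Chars.classInner_eq_sum (Chars.isClassFunction_indFun _ _)] at hnorm
      have : ∀ χ : Cfsg.IrrCharacter K, classInner F (χ : K → ℂ) * classInner (χ : K → ℂ) F =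
          (((r χ l : ℤ) - r χ μ) ^ 2 : ℤ) := fun χ => by
        rw [← Chars.classInner_conj_symm F, hinner, map_intCast]
        push_cast
        ring
      rw [Finset.sum_congr rfl fun χ _ => this χ] at hnorm
      exact_mod_cast hnorm
    have hdeg0 : ∑ χ : Cfsg.IrrCharacter K, ((r χ l : ℤ) - r χ μ) * dg χ = 0 := by
      have h := congrFun (Chars.eq_sum_classInner (Chars.isClassFunction_indFun P θ)) 1
      rw [Chars.indFun_apply_one, hθ1, mul_zero, Finset.sum_apply] at h
      simp only [Pi.smul_apply, smul_eq_mul, ← hF, hinner, hdg] at h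
      exact_mod_cast h.symm
    obtain ⟨X, Y, hXY, hu⟩ := exists_unit_diff _ (fun χ : Cfsg.IrrCharacter K => (dg χ : ℤ))
      (fun χ => by exact_mod_cast hdg0 χ) hsq2 hdeg0
    refine ⟨X, Y, hXY, ?_, fun χ => congrFun hu χ⟩
    simp only [fun χ => congrFun hu χ, sub_mul, ite_mul, one_mul, zero_mul, Finset.sum_sub_distrib,
      Finset.sum_ite_eq', Finset.mem_univ, if_true, sub_eq_zero] at hdeg0
    exact_mod_cast hdeg0
  -- the principal character
  let one : Cfsg.IrrCharacter K := ⟨fun _ => 1, Chars.isIrrCharacter_one⟩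
  have hMone : M one = 1 := by
    have h := hM one
    rw [show classInner π ((one : Cfsg.IrrCharacter K) : K → ℂ) = 1 from classInner_one_of_transitive] at h
    exact_mod_cast h.symm
  have hrone : ∀ l, r one l = if l = 1 then 1 else 0 := by
    intro l
    have h := hr one l
    have e : (fun v : P => ((one : Cfsg.IrrCharacter K) : K → ℂ) v) = fun v => (((1 : P →* ℂˣ) v : ℂˣ) : ℂ) :=
      funext fun v => by simp [one]
    rw [e, hlin] at h
    by_cases e' : l = 1
    · subst e'; rw [if_pos rfl] at h; rw [if_pos rfl]; exact_mod_cast h.symm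
    · rw [if_neg (Ne.symm e')] at h; rw [if_neg e']; exact_mod_cast h.symm
  have hrest : ∀ l, ∑ χ ∈ Finset.univ.erase one, M χ * r χ l = if l = 1 then 1 else 2 := by
    intro l
    have h := hcol l
    rw [← Finset.add_sum_erase _ _ (Finset.mem_univ one), hMone, hrone, one_mul] at h
    split_ifs at h ⊢ <;> omega
  obtain ⟨χ₁, hχ₁, huniq⟩ : ∃ χ₁ ∈ Finset.univ.erase one, M χ₁ * r χ₁ 1 = 1 ∧
      ∀ χ, χ ≠ one → χ ≠ χ₁ → M χ * r χ 1 = 0 := by
    have h := hrest 1
    rw [if_pos rfl] at h
    obtain ⟨χ₁, h1, h2⟩ := Finset.exists_ne_zero_of_sum_ne_zero (h ▸ one_ne_zero)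
    refine ⟨χ₁, h1, ?_, fun χ hχ hχ' => ?_⟩
    · have := Finset.single_le_sum (fun i _ => Nat.zero_le (M i * r i 1)) h1
      omega
    · have := Finset.add_sum_erase _ (fun i => M i * r i 1) h1
      have h4 := Finset.single_le_sum (s := (Finset.univ.erase one).erase χ₁) (fun i _ => Nat.zero_le (M i * r i 1))
        (Finset.mem_erase.2 ⟨hχ', Finset.mem_erase.2 ⟨hχ, Finset.mem_univ χ⟩⟩)
      omega
  obtain ⟨hMr, huniq⟩ := huniq
  have hne1 : χ₁ ≠ one := Finset.ne_of_mem_erase hχ₁
  have hM1 : M χ₁ = 1 := Nat.eq_one_of_mul_eq_one_right hMr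
  have hr1 : r χ₁ 1 = 1 := Nat.eq_one_of_mul_eq_one_left hMr
  have hrest1 : ∀ l, l ≠ 1 → r χ₁ l + ∑ χ ∈ (Finset.univ.erase one).erase χ₁, M χ * r χ l = 2 := by
    intro l hl
    have h := hrest l
    rwa [if_neg hl, ← Finset.add_sum_erase _ _ hχ₁, hM1, one_mul] at h
  -- `χ₁` is constant on the non-principal linear characters
  have hconst : ∀ l μ : P →* ℂˣ, l ≠ 1 → μ ≠ 1 → r χ₁ l = r χ₁ μ := by
    intro l μ hl hμ
    by_contra hne
    have hnact : ∀ x, act x l ≠ μ := fun x e => hne (by rw [← e, hactr])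
    obtain ⟨X, Y, hXY, hdXY, hd⟩ := hpair l μ hl hμ hnact
    have hMd : ∑ χ : Cfsg.IrrCharacter K, (M χ : ℤ) * ((r χ l : ℤ) - r χ μ) = 0 := by
      simp only [mul_sub, Finset.sum_sub_distrib]
      rw [sub_eq_zero]
      exact_mod_cast (hcol l).trans (hcol μ).symm
    simp only [hd, mul_sub, mul_ite, mul_one, mul_zero, Finset.sum_sub_distrib, Finset.sum_ite_eq',
      Finset.mem_univ, if_true, sub_eq_zero] at hMd
    obtain ⟨Z, hZ, hdZ, hMZ⟩ : ∃ Z, Z ≠ χ₁ ∧ dg Z = dg χ₁ ∧ M Z = 1 ∧ Z ≠ one := by
      have hd1 := hd χ₁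
      have hone' : ∀ Z, Z = one → (r Z l : ℤ) - r Z μ = 0 := fun Z e => by
        rw [e, hrone, hrone, if_neg hl, if_neg hμ]; simp
      by_cases h1 : χ₁ = X
      · subst h1
        refine ⟨Y, hXY.symm, hdXY.symm, by omega, fun e => ?_⟩
        have := hd Y
        rw [hone' Y e, if_neg hXY.symm, if_pos rfl] at this
        simp at this
      · by_cases h2 : χ₁ = Y
        · subst h2
          refine ⟨X, hXY, hdXY, by omega, fun e => ?_⟩
          have := hd X
          rw [hone' X e, if_pos rfl, if_neg hXY] at this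
          simp at this
        · rw [if_neg h1, if_neg h2, sub_zero, sub_eq_zero] at hd1
          exact absurd (by exact_mod_cast hd1) hne
    obtain ⟨hMZ, hZone⟩ := hMZ
    have hZ0 : r Z 1 = 0 := by
      have := huniq Z hZone hZ
      rwa [hMZ, one_mul] at this
    have e1 := hdegN χ₁
    have e2 := hdegN Z
    rw [← Finset.add_sum_erase _ _ (Finset.mem_univ (1 : P →* ℂˣ)), hr1] at e1
    rw [← Finset.add_sum_erase _ _ (Finset.mem_univ (1 : P →* ℂˣ)), hZ0, zero_add] at e2
    have h1 : w ∣ 1 + ∑ l ∈ Finset.univ.erase 1, r χ₁ l := by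
      rw [← e1, ← hdZ, e2]; exact hsumdvd Z
    exact absurd (Nat.le_of_dvd one_pos ((Nat.dvd_add_left (hsumdvd χ₁)).1 h1)) (by omega)
  obtain ⟨l₀, hl₀⟩ : ∃ l : P →* ℂˣ, l ≠ 1 := by
    haveI : Nontrivial (P →* ℂˣ) := Fintype.one_lt_card_iff_nontrivial.1 (hdual ▸ hp.out.one_lt)
    exact exists_ne 1
  have hnz : ∀ χ, ∃ l, r χ l ≠ 0 := fun χ => by
    by_contra h
    push Not at h
    have := hdegN χ
    rw [Finset.sum_eq_zero fun l _ => h l] at this
    exact (hdg0 χ).ne' this
  have hd1 : dg χ₁ = 1 + (p - 1) * r χ₁ l₀ := by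
    rw [hdegN, ← Finset.add_sum_erase _ _ (Finset.mem_univ (1 : P →* ℂˣ)), hr1,
      Finset.sum_congr rfl fun l hl => hconst l l₀ (Finset.ne_of_mem_erase hl) hl₀, Finset.sum_const,
      Finset.card_erase_of_mem (Finset.mem_univ _), Finset.card_univ, hdual, smul_eq_mul]
  have hrank : (Nat.card (orbitRel.Quotient (stabilizer K a) α) : ℂ) =
      ∑ χ : Cfsg.IrrCharacter K, (M χ : ℂ) * M χ := by
    rw [← classInner_self_eq_rank a, Chars.classInner_eq_sum (Chars.isClassFunction_of_isCharacter hπc)]
    refine Finset.sum_congr rfl fun χ _ => ?_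
    rw [← Chars.classInner_conj_symm π, hM, map_natCast]
  have hrankN : Nat.card (orbitRel.Quotient (stabilizer K a) α) = ∑ χ : Cfsg.IrrCharacter K, M χ * M χ := by
    exact_mod_cast hrank
  have hle2 : r χ₁ l₀ ≤ 2 := by have := hrest1 l₀ hl₀; omega
  interval_cases hval : r χ₁ l₀
  · -- a non-principal linear constituent
    exfalso
    have h1 : (χ₁ : K → ℂ) 1 = 1 := by rw [hdg, hd1]; simp
    obtain ⟨ψ, hψ⟩ := Chars.exists_hom_of_degree_one (Chars.isCharacter_of_isIrr χ₁.2) h1
    have hzero : classInner π (χ₁ : K → ℂ) = 0 := by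
      rw [Chars.classInner_def, Finset.sum_congr rfl fun g _ => show π g * conj ((χ₁ : K → ℂ) g) =
        ∑ x : α, if g • x = x then conj (ψ g : ℂ) else 0 by
        rw [hπ, permRep_character_eq, hψ, ← Finset.sum_filter, Finset.sum_const, nsmul_eq_mul,
          Nat.card_eq_fintype_card, Fintype.card_subtype]
        congr 3,
        Finset.sum_comm]
      refine mul_eq_zero_of_right _ (Finset.sum_eq_zero fun x _ => ?_)
      rw [← Finset.sum_filter, ← map_sum]
      have hsum := sum_hom_apply (ψ.comp (stabilizer K x).subtype)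
      rw [if_neg fun e => hne1 (Subtype.ext (funext fun g => ?_))] at hsum
      · rw [Finset.sum_subtype (p := fun g => g ∈ stabilizer K x) _ (fun g => by simp [MulAction.mem_stabilizer_iff]),
          show (∑ g : stabilizer K x, (ψ g : ℂ)) = 0 from hsum, map_zero]
      · show (χ₁ : K → ℂ) g = 1
        have hker : commutator K ≤ ψ.ker := Abelianization.commutator_subset_ker ψ
        obtain ⟨⟨k, hk⟩, hkx⟩ := hcomm.exists_smul_eq x (g • x)
        have hmem : k⁻¹ * g ∈ stabilizer K x := by
          rw [mem_stabilizer_iff, mul_smul, ← show k • x = g • x from hkx, inv_smul_smul]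
        have h2 : ψ (k⁻¹ * g) = 1 := DFunLike.congr_fun e ⟨_, hmem⟩
        rw [map_mul, map_inv, MonoidHom.mem_ker.1 (hker hk), inv_one, one_mul] at h2
        rw [hψ]
        show (ψ g : ℂ) = 1
        rw [h2, Units.val_one]
    rw [hM, hM1] at hzero
    simp at hzero
  · -- degree `p`
    right
    have hdp : dg χ₁ = p := by rw [hd1]; have := hp.out.one_lt; omega
    have hr1' : ∀ l, l ≠ 1 → r χ₁ l = 1 := fun l hl => (hconst l l₀ hl hl₀).trans hval
    have huq : ∀ l, l ≠ 1 → ∃ χ ∈ (Finset.univ.erase one).erase χ₁, M χ = 1 ∧ r χ l = 1 ∧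
        ∀ χ' ∈ (Finset.univ.erase one).erase χ₁, χ' ≠ χ → M χ' * r χ' l = 0 := by
      intro l hl
      have h := hrest1 l hl
      rw [hr1' l hl] at h
      have hs : ∑ χ ∈ (Finset.univ.erase one).erase χ₁, M χ * r χ l = 1 := by omega
      obtain ⟨χ, h1, h2⟩ := Finset.exists_ne_zero_of_sum_ne_zero (hs ▸ one_ne_zero)
      have h3 : M χ * r χ l = 1 := by
        have := Finset.single_le_sum (fun i _ => Nat.zero_le (M i * r i l)) h1
        omega
      refine ⟨χ, h1, Nat.eq_one_of_mul_eq_one_right h3, Nat.eq_one_of_mul_eq_one_left h3, fun χ' hχ' hne => ?_⟩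
      have h4 := Finset.add_sum_erase _ (fun i => M i * r i l) h1
      have h5 := Finset.single_le_sum (s := ((Finset.univ.erase one).erase χ₁).erase χ)
        (fun i _ => Nat.zero_le (M i * r i l)) (Finset.mem_erase.2 ⟨hne, hχ'⟩)
      omega
    haveI : Nonempty (Cfsg.IrrCharacter K) := ⟨one⟩
    choose! f hfS hfM hfr hf0 using huq
    set Nl : Finset (P →* ℂˣ) := Finset.univ.erase 1 with hNl
    set S : Finset (Cfsg.IrrCharacter K) := Nl.image f with hSdef
    have hcons : ∀ χ, χ ≠ one → χ ≠ χ₁ → M χ ≠ 0 → χ ∈ S := by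
      intro χ h1 h2 h3
      obtain ⟨l, hl⟩ := hnz χ
      have hl1 : l ≠ 1 := fun e => hl (by
        subst e
        exact (mul_eq_zero.1 (huniq χ h1 h2)).resolve_left h3)
      refine Finset.mem_image.2 ⟨l, Finset.mem_erase.2 ⟨hl1, Finset.mem_univ _⟩, ?_⟩
      by_contra hne
      exact mul_ne_zero h3 hl (hf0 l hl1 χ (Finset.mem_erase.2 ⟨h2, Finset.mem_erase.2 ⟨h1, Finset.mem_univ _⟩⟩)
        (Ne.symm hne))
    have hSone : ∀ χ ∈ S, M χ = 1 ∧ χ ≠ one ∧ χ ≠ χ₁ := by
      intro χ hχ
      obtain ⟨l, hl, rfl⟩ := Finset.mem_image.1 hχ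
      have hl1 := Finset.ne_of_mem_erase hl
      exact ⟨hfM l hl1, Finset.ne_of_mem_erase (Finset.mem_of_mem_erase (hfS l hl1)),
        Finset.ne_of_mem_erase (hfS l hl1)⟩
    have hrankS : Nat.card (orbitRel.Quotient (stabilizer K a) α) = 2 + S.card := by
      rw [hrankN, ← Finset.add_sum_erase _ _ (Finset.mem_univ one), ← Finset.add_sum_erase _ _ hχ₁, hMone, hM1,
        ← Finset.sum_subset (s₁ := S) (fun χ hχ => Finset.mem_erase.2 ⟨(hSone χ hχ).2.2,
          Finset.mem_erase.2 ⟨(hSone χ hχ).2.1, Finset.mem_univ _⟩⟩) (fun χ hχ hχS => by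
          obtain ⟨h2, h1⟩ := Finset.mem_erase.1 hχ
          by_contra h3
          exact hχS (hcons χ (Finset.ne_of_mem_erase h1) h2 fun e => h3 (by rw [e, zero_mul]))),
        Finset.sum_congr rfl (fun χ hχ => by rw [(hSone χ hχ).1, one_mul]), Finset.sum_const, smul_eq_mul]
      ring
    have hmf : ∀ χ : K → ℂ, Cfsg.IsIrrCharacter K χ →
        classInner π χ = 0 ∨ classInner π χ = 1 := by
      intro χ hχ
      have hMle : M ⟨χ, hχ⟩ = 0 ∨ M ⟨χ, hχ⟩ = 1 := by
        by_cases h1 : (⟨χ, hχ⟩ : Cfsg.IrrCharacter K) = one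
        · exact Or.inr (h1 ▸ hMone)
        by_cases h2 : (⟨χ, hχ⟩ : Cfsg.IrrCharacter K) = χ₁
        · exact Or.inr (h2 ▸ hM1)
        by_cases h3 : M ⟨χ, hχ⟩ = 0
        · exact Or.inl h3
        · exact Or.inr (hSone _ (hcons _ h1 h2 h3)).1
      rcases hMle with h | h
      · exact Or.inl (by rw [show classInner π χ = _ from hM ⟨χ, hχ⟩, h]; simp)
      · exact Or.inr (by rw [show classInner π χ = _ from hM ⟨χ, hχ⟩, h]; simp)
    refine ⟨χ₁, by rw [hdg, hdp], by rw [hM, hM1]; simp, hmf, fun χ h2 h1 h3 => ?_, hw2, ?_⟩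
    · have h1' : χ ≠ one := fun e => h1 (congrArg Subtype.val e)
      have h0 : r χ 1 = 0 := (mul_eq_zero.1 (huniq χ h1' h2)).resolve_left fun e => h3 (by rw [hM, e]; simp)
      have h := hr χ 1
      rw [h0, Chars.classInner_def] at h
      simp only [MonoidHom.one_apply, Units.val_one, map_one, mul_one, Nat.cast_zero] at h
      exact (mul_eq_zero.1 h).resolve_left (inv_ne_zero (by rw [hPC]; exact hpC))
    by_cases hS1 : S.card = 1
    · left
      obtain ⟨R, hR⟩ := Finset.card_eq_one.1 hS1
      refine ⟨by rw [hrankS, hS1], R, ?_, fun χ hχ => ?_⟩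
      · have hRS : R ∈ S := hR ▸ Finset.mem_singleton_self R
        obtain ⟨hMR, hR1, hR2⟩ := hSone R hRS
        have h0 : r R 1 = 0 := by have := huniq R hR1 hR2; rwa [hMR, one_mul] at this
        rw [hdg, hdegN, ← Finset.add_sum_erase _ _ (Finset.mem_univ (1 : P →* ℂˣ)), h0, zero_add]
        have : ∀ l ∈ Finset.univ.erase (1 : P →* ℂˣ), r R l = 1 := fun l hl => by
          have e : f l = R := Finset.mem_singleton.1 (hR ▸ Finset.mem_image_of_mem f hl)
          rw [← e]; exact hfr l (Finset.ne_of_mem_erase hl)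
        rw [Finset.sum_congr rfl this, Finset.sum_const, Finset.card_erase_of_mem (Finset.mem_univ _),
          Finset.card_univ, hdual, smul_eq_mul, mul_one]
      · by_cases h1 : χ = one
        · exact Or.inl (congrArg Subtype.val h1)
        by_cases h2 : χ = χ₁
        · exact Or.inr (Or.inl h2)
        refine Or.inr (Or.inr ?_)
        have := hcons χ h1 h2 fun e => hχ (by rw [hM, e]; simp)
        rwa [hR, Finset.mem_singleton] at this
    · right
      refine ⟨S.card, ?_, hrankS⟩
      have hfib' : ∀ χ ∈ S, (Nl.filter fun l => f l = χ).card = w := by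
        intro χ hχ
        obtain ⟨l, hl, rfl⟩ := Finset.mem_image.1 hχ
        have hl1 := Finset.ne_of_mem_erase hl
        rw [← hfib l hl1]
        congr 1
        ext μ
        simp only [Finset.mem_filter, hNl, Finset.mem_erase, Finset.mem_univ, and_true, true_and]
        constructor
        · rintro ⟨hμ, hfμ⟩
          by_contra hact
          push Not at hact
          obtain ⟨χ'', hχ'', hne''⟩ : ∃ χ'' ∈ S, χ'' ≠ f l := by
            by_contra hcon
            push Not at hcon
            exact hS1 (Finset.card_eq_one.2 ⟨f l, Finset.eq_singleton_iff_unique_mem.2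
              ⟨Finset.mem_image_of_mem f hl, hcon⟩⟩)
          obtain ⟨ν, hν, rfl⟩ := Finset.mem_image.1 hχ''
          have hν1 := Finset.ne_of_mem_erase hν
          -- both differences with a third character are the same
          have hdiff : ∀ t, t ≠ 1 → f t = f l → ∀ χ, (r χ t : ℤ) - r χ ν =
              (if χ = f l then 1 else 0) - (if χ = f ν then 1 else 0) := by
            intro t ht hft
            have hnact : ∀ x, act x t ≠ ν := by
              intro x e
              refine hne'' ?_
              rw [← hft]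
              have h1 : r (f t) ν = 1 := by rw [← e, hactr]; exact hfr t ht
              by_contra hne2
              have := hf0 ν hν1 (f t) (hfS t ht) (Ne.symm hne2)
              rw [hfM t ht, h1] at this
              exact one_ne_zero this
            obtain ⟨X, Y, hXY, -, hd⟩ := hpair t ν ht hν1 hnact
            have e1 : (r (f l) t : ℤ) - r (f l) ν = 1 := by
              have a1 : r (f l) t = 1 := hft ▸ hfr t ht
              have a2 : r (f l) ν = 0 := by
                have := hf0 ν hν1 (f l) (hfS l hl1) (Ne.symm hne'')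
                rwa [hfM l hl1, one_mul] at this
              rw [a1, a2]; simp
            have e2 : (r (f ν) t : ℤ) - r (f ν) ν = -1 := by
              have a1 : r (f ν) t = 0 := by
                have := hf0 t ht (f ν) (hfS ν hν1) (by rw [hft]; exact hne'')
                rwa [hfM ν hν1, one_mul] at this
              rw [a1, hfr ν hν1]; simp
            rw [hd] at e1 e2
            have hX : f l = X := by
              by_contra hh
              rw [if_neg hh] at e1
              split_ifs at e1 <;> omega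
            have hY : f ν = Y := by
              by_contra hh
              rw [if_neg hh] at e2
              split_ifs at e2 <;> omega
            intro χ
            rw [hd, hX, hY]
          obtain ⟨X, Y, hXY, -, hd⟩ := hpair l μ hl1 hμ hact
          have hXX := hd X
          rw [if_pos rfl, if_neg hXY] at hXX
          have h1 := hdiff l hl1 rfl X
          have h2 := hdiff μ hμ hfμ X
          omega
        · rintro ⟨x, rfl⟩
          refine ⟨hactne x l hl1, ?_⟩
          by_contra hne
          have h1 : r (f l) (act x l) = 1 := by rw [hactr]; exact hfr l hl1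
          have := hf0 _ (hactne x l hl1) (f l) (hfS l hl1) (Ne.symm hne)
          rw [hfM l hl1, h1] at this
          exact one_ne_zero this
      have hc := Finset.card_eq_sum_card_image f Nl
      rw [← hSdef, Finset.sum_congr rfl hfib', Finset.sum_const, smul_eq_mul, hNl,
        Finset.card_erase_of_mem (Finset.mem_univ _), Finset.card_univ, hdual] at hc
      exact hc.symm
  · -- doubly transitive
    left
    have hz : ∀ χ, χ ≠ one → χ ≠ χ₁ → M χ = 0 := by
      intro χ h1 h2
      by_contra h3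
      obtain ⟨l, hl⟩ := hnz χ
      have hl1 : l ≠ 1 := fun e => hl (by
        subst e
        exact (mul_eq_zero.1 (huniq χ h1 h2)).resolve_left h3)
      have h := hrest1 l hl1
      rw [hconst l l₀ hl1 hl₀, hval] at h
      have h4 := Finset.single_le_sum (fun i _ => Nat.zero_le (M i * r i l))
        (Finset.mem_erase.2 ⟨h2, Finset.mem_erase.2 ⟨h1, Finset.mem_univ χ⟩⟩ : χ ∈ (Finset.univ.erase one).erase χ₁)
      exact mul_ne_zero h3 hl (by omega)
    rw [hrankN, ← Finset.add_sum_erase _ _ (Finset.mem_univ one), ← Finset.add_sum_erase _ _ hχ₁, hMone, hM1,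
      Finset.sum_eq_zero]
    swap
    · intro χ hχ
      obtain ⟨h2, h1⟩ := Finset.mem_erase.1 hχ
      rw [hz χ (Finset.ne_of_mem_erase h1) h2, zero_mul]
    norm_num

end Cfsg.Agent.PermGroups
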