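import Mathlib

/-!
Groups of even permutations on `2 p` points: the normaliser of a semiregular subgroup of order `p`.
-/

set_option autoImplicit false
set_option linter.unusedSectionVars false

namespace Cfsg.Agent.PermGroups

open MulAction Equiv

variable {K α : Type*} [Group K] [Finite K] [MulAction K α] [Fintype α]
  {p : ℕ} [hp : Fact p.Prime]

/-- Exponential coordinates on a subgroup of prime order. -/
theorem exists_zmod_param (P : Subgroup K) (hP : Nat.card P = p) :
    ∃ φ : ZMod p → K, (∀ x y, φ (x + y) = φ x * φ y) ∧ φ 0 = 1 ∧ Function.Injective φ ∧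
      (∀ k : K, k ∈ P ↔ ∃ x, φ x = k) ∧
      ∀ n ∈ Subgroup.normalizer (P : Set K), ∃ r : ZMod p, r ≠ 0 ∧ ∀ x, n * φ x * n⁻¹ = φ (r * x) := by
  haveI : IsCyclic P := isCyclic_of_prime_card hP
  obtain ⟨u, hu⟩ := IsCyclic.exists_ofOrder_eq_natCard (α := P)
  rw [hP] at hu
  have huK : orderOf (u : K) = p := by rw [Subgroup.orderOf_coe, hu]
  refine ⟨fun x => (u : K) ^ x.val, fun x y => ?_, ?_, fun x y e => ?_, fun k => ⟨fun hk => ?_, ?_⟩,
    fun n hn => ?_⟩
  · show (u : K) ^ (x + y).val = (u : K) ^ x.val * (u : K) ^ y.val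
    rw [← pow_add, pow_eq_pow_iff_modEq, huK, ZMod.val_add]
    exact Nat.mod_modEq _ _
  · show (u : K) ^ (0 : ZMod p).val = 1
    rw [ZMod.val_zero, pow_zero]
  · have e' : (u : K) ^ x.val = (u : K) ^ y.val := e
    rw [pow_eq_pow_iff_modEq, huK] at e'
    unfold Nat.ModEq at e'
    rw [Nat.mod_eq_of_lt (ZMod.val_lt x), Nat.mod_eq_of_lt (ZMod.val_lt y)] at e'
    exact ZMod.val_injective p e'
  · have htop : Subgroup.zpowers u = ⊤ := Subgroup.eq_top_of_card_eq _ (by rw [Nat.card_zpowers, hu, hP])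
    obtain ⟨i, hi⟩ := (mem_powers_iff_mem_zpowers (x := u) (y := ⟨k, hk⟩)).2 (htop ▸ Subgroup.mem_top _)
    refine ⟨(i : ZMod p), ?_⟩
    show (u : K) ^ (i : ZMod p).val = k
    rw [ZMod.val_natCast, ← huK, pow_mod_orderOf]
    exact congrArg Subtype.val hi
  · rintro ⟨x, rfl⟩
    exact Subgroup.pow_mem _ u.2 _
  · have hv : n * (u : K) * n⁻¹ ∈ P := (Subgroup.mem_normalizer_iff.1 hn _).1 u.2
    have htop : Subgroup.zpowers u = ⊤ := Subgroup.eq_top_of_card_eq _ (by rw [Nat.card_zpowers, hu, hP])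
    obtain ⟨i, hi⟩ := (mem_powers_iff_mem_zpowers (x := u) (y := ⟨_, hv⟩)).2 (htop ▸ Subgroup.mem_top _)
    have hi' : (u : K) ^ i = n * (u : K) * n⁻¹ := congrArg Subtype.val hi
    refine ⟨(i : ZMod p), fun h0 => ?_, fun x => ?_⟩
    · rw [ZMod.natCast_eq_zero_iff] at h0
      rw [orderOf_dvd_iff_pow_eq_one.1 (huK ▸ h0), eq_comm, conj_eq_one_iff] at hi'
      rw [hi', orderOf_one] at huK
      exact hp.out.one_lt.ne huK
    · show n * (u : K) ^ x.val * n⁻¹ = (u : K) ^ ((i : ZMod p) * x).val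
      rw [← conj_pow, ← hi', ← pow_mul, pow_eq_pow_iff_modEq, huK, ZMod.val_mul, ZMod.val_natCast]
      exact ((Nat.mod_modEq i p).mul_right _).symm.trans (Nat.mod_modEq _ _).symm

theorem sign_eq_one_of_pow_prime {β : Type*} [Fintype β] [DecidableEq β] (hp2 : p ≠ 2) (σ : Perm β)
    (h : σ ^ p = 1) : Perm.sign σ = 1 := by
  rcases Int.units_eq_one_or (Perm.sign σ) with e | e
  · exact e
  · have h1 := congrArg Perm.sign h
    rw [map_pow, e, map_one, (hp.out.odd_of_ne_two hp2).neg_one_pow] at h1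
    exact absurd h1 (by decide)

variable [FaithfulSMul K α] [DecidableEq α]

/-- Two semiregular orbits of a subgroup of order `p` make up `2 p` points. -/
theorem exists_two_orbit_coords (hα : Fintype.card α = 2 * p) (P : Subgroup K)
    (hfree : ∀ v ∈ P, v ≠ 1 → ∀ x : α, v • x ≠ x) {φ : ZMod p → K}
    (hadd : ∀ x y, φ (x + y) = φ x * φ y) (h0 : φ 0 = 1) (hinj : Function.Injective φ)
    (hmem : ∀ k : K, k ∈ P ↔ ∃ x, φ x = k) {a b : α} (hb : b ∉ orbit P a) :
    Function.Bijective (fun z : Bool × ZMod p => φ z.2 • (if z.1 then b else a)) := by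
  rw [Fintype.bijective_iff_injective_and_card]
  refine ⟨?_, by rw [Fintype.card_prod, Fintype.card_bool, ZMod.card, hα]⟩
  have hphi : ∀ x y : ZMod p, ∀ z : α, φ x • z = φ y • z → x = y := by
    intro x y z e
    by_contra hxy
    refine hfree (φ (x - y)) ((hmem _).2 ⟨_, rfl⟩) (fun h => hxy ?_) (φ y • z) ?_
    · exact sub_eq_zero.1 (hinj (h.trans h0.symm))
    · rw [← mul_smul, ← hadd, sub_add_cancel, e]
  rintro ⟨ε, x⟩ ⟨ε', y⟩ e
  have key : ∀ x y : ZMod p, φ x • a ≠ φ y • b := by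
    intro x y e
    refine hb ⟨⟨φ (-y + x), (hmem _).2 ⟨_, rfl⟩⟩, ?_⟩
    show φ (-y + x) • a = b
    rw [hadd, mul_smul, e, ← mul_smul, ← hadd, neg_add_cancel, h0, one_smul]
  cases ε <;> cases ε'
  · exact Prod.ext rfl (hphi x y a e)
  · exact absurd e (key x y)
  · exact absurd e.symm (key y x)
  · exact Prod.ext rfl (hphi x y b e)

/-- An even permutation normalising the subgroup keeps its two orbits. -/
theorem normalizer_smul_mem_orbit (hp2 : p ≠ 2) (hα : Fintype.card α = 2 * p) (P : Subgroup K)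
    (hP : Nat.card P = p) (hfree : ∀ v ∈ P, v ≠ 1 → ∀ x : α, v • x ≠ x)
    (heven : ∀ k : K, Perm.sign (MulAction.toPerm k : Perm α) = 1) {n : K}
    (hn : n ∈ Subgroup.normalizer (P : Set K)) (a : α) : n • a ∈ orbit P a := by
  by_contra hb
  obtain ⟨φ, hadd, h0, hinj, hmem, hconj⟩ := exists_zmod_param P hP
  obtain ⟨r, hr, hrx⟩ := hconj n hn
  have hbij := exists_two_orbit_coords hα P hfree hadd h0 hinj hmem hb
  let e : Bool × ZMod p ≃ α := Equiv.ofBijective _ hbij
  have he : ∀ z : Bool × ZMod p, e z = φ z.2 • (if z.1 then n • a else a) := fun z => rfl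
  have hnφ : ∀ (x : ZMod p) (z : α), n • φ x • z = φ (r * x) • n • z := fun x z => by
    rw [← mul_smul, ← mul_smul]
    congr 1
    rw [← hrx, inv_mul_cancel_right]
  -- `n (n a)` lies in the orbit of `a`
  obtain ⟨⟨ε, c⟩, hc⟩ := hbij.2 (n • n • a)
  cases ε with
  | true =>
    refine hb ⟨⟨φ (r⁻¹ * c), (hmem _).2 ⟨_, rfl⟩⟩, ?_⟩
    refine smul_left_cancel n ?_
    show n • φ (r⁻¹ * c) • a = n • n • a
    rw [hnφ, ← mul_assoc, mul_inv_cancel₀ hr, one_mul]
    exact hc
  | false =>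
    let c' : Bool → ZMod p := fun ε => if ε then c else 0
    let τ : Perm (Bool × ZMod p) :=
      (Equiv.prodCongrLeft fun _ : ZMod p => (Equiv.swap false true : Perm Bool)) *
        Equiv.prodCongrRight fun ε => (Equiv.addRight (c' ε) : Perm (ZMod p)) * Equiv.mulLeft₀ r hr
    have hτ : (MulAction.toPerm n : Perm α) = e.permCongr τ := by
      refine Equiv.ext fun z => ?_
      obtain ⟨⟨ε, x⟩, rfl⟩ := e.surjective z
      rw [Equiv.permCongr_apply, Equiv.symm_apply_apply]
      show n • e (ε, x) = e (Equiv.swap false true ε, r * x + c' ε)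
      rw [he, he, hnφ]
      cases ε
      · simp [c']
      · have hc' : φ c • a = n • n • a := hc
        simp [c', ← hc', ← mul_smul, hadd]
    have h1 := heven n
    rw [hτ, Equiv.Perm.sign_permCongr, map_mul, Equiv.Perm.sign_prodCongrLeft,
      Equiv.Perm.sign_prodCongrRight, Fintype.prod_bool] at h1
    simp only [map_mul, Finset.prod_const, Finset.card_univ, ZMod.card, Perm.sign_swap Bool.false_ne_true,
      (hp.out.odd_of_ne_two hp2).neg_one_pow] at h1
    have htr : ∀ t : ZMod p, Perm.sign (Equiv.addRight t : Perm (ZMod p)) = 1 := fun t =>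
      sign_eq_one_of_pow_prime hp2 _ (Equiv.ext fun x => by
        have : ∀ m : ℕ, ((Equiv.addRight t : Perm (ZMod p)) ^ m) x = x + m * t := by
          intro m
          induction m with
          | zero => simp
          | succ m ih => rw [pow_succ', Perm.mul_apply, ih]; simp [add_mul, add_assoc]
        rw [this, ZMod.natCast_self, zero_mul, add_zero]; rfl)
    rw [htr, htr, one_mul, ← sq, Int.units_sq, mul_one] at h1
    exact absurd h1 (by decide)

set_option maxHeartbeats 1000000 in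
/-- The stabiliser of a point in the normaliser. -/
theorem normalizer_stabilizer_spec (hp2 : p ≠ 2) (hα : Fintype.card α = 2 * p) (P : Subgroup K)
    (hP : Nat.card P = p) (hfree : ∀ v ∈ P, v ≠ 1 → ∀ x : α, v • x ≠ x)
    (heven : ∀ k : K, Perm.sign (MulAction.toPerm k : Perm α) = 1)
    (hsq : ¬ p ^ 2 ∣ Nat.card K) (a : α) :
    (∀ n ∈ Subgroup.normalizer (P : Set K), ∃ v ∈ P, ∃ w ∈ stabilizer K a ⊓ Subgroup.normalizer (P : Set K),
      n = v * w) ∧
    (∀ w ∈ stabilizer K a ⊓ Subgroup.normalizer (P : Set K), ∀ v ∈ P, v ≠ 1 → w * v = v * w → w = 1) ∧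
    ∃ b : α, b ∉ orbit P a ∧
      (∀ w ∈ stabilizer K a ⊓ Subgroup.normalizer (P : Set K), w • b = b) ∧
      (∀ w ∈ stabilizer K a ⊓ Subgroup.normalizer (P : Set K), ∀ x : α, x ≠ a → x ≠ b →
        w • x = x → w = 1) ∧
      ∀ w ∈ stabilizer K a ⊓ Subgroup.normalizer (P : Set K), ∀ x : α,
        (w • x ∈ orbit P a ↔ x ∈ orbit P a) := by
  obtain ⟨φ, hadd, h0, hinj, hmem, hconj⟩ := exists_zmod_param P hP
  have hblk : ∀ n ∈ Subgroup.normalizer (P : Set K), ∀ x : α, n • x ∈ orbit P x := fun n hn x =>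
    normalizer_smul_mem_orbit hp2 hα P hP hfree heven hn x
  set W := stabilizer K a ⊓ Subgroup.normalizer (P : Set K) with hW
  -- another orbit
  obtain ⟨b₀, hb₀⟩ : ∃ b : α, b ∉ orbit P a := by
    by_contra h
    push Not at h
    have h1 : Fintype.card α ≤ Nat.card P := by
      rw [← Nat.card_eq_fintype_card]
      exact Nat.card_le_card_of_surjective (fun v : P => v • a) h
    rw [hP, hα] at h1
    have := hp.out.pos
    omega
  have hbij := exists_two_orbit_coords hα P hfree hadd h0 hinj hmem hb₀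
  have hphi : ∀ x y : ZMod p, ∀ z : α, φ x • z = φ y • z → x = y := by
    intro x y z e
    by_contra hxy
    refine hfree (φ (x - y)) ((hmem _).2 ⟨_, rfl⟩) (fun h => hxy ?_) (φ y • z) ?_
    · exact sub_eq_zero.1 (hinj (h.trans h0.symm))
    · rw [← mul_smul, ← hadd, sub_add_cancel, e]
  have hW0 : ∀ w ∈ W, ∃ r c : ZMod p, r ≠ 0 ∧ (∀ x, w * φ x * w⁻¹ = φ (r * x)) ∧
      (∀ x, w • φ x • a = φ (r * x) • a) ∧ ∀ x, w • φ x • b₀ = φ (r * x + c) • b₀ := by
    intro w hw
    obtain ⟨r, hr, hrx⟩ := hconj w hw.2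
    obtain ⟨⟨v, hv⟩, hvb⟩ := hblk w hw.2 b₀
    obtain ⟨c, rfl⟩ := (hmem v).1 hv
    have hvb' : φ c • b₀ = w • b₀ := hvb
    refine ⟨r, c, hr, hrx, fun x => ?_, fun x => ?_⟩
    · rw [← hrx, mul_smul, mul_smul, inv_smul_eq_iff.2 (mem_stabilizer_iff.1 hw.1).symm]
    · rw [hadd, mul_smul, hvb', ← hrx, mul_smul, mul_smul, inv_smul_smul]
  choose! r c hr hrx hra hrb using hW0
  -- an element with trivial multiplier is trivial
  have hone : ∀ w ∈ W, r w = 1 → w = 1 := by
    intro w hw h1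
    have hcen : ∀ x, φ x * w = w * φ x := fun x => by
      have := hrx w hw x
      rw [h1, one_mul, mul_inv_eq_iff_eq_mul] at this
      exact this.symm
    have hpow : ∀ (m : ℕ) x, (w ^ m) • φ x • b₀ = φ (x + m * c w) • b₀ := by
      intro m
      induction m with
      | zero => simp
      | succ m ih =>
        intro x
        rw [pow_succ', mul_smul, ih, hrb w hw, h1, one_mul]
        congr 2
        push_cast
        ring
    have hpa : ∀ (m : ℕ) x, (w ^ m) • φ x • a = φ x • a := by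
      intro m
      induction m with
      | zero => simp
      | succ m ih =>
        intro x
        rw [pow_succ', mul_smul, ih, hra w hw, h1, one_mul]
    have hwp : w ^ p = 1 := by
      refine eq_of_smul_eq_smul (α := α) fun z => ?_
      obtain ⟨⟨ε, x⟩, rfl⟩ := hbij.2 z
      rw [one_smul]
      cases ε
      · exact hpa p x
      · show (w ^ p) • φ x • b₀ = φ x • b₀
        rw [hpow, ZMod.natCast_self, zero_mul, add_zero]
    by_contra hw1
    have hwo : orderOf w = p := orderOf_eq_prime hwp hw1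
    apply hsq
    have hnot : w ∉ P := fun hwP => hfree w hwP hw1 a (mem_stabilizer_iff.1 hw.1)
    have hbot : P ⊓ Subgroup.zpowers w = ⊥ := by
      have hd : Nat.card ↥(P ⊓ Subgroup.zpowers w) ∣ p := hP ▸ Subgroup.card_dvd_of_le inf_le_left
      rcases (Nat.dvd_prime hp.out).1 hd with h | h
      · exact Subgroup.card_eq_one.1 h
      · exfalso
        have hz : P ⊓ Subgroup.zpowers w = Subgroup.zpowers w :=
          Subgroup.eq_of_le_of_card_ge inf_le_right (by rw [h, Nat.card_zpowers, hwo])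
        exact hnot ((inf_eq_right.1 hz) (Subgroup.mem_zpowers w))
    let f : P × Subgroup.zpowers w →* K :=
      P.subtype.noncommCoprod (Subgroup.zpowers w).subtype fun v z => by
        obtain ⟨x, hx⟩ := (hmem v).1 v.2
        obtain ⟨i, hi⟩ := Subgroup.mem_zpowers_iff.1 z.2
        show Commute (v : K) (z : K)
        rw [← hx, ← hi]
        exact Commute.zpow_right (hcen x) i
    have hf : Function.Injective f := by
      rw [injective_iff_map_eq_one]
      rintro ⟨v, z⟩ h
      have h' : (v : K) * z = 1 := h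
      have hv : (v : K) ∈ P ⊓ Subgroup.zpowers w :=
        ⟨v.2, eq_inv_of_mul_eq_one_left h' ▸ Subgroup.inv_mem _ z.2⟩
      rw [hbot, Subgroup.mem_bot] at hv
      rw [hv, one_mul] at h'
      exact Prod.ext (Subtype.ext hv) (Subtype.ext h')
    have h := Subgroup.card_dvd_of_injective f hf
    rwa [Nat.card_prod, hP, Nat.card_zpowers, hwo, ← sq] at h
  have hrmul : ∀ w ∈ W, ∀ w' ∈ W, r (w * w') = r w * r w' := by
    intro w hw w' hw'
    have h := hra (w * w') (mul_mem hw hw') 1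
    rw [mul_smul, hra w' hw', hra w hw, mul_one, mul_one] at h
    exact (hphi _ _ _ h).symm
  have hcomm : ∀ w ∈ W, ∀ w' ∈ W, w * w' = w' * w := by
    intro w hw w' hw'
    refine mul_inv_eq_one.1 (hone _ (mul_mem (mul_mem hw hw') (inv_mem (mul_mem hw' hw))) ?_)
    have h := hrmul _ (mul_mem (mul_mem hw hw') (inv_mem (mul_mem hw' hw))) _ (mul_mem hw' hw)
    rw [inv_mul_cancel_right, hrmul w hw w' hw', hrmul w' hw' w hw, mul_comm (r w') (r w)] at h
    exact ((mul_eq_right₀ (mul_ne_zero (hr w hw) (hr w' hw'))).1 h.symm)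
  -- the common fixed point in the other orbit
  have hfix : ∃ b : α, b ∉ orbit P a ∧ ∀ w ∈ W, w • b = b := by
    by_cases hW1 : W = ⊥
    · exact ⟨b₀, hb₀, fun w hw => by rw [hW1, Subgroup.mem_bot] at hw; rw [hw, one_smul]⟩
    obtain ⟨w₀, hw₀, hw₀1⟩ := (Subgroup.bot_or_exists_ne_one W).resolve_left hW1
    have hr1 : r w₀ ≠ 1 := fun e => hw₀1 (hone w₀ hw₀ e)
    set x₀ := c w₀ / (1 - r w₀) with hx₀
    refine ⟨φ x₀ • b₀, fun hmem' => hb₀ ?_, fun w hw => ?_⟩
    · obtain ⟨v, hv⟩ := hmem'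
      refine ⟨⟨φ (-x₀), (hmem _).2 ⟨_, rfl⟩⟩ * v, ?_⟩
      show (⟨φ (-x₀), (hmem _).2 ⟨_, rfl⟩⟩ * v : P) • a = b₀
      rw [mul_smul]
      show φ (-x₀) • v • a = b₀
      rw [show v • a = φ x₀ • b₀ from hv, ← mul_smul, ← hadd, neg_add_cancel, h0, one_smul]
    · have hne : (1 : ZMod p) - r w₀ ≠ 0 := sub_ne_zero.2 (Ne.symm hr1)
      have hw₀x : r w₀ * x₀ + c w₀ = x₀ := by rw [hx₀]; field_simp; ring
      set y := r w * x₀ + c w with hy
      have hwb : w • φ x₀ • b₀ = φ y • b₀ := hrb w hw x₀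
      have hy' : w₀ • φ y • b₀ = φ y • b₀ := by
        rw [← hwb, ← mul_smul, hcomm w₀ hw₀ w hw, mul_smul, hrb w₀ hw₀, hw₀x, hwb]
      rw [hrb w₀ hw₀] at hy'
      have h := hphi _ _ _ hy'
      have hyx : y = x₀ := by
        rw [hx₀, eq_div_iff hne]
        linear_combination -h
      rw [hwb, hyx]
  obtain ⟨b, hb, hbfix⟩ := hfix
  have hbijb := exists_two_orbit_coords hα P hfree hadd h0 hinj hmem hb
  have hrb' : ∀ w ∈ W, ∀ x, w • φ x • b = φ (r w * x) • b := fun w hw x => by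
    rw [← hrx w hw, mul_smul, mul_smul, inv_smul_eq_iff.2 (hbfix w hw).symm]
  refine ⟨fun n hn => ?_, fun w hw v hv hv1 e => ?_, b, hb, hbfix, fun w hw z hza hzb e => ?_,
    fun w hw z => ?_⟩
  · obtain ⟨⟨v, hv⟩, hva⟩ := hblk n hn a
    refine ⟨v, hv, v⁻¹ * n, Subgroup.mem_inf.2 ⟨?_, mul_mem (inv_mem (Subgroup.le_normalizer hv)) hn⟩,
      (mul_inv_cancel_left v n).symm⟩
    rw [mem_stabilizer_iff, mul_smul, ← show v • a = n • a from hva, inv_smul_smul]
  · obtain ⟨x, rfl⟩ := (hmem v).1 hv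
    refine hone w hw ?_
    have h := hrx w hw x
    rw [e, mul_inv_cancel_right] at h
    have hx : x ≠ 0 := fun e0 => hv1 (by rw [e0, h0])
    exact (mul_eq_right₀ hx).1 (hinj h).symm
  · obtain ⟨⟨ε, x⟩, rfl⟩ := hbijb.2 z
    cases ε
    · have hx : x ≠ 0 := fun e0 => hza (by
        show φ x • a = a
        rw [e0, h0, one_smul])
      have e' : w • φ x • a = φ x • a := e
      rw [hra w hw] at e'
      exact hone w hw ((mul_eq_right₀ hx).1 (hphi _ _ _ e'))
    · have hx : x ≠ 0 := fun e0 => hzb (by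
        show φ x • b = b
        rw [e0, h0, one_smul])
      have e' : w • φ x • b = φ x • b := e
      rw [hrb' w hw] at e'
      exact hone w hw ((mul_eq_right₀ hx).1 (hphi _ _ _ e'))
  · have hto : w • z ∈ orbit P z := hblk w hw.2 z
    rw [← orbit_eq_iff] at hto
    rw [← orbit_eq_iff, ← orbit_eq_iff, hto]

end Cfsg.Agent.PermGroups
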