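import Cfsg.Agent.PermGroups.TwicePrimeChars
import Cfsg.Agent.PermGroups.SubdegreeTrace

/-!
The suborbits of a group of even permutations on `2 p` points with a semiregular Sylow subgroup of
order `p`: the projector of the constituent of degree `p` determines the rank and the subdegrees.
-/

set_option autoImplicit false
set_option linter.style.haveILetI false
set_option linter.unusedSectionVars false

namespace Cfsg.Agent.PermGroups

open MulAction
open scoped ComplexConjugate Classical

universe u v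

variable {K : Type u} {α : Type v} [Group K] [Fintype K] [MulAction K α] [FaithfulSMul K α]
  [Fintype α] [DecidableEq α] {p : ℕ} [hp : Fact p.Prime]

/-- If a subgroup has no invariants in a character, the translated sums vanish as well. -/
theorem sum_translate_eq_zero {G : Type u} [Group G] [Fintype G] (P : Subgroup G) {χ : G → ℂ}
    (hχ : Cfsg.IsCharacter G χ) (h : ∑ v : P, χ v = 0) (g : G) : ∑ v : P, χ (v * g) = 0 := by
  obtain ⟨n, ρ, rfl⟩ := hχ
  set A : Module.End ℂ (Fin n → ℂ) := ∑ v : P, ρ (v : G) with hA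
  have hAu : ∀ u : P, ρ (u : G) * A = A := by
    intro u
    rw [hA, Finset.mul_sum]
    exact Fintype.sum_equiv (Equiv.mulLeft u) _ _ fun v => by simp
  have hAA : A * A = (Nat.card P : ℂ) • A := by
    conv_lhs => arg 1; rw [hA]
    rw [Finset.sum_mul, Finset.sum_congr rfl fun u _ => hAu u, Finset.sum_const, Finset.card_univ,
      Nat.card_eq_fintype_card, Nat.cast_smul_eq_nsmul]
  have hc : (Nat.card P : ℂ) ≠ 0 := by exact_mod_cast Nat.card_pos.ne'
  have hidem : IsIdempotentElem ((Nat.card P : ℂ)⁻¹ • A) := by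
    unfold IsIdempotentElem
    rw [smul_mul_smul_comm, hAA, smul_smul, mul_assoc, inv_mul_cancel₀ hc, mul_one]
  have htr : LinearMap.trace ℂ (Fin n → ℂ) A = 0 := by rw [hA, map_sum]; exact h
  have h0 : (Nat.card P : ℂ)⁻¹ • A = 0 := by
    have hp' := LinearMap.IsIdempotentElem.isProj_range _ hidem
    have ht := hp'.trace
    rw [map_smul, htr, smul_zero] at ht
    have : Module.finrank ℂ (LinearMap.range ((Nat.card P : ℂ)⁻¹ • A)) = 0 := by exact_mod_cast ht.symm
    exact LinearMap.range_eq_bot.1 (Submodule.finrank_eq_zero.1 this)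
  have hA0 : A = 0 := (smul_eq_zero.1 h0).resolve_left (inv_ne_zero hc)
  have : ∑ v : P, ρ.character (v * g) = LinearMap.trace ℂ (Fin n → ℂ) (A * ρ g) := by
    rw [hA, Finset.sum_mul, map_sum]
    exact Finset.sum_congr rfl fun v _ => by simp [Representation.character]
  rw [this, hA0, zero_mul, map_zero]

theorem charProj_permRep_apply (χ : K → ℂ) (F : α → ℂ) (x : α) :
    charProj (Cfsg.permRep ℂ K α) χ F x = χ 1 * (Nat.card K : ℂ)⁻¹ * ∑ g : K, χ g * F (g • x) := by
  simp [charProj, LinearMap.sum_apply, permRep_apply']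

set_option maxHeartbeats 4000000 in
/-- Rank and subdegrees. -/
theorem twice_prime_rank (hp2 : p ≠ 2) (hα : Fintype.card α = 2 * p) [IsPretransitive K α]
    (hcomm : IsPretransitive (commutator K) α) (P : Subgroup K) (hP : Nat.card P = p)
    (hfree : ∀ v ∈ P, v ≠ 1 → ∀ x : α, v • x ≠ x)
    (heven : ∀ k : K, Equiv.Perm.sign (MulAction.toPerm k : Equiv.Perm α) = 1)
    (hsq : ¬ p ^ 2 ∣ Nat.card K) (a : α)
    (hmove : ∀ b : α, b ≠ a → ∃ k ∈ stabilizer K a, k • b ≠ b) :
    Nat.card (orbitRel.Quotient (stabilizer K a) α) = 2 ∨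
    (Nat.card (orbitRel.Quotient (stabilizer K a) α) = 3 ∧
      ∃ m : ℕ, 0 < m ∧ p = 2 * m ^ 2 + 2 * m + 1 ∧ ∀ b : α, b ≠ a →
        Nat.card (orbit (stabilizer K a) b) = m * (2 * m + 1) ∨
        Nat.card (orbit (stabilizer K a) b) = (m + 1) * (2 * m + 1)) := by
  rcases twice_prime_constituents hp2 hα hcomm P hP hfree heven hsq a with h2 |
    ⟨χ₁, hdeg, hmult, hmf, hzero, hw2, hcases⟩
  · exact Or.inl h2
  haveI : Nonempty α := ⟨a⟩
  set ρ := Cfsg.permRep ℂ K α with hρ
  let one : Cfsg.IrrCharacter K := ⟨fun _ => 1, Chars.isIrrCharacter_one⟩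
  have hp3 : 3 ≤ p := by have := hp.out.two_le; omega
  have hχ1one : χ₁ ≠ one := by
    intro e
    rw [e] at hdeg
    have : (1 : ℂ) = p := hdeg
    have : 1 = p := by exact_mod_cast this
    omega
  -- the sign of a point and its sums over the suborbits
  set ε : α → ℤ := fun y => if y ∈ orbit P a then 1 else -1 with hε
  set F : α → ℂ := fun y => (ε y : ℂ) with hF
  set Γ : α → Finset α := fun b => Finset.univ.filter fun y => y ∈ orbit (stabilizer K a) b with hΓ
  set s : α → ℤ := fun b => ∑ y ∈ Γ b, ε y with hs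
  set k : α → ℕ := fun b => (Γ b).card with hk
  have hkcard : ∀ b, Nat.card (orbit (stabilizer K a) b) = k b := by
    intro b
    rw [Nat.card_coe_set_eq, hk]
    show _ = (Γ b).card
    rw [← Set.ncard_coe_finset]
    congr 1
    ext y
    simp [hΓ]
  have hself : ∀ b, b ∈ Γ b := fun b => by simp [hΓ]
  have hkpos : ∀ b, 0 < k b := fun b => Finset.card_pos.2 ⟨b, hself b⟩
  have hΓmem : ∀ {b y}, y ∈ Γ b → Γ y = Γ b := by
    intro b y hy
    simp only [hΓ, Finset.mem_filter, Finset.mem_univ, true_and] at hy ⊢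
    rw [orbit_eq_iff.2 hy]
  have hne_a : ∀ {b y}, b ≠ a → y ∈ Γ b → y ≠ a := by
    intro b y hb hy e
    rw [e] at hy
    have h : b ∈ Γ a := hΓmem hy ▸ hself b
    simp only [hΓ, Finset.mem_filter, Finset.mem_univ, true_and] at h
    obtain ⟨⟨g, hg⟩, rfl⟩ := h
    exact hb hg
  have hεsq : ∀ y, ε y = 1 ∨ ε y = -1 := fun y => by
    rw [hε]; dsimp only; split_ifs <;> simp
  have hεP : ∀ (v : P) (y : α), ε ((v : K) • y) = ε y := by
    intro v y
    rw [hε]
    dsimp only
    refine if_congr ?_ rfl rfl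
    rw [← orbit_eq_iff, ← orbit_eq_iff, show ((v : K) • y) = v • y from rfl, orbit_smul]
  have hεsum : ∑ y, ε y = 0 := by
    have hB : (Finset.univ.filter fun y => y ∈ orbit P a).card = p := by
      have hbij : Function.Bijective (fun v : P => (⟨v • a, mem_orbit a v⟩ : orbit P a)) := by
        refine ⟨fun u v e => ?_, fun ⟨y, v, hv⟩ => ⟨v, Subtype.ext hv⟩⟩
        by_contra hne
        refine hfree _ (v⁻¹ * u).2 (fun e0 => hne ?_) a ?_
        · exact (inv_mul_eq_one.1 (Subtype.ext e0 : v⁻¹ * u = 1)).symm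
        · show (v⁻¹ * u) • a = a
          rw [mul_smul, inv_smul_eq_iff]
          exact congrArg Subtype.val e
      conv_rhs => rw [← hP, Nat.card_eq_of_bijective _ hbij, Nat.card_coe_set_eq]
      rw [← Set.ncard_coe_finset]
      congr 1
      ext y; simp
    have hB' : (Finset.univ.filter fun y => ¬ y ∈ orbit P a).card = p := by
      have := Finset.card_filter_add_card_filter_not (s := Finset.univ) (fun y : α => y ∈ orbit P a)
      rw [hB, Finset.card_univ, hα] at this
      omega
    rw [hε, Finset.sum_ite, Finset.sum_const, Finset.sum_const, hB, hB']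
    simp
  -- the projector of `χ₁` fixes the sign function
  have hfix : charProj ρ (χ₁ : K → ℂ) F = F := by
    have hall : ∀ χ : Cfsg.IrrCharacter K, χ ≠ χ₁ → charProj ρ (χ : K → ℂ) F = 0 := by
      intro χ hne
      by_cases h0 : classInner ρ.character (χ : K → ℂ) = 0
      · rw [charProj_eq_zero _ χ.2 h0, LinearMap.zero_apply]
      by_cases h1 : χ = one
      · subst h1
        funext x
        rw [apply_eq_sum_entry]
        simp only [hρ, show ((one : Cfsg.IrrCharacter K) : K → ℂ) = fun _ => 1 from rfl,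
          entry_charProj_one, Pi.zero_apply, ← Finset.mul_sum, hF]
        rw [← Int.cast_sum, hεsum, Int.cast_zero, mul_zero]
      have hz := hzero χ hne (fun e => h1 (Subtype.ext e)) h0
      funext x
      rw [hρ, charProj_permRep_apply, Pi.zero_apply]
      refine mul_eq_zero_of_right _ ?_
      set X := ∑ g : K, (χ : K → ℂ) g * F (g • x) with hX
      have hv : ∀ v : P, X = ∑ g : K, (χ : K → ℂ) ((v : K) * g) * F (g • x) := by
        intro v
        rw [hX]
        refine (Fintype.sum_equiv (Equiv.mulLeft (v : K)) _ _ fun g => ?_).symm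
        show (χ : K → ℂ) ((v : K) * g) * F (g • x) = (χ : K → ℂ) ((v : K) * g) * F (((v : K) * g) • x)
        simp only [hF, mul_smul, hεP]
      have h : (Nat.card P : ℂ) * X = 0 := by
        rw [Nat.card_eq_fintype_card, ← Finset.card_univ, ← nsmul_eq_mul, ← Finset.sum_const,
          Finset.sum_congr rfl fun v _ => hv v, Finset.sum_comm]
        refine Finset.sum_eq_zero fun g _ => ?_
        rw [← Finset.sum_mul, sum_translate_eq_zero P (Chars.isCharacter_of_isIrr χ.2) hz g, zero_mul]
      exact (mul_eq_zero.1 h).resolve_left (by rw [hP]; exact_mod_cast hp.out.ne_zero)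
    have h := LinearMap.congr_fun (sum_charProj ρ) F
    rw [LinearMap.sum_apply, Finset.sum_eq_single χ₁ (fun χ _ hne => hall χ hne) (by simp)] at h
    simpa using h
  set E := charProj ρ (χ₁ : K → ℂ) with hE
  set e : α → α → ℂ := fun x y => entry E x y with he
  have hEinv : ∀ (g : K) x y, e (g • x) (g • y) = e x y :=
    (commute_iff_entry E).1 fun g => charProj_commute ρ χ₁.2 g
  have hherm : ∀ x y, e x y = conj (e y x) := by
    intro x y
    simp only [he, hE, hρ]
    rw [entry_charProj_swap χ₁.2, entry_charProj, entry_charProj,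
      Chars.irr_apply_one_conj (Chars.isCharacter_of_isIrr χ₁.2), map_mul, map_mul, map_inv₀, map_natCast,
      map_sum, Chars.irr_apply_one_conj (Chars.isCharacter_of_isIrr χ₁.2)]
    congr 1
    exact Finset.sum_congr rfl fun g _ => by split_ifs <;> simp
  have hcard2 : (Fintype.card α : ℂ) = 2 * p := by rw [hα]; push_cast; rfl
  have hpC : (p : ℂ) ≠ 0 := Nat.cast_ne_zero.2 hp.out.ne_zero
  have hdiag : ∀ x, e x x = 1 / 2 := by
    intro x
    have hc : ∀ y, e y y = e x x := fun y => by
      obtain ⟨g, rfl⟩ := exists_smul_eq K x y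
      exact hEinv g x x
    have h := trace_charProj ρ χ₁.2
    rw [hmult, mul_one, hdeg, trace_eq_sum_entry, Finset.sum_congr rfl fun y _ => hc y,
      Finset.sum_const, Finset.card_univ, nsmul_eq_mul, hcard2] at h
    rw [eq_div_iff two_ne_zero]
    exact mul_left_cancel₀ hpC (by linear_combination h)
  -- the suborbit operators
  set T : α → Module.End ℂ (α → ℂ) := fun b => relOp (orbRel (G := K) a b) with hT
  have hTcomm : ∀ b g, T b * ρ g = ρ g * T b := fun b => relOp_commute (orbRel_smul a b)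
  have hTE : ∀ b, T b * E = (s b : ℂ) • E := by
    intro b
    obtain ⟨c, hc⟩ := exists_scalar_charProj ρ hmf (hTcomm b) χ₁.2
    rw [hc]
    congr 1
    have h := congrFun (LinearMap.congr_fun hc F) a
    rw [Module.End.mul_apply, hfix, LinearMap.smul_apply, hfix, Pi.smul_apply, smul_eq_mul,
      apply_eq_sum_entry] at h
    have hFa : F a = 1 := by simp [hF, hε]
    simp only [hT, entry_relOp, orbRel_self_iff, ite_mul, one_mul, zero_mul, hFa, mul_one] at h
    rw [← Finset.sum_filter] at h
    rw [← h, hs]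
    push_cast
    exact Finset.sum_congr (by rw [hΓ]) fun y _ => rfl
  have hentry : ∀ b, b ≠ a → e b a = (s b : ℂ) / (2 * k b) ∧ e a b = (s b : ℂ) / (2 * k b) := by
    intro b hb
    have h : LinearMap.trace ℂ (α → ℂ) (T b * E) = (s b : ℂ) * p := by
      rw [hTE, map_smul, trace_charProj ρ χ₁.2, hmult, hdeg, smul_eq_mul, mul_one]
    rw [Module.End.mul_eq_comp, trace_eq_sum_entry] at h
    simp only [entry_comp] at h
    have hterm : ∀ x z, entry (T b) x z * entry E z x = entry (T b) x z * e b a := by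
      intro x z
      simp only [hT, entry_relOp]
      split_ifs with hR
      · obtain ⟨g, rfl, rfl⟩ := hR
        rw [one_mul, one_mul]
        exact hEinv g b a
      · simp
    simp only [hterm, ← Finset.sum_mul] at h
    rw [Finset.sum_congr rfl fun x _ => sum_entry_orbRel (G := K) a b x, Finset.sum_const,
      Finset.card_univ, nsmul_eq_mul, hcard2, hkcard] at h
    have hkC : (k b : ℂ) ≠ 0 := Nat.cast_ne_zero.2 (hkpos b).ne'
    have h1 : e b a = (s b : ℂ) / (2 * k b) := by
      rw [eq_div_iff (mul_ne_zero two_ne_zero hkC)]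
      exact mul_left_cancel₀ hpC (by linear_combination h)
    refine ⟨h1, ?_⟩
    rw [hherm, h1, map_div₀, map_mul, map_ofNat, map_natCast, map_intCast]
  have hidem : ∑ y ∈ Finset.univ.erase a, ((s y : ℚ) / k y) ^ 2 = 1 := by
    have h := congrArg (fun S => entry S a a) ((charProj_mul ρ χ₁.2 χ₁.2).1 rfl)
    simp only [Module.End.mul_eq_comp, entry_comp] at h
    rw [show entry (charProj ρ (χ₁ : K → ℂ)) a a = e a a from rfl, hdiag,
      ← Finset.add_sum_erase _ _ (Finset.mem_univ a)] at h
    rw [show entry (charProj ρ (χ₁ : K → ℂ)) a a = e a a from rfl, hdiag,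
      Finset.sum_congr rfl fun y hy => show entry (charProj ρ (χ₁ : K → ℂ)) a y * entry (charProj ρ (χ₁ : K → ℂ)) y a =
        ((((s y : ℚ) / k y) ^ 2 / 4 : ℚ) : ℂ) by
        rw [show entry (charProj ρ (χ₁ : K → ℂ)) a y = e a y from rfl,
          show entry (charProj ρ (χ₁ : K → ℂ)) y a = e y a from rfl,
          (hentry y (Finset.ne_of_mem_erase hy)).1, (hentry y (Finset.ne_of_mem_erase hy)).2]
        push_cast
        ring,
      ← Rat.cast_sum, ← Finset.sum_div] at h
    have h' : ((∑ y ∈ Finset.univ.erase a, ((s y : ℚ) / k y) ^ 2 : ℚ) : ℂ) = ((1 : ℚ) : ℂ) := by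
      push_cast at h ⊢
      linear_combination 4 * h
    exact_mod_cast h'
  have hsk : ∀ {b y}, y ∈ Γ b → s y = s b ∧ k y = k b := fun hy => by
    simp only [hs, hk, hΓmem hy, and_self]
  have horb : ∀ b, b ≠ a → ∑ y ∈ Γ b, ((s y : ℚ) / k y) ^ 2 = (s b : ℚ) ^ 2 / k b := by
    intro b hb
    rw [Finset.sum_congr rfl fun y hy => by rw [(hsk hy).1, (hsk hy).2], Finset.sum_const, nsmul_eq_mul]
    have hkQ : (k b : ℚ) ≠ 0 := Nat.cast_ne_zero.2 (hkpos b).ne'
    show (k b : ℚ) * _ = _
    field_simp
  have hbound : ∀ b, b ≠ a → s b ^ 2 ≤ k b := by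
    intro b hb
    have h : (s b : ℚ) ^ 2 / k b ≤ 1 := by
      rw [← horb b hb, ← hidem]
      exact Finset.sum_le_sum_of_subset_of_nonneg
        (fun y hy => Finset.mem_erase.2 ⟨hne_a hb hy, Finset.mem_univ _⟩) fun y _ _ => sq_nonneg _
    rw [div_le_one (by exact_mod_cast hkpos b)] at h
    exact_mod_cast h
  have hk2 : ∀ b, b ≠ a → 2 ≤ k b := by
    intro b hb
    by_contra hlt
    have h1 : (Γ b).card = 1 := by have := hkpos b; simp only [hk] at this hlt; omega
    obtain ⟨y, hy⟩ := Finset.card_eq_one.1 h1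
    obtain ⟨g, hg, hgb⟩ := hmove b hb
    have h2 : g • b ∈ Γ b := by
      simp only [hΓ, Finset.mem_filter, Finset.mem_univ, true_and]
      exact ⟨⟨g, hg⟩, rfl⟩
    have h3 := hself b
    rw [hy, Finset.mem_singleton] at h2 h3
    exact hgb (h2.trans h3.symm)
  have hnpure : ∀ b, b ≠ a → s b ^ 2 ≠ (k b : ℤ) ^ 2 := by
    intro b hb e
    have := hbound b hb
    have h2 : (2 : ℤ) ≤ k b := by exact_mod_cast hk2 b hb
    nlinarith
  -- the partition of the points
  haveI : Fintype (orbitRel.Quotient (stabilizer K a) α) := Fintype.ofFinite _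
  set qa : orbitRel.Quotient (stabilizer K a) α := Quotient.mk'' a with hqa
  have hmk : ∀ (y : α) (q : orbitRel.Quotient (stabilizer K a) α),
      (Quotient.mk'' y = q) ↔ y ∈ orbit (stabilizer K a) q.out := by
    intro y q
    conv_lhs => rw [← Quotient.out_eq' q]
    rw [Quotient.eq'']
    rfl
  have hout : ∀ q, q ≠ qa → q.out ≠ a := fun q hq e =>
    hq ((Quotient.out_eq' q).symm.trans (congrArg Quotient.mk'' e))
  have hpart : ∀ g : α → ℤ, ∑ y ∈ Finset.univ.erase a, g y = ∑ q ∈ Finset.univ.erase qa, ∑ y ∈ Γ q.out, g y := by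
    intro g
    rw [← Finset.sum_fiberwise_of_maps_to (g := fun y : α => (Quotient.mk'' y : orbitRel.Quotient (stabilizer K a) α))
      (t := Finset.univ.erase qa)]
    · refine Finset.sum_congr rfl fun q hq => Finset.sum_congr ?_ fun _ _ => rfl
      ext y
      simp only [Finset.mem_filter, Finset.mem_erase, Finset.mem_univ, and_true, hΓ, true_and, hmk]
      exact ⟨fun h => h.2, fun h => ⟨hne_a (hout q (Finset.ne_of_mem_erase hq)) (by simpa [hΓ] using h), h⟩⟩
    · intro y hy
      refine Finset.mem_erase.2 ⟨fun e => Finset.ne_of_mem_erase hy ?_, Finset.mem_univ _⟩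
      have h : y ∈ orbit (stabilizer K a) a := Quotient.exact' e
      obtain ⟨⟨g, hg⟩, rfl⟩ := h
      exact hg
  have hcardq : (Finset.univ.erase qa).card = Nat.card (orbitRel.Quotient (stabilizer K a) α) - 1 := by
    rw [Finset.card_erase_of_mem (Finset.mem_univ _), Finset.card_univ, Nat.card_eq_fintype_card]
  have hksum : ∑ q ∈ Finset.univ.erase qa, (k q.out : ℤ) = 2 * p - 1 := by
    have h := hpart fun _ => 1
    simp only [Finset.sum_const, nsmul_eq_mul, mul_one] at h
    rw [← h, Finset.card_erase_of_mem (Finset.mem_univ _), Finset.card_univ, hα]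
    have := hp.out.one_lt
    push_cast [Nat.cast_sub (by omega : 1 ≤ 2 * p)]
    ring
  rcases hcases with ⟨h3, R, hRdeg, hR⟩ | ⟨m, hm, hrank⟩
  · -- rank three
    right
    refine ⟨h3, ?_⟩
    obtain ⟨q₁, q₂, hne, hqq⟩ := Finset.card_eq_two.1 (show (Finset.univ.erase qa).card = 2 by rw [hcardq, h3])
    have hq1 : q₁ ≠ qa := Finset.ne_of_mem_erase (hqq.symm ▸ Finset.mem_insert_self _ _ : q₁ ∈ Finset.univ.erase qa)
    have hq2 : q₂ ≠ qa := Finset.ne_of_mem_erase
      (hqq.symm ▸ Finset.mem_insert_of_mem (Finset.mem_singleton_self _) : q₂ ∈ Finset.univ.erase qa)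
    set b₁ := q₁.out with hb₁
    set b₂ := q₂.out with hb₂
    have hb1 : b₁ ≠ a := hout _ hq1
    have hb2 : b₂ ≠ a := hout _ hq2
    rw [hqq, Finset.sum_pair hne] at hksum
    have hssum : s b₁ + s b₂ = -1 := by
      have h := hpart ε
      rw [hqq, Finset.sum_pair hne] at h
      rw [show s b₁ + s b₂ = ∑ y ∈ Γ b₁, ε y + ∑ y ∈ Γ b₂, ε y from rfl, ← h,
        Finset.sum_erase_eq_sub (Finset.mem_univ a), hεsum]
      simp [hε]
    have hid : (s b₁ : ℚ) ^ 2 / k b₁ + (s b₂ : ℚ) ^ 2 / k b₂ = 1 := by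
      rw [← horb b₁ hb1, ← horb b₂ hb2, ← hidem]
      rw [← Finset.sum_union]
      · refine Finset.sum_congr ?_ fun _ _ => rfl
        ext y
        simp only [Finset.mem_union, Finset.mem_erase, Finset.mem_univ, and_true]
        refine ⟨fun h => h.elim (hne_a hb1) (hne_a hb2), fun hy => ?_⟩
        have : (Quotient.mk'' y : orbitRel.Quotient (stabilizer K a) α) ∈ Finset.univ.erase qa := by
          refine Finset.mem_erase.2 ⟨fun e => hy ?_, Finset.mem_univ _⟩
          obtain ⟨⟨g, hg⟩, rfl⟩ : y ∈ orbit (stabilizer K a) a := Quotient.exact' e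
          exact hg
        rw [hqq, Finset.mem_insert, Finset.mem_singleton, hmk, hmk] at this
        simpa [hΓ] using this
      · rw [Finset.disjoint_left]
        intro y h1 h2
        simp only [hΓ, Finset.mem_filter, Finset.mem_univ, true_and, ← hmk, hb₁, hb₂] at h1 h2
        exact hne (h1.symm.trans h2)
    have hdvd : ∀ b, b ≠ a → ((p - 1 : ℕ) : ℤ) ∣ (k b : ℤ) + s b := by
      intro b hb
      obtain ⟨x, hx, htr⟩ := exists_integral_trace ρ R.2 (T b) (hTcomm b) (relOp_isIntegral _)
      have hRone : R ≠ one := by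
        intro e
        rw [e] at hRdeg
        have h1 : (1 : ℂ) = ((p - 1 : ℕ) : ℂ) := hRdeg
        have : 1 = p - 1 := by exact_mod_cast h1
        omega
      have hRχ : R ≠ χ₁ := by
        intro e
        rw [e, hdeg] at hRdeg
        have : p = p - 1 := by exact_mod_cast hRdeg
        omega
      have hsum : LinearMap.trace ℂ (α → ℂ) (T b) =
          ∑ χ ∈ ({one, χ₁, R} : Finset (Cfsg.IrrCharacter K)), LinearMap.trace ℂ (α → ℂ) (T b * charProj ρ (χ : K → ℂ)) := by
        rw [Finset.sum_subset (Finset.subset_univ _) fun χ _ hχ => ?_, ← map_sum, ← Finset.mul_sum,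
          sum_charProj, mul_one]
        simp only [Finset.mem_insert, Finset.mem_singleton, not_or] at hχ
        by_cases h0 : classInner ρ.character (χ : K → ℂ) = 0
        · rw [charProj_eq_zero _ χ.2 h0, mul_zero, map_zero]
        · rcases hR χ h0 with h | h | h
          · exact absurd (Subtype.ext h) hχ.1
          · exact absurd h hχ.2.1
          · exact absurd h hχ.2.2
      rw [Finset.sum_insert (by simp [hχ1one.symm, hRone.symm]), Finset.sum_pair hRχ.symm] at hsum
      rw [htr, show LinearMap.trace ℂ (α → ℂ) (T b * charProj ρ ((one : Cfsg.IrrCharacter K) : K → ℂ)) = (k b : ℂ) by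
          rw [← hkcard]; exact trace_relOp_mul_one a b,
        hTE, map_smul, trace_charProj ρ χ₁.2, hmult, hdeg, hRdeg, smul_eq_mul,
        show LinearMap.trace ℂ (α → ℂ) (T b) = 0 from trace_relOp_orbRel hb] at hsum
      have hd := dvd_of_integral_mul (f := ((p - 1 : ℕ) : ℤ)) (d := -((k b : ℤ) + p * s b)) hx (by
        push_cast
        push_cast at hsum
        linear_combination -hsum)
      rw [dvd_neg] at hd
      rw [show (k b : ℤ) + s b = ((k b : ℤ) + p * s b) - ((p - 1 : ℕ) : ℤ) * s b by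
        push_cast [Nat.cast_sub hp.out.one_le]; ring]
      exact dvd_sub hd (dvd_mul_right _ _)
    have hhalf : ∀ b, b ≠ a → ∃ c : ℕ, (k b : ℤ) + s b = 2 * c := by
      intro b _
      refine ⟨((Γ b).filter fun y => y ∈ orbit P a).card, ?_⟩
      rw [Finset.card_filter, Nat.cast_sum, Finset.mul_sum, hk, hs]
      dsimp only
      rw [Finset.card_eq_sum_ones, Nat.cast_sum, ← Finset.sum_add_distrib]
      refine Finset.sum_congr rfl fun y _ => ?_
      rw [hε]; dsimp only
      split_ifs <;> simp
    obtain ⟨h, hh⟩ : ∃ h : ℕ, p = 2 * h + 1 := hp.out.odd_of_ne_two hp2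
    have hone : ∀ b b' : α, b ≠ a → b' ≠ a → (k b : ℤ) + k b' = 2 * p - 1 → s b + s b' = -1 →
        (k b : ℤ) + s b = 2 * h := by
      intro b b' hb hb' hk' hs'
      obtain ⟨c, hc⟩ := hhalf b hb
      obtain ⟨c', hc'⟩ := hhalf b' hb'
      have hh' : (p : ℤ) = 2 * h + 1 := by exact_mod_cast hh
      have hsum' : (c : ℤ) + c' = 2 * h := by linarith
      have hd := hdvd b hb
      rw [hc, show ((p - 1 : ℕ) : ℤ) = 2 * (h : ℤ) by omega, mul_dvd_mul_iff_left (two_ne_zero)] at hd
      obtain ⟨z, hz⟩ := hd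
      have hhpos : (1 : ℤ) ≤ h := by omega
      have hz0 : 0 ≤ z := by nlinarith
      have hz2 : z ≤ 2 := by nlinarith
      interval_cases z
      · exact absurd (by rw [show s b = -(k b : ℤ) by linarith, neg_sq]) (hnpure b hb)
      · linarith
      · exact absurd (by rw [show s b' = -(k b' : ℤ) by linarith, neg_sq]) (hnpure b' hb')
    have e1 := hone b₁ b₂ hb1 hb2 hksum hssum
    have e2 := hone b₂ b₁ hb2 hb1 (by linarith) (by linarith)
    have hk1 : (0 : ℤ) < k b₁ := by exact_mod_cast hkpos b₁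
    have hk2' : (0 : ℤ) < k b₂ := by exact_mod_cast hkpos b₂
    have hid' : s b₁ ^ 2 * (k b₂ : ℤ) + s b₂ ^ 2 * (k b₁ : ℤ) = (k b₁ : ℤ) * k b₂ := by
      have hq1' : (k b₁ : ℚ) ≠ 0 := Nat.cast_ne_zero.2 (hkpos b₁).ne'
      have hq2' : (k b₂ : ℚ) ≠ 0 := Nat.cast_ne_zero.2 (hkpos b₂).ne'
      field_simp at hid
      qify
      linear_combination hid
    have hh' : (p : ℤ) = 2 * h + 1 := by exact_mod_cast hh
    set d : ℤ := (k b₁ : ℤ) - 2 * h with hd
    have hs1 : s b₁ = -d := by linarith
    have hk2e : (k b₂ : ℤ) = 2 * h + 1 - d := by linarith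
    have hs2 : s b₂ = d - 1 := by linarith
    have hk1e : (k b₁ : ℤ) = 2 * h + d := by linarith
    rw [hs1, hs2, hk1e, hk2e] at hid'
    have hh1 : (h : ℤ) = d * (d - 1) := by
      have h1 : (2 * (h : ℤ)) * (2 * d ^ 2 - 2 * d + 1) = (2 * (h : ℤ)) * (2 * h + 1) := by linear_combination hid'
      have h2 := mul_left_cancel₀ (by omega : (2 * (h : ℤ)) ≠ 0) h1
      linarith
    have hall : ∀ b, b ≠ a → k b = k b₁ ∨ k b = k b₂ := by
      intro b hb
      have : (Quotient.mk'' b : orbitRel.Quotient (stabilizer K a) α) ∈ Finset.univ.erase qa := by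
        refine Finset.mem_erase.2 ⟨fun e => hb ?_, Finset.mem_univ _⟩
        obtain ⟨⟨g, hg⟩, rfl⟩ : b ∈ orbit (stabilizer K a) a := Quotient.exact' e
        exact hg
      rw [hqq, Finset.mem_insert, Finset.mem_singleton, hmk, hmk] at this
      exact this.imp (fun h => (hsk (by simpa [hΓ] using h)).2) fun h => (hsk (by simpa [hΓ] using h)).2
    rcases lt_trichotomy d 1 with hd1 | hd1 | hd1
    · obtain ⟨m, hm⟩ : ∃ m : ℕ, (m : ℤ) = -d := ⟨(-d).toNat, by omega⟩
      have hm0 : 0 < m := by
        rcases Nat.eq_zero_or_pos m with e | e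
        · subst e; simp at hm; rw [hm] at hh1; omega
        · exact e
      refine ⟨m, hm0, ?_, fun b hb => ?_⟩
      · zify; rw [hh', hh1, hm]; ring
      · have hdm : d = -(m : ℤ) := by linarith
        rw [hkcard]
        rcases hall b hb with e | e
        · left; zify; rw [e, hk1e, hh1, hdm]; ring
        · right; zify; rw [e, hk2e, hh1, hdm]; ring
    · rw [hd1] at hh1; simp at hh1; omega
    · obtain ⟨m, hm⟩ : ∃ m : ℕ, (m : ℤ) = d - 1 := ⟨(d - 1).toNat, by omega⟩
      refine ⟨m, by omega, ?_, fun b hb => ?_⟩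
      · have hdm : d = (m : ℤ) + 1 := by linarith
        zify; rw [hh', hh1, hdm]; ring
      · have hdm : d = (m : ℤ) + 1 := by linarith
        rw [hkcard]
        rcases hall b hb with e | e
        · right; zify; rw [e, hk1e, hh1, hdm]; ring
        · left; zify; rw [e, hk2e, hh1, hdm]; ring
  · -- the other rank is impossible
    exfalso
    obtain ⟨-, -, b₀, hb₀, hWb, hWfree, hWblk⟩ := normalizer_stabilizer_spec hp2 hα P hP hfree heven hsq a
    set W := stabilizer K a ⊓ Subgroup.normalizer (P : Set K) with hW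
    set w := Nat.card W with hw
    have hb0a : b₀ ≠ a := fun e => hb₀ (by rw [e]; exact mem_orbit_self a)
    set qb : orbitRel.Quotient (stabilizer K a) α := Quotient.mk'' b₀ with hqb
    have hqab : qb ≠ qa := by
      intro e
      obtain ⟨⟨g, hg⟩, hgb⟩ : b₀ ∈ orbit (stabilizer K a) a := Quotient.exact' e
      exact hb0a (hgb.symm.trans hg)
    have hbig : ∀ q ∈ (Finset.univ.erase qa).erase qb, 2 * (w : ℤ) ≤ k q.out := by
      intro q hq
      obtain ⟨hqb', hqa'⟩ := Finset.mem_erase.1 hq
      set y := q.out with hy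
      have hya : y ≠ a := hout q (Finset.ne_of_mem_erase hqa')
      have hnb : ∀ z ∈ Γ y, z ≠ b₀ := by
        intro z hz e
        subst e
        exact hqb' (((hmk z q).2 (by simpa [hΓ, hy] using hz)).symm)
      have horbW : ∀ z ∈ Γ y, Nat.card (orbit W z) = w := by
        intro z hz
        refine (Nat.card_eq_of_bijective (fun x : W => (⟨x • z, mem_orbit z x⟩ : orbit W z)) ⟨fun x x' e => ?_,
          fun ⟨u, x, hx⟩ => ⟨x, Subtype.ext hx⟩⟩).symm
        have e' : (x : K) • z = (x' : K) • z := congrArg Subtype.val e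
        have h1 := hWfree ((x'⁻¹ * x : W) : K) (x'⁻¹ * x).2 z (hne_a hya hz) (hnb z hz) (by
          rw [Subgroup.coe_mul, Subgroup.coe_inv, mul_smul, inv_smul_eq_iff, e'])
        exact (inv_mul_eq_one.1 (Subtype.ext h1 : x'⁻¹ * x = 1)).symm
      have hdw : w ∣ k y := by
        rw [← hkcard]
        refine dvd_natCard_of_invariant (H := W) _ (fun x z hz => ?_) w fun z hz => (horbW z (by simpa [hΓ] using hz)).symm.dvd
        obtain ⟨g, rfl⟩ := hz
        refine ⟨⟨x, x.2.1⟩ * g, ?_⟩
        exact mul_smul (⟨(x : K), x.2.1⟩ : stabilizer K a) g y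
      obtain ⟨c, hc⟩ := hdw
      have hkp := hkpos y
      rcases (show c = 1 ∨ 2 ≤ c by
        rcases c with _ | _ | c
        · rw [mul_zero] at hc; omega
        · exact Or.inl rfl
        · exact Or.inr (by omega)) with rfl | hc2
      · exfalso
        have hsub : orbit W y = orbit (stabilizer K a) y := by
          refine Set.eq_of_subset_of_ncard_le ?_ ?_ (Set.toFinite _)
          · rintro z ⟨x, rfl⟩
            exact ⟨⟨x, x.2.1⟩, rfl⟩
          · rw [← Nat.card_coe_set_eq, ← Nat.card_coe_set_eq, horbW y (hself y), hkcard, hc, mul_one]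
        have hsame : ∀ z ∈ Γ y, ε z = ε y := by
          intro z hz
          simp only [hΓ, Finset.mem_filter, Finset.mem_univ, true_and] at hz
          rw [← hsub] at hz
          obtain ⟨x, rfl⟩ := hz
          rw [hε]
          dsimp only
          exact if_congr (hWblk x x.2 y) rfl rfl
        apply hnpure y hya
        rw [show s y = ∑ z ∈ Γ y, ε z from rfl, Finset.sum_congr rfl hsame, Finset.sum_const, nsmul_eq_mul, mul_pow]
        rcases hεsq y with e | e <;> rw [e] <;> simp [hk]
      · rw [hc]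
        push_cast
        nlinarith
    have hb0k : (2 : ℤ) ≤ k qb.out := by exact_mod_cast hk2 _ (hout qb hqab)
    rw [← Finset.add_sum_erase _ _ (Finset.mem_erase.2 ⟨hqab, Finset.mem_univ _⟩)] at hksum
    have hrest := Finset.card_nsmul_le_sum ((Finset.univ.erase qa).erase qb) (fun q => (k q.out : ℤ)) _ hbig
    rw [Finset.card_erase_of_mem (Finset.mem_erase.2 ⟨hqab, Finset.mem_univ _⟩), hcardq, hrank,
      show 2 + m - 1 - 1 = m by omega, nsmul_eq_mul] at hrest
    have hm' : (m : ℤ) * w = p - 1 := by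
      have h1 : ((m * w : ℕ) : ℤ) = ((p - 1 : ℕ) : ℤ) := congrArg Nat.cast hm
      push_cast [Nat.cast_sub hp.out.one_le] at h1
      exact h1
    nlinarith

end Cfsg.Agent.PermGroups
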