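import Cfsg.Agent.PermGroups.TwicePrimeSuborbits
import Cfsg.Agent.PermGroups.JordanCycle
import Cfsg.Agent.PermGroups.NormalTransitive
import Cfsg.Agent.PermGroups.Basic

/-!
Primitive groups of degree `2 p`: reduction to the even permutations with a semiregular Sylow
subgroup of order `p`.
-/

set_option autoImplicit false
set_option linter.style.haveILetI false
set_option linter.unusedSectionVars false

namespace Cfsg.Agent.PermGroups

open MulAction Equiv

/-- A transitive group of rank at most two is doubly transitive. -/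
theorem two_pretransitive_of_rank_le_two {G α : Type*} [Group G] [MulAction G α] [Finite α]
    [IsPretransitive G α] (a : α) (h : Nat.card (orbitRel.Quotient (stabilizer G a) α) ≤ 2) :
    IsMultiplyPretransitive G α 2 := by
  classical
  haveI : Fintype (orbitRel.Quotient (stabilizer G a) α) := Fintype.ofFinite _
  rw [Nat.card_eq_fintype_card] at h
  have key : ∀ b c : α, b ≠ a → c ≠ a → c ∈ orbit (stabilizer G a) b := by
    intro b c hb hc
    by_contra hbc
    have hab : ∀ x : α, x ≠ a → (Quotient.mk'' x : orbitRel.Quotient (stabilizer G a) α) ≠ Quotient.mk'' a := by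
      intro x hx e
      obtain ⟨⟨g, hg⟩, rfl⟩ : x ∈ orbit (stabilizer G a) a := Quotient.exact' e
      exact hx hg
    have hcb : (Quotient.mk'' c : orbitRel.Quotient (stabilizer G a) α) ≠ Quotient.mk'' b :=
      fun e => hbc (Quotient.exact' e)
    have h3 := Finset.card_le_univ
      ({Quotient.mk'' a, Quotient.mk'' b, Quotient.mk'' c} : Finset (orbitRel.Quotient (stabilizer G a) α))
    rw [Finset.card_eq_three.2 ⟨_, _, _, (hab b hb).symm, (hab c hc).symm, hcb.symm, rfl⟩] at h3
    omega
  rw [is_two_pretransitive_iff]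
  intro x y z w hxy hzw
  obtain ⟨g, hg⟩ := exists_smul_eq G x a
  obtain ⟨g', hg'⟩ := exists_smul_eq G z a
  obtain ⟨⟨k, hk⟩, hkb⟩ := key (g • y) (g' • w) (fun e => hxy (smul_left_cancel g (hg.trans e.symm)))
    (fun e => hzw (smul_left_cancel g' (hg'.trans e.symm)))
  refine ⟨g'⁻¹ * k * g, ?_, ?_⟩
  · rw [mul_smul, mul_smul, hg, mem_stabilizer_iff.1 hk, inv_smul_eq_iff, hg']
  · rw [mul_smul, mul_smul, inv_smul_eq_iff]
    exact hkb

/-- In a normal transitive subgroup of even permutations of a primitive group of degree `2 p`, no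
second point is fixed by a point stabiliser. -/
theorem exists_move_of_normal_even {G α : Type*} [Group G] [Finite G] [MulAction G α] [FaithfulSMul G α]
    [IsPreprimitive G α] [Fintype α] [DecidableEq α] {p : ℕ} (hp : p.Prime) (hp2 : p ≠ 2)
    (hα : Fintype.card α = 2 * p) (K : Subgroup G) [K.Normal] [IsPretransitive K α]
    (heven : ∀ k : K, Perm.sign (MulAction.toPerm k : Perm α) = 1) {a b : α} (hab : b ≠ a) :
    ∃ k ∈ stabilizer K a, k • b ≠ b := by
  by_contra hcon
  push Not at hcon
  set S : α → Subgroup G := fun x => K ⊓ stabilizer G x with hS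
  have hSsmul : ∀ (g : G) (x : α), S (g • x) = (S x).map (MulAut.conj g).toMonoidHom := by
    intro g x
    ext k
    simp only [hS, Subgroup.mem_inf, mem_stabilizer_iff, Subgroup.mem_map]
    constructor
    · rintro ⟨hk, hkx⟩
      refine ⟨g⁻¹ * k * g, ⟨by simpa using Subgroup.Normal.conj_mem inferInstance k hk g⁻¹, ?_⟩, by simp [mul_assoc]⟩
      rw [mul_smul, mul_smul, hkx, inv_smul_smul]
    · rintro ⟨y, ⟨hy, hyx⟩, rfl⟩
      refine ⟨Subgroup.Normal.conj_mem inferInstance y hy g, ?_⟩
      show (g * y * g⁻¹) • g • x = g • x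
      rw [← mul_smul, inv_mul_cancel_right, mul_smul, hyx]
  have hle : S a ≤ S b := by
    rintro k ⟨hk, hka⟩
    exact ⟨hk, hcon ⟨k, hk⟩ hka⟩
  have heq : S b = S a := by
    obtain ⟨g, hg⟩ := exists_smul_eq G a b
    refine (Subgroup.eq_of_le_of_card_ge hle ?_).symm
    rw [← hg, hSsmul, Nat.card_congr ((S a).equivMapOfInjective _ (MulAut.conj g).injective).toEquiv.symm]
  set B : Set α := {x | S x = S a} with hB
  have hblock : IsBlock G B := by
    rw [isBlock_iff_smul_eq_of_mem]
    intro g x hx hgx
    have key : ∀ y : α, S y = S a → S (g • y) = S a := by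
      intro y hy
      rw [hSsmul, hy, ← show S x = S a from hx, ← hSsmul, show S (g • x) = S a from hgx,
        show S x = S a from hx]
    ext y
    rw [Set.mem_smul_set_iff_inv_smul_mem]
    refine ⟨fun hy => ?_, fun hy => ?_⟩
    · have := key _ hy
      rwa [smul_inv_smul] at this
    · show S (g⁻¹ • y) = S a
      rw [hSsmul, show S y = S a from hy, ← show S (g • x) = S a from hgx, ← hSsmul, inv_smul_smul,
        show S x = S a from hx, show S (g • x) = S a from hgx]
  have huniv : B = Set.univ := by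
    rcases IsPreprimitive.isTrivialBlock_of_isBlock hblock with hs | hu
    · exact absurd (hs (show b ∈ B from heq) (show a ∈ B from rfl)) hab
    · exact hu
  have hall : ∀ x, S x = S a := fun x => (huniv ▸ Set.mem_univ x : x ∈ B)
  have hfree : ∀ (k : K) (x : α), k • x = x → k = 1 := by
    intro k x hk
    refine Subtype.ext (eq_of_smul_eq_smul (α := α) fun y => ?_)
    rw [OneMemClass.coe_one, one_smul]
    have h1 : (k : G) ∈ S y := by rw [hall y, ← hall x]; exact ⟨k.2, hk⟩
    exact h1.2
  have hbot : stabilizer K a = ⊥ := (Subgroup.eq_bot_iff_forall _).2 fun k hk => hfree k a hk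
  have hcard : Nat.card K = 2 * p := by
    rw [← hα, ← Nat.card_eq_fintype_card, ← index_stabilizer_of_transitive K a, hbot, Subgroup.index_bot]
  haveI : Finite K := Subtype.finite
  haveI : Fintype K := Fintype.ofFinite K
  haveI := Fact.mk (Nat.prime_two)
  obtain ⟨k, hk⟩ := exists_prime_orderOf_dvd_card' 2 (G := K) (by rw [hcard]; exact dvd_mul_right 2 p)
  set σ : Perm α := MulAction.toPerm k with hσ
  have hsupp : σ.support = Finset.univ := by
    refine Finset.eq_univ_iff_forall.2 fun x => Perm.mem_support.2 fun e => ?_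
    rw [hfree k x e, orderOf_one] at hk
    omega
  have hord : orderOf σ = 2 := by
    refine orderOf_eq_prime ?_ fun e => ?_
    · rw [hσ, sq]
      refine Equiv.ext fun x => ?_
      show k • k • x = x
      rw [← mul_smul, ← sq, ← hk, pow_orderOf_eq_one, one_smul]
    · rw [e, Perm.support_one] at hsupp
      exact Finset.univ_nonempty_iff.2 ⟨a⟩ |>.ne_empty hsupp.symm
  obtain ⟨n, hn⟩ := Perm.cycleType_prime_order (σ := σ) (by rw [hord]; exact Nat.prime_two)
  have hsum := σ.sum_cycleType
  rw [hn, hsupp, Finset.card_univ, hα, Multiset.sum_replicate, hord, smul_eq_mul] at hsum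
  have hsign := heven k
  rw [← hσ, Perm.sign_of_cycleType, hn, Multiset.sum_replicate, Multiset.card_replicate, hord,
    smul_eq_mul] at hsign
  have hn' : n + 1 = p := by omega
  rw [hn', mul_comm, pow_add, pow_mul, neg_one_sq, one_pow, one_mul,
    (hp.odd_of_ne_two hp2).neg_one_pow] at hsign
  exact absurd hsign (by decide)

set_option maxHeartbeats 2000000 in
/-- Wielandt's theorem. -/
theorem wielandt_degree_two_prime {α : Type*} [Fintype α] [DecidableEq α] {p : ℕ} (hp : p.Prime)
    (hα : Fintype.card α = 2 * p) (G : Subgroup (Perm α)) (hG : IsPreprimitive G α) (a₀ : α) :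
    IsMultiplyPretransitive G α 2 ∨ (Nat.card (orbitRel.Quotient (stabilizer G a₀) α) = 3 ∧
      ∃ a : ℕ, 0 < a ∧ p = 2 * a ^ 2 + 2 * a + 1 ∧ ∀ b : α, b ≠ a₀ →
        Nat.card (orbit (stabilizer G a₀) b) = a * (2 * a + 1) ∨
        Nat.card (orbit (stabilizer G a₀) b) = (a + 1) * (2 * a + 1)) := by
  classical
  haveI : Fintype G := Fintype.ofFinite G
  rcases eq_or_ne p 2 with hp2 | hp2
  · -- degree four
    left
    subst hp2
    refine two_pretransitive_of_rank_le_two a₀ ?_
    have hnofix : ∀ b : α, b ≠ a₀ → 2 ≤ Nat.card (orbit (stabilizer G a₀) b) := by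
      intro b hb
      by_contra hlt
      have h1 : ∀ y ∈ orbit (stabilizer G a₀) b, y = b := by
        intro y hy
        have : Subsingleton (orbit (stabilizer G a₀) b) := by
          rw [← Finite.card_le_one_iff_subsingleton]; omega
        exact congrArg Subtype.val (Subsingleton.elim (⟨y, hy⟩ : orbit (stabilizer G a₀) b) ⟨b, mem_orbit_self b⟩)
      have hle : stabilizer G a₀ ≤ stabilizer G b := fun g hg => h1 _ ⟨⟨g, hg⟩, rfl⟩
      obtain ⟨-, -, hpr, hc⟩ := regular_prime_of_stabilizer_le hb.symm hle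
      rw [← hc, Nat.card_eq_fintype_card, hα] at hpr
      exact absurd hpr (by norm_num)
    haveI : Fintype (orbitRel.Quotient (stabilizer G a₀) α) := Fintype.ofFinite _
    set qa : orbitRel.Quotient (stabilizer G a₀) α := Quotient.mk'' a₀ with hqa
    have hsum := sum_card_suborbits (G := G) (Ω := α) a₀
    rw [hα, ← Finset.add_sum_erase _ _ (Finset.mem_univ qa)] at hsum
    have hge : ∀ q ∈ Finset.univ.erase qa, 2 ≤ Nat.card q.orbit := by
      intro q hq
      rw [orbitRel.Quotient.orbit_eq_orbit_out q Quotient.out_eq']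
      exact hnofix _ fun e => Finset.ne_of_mem_erase hq
        ((Quotient.out_eq' q).symm.trans (congrArg Quotient.mk'' e))
    have h1 : 1 ≤ Nat.card qa.orbit := by
      rw [hqa, orbitRel.Quotient.orbit_mk]
      haveI : Nonempty (orbit (stabilizer G a₀) a₀) := ⟨⟨a₀, mem_orbit_self a₀⟩⟩
      exact Nat.card_pos
    have h2 := Finset.card_nsmul_le_sum _ _ _ hge
    rw [Finset.card_erase_of_mem (Finset.mem_univ _), Finset.card_univ, smul_eq_mul] at h2
    rw [Nat.card_eq_fintype_card]
    omega
  haveI := Fact.mk hp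
  have hp3 : 3 ≤ p := by have := hp.two_le; omega
  haveI : Nonempty α := ⟨a₀⟩
  by_cases hA : ∃ g ∈ G, orderOf g = p ∧ ∃ x : α, g x = x
  · -- a cycle of length `p`
    left
    obtain ⟨g, hg, hgp, x, hx⟩ := hA
    obtain ⟨n, hn⟩ := Perm.cycleType_prime_order (σ := g) (hgp ▸ hp)
    have hsum := g.sum_cycleType
    rw [hn, Multiset.sum_replicate, hgp, smul_eq_mul] at hsum
    have hlt : g.support.card < 2 * p := by
      rw [← hα, ← Finset.card_univ]
      exact Finset.card_lt_card ⟨Finset.subset_univ _, fun h => Perm.mem_support.1 (h (Finset.mem_univ x)) hx⟩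
    have hn0 : n = 0 := by
      by_contra h
      have : 2 * p ≤ (n + 1) * p := Nat.mul_le_mul_right p (by omega)
      omega
    subst hn0
    have hle := alternating_le_of_prime_cycle G hG hp (by rw [hα]; omega)
      (Perm.isCycle_of_prime_order (hgp ▸ hp) (by rw [hgp]; exact hlt)) (by rw [← hsum, zero_add, one_mul]) hg
    have h2t : IsMultiplyPretransitive (alternatingGroup α) α 2 := by
      have := alternatingGroup.isMultiplyPretransitive (α := α)
      exact MulAction.isMultiplyPretransitive_of_le' (n := Nat.card α - 2)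
        (by rw [Nat.card_eq_fintype_card]; omega) (by
          rw [ENat.card_eq_coe_fintype_card, Nat.card_eq_fintype_card]; exact_mod_cast Nat.sub_le _ _)
    rw [is_two_pretransitive_iff] at h2t ⊢
    intro x y z w hxy hzw
    obtain ⟨⟨k, hk⟩, h1, h2⟩ := h2t hxy hzw
    exact ⟨⟨k, hle hk⟩, h1, h2⟩
  push Not at hA
  have hpG : p ∣ Nat.card G := by
    refine dvd_trans (dvd_mul_left p 2) ?_
    rw [← hα, ← Nat.card_eq_fintype_card, ← index_stabilizer_of_transitive G a₀]
    exact Subgroup.index_dvd_card _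
  obtain ⟨u, hu⟩ := exists_prime_orderOf_dvd_card' p (G := G) hpG
  set K : Subgroup G := (alternatingGroup α).subgroupOf G with hK
  haveI : K.Normal := Subgroup.normal_subgroupOf
  have huK : u ∈ K := by
    rw [hK, Subgroup.mem_subgroupOf, Perm.mem_alternatingGroup]
    refine sign_eq_one_of_pow_prime hp2 _ ?_
    rw [← SubgroupClass.coe_pow, ← hu, pow_orderOf_eq_one, OneMemClass.coe_one]
  have hne : K ≠ ⊥ := fun e => by
    rw [e, Subgroup.mem_bot] at huK
    rw [huK, orderOf_one] at hu
    exact hp.one_lt.ne hu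
  haveI : IsPretransitive K α := pretransitive_of_normal K hne
  haveI : Fintype K := Fintype.ofFinite K
  have heven : ∀ k : K, Perm.sign (MulAction.toPerm k : Perm α) = 1 := by
    intro k
    have h : ((k : G) : Perm α) ∈ alternatingGroup α := k.2
    rw [Perm.mem_alternatingGroup] at h
    rw [show (MulAction.toPerm k : Perm α) = ((k : G) : Perm α) from Equiv.ext fun x => rfl]
    exact h
  have hmove : ∀ b : α, b ≠ a₀ → ∃ k ∈ stabilizer K a₀, k • b ≠ b := fun b hb =>
    exists_move_of_normal_even hp hp2 hα K heven hb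
  have hcomm : IsPretransitive (commutator K) α := by
    haveI : ((commutator K).map K.subtype).Normal := inferInstance
    have hne' : (commutator K).map K.subtype ≠ ⊥ := by
      rw [Ne, Subgroup.map_eq_bot_iff_of_injective _ K.subtype_injective]
      intro e
      obtain ⟨b, hb⟩ : ∃ b : α, b ≠ a₀ := by
        haveI : Nontrivial α := Fintype.one_lt_card_iff_nontrivial.1 (by omega)
        exact exists_ne a₀
      obtain ⟨k, hk, hkb⟩ := hmove b hb
      refine hkb ?_
      obtain ⟨l, hl⟩ := exists_smul_eq K a₀ b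
      have hc : k * l = l * k := commutatorElement_eq_one_iff_mul_comm.1
        (Subgroup.mem_bot.1 (e ▸ Subgroup.commutator_mem_commutator (Subgroup.mem_top k) (Subgroup.mem_top l)))
      rw [← hl, ← mul_smul, hc, mul_smul, mem_stabilizer_iff.1 hk]
    have := pretransitive_of_normal (α := α) ((commutator K).map K.subtype) hne'
    refine ⟨fun x y => ?_⟩
    obtain ⟨⟨g, c, hc, rfl⟩, hg⟩ := this.exists_smul_eq x y
    exact ⟨⟨c, hc⟩, hg⟩
  set P : Subgroup K := Subgroup.zpowers ⟨u, huK⟩ with hPdef
  have hP : Nat.card P = p := by rw [Nat.card_zpowers, ← Subgroup.orderOf_coe, hu]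
  have hord : ∀ v : K, orderOf (((v : G) : Perm α)) = orderOf v := fun v => by
    rw [Subgroup.orderOf_coe, Subgroup.orderOf_coe]
  have hfree : ∀ v ∈ P, v ≠ 1 → ∀ x : α, v • x ≠ x := by
    intro v hv hv1 x e
    refine hA _ (v : G).2 ?_ x e
    rw [hord]
    have h1 : orderOf v ∣ p := hP ▸ Subgroup.orderOf_dvd_natCard P hv
    rcases (Nat.dvd_prime hp).1 h1 with h | h
    · exact absurd (orderOf_eq_one_iff.1 h) hv1
    · exact h
  have hsq : ¬ p ^ 2 ∣ Nat.card K := by
    intro hd
    obtain ⟨Q, hQ⟩ := Sylow.exists_subgroup_card_pow_prime p hd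
    have hmul : Nat.card (orbit Q a₀) * Nat.card (stabilizer Q a₀) = p ^ 2 := by
      rw [← hQ, ← Nat.card_prod, Nat.card_congr (orbitProdStabilizerEquivGroup Q a₀)]
    have hle : Nat.card (orbit Q a₀) ≤ 2 * p := by
      rw [← hα, ← Nat.card_eq_fintype_card]
      exact Nat.card_le_card_of_injective _ Subtype.val_injective
    have hdv : p ∣ Nat.card (stabilizer Q a₀) := by
      obtain ⟨i, hi, hs⟩ := (Nat.dvd_prime_pow hp).1 (dvd_of_mul_left_eq _ hmul)
      rcases Nat.eq_zero_or_pos i with rfl | hi0
      · rw [hs, pow_zero, mul_one] at hmul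
        rw [hmul, sq] at hle
        have := Nat.le_of_mul_le_mul_right hle hp.pos
        omega
      · rw [hs]; exact dvd_pow_self p hi0.ne'
    obtain ⟨y, hy⟩ := exists_prime_orderOf_dvd_card' p hdv
    refine hA _ ((y : Q) : K).1.2 ?_ a₀ y.2
    rw [hord, Subgroup.orderOf_coe, Subgroup.orderOf_coe, hy]
  rcases twice_prime_rank hp2 hα hcomm P hP hfree heven hsq a₀ hmove with h2 | ⟨h3, m, hm, hpm, hsub⟩
  · left
    have h := two_pretransitive_of_rank_le_two a₀ h2.le
    rw [is_two_pretransitive_iff] at h ⊢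
    intro x y z w hxy hzw
    obtain ⟨k, h1, h2⟩ := h hxy hzw
    exact ⟨(k : G), h1, h2⟩
  -- compare the suborbits
  let φ : orbitRel.Quotient (stabilizer K a₀) α → orbitRel.Quotient (stabilizer G a₀) α :=
    Quotient.map' id fun x y hxy => by
      obtain ⟨⟨k, hk⟩, hkx⟩ : x ∈ orbit (stabilizer K a₀) y := hxy
      show x ∈ orbit (stabilizer G a₀) y
      exact ⟨⟨(k : G), hk⟩, hkx⟩
  have hsurj : Function.Surjective φ := by
    intro q
    induction q using Quotient.inductionOn' with | h x => exact ⟨Quotient.mk'' x, rfl⟩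
  by_cases hle : Nat.card (orbitRel.Quotient (stabilizer G a₀) α) ≤ 2
  · exact Or.inl (two_pretransitive_of_rank_le_two a₀ hle)
  right
  have hle3 := Nat.card_le_card_of_surjective φ hsurj
  have hbij : Function.Bijective φ := hsurj.bijective_of_nat_card_le (by omega)
  refine ⟨by omega, m, hm, hpm, fun b hb => ?_⟩
  have heq : orbit (stabilizer G a₀) b = orbit (stabilizer K a₀) b := by
    refine Set.Subset.antisymm (fun y hy => ?_) ?_
    · exact Quotient.exact' (hbij.1 (show φ (Quotient.mk'' y) = φ (Quotient.mk'' b) from Quotient.sound' hy))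
    · rintro y ⟨⟨k, hk⟩, rfl⟩
      exact ⟨⟨(k : G), hk⟩, rfl⟩
  rw [heq]
  exact hsub b hb

end Cfsg.Agent.PermGroups
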