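import Mathlib

/-!
Uniform partitions fixed by permutations of prime order.
-/

set_option autoImplicit false

namespace Cfsg.Agent.PermGroups.UniformPartition

open Equiv

theorem sum_min (q t n : ℕ) : ∑ i ∈ Finset.range n, min q (t - i * q) = min t (n * q) := by
  induction n with
  | zero => simp
  | succ n ih =>
    rw [Finset.sum_range_succ, ih, Nat.succ_mul]
    omega

/-- The possible cycle numbers: the number of moved blocks and the moved part of fixed blocks. -/
theorem necessary {a b r : ℕ} (ha : 0 < a) (hr : r.Prime) (σ : Perm (Fin (a * b))) (hσ : σ ^ r = 1)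
    (f : Fin (a * b) → Fin b) (hf : ∀ j, Nat.card {x // f x = j} = a) (π : Perm (Fin b))
    (hπ : ∀ x, f (σ x) = π (f x)) :
    ∃ u t, u * r ≤ b ∧ t ≤ (b - u * r) * (a / r) ∧ σ.support.card = r * (u * a + t) := by
  classical
  haveI : Fact r.Prime := ⟨hr⟩
  have hfc : ∀ j, (Finset.univ.filter fun x => f x = j).card = a := fun j => by
    refine Eq.trans ?_ (hf j)
    rw [Nat.card_eq_fintype_card, Fintype.card_subtype]
  have hpow : ∀ (n : ℕ) x, f ((σ ^ n) x) = (π ^ n) (f x) := by
    intro n
    induction n with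
    | zero => simp
    | succ n ih => intro x; rw [pow_succ', Perm.mul_apply, hπ, ih, pow_succ', Perm.mul_apply]
  have hπr : π ^ r = 1 := by
    ext j
    obtain ⟨x, hx⟩ := Finset.card_pos.1 (show 0 < (Finset.univ.filter fun x => f x = j).card by
      rw [hfc]; exact ha)
    rw [Finset.mem_filter] at hx
    have := hpow r x
    rw [hσ, Perm.one_apply, hx.2] at this
    rw [← this, Perm.one_apply]
  obtain ⟨u, hu⟩ : r ∣ π.support.card := by
    have h := Perm.card_compl_support_modEq (show π ^ r ^ 1 = 1 by rw [pow_one, hπr])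
    rw [Finset.card_compl, Fintype.card_fin] at h
    have := (Nat.modEq_iff_dvd' (Nat.sub_le _ _)).1 h
    rwa [Nat.sub_sub_self (by simpa using Finset.card_le_univ π.support)] at this
  set part : Fin b → ℕ := fun j => (σ.support.filter fun x => f x = j).card
  have hsum : σ.support.card = ∑ j, part j := by
    rw [Finset.card_eq_sum_card_fiberwise (f := f) (t := Finset.univ) fun x _ => Finset.mem_coe.2 (Finset.mem_univ _)]
  have hmoved : ∀ j ∈ π.support, part j = a := by
    intro j hj
    simp only [part]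
    refine Eq.trans ?_ (hfc j)
    congr 1
    ext x
    simp only [Finset.mem_filter, Finset.mem_univ, true_and, Perm.mem_support]
    refine ⟨fun h => h.2, fun h => ⟨fun hx => Perm.mem_support.1 hj ?_, h⟩⟩
    rw [← h, ← hπ, hx]
  have hfixed : ∀ j ∈ π.supportᶜ, ∃ s, part j = r * s ∧ s ≤ a / r := by
    intro j hj
    rw [Finset.mem_compl, Perm.notMem_support] at hj
    have hdvd : r ∣ part j := by
      have hiff : ∀ x, f (σ x) = j ↔ f x = j := fun x => by
        rw [hπ]
        exact ⟨fun h => π.injective (h.trans hj.symm), fun h => by rw [h, hj]⟩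
      set τ : Perm {x // f x = j} := σ.subtypePerm hiff
      have hτ : τ ^ r ^ 1 = 1 := by
        rw [pow_one, Perm.subtypePerm_pow]
        ext x
        simp [hσ]
      have h := Perm.card_compl_support_modEq hτ
      rw [Finset.card_compl] at h
      have h2 := (Nat.modEq_iff_dvd' (Nat.sub_le _ _)).1 h
      rw [Nat.sub_sub_self (Finset.card_le_univ _)] at h2
      convert h2 using 1
      simp only [part]
      refine Finset.card_bij' (fun x hx => ⟨x, (Finset.mem_filter.1 hx).2⟩) (fun x _ => x.1)
        (fun x hx => ?_) (fun x hx => ?_) (fun x hx => rfl) (fun x hx => rfl)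
      · rw [Perm.mem_support]
        exact fun h => Perm.mem_support.1 (Finset.mem_filter.1 hx).1 (congrArg Subtype.val h)
      · rw [Finset.mem_filter, Perm.mem_support]
        exact ⟨fun h => Perm.mem_support.1 hx (Subtype.ext h), x.2⟩
    obtain ⟨s, hs⟩ := hdvd
    refine ⟨s, hs, (Nat.le_div_iff_mul_le hr.pos).2 ?_⟩
    rw [mul_comm, ← hs]
    refine le_trans ?_ (hfc j).le
    exact Finset.card_le_card fun x hx => Finset.mem_filter.2 ⟨Finset.mem_univ _, (Finset.mem_filter.1 hx).2⟩
  choose! s hs hsle using hfixed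
  have hub : π.support.card ≤ b := by simpa using Finset.card_le_univ π.support
  refine ⟨u, ∑ j ∈ π.supportᶜ, s j, by rw [mul_comm, ← hu]; exact hub, ?_, ?_⟩
  · refine (Finset.sum_le_card_nsmul _ _ _ hsle).trans_eq ?_
    rw [Finset.card_compl, Fintype.card_fin, hu, smul_eq_mul, mul_comm r u]
  · rw [hsum, ← Finset.sum_add_sum_compl π.support, Finset.sum_congr rfl hmoved,
      Finset.sum_congr rfl hs, Finset.sum_const, smul_eq_mul, hu, ← Finset.mul_sum]
    ring

/-- A fixed partition for each possible cycle number. -/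
theorem sufficient {a b r u t : ℕ} (hr : r.Prime) (hu : u * r ≤ b) (ht : t ≤ (b - u * r) * (a / r))
    (σ : Perm (Fin (a * b))) (hσo : orderOf σ = r) (hσs : σ.support.card = r * (u * a + t)) :
    ∃ f : Fin (a * b) → Fin b, (∀ j : Fin b, Nat.card {x : Fin (a * b) // f x = j} = a) ∧
      ∃ π : Perm (Fin b), ∀ x : Fin (a * b), f (σ x) = π (f x) := by
  classical
  haveI : Fact r.Prime := ⟨hr⟩
  haveI : NeZero r := ⟨hr.ne_zero⟩
  set n := b - u * r with hn
  let s : Fin n → ℕ := fun i => min (a / r) (t - i.val * (a / r))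
  have hst : ∑ i, s i = t := by
    rw [Fin.sum_univ_eq_sum_range (fun i => min (a / r) (t - i * (a / r))) n, sum_min]
    exact Nat.min_eq_left ht
  have hsle : ∀ i, r * s i ≤ a := fun i =>
    (Nat.mul_le_mul_left r (Nat.min_le_left _ _)).trans (Nat.mul_div_le a r)
  let X := ((Fin u × ZMod r) × Fin a) ⊕ (Σ i : Fin n, (Fin (s i) × ZMod r) ⊕ Fin (a - r * s i))
  let Y := (Fin u × ZMod r) ⊕ Fin n
  let sh : Perm (ZMod r) := Equiv.addRight 1
  let τ : Perm X := Equiv.sumCongr ((Equiv.prodCongr (Equiv.refl (Fin u)) sh).prodCongr (Equiv.refl (Fin a)))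
    (Equiv.sigmaCongrRight fun i => Equiv.sumCongr (Equiv.prodCongr (Equiv.refl _) sh) (Equiv.refl _))
  let ρ : Perm Y := Equiv.sumCongr (Equiv.prodCongr (Equiv.refl (Fin u)) sh) (Equiv.refl _)
  let g : X → Y := Sum.map Prod.fst Sigma.fst
  have hg : ∀ x, g (τ x) = ρ (g x) := by
    rintro (⟨⟨i, z⟩, j⟩ | ⟨i, x⟩) <;> rfl
  have hX : Fintype.card X = a * b := by
    simp only [X, Fintype.card_sum, Fintype.card_prod, Fintype.card_sigma, Fintype.card_fin, ZMod.card]
    rw [Finset.sum_congr rfl fun i _ => show s i * r + (a - r * s i) = a by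
      have := hsle i; rw [mul_comm] at this; rw [mul_comm r]; omega,
      Finset.sum_const, Finset.card_univ, Fintype.card_fin, smul_eq_mul, ← Nat.add_mul,
      Nat.add_sub_cancel' hu, mul_comm]
  have hY : Fintype.card Y = b := by
    simp only [Y, Fintype.card_sum, Fintype.card_prod, Fintype.card_fin, ZMod.card]
    omega
  let eX := Fintype.equivFinOfCardEq hX
  let eY := Fintype.equivFinOfCardEq hY
  have hfib : ∀ y : Y, Nat.card {x : X // g x = y} = a := by
    rintro (y | i)
    · refine (Nat.card_congr (β := Fin a) ⟨fun x => ?_, fun j => ⟨Sum.inl (y, j), rfl⟩, ?_, ?_⟩).trans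
        (Nat.card_fin a)
      · exact match x with
          | ⟨Sum.inl (_, j), _⟩ => j
          | ⟨Sum.inr _, h⟩ => absurd h (by simp [g])
      · rintro ⟨(⟨p, j⟩ | x), h⟩
        · have h' : p = y := Sum.inl.inj h
          subst h'
          rfl
        · simp [g] at h
      · intro j; rfl
    · refine (Nat.card_congr (β := (Fin (s i) × ZMod r) ⊕ Fin (a - r * s i))
        ⟨fun x => ?_, fun x => ⟨Sum.inr ⟨i, x⟩, rfl⟩, ?_, ?_⟩).trans ?_
      · exact match x with
          | ⟨Sum.inr ⟨i', x'⟩, h⟩ => (show i' = i from Sum.inr.inj h) ▸ x'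
          | ⟨Sum.inl _, h⟩ => absurd h (by simp [g])
      · rintro ⟨(p | ⟨i', x⟩), h⟩
        · simp [g] at h
        · have h' : i' = i := Sum.inr.inj h
          subst h'
          rfl
      · intro x; rfl
      · rw [Nat.card_eq_fintype_card, Fintype.card_sum, Fintype.card_prod, Fintype.card_fin,
          Fintype.card_fin, ZMod.card, mul_comm, Nat.add_sub_cancel' (hsle i)]
  -- the cycle type
  set τ' : Perm (Fin (a * b)) := eX.permCongr τ with hτ'
  have hsh : ∀ z : ZMod r, sh z ≠ z := fun z h => by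
    have : (1 : ZMod r) = 0 := add_left_cancel (a := z) (by rw [add_zero]; exact h)
    exact one_ne_zero this
  have hshr : sh ^ r = 1 := by
    have : ∀ (k : ℕ) z, (sh ^ k) z = z + k := by
      intro k
      induction k with
      | zero => simp
      | succ k ih =>
        intro z
        rw [pow_succ', Perm.mul_apply, ih]
        simp [sh, add_assoc]
    ext z
    rw [this, ZMod.natCast_self, add_zero, Perm.one_apply]
  have hτs : τ.support.card = r * (u * a + t) := by
    have : τ.support = Finset.univ.map ⟨(Sum.inl : (Fin u × ZMod r) × Fin a → X), Sum.inl_injective⟩ ∪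
        (Finset.univ : Finset (Σ i : Fin n, Fin (s i) × ZMod r)).map
          ⟨fun x => (Sum.inr ⟨x.1, Sum.inl x.2⟩ : X), fun x y h => by
            obtain ⟨i, p⟩ := x; obtain ⟨j, q⟩ := y
            have h' := Sum.inr_injective h
            obtain ⟨e, h''⟩ := Sigma.mk.inj_iff.1 h'
            dsimp only at e
            subst e
            rw [heq_eq_eq] at h''
            exact congrArg (Sigma.mk i) (Sum.inl_injective h'')⟩ := by
      ext x
      rw [Perm.mem_support, Finset.mem_union, Finset.mem_map, Finset.mem_map]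
      rcases x with ⟨⟨i, z⟩, j⟩ | ⟨i, (⟨k, z⟩ | k)⟩
      · exact iff_of_true (fun h => hsh z (congrArg (fun p => p.1.2) (Sum.inl.inj h)))
          (Or.inl ⟨((i, z), j), Finset.mem_univ _, rfl⟩)
      · refine iff_of_true (fun h => hsh z ?_) (Or.inr ⟨⟨i, (k, z)⟩, Finset.mem_univ _, rfl⟩)
        have h' := Sigma.mk.inj_iff.1 (Sum.inr.inj h)
        exact congrArg Prod.snd (Sum.inl.inj (eq_of_heq h'.2))
      · refine iff_of_false (fun h => h rfl) ?_
        rintro (⟨p, -, h⟩ | ⟨⟨i', p⟩, -, h⟩)
        · exact Sum.inl_ne_inr h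
        · have h' := Sigma.mk.inj_iff.1 (Sum.inr.inj h)
          obtain ⟨rfl, h''⟩ := h'
          exact Sum.inl_ne_inr (eq_of_heq h'')
    rw [this, Finset.card_union_of_disjoint, Finset.card_map, Finset.card_map]
    · simp only [Finset.card_univ, Fintype.card_prod, Fintype.card_sigma, Fintype.card_fin, ZMod.card]
      rw [← Finset.sum_mul, hst]; ring
    · rw [Finset.disjoint_left]
      intro x h1 h2
      simp only [Finset.mem_map, Finset.mem_univ, true_and, Function.Embedding.coeFn_mk] at h1 h2
      obtain ⟨p, rfl⟩ := h1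
      obtain ⟨q, hq⟩ := h2
      exact absurd hq (by simp)
  have hτ'r : τ' ^ r = 1 := by
    have hpow : ∀ k : ℕ, ∀ x, (τ ^ k) x = (Equiv.sumCongr ((Equiv.prodCongr (Equiv.refl (Fin u)) (sh ^ k)).prodCongr (Equiv.refl (Fin a)))
        (Equiv.sigmaCongrRight fun i => Equiv.sumCongr (Equiv.prodCongr (Equiv.refl (Fin (s i))) (sh ^ k)) (Equiv.refl _))) x := by
      intro k
      induction k with
      | zero => rintro (⟨⟨i, z⟩, j⟩ | ⟨i, (⟨k, z⟩ | k)⟩) <;> rfl
      | succ k ih =>
        intro x
        rw [pow_succ', Perm.mul_apply, ih]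
        rw [pow_succ' sh]
        rcases x with ⟨⟨i, z⟩, j⟩ | ⟨i, (⟨k, z⟩ | k)⟩ <;> rfl
    have : τ ^ r = 1 := by
      ext x
      rw [hpow, hshr]
      rcases x with ⟨⟨i, z⟩, j⟩ | ⟨i, (⟨k, z⟩ | k)⟩ <;> rfl
    have h' : τ' ^ r = eX.permCongrHom (τ ^ r) := (map_pow eX.permCongrHom τ r).symm
    rw [h', this, map_one]
  have hτ's : τ'.support.card = σ.support.card := by
    rw [hσs, ← hτs]
    refine Finset.card_bij' (fun x _ => eX.symm x) (fun x _ => eX x) (fun x hx => ?_) (fun x hx => ?_)
      (fun x _ => eX.apply_symm_apply x) (fun x _ => eX.symm_apply_apply x)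
    · rw [Perm.mem_support] at hx ⊢
      intro h
      exact hx (by rw [hτ', Equiv.permCongr_apply, h, eX.apply_symm_apply])
    · rw [Perm.mem_support] at hx ⊢
      intro h
      rw [hτ', Equiv.permCongr_apply, eX.symm_apply_apply] at h
      exact hx (eX.injective h)
  have hσ1 : σ ≠ 1 := fun h => hr.one_lt.ne (by rw [← hσo, h, orderOf_one])
  have hτ'1 : τ' ≠ 1 := by
    intro h
    rw [h, Perm.support_one, Finset.card_empty, eq_comm, Finset.card_eq_zero,
      Perm.support_eq_empty_iff] at hτ's
    exact hσ1 hτ's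
  have hτ'o : orderOf τ' = r := orderOf_eq_prime hτ'r hτ'1
  obtain ⟨n1, hn1⟩ := Perm.cycleType_prime_order (σ := σ) (by rwa [hσo])
  obtain ⟨n2, hn2⟩ := Perm.cycleType_prime_order (σ := τ') (by rwa [hτ'o])
  have hct : τ'.cycleType = σ.cycleType := by
    have e1 := Perm.sum_cycleType σ
    have e2 := Perm.sum_cycleType τ'
    rw [hn1, Multiset.sum_replicate, hσo, smul_eq_mul] at e1
    rw [hn2, Multiset.sum_replicate, hτ'o, smul_eq_mul, hτ's, ← e1] at e2
    rw [hn1, hn2, hσo, hτ'o, Nat.eq_of_mul_eq_mul_right hr.pos e2]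
  obtain ⟨c, hc⟩ := isConj_iff.1 (Perm.isConj_iff_cycleType_eq.2 hct)
  refine ⟨fun x => eY (g (eX.symm (c⁻¹ x))), fun j => ?_, eY.permCongr ρ, fun x => ?_⟩
  · refine Eq.trans ?_ (hfib (eY.symm j))
    refine Nat.card_congr (Equiv.subtypeEquiv (c⁻¹.trans eX.symm) fun x => ?_)
    simp [Equiv.eq_symm_apply]
  · have : c⁻¹ (σ x) = τ' (c⁻¹ x) := by rw [← hc]; simp
    show eY (g (eX.symm (c⁻¹ (σ x)))) = eY.permCongr ρ (eY (g (eX.symm (c⁻¹ x))))
    rw [this, hτ', Equiv.permCongr_apply, eX.symm_apply_apply, hg, Equiv.permCongr_apply,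
      eY.symm_apply_apply]

theorem main (a b : ℕ) (ha : 2 ≤ a) (hb : 2 ≤ b) (r : ℕ) (hr : r.Prime)
    (hrd : r ∣ (a * b).factorial / (a.factorial ^ b * b.factorial)) :
    (∀ σ : Perm (Fin (a * b)), orderOf σ = r →
        ∃ f : Fin (a * b) → Fin b, (∀ j : Fin b, Nat.card {x : Fin (a * b) // f x = j} = a) ∧
          ∃ π : Perm (Fin b), ∀ x : Fin (a * b), f (σ x) = π (f x)) ↔
      (r ≤ a ∧ (a % r = 0 ∨ (b % r = 0 ∧ a % r = 1) ∨
        (a % r ≠ 0 ∧ b % r ≠ 0 ∧ (b % r) * (a % r) < r ∧ (b < r ∨ (b % r + r) * (a % r) ≤ (b % r) * a + r)))) := by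
  classical
  have hrn : r ≤ a * b := by
    refine (hr.dvd_factorial).1 (hrd.trans (Nat.div_dvd_of_dvd ⟨Nat.uniformBell b a, ?_⟩))
    rw [mul_comm a b, ← Nat.uniformBell_mul_eq b (by omega : a ≠ 0)]
    ring
  obtain ⟨q, l, hl, rfl⟩ : ∃ q l, l < r ∧ a = r * q + l :=
    ⟨a / r, a % r, Nat.mod_lt _ hr.pos, (Nat.div_add_mod a r).symm⟩
  obtain ⟨m, k, hk, rfl⟩ : ∃ m k, k < r ∧ b = r * m + k :=
    ⟨b / r, b % r, Nat.mod_lt _ hr.pos, (Nat.div_add_mod b r).symm⟩
  have ea : (r * q + l) % r = l := by rw [Nat.mul_add_mod, Nat.mod_eq_of_lt hl]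
  have eb : (r * m + k) % r = k := by rw [Nat.mul_add_mod, Nat.mod_eq_of_lt hk]
  have eq' : (r * q + l) / r = q := by
    rw [Nat.mul_add_div hr.pos, Nat.div_eq_of_lt hl, add_zero]
  rw [ea, eb]
  set a := r * q + l with hA
  set b := r * m + k with hB
  constructor
  · intro hall
    -- a permutation with prescribed cycle number
    have hex : ∀ c, 1 ≤ c → r * c ≤ a * b →
        ∃ u t, u ≤ m ∧ t ≤ (b - u * r) * q ∧ c = u * a + t := by
      intro c hc hcn
      obtain ⟨σ, hσ⟩ := (Perm.exists_with_cycleType_iff (Fin (a * b)) (m := Multiset.replicate c r)).2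
        ⟨by rw [Multiset.sum_replicate, smul_eq_mul, Fintype.card_fin]; rwa [mul_comm],
          fun x hx => by rw [Multiset.eq_of_mem_replicate hx]; exact hr.two_le⟩
      have hσo : orderOf σ = r := by
        rw [← Perm.lcm_cycleType, hσ]
        apply Nat.dvd_antisymm
        · exact Multiset.lcm_dvd.2 fun x hx => by rw [Multiset.eq_of_mem_replicate hx]
        · exact Multiset.dvd_lcm (Multiset.mem_replicate.2 ⟨by omega, rfl⟩)
      obtain ⟨f, hf, π, hπ⟩ := hall σ hσo
      obtain ⟨u, t, hu, ht, hs⟩ := necessary (by omega) hr σ (hσo ▸ pow_orderOf_eq_one σ) f hf π hπ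
      rw [eq'] at ht
      rw [← Perm.sum_cycleType, hσ, Multiset.sum_replicate, smul_eq_mul, mul_comm] at hs
      refine ⟨u, t, ?_, ht, Nat.eq_of_mul_eq_mul_left hr.pos hs⟩
      by_contra hum
      have h1 : (m + 1) * r ≤ u * r := Nat.mul_le_mul_right r (by omega)
      have h2 : (m + 1) * r = r * m + r := by ring
      omega
    have hq : 1 ≤ q := by
      by_contra hq0
      have hq0' : q = 0 := by omega
      obtain ⟨u, t, -, ht, hc⟩ := hex 1 le_rfl (by omega)
      rw [hq0', mul_zero] at ht
      rcases Nat.eq_zero_or_pos u with rfl | hu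
      · omega
      · have := Nat.mul_le_mul_right a hu
        omega
    have hbnd : ∀ u t, u ≤ m → t ≤ (b - u * r) * q → u * a + t ≤ m * l + b * q := by
      intro u t hu ht
      obtain ⟨d, rfl⟩ := Nat.exists_eq_add_of_le hu
      have e : b - u * r = r * d + k := by
        rw [Nat.sub_eq_iff_eq_add (by rw [hB, mul_comm r]; nlinarith)]
        rw [hB]; ring
      rw [e] at ht
      rw [hA, hB]
      nlinarith
    refine ⟨by rw [hA]; nlinarith, ?_⟩
    have hkl : k * l < r := by
      by_contra h
      push Not at h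
      obtain ⟨u, t, hu, ht, hc⟩ := hex (m * l + b * q + 1) (by omega) (by
        rw [hA, hB]; nlinarith)
      have := hbnd u t hu ht
      omega
    have hgap : m = 0 ∨ l ≤ k * q + 1 := by
      by_contra h
      rw [not_or, not_le] at h
      obtain ⟨m', rfl⟩ : ∃ m', m = m' + 1 := ⟨m - 1, by omega⟩
      obtain ⟨u, t, hu, ht, hc⟩ := hex ((m' + 1) * a - 1) (by
        have : 2 ≤ (m' + 1) * a := le_trans ha (Nat.le_mul_of_pos_left a (by omega))
        omega) (by
        calc r * ((m' + 1) * a - 1) ≤ r * ((m' + 1) * a) := Nat.mul_le_mul_left r (Nat.sub_le _ _)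
          _ = r * (m' + 1) * a := (mul_assoc _ _ _).symm
          _ ≤ b * a := Nat.mul_le_mul_right a (by rw [hB]; exact Nat.le_add_right _ _)
          _ = a * b := mul_comm _ _)
      rcases Nat.lt_or_ge u (m' + 1) with hu' | hu'
      · obtain ⟨d, rfl⟩ := Nat.exists_eq_add_of_le (Nat.lt_succ_iff.1 hu')
        have e : b - u * r = r * (d + 1) + k := by
          rw [Nat.sub_eq_iff_eq_add (by rw [hB]; nlinarith)]
          rw [hB]; ring
        rw [e] at ht
        have h1 : u * a + t + 1 = (u + d + 1) * a := by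
          have : 1 ≤ (u + d + 1) * a := le_trans (by omega : 1 ≤ a) (Nat.le_mul_of_pos_left a (by omega))
          omega
        rw [hA] at h1
        nlinarith
      · have h1 : (m' + 1) * a ≤ u * a := Nat.mul_le_mul_right a hu'
        have : 1 ≤ (m' + 1) * a := le_trans (by omega : 1 ≤ a) (Nat.le_mul_of_pos_left a (by omega))
        omega
    by_cases hl0 : l = 0
    · exact Or.inl hl0
    by_cases hk0 : k = 0
    · right; left
      rcases hgap with h | h
      · exfalso
        rw [hB, h, hk0, mul_zero, add_zero] at hb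
        omega
      · rw [hk0, zero_mul] at h
        exact ⟨hk0, by omega⟩
    right; right
    refine ⟨hl0, hk0, hkl, ?_⟩
    rcases hgap with h | h
    · left
      rw [hB, h, mul_zero, zero_add]; exact hk
    · right
      rw [hA]
      have := Nat.mul_le_mul_left r h
      nlinarith
  · rintro ⟨hra, hcond⟩
    have hq : 1 ≤ q := by
      by_contra hq0
      have : q = 0 := by omega
      rw [hA, this, mul_zero, zero_add] at hra
      omega
    have hkl : k * l < r := by
      rcases hcond with h | ⟨h, -⟩ | ⟨-, -, h, -⟩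
      · rw [h, mul_zero]; exact hr.pos
      · rw [h, zero_mul]; exact hr.pos
      · exact h
    have hgap : m = 0 ∨ l ≤ k * q + 1 := by
      rcases hcond with h | ⟨-, h⟩ | ⟨-, -, -, h⟩
      · right; omega
      · right; omega
      · rcases h with h | h
        · left
          by_contra hm
          have : r * 1 ≤ r * m := Nat.mul_le_mul_left r (by omega)
          omega
        · right
          rw [hA] at h
          have h' : r * l ≤ r * (k * q + 1) := by nlinarith
          exact Nat.le_of_mul_le_mul_left h' hr.pos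
    intro σ hσ
    haveI : Fact r.Prime := ⟨hr⟩
    obtain ⟨c, hc⟩ : r ∣ σ.support.card := by
      have h := Perm.card_compl_support_modEq (show σ ^ r ^ 1 = 1 by
        rw [pow_one, ← hσ, pow_orderOf_eq_one])
      rw [Finset.card_compl, Fintype.card_fin] at h
      have := (Nat.modEq_iff_dvd' (Nat.sub_le _ _)).1 h
      rwa [Nat.sub_sub_self (by simpa using Finset.card_le_univ σ.support)] at this
    have hcC : c ≤ m * l + b * q := by
      have h1 : σ.support.card ≤ a * b := by simpa using Finset.card_le_univ σ.support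
      rw [hc] at h1
      by_contra hlt
      have h2 : r * (m * l + b * q + 1) ≤ r * c := Nat.mul_le_mul_left r (by omega)
      have e : a * b = r * (m * l + b * q) + k * l := by rw [hA, hB]; ring
      have e2 : r * (m * l + b * q + 1) = r * (m * l + b * q) + r := by ring
      omega
    -- choose the number of moved blocks
    have hexu : ∃ u, u ≤ m ∧ c ≤ u * l + b * q := ⟨m, le_rfl, hcC⟩
    obtain ⟨hum, huc⟩ := Nat.find_spec hexu
    set u := Nat.find hexu with hu
    have hlow : u * a ≤ c := by
      rcases Nat.eq_zero_or_pos u with h0 | hpos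
      · rw [h0]; simp
      · have hmin := Nat.find_min hexu (show u - 1 < u by omega)
        rw [not_and, not_le] at hmin
        have h1 := hmin (by omega)
        obtain ⟨v, hv⟩ : ∃ v, u = v + 1 := ⟨u - 1, by omega⟩
        rw [hv, Nat.add_sub_cancel] at h1
        rw [hv] at hum ⊢
        obtain ⟨d, hd⟩ := Nat.exists_eq_add_of_le hum
        have h2 : l ≤ k * q + 1 := hgap.resolve_left (by omega)
        have e1 : (v + 1) * r ≤ m * r := Nat.mul_le_mul_right r hum
        have e2 : (v + 1) * r * q ≤ m * r * q := Nat.mul_le_mul_right q e1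
        have e3 : (v + 1) * a = (v + 1) * r * q + (v * l + l) := by rw [hA]; ring
        have e4 : b * q = m * r * q + k * q := by rw [hB]; ring
        rw [e3]
        omega
    refine sufficient (u := u) (t := c - u * a) hr ?_ ?_ σ hσ (by rw [hc]; congr 1; omega)
    · rw [hB]
      have : u * r ≤ m * r := Nat.mul_le_mul_right r hum
      have : m * r = r * m := mul_comm _ _
      omega
    · rw [eq']
      obtain ⟨d, hd⟩ := Nat.exists_eq_add_of_le hum
      have e : b - u * r = r * d + k := by
        rw [Nat.sub_eq_iff_eq_add (by rw [hB, hd]; nlinarith)]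
        rw [hB, hd]; ring
      rw [e, Nat.sub_le_iff_le_add]
      have e' : (r * d + k) * q + u * a = u * l + b * q := by rw [hA, hB, hd]; ring
      omega

end Cfsg.Agent.PermGroups.UniformPartition
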